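import Cfsg.Agent.Block.CycPair
import Cfsg.Agent.Block.CycPrinc
import Cfsg.Agent.Block.FongPrinc
import Cfsg.Agent.Char.Degree
import Cfsg.Agent.Char.DegBasic

/-!
A perfect group with a cyclic Sylow `p`-subgroup in which any two elements of order `p` generate a
`p`-soluble subgroup has inertial index one.
-/

set_option autoImplicit false
set_option linter.style.haveILetI false
set_option linter.unusedSectionVars false

open Cfsg Cfsg.Lib.Char Subgroup

namespace Cfsg.Lib.Block.CycPair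

open CD Princ

universe u

variable {G : Type u} [Group G] [Fintype G] {p : ℕ} [hp : Fact p.Prime]

theorem eq_triv_of_perfect (hperf : commutator G = ⊤) {χ : IrrCharacter G}
    (h : charDegree (χ : G → ℂ) = 1) : χ = triv G := by
  have h1 := (Deg.commutator_le_charKer_iff χ.2).2 h
  rw [hperf] at h1
  refine eq_triv_iff.2 (funext fun g => ?_)
  have h2 : (χ : G → ℂ) g = (χ : G → ℂ) 1 :=
    χ.2.isCharacter.mem_charKer_iff.1 (h1 (mem_top g))
  rw [h2, ← irr_charDegree_cast, h, Nat.cast_one]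

theorem sum_conj_eq (χ : IrrCharacter G) (a b : G) :
    ∑ g : G, (χ : G → ℂ) (a * (g * b * g⁻¹)) =
      (Nat.card G : ℂ) * ((χ : G → ℂ) a * (χ : G → ℂ) b / (charDegree (χ : G → ℂ) : ℂ)) := by
  rw [irr_sum_mul_conj χ.2, irr_charDegree_cast]
  ring

theorem upper_bound {q d : ℕ} {s : ℤ} (hq : 1 < q) (hd : 0 < d) (hs : s = 1 ∨ s = -1)
    (h : s * d ≡ -1 [ZMOD q]) : (s : ℚ) / d ≤ 1 / ((q : ℚ) - 1) := by
  have hq' : (0 : ℚ) < (q : ℚ) - 1 := by
    have : (1 : ℚ) < q := by exact_mod_cast hq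
    linarith
  have hd' : (0 : ℚ) < d := by exact_mod_cast hd
  rcases hs with rfl | rfl
  · have h1 : (q : ℤ) ∣ d + 1 := by
      have := h.symm.dvd
      simpa using this
    have h2 : (q : ℤ) ≤ d + 1 := Int.le_of_dvd (by positivity) h1
    have h3 : (q : ℚ) ≤ d + 1 := by exact_mod_cast h2
    push_cast
    exact one_div_le_one_div_of_le hq' (by linarith)
  · push_cast
    have : (-1 : ℚ) / d < 0 := div_neg_of_neg_of_pos (by norm_num) hd'
    have : (0 : ℚ) < 1 / ((q : ℚ) - 1) := by positivity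
    linarith

theorem lower_bound {q d : ℕ} {s : ℤ} (hd : 0 < d) (hd1 : d ≠ 1) (hs : s = 1 ∨ s = -1)
    (h : s * d ≡ -1 [ZMOD q]) : -(1 / ((q : ℚ) + 1)) ≤ (s : ℚ) / d := by
  have hd' : (0 : ℚ) < d := by exact_mod_cast hd
  rcases hs with rfl | rfl
  · push_cast
    have : (0 : ℚ) < 1 / d := by positivity
    have : (0 : ℚ) < 1 / ((q : ℚ) + 1) := by positivity
    linarith
  · have h1 : (q : ℤ) ∣ d - 1 := by
      have := h.dvd
      rwa [show (-1 : ℤ) - -1 * d = d - 1 by ring] at this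
    have h2 : (q : ℤ) ≤ d - 1 := Int.le_of_dvd (by omega) h1
    have h3 : (q : ℚ) ≤ d - 1 := by exact_mod_cast h2
    push_cast
    rw [neg_div, neg_le_neg_iff]
    exact one_div_le_one_div_of_le (by positivity) (by linarith)

/-- A linear character of the principal block of the centraliser that kills `p`-th roots of
`p`-regular elements. -/
theorem exists_linear {M : Ideal AlgInt} (hM : IsPModular p M) (P : Sylow p G) [IsCyclic P] {z : G}
    (hz : z ∈ (P : Subgroup G)) (hz1 : z ≠ 1) (hP : ¬ Nat.card P ∣ p) :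
    ∃ θ ∈ principalBlock M (Cz (zpowers z)), θ ≠ triv _ ∧
      ∀ x : Cz (zpowers z), ¬ p ∣ orderOf (x ^ p) → (θ : Cz (zpowers z) → ℂ) x = 1 := by
  have hle : (P : Subgroup G) ≤ Cz (zpowers z) :=
    Mod.le_centralizer_of_isCyclic (zpowers_le.2 hz)
  set C := Cz (zpowers z)
  let Q : Sylow p C := P.subtype hle
  have e : Q ≃* P := subgroupOfEquivOfLe hle
  haveI : IsCyclic Q := isCyclic_of_surjective e.symm e.symm.surjective
  have hN := normalizer_le_centralizer Q (z := ⟨z, hle hz⟩) hz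
    (fun h => hz1 (congrArg Subtype.val h)) (fun g _ => Subtype.ext (by
      have := mem_centralizer_iff.1 g.2 z (mem_zpowers z)
      show (g : G) * z * (g : G)⁻¹ = z
      rw [← this, mul_inv_cancel_right]))
  obtain ⟨x, hx⟩ := IsCyclic.exists_generator (α := Q)
  have hox : orderOf x = Nat.card P := by
    rw [orderOf_eq_card_of_forall_mem_zpowers hx, Nat.card_congr e.toEquiv]
  set V := MonoidHom.transferSylow Q hN
  have hne : (V x) ^ p ≠ 1 := by
    have h1 : V x = x ^ (Q : Subgroup C).index :=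
      congrFun (MonoidHom.transferSylow_domRestrict_eq_pow Q hN) x
    rw [h1, ← pow_mul, Ne, ← orderOf_dvd_iff_pow_eq_one, hox]
    intro h
    obtain ⟨n, hn⟩ := P.isPGroup'.exists_card_eq
    apply hP
    refine Nat.Coprime.dvd_of_dvd_mul_left ?_ h
    rw [hn]
    exact Nat.Coprime.pow_left _ (hp.out.coprime_iff_not_dvd.2 Q.not_dvd_index)
  letI : CommGroup Q := IsCyclic.commGroup
  haveI : HasEnoughRootsOfUnity ℂ (Monoid.exponent Q) := inferInstance
  obtain ⟨lam, hlam⟩ := CommGroup.exists_apply_ne_one_of_hasEnoughRootsOfUnity Q ℂ hne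
  let η : C →* ℂˣ := (lam.comp V) ^ p
  have hη : ∀ g : C, η g = lam (V (g ^ p)) := fun g => by simp [η]
  have hreg : ∀ g : C, ¬ p ∣ orderOf g → V g = 1 := by
    intro g hg
    obtain ⟨n, hn⟩ := Q.isPGroup' (V g)
    have h1 := orderOf_dvd_of_pow_eq_one hn
    have h2 := orderOf_map_dvd V g
    rw [← orderOf_eq_one_iff]
    exact Nat.eq_one_of_dvd_coprimes
      (Nat.Coprime.pow_left n (hp.out.coprime_iff_not_dvd.2 hg)) h1 h2
  refine ⟨⟨fun g => η g, isIrrCharacter_monoidHom η⟩, ?_, ?_, ?_⟩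
  · rw [mem_principalBlock_iff_of_isPSolvable hM (isPSolvable_of_normalizer_le Q hN)]
    intro g hg
    refine (isIrrCharacter_monoidHom η).isCharacter.mem_charKer_iff.2 ?_
    rw [hη, map_pow, hreg g fun h => Solv.not_dvd_card_pPrimeCore p C
      (h.trans ((pPrimeCore p C).orderOf_dvd_natCard hg)), one_pow, map_one, map_one]
  · intro h
    have := congrFun (eq_triv_iff.1 h) x
    apply hlam
    rw [← map_pow, ← hη]
    exact Units.val_eq_one.1 this
  · intro g hg
    show ((η g : ℂˣ) : ℂ) = 1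
    rw [hη, hreg _ hg, map_one, Units.val_one]

section Main

open scoped Classical

variable {M : Ideal AlgInt} {P : Sylow p G} {z : G} {X Y : Finset (IrrCharacter G)}
  {μ : IrrCharacter (Cz (zpowers z)) → IrrCharacter G} {ε : ℤ} {a : IrrCharacter G → ℤ}
  (h : Struct p M (principalBlock M G) P (principalBlock M (Cz (zpowers z))) (triv _) X Y μ ε a)
  (h1 : triv G ∈ X) (ha : a (triv G) = -1)
  (hval : ∀ χ ∈ X, ∀ g : G, p ∣ orderOf g → (χ : G → ℂ) g = -(a χ : ℂ))
  (hperf : commutator G = ⊤) (hz : orderOf z = p)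
  (hpair : ∀ x y : G, orderOf x = p → orderOf y = p →
    ∃ i : ℕ, IsConj (x ^ i) y ∧ (∀ k : ℕ, ¬ p ∣ orderOf (x * y ^ k) ↔ p ∣ 1 + i * k) ∧
      ¬ p ∣ orderOf ((x * y) ^ p))

omit hp in
theorem charDegree_triv : charDegree (triv G : G → ℂ) = 1 := by
  have := irr_charDegree_cast (triv G)
  rw [triv_apply] at this
  exact_mod_cast this

omit hp in
theorem orderOf_conj' (g b : G) : orderOf (g * b * g⁻¹) = orderOf b :=
  (MulAut.conj g).orderOf_eq b

include h h1 hval hperf hz hpair in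
theorem card_X_of_not_isConj {b : G} (hb : orderOf b = p) (hbz : ¬ IsConj z⁻¹ b) : X.card = 1 := by
  refine Finset.card_eq_one.2 ⟨triv G, Finset.eq_singleton_iff_unique_mem.2 ⟨h1, fun χ hχ => ?_⟩⟩
  have hsing : ∀ g : G, p ∣ orderOf (z * (g * b * g⁻¹)) := by
    intro g
    obtain ⟨i, hi, hk, -⟩ := hpair z (g * b * g⁻¹) hz ((orderOf_conj' g b).trans hb)
    by_contra hc
    have h2 := (hk 1).1 (by rwa [pow_one])
    rw [mul_one, ← hz, orderOf_dvd_iff_pow_eq_one, pow_add, pow_one, mul_eq_one_iff_inv_eq] at h2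
    exact hbz (h2 ▸ hi.trans (isConj_iff.2 ⟨g⁻¹, by group⟩))
  have h2 := sum_conj_eq χ z b
  rw [Finset.sum_congr rfl fun g _ => hval χ hχ _ (hsing g), hval χ hχ z (by rw [hz]),
    hval χ hχ b (by rw [hb]), Finset.sum_const, Finset.card_univ, ← Nat.card_eq_fintype_card,
    nsmul_eq_mul] at h2
  have hG : (Nat.card G : ℂ) ≠ 0 := Nat.cast_ne_zero.2 Nat.card_pos.ne'
  have hd : (charDegree (χ : G → ℂ) : ℂ) ≠ 0 := Nat.cast_ne_zero.2 (irr_charDegree_pos χ).ne'
  have h3 := mul_left_cancel₀ hG h2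
  rw [eq_div_iff hd] at h3
  have h4 : -a χ * charDegree (χ : G → ℂ) = -a χ * -a χ := by exact_mod_cast h3
  refine eq_triv_of_perfect hperf ?_
  rcases h.sign_X χ hχ with h5 | h5 <;> rw [h5] at h4 <;> omega

include h h1 ha in
theorem degree_X {χ : IrrCharacter G} (hχ : χ ∈ X) :
    a χ * charDegree (χ : G → ℂ) ≡ -1 [ZMOD Nat.card P] := by
  have := h.degree_X_modEq hχ h1
  rw [ha, charDegree_triv] at this
  rw [P.card_eq_multiplicity]
  simpa using this

include h h1 ha in
theorem degree_Y {ψ : IrrCharacter G} (hψ : ψ ∈ Y) :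
    (charDegree (ψ : G → ℂ) : ℤ) ≡ X.card * ε [ZMOD Nat.card P] := by
  have := h.degree_Y_modEq hψ h1
  rw [ha, charDegree_triv, ← h.card_X] at this
  rw [P.card_eq_multiplicity]
  simpa using this

include h h1 ha hperf in
theorem sum_lower : -(((X.card : ℚ) - 1) / ((Nat.card P : ℚ) + 1)) ≤
    ∑ χ ∈ X.erase (triv G), (a χ : ℚ) / charDegree (χ : G → ℂ) := by
  have := Finset.card_nsmul_le_sum (X.erase (triv G))
    (fun χ => (a χ : ℚ) / charDegree (χ : G → ℂ)) _ fun χ hχ =>
      lower_bound (irr_charDegree_pos χ)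
        (fun hc => (Finset.mem_erase.1 hχ).1 (eq_triv_of_perfect hperf hc))
        (h.sign_X χ (Finset.mem_erase.1 hχ).2) (degree_X h h1 ha (Finset.mem_erase.1 hχ).2)
  rw [Finset.card_erase_of_mem h1, nsmul_eq_mul,
    Nat.cast_sub (Finset.card_pos.2 ⟨_, h1⟩), Nat.cast_one] at this
  refine le_of_eq_of_le (by ring) this

include h h1 ha in
theorem sum_upper (hq : 1 < Nat.card P) :
    ∑ χ ∈ X.erase (triv G), (a χ : ℚ) / charDegree (χ : G → ℂ) ≤
      ((X.card : ℚ) - 1) / ((Nat.card P : ℚ) - 1) := by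
  have := Finset.sum_le_card_nsmul (X.erase (triv G))
    (fun χ => (a χ : ℚ) / charDegree (χ : G → ℂ)) _ fun χ hχ =>
      upper_bound hq (irr_charDegree_pos χ)
        (h.sign_X χ (Finset.mem_erase.1 hχ).2) (degree_X h h1 ha (Finset.mem_erase.1 hχ).2)
  rw [Finset.card_erase_of_mem h1, nsmul_eq_mul,
    Nat.cast_sub (Finset.card_pos.2 ⟨_, h1⟩), Nat.cast_one] at this
  exact this.trans_eq (by ring)

include h hval hz in
theorem sum_conj_X {b : G} (hb : p ∣ orderOf b) :
    ∑ g : G, ∑ χ ∈ X, (a χ : ℂ) * (χ : G → ℂ) (z * (g * b * g⁻¹)) =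
      (Nat.card G : ℂ) * ∑ χ ∈ X, (a χ : ℂ) / charDegree (χ : G → ℂ) := by
  rw [Finset.sum_comm, Finset.mul_sum]
  refine Finset.sum_congr rfl fun χ hχ => ?_
  rw [← Finset.mul_sum, sum_conj_eq, hval χ hχ z (by rw [hz]), hval χ hχ b hb]
  have : (a χ : ℂ) * a χ = 1 := by exact_mod_cast h.sign_X_mul_self hχ
  linear_combination (Nat.card G : ℂ) * (a χ / charDegree (χ : G → ℂ)) * this

include h h1 ha hval hperf hz hpair in
theorem card_X_of_not_dvd (hP : ¬ Nat.card P ∣ p) : X.card = 1 := by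
  haveI := h.cyc
  have hz1 : z ≠ 1 := fun hc => hp.out.ne_one (by rw [← hz, hc, orderOf_one])
  have hzP : z ∈ (P : Subgroup G) := h.le (mem_zpowers z)
  obtain ⟨θ, hθ, hθ1, hθv⟩ := exists_linear h.hM P hzP hz1 hP
  have hvan : ∀ g : G, ¬ p ∣ orderOf (g ^ p) → indDiff θ (triv _) g = 0 := by
    intro g hg
    rw [indDiff, indFun, Finset.sum_eq_zero fun x _ => ?_, mul_zero]
    by_cases hx : x⁻¹ * g * x ∈ Cz (zpowers z)
    · rw [extendByZero_of_mem _ _ hx, Pi.sub_apply, hθv, triv_apply, sub_self]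
      rw [← Subgroup.orderOf_coe, Subgroup.coe_pow]
      show ¬ p ∣ orderOf ((x⁻¹ * g * x) ^ p)
      rwa [show x⁻¹ * g * x = x⁻¹ * g * x⁻¹⁻¹ by rw [inv_inv], conj_pow, orderOf_conj']
    · exact extendByZero_of_notMem _ _ hx
  haveI := Fintype.ofFinite (Nz (zpowers z))
  have hzC : z ∈ Cz (zpowers z) := Mod.le_centralizer_of_isCyclic h.le hzP
  have hv := h.value_Y hθ hθ1 ⟨z, hzC⟩ le_rfl
  rw [Finset.sum_congr rfl fun n _ => hθv _ (by
    rw [← map_pow, show (⟨z, hzC⟩ : Cz (zpowers z)) ^ p = 1 from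
      Subtype.ext (by simp [← hz]), map_one, orderOf_one,
      Nat.dvd_one]
    exact hp.out.ne_one), Finset.sum_const, Finset.card_univ, ← Nat.card_eq_fintype_card,
    nsmul_eq_mul, mul_one] at hv
  have hcard : Nat.card (Nz (zpowers z)) = Nat.card (Cz (zpowers z)) * X.card := by
    rw [h.card_X, inert_principal h.hM (isPGroup_zpowers_of_pow (hz ▸ pow_orderOf_eq_one z)),
      relIndex, ← Nat.card_congr (subgroupOfEquivOfLe (centralizer_le_normalizer _)).toEquiv,
      card_mul_index]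
  have hC : (Nat.card (Cz (zpowers z)) : ℂ) ≠ 0 := Nat.cast_ne_zero.2 Nat.card_pos.ne'
  have hv' : (μ θ : G → ℂ) z = ε * X.card := by
    apply mul_left_cancel₀ hC
    rw [hv, hcard]
    push_cast
    ring
  have hsum : ∑ g : G, indDiff θ (triv _) (z * (g * z * g⁻¹)) = 0 :=
    Finset.sum_eq_zero fun g _ => hvan _
      (hpair z _ hz ((orderOf_conj' g z).trans hz)).choose_spec.2.2
  simp only [h.indDiff_eq hθ hθ1, Pi.add_apply, Pi.smul_apply, Finset.sum_apply, smul_eq_mul,
    Finset.sum_add_distrib] at hsum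
  rw [sum_conj_X h hval hz (by rw [hz]), ← Finset.mul_sum, sum_conj_eq, hv',
    ← Finset.add_sum_erase _ _ h1, ha, charDegree_triv] at hsum
  have hG : (Nat.card G : ℂ) ≠ 0 := Nat.cast_ne_zero.2 Nat.card_pos.ne'
  have hε : (ε : ℂ) * ε = 1 := by exact_mod_cast h.sign_mul_self
  have hE : (ε : ℂ) * (X.card : ℂ) ^ 2 / charDegree (μ θ : G → ℂ) - 1 +
      ∑ χ ∈ X.erase (triv G), (a χ : ℂ) / charDegree (χ : G → ℂ) = 0 := by
    apply mul_left_cancel₀ hG
    push_cast at hsum
    linear_combination hsum -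
      (Nat.card G : ℂ) * ε * (X.card : ℂ) ^ 2 / charDegree (μ θ : G → ℂ) * hε
  have hE' : (ε : ℚ) * (X.card : ℚ) ^ 2 / charDegree (μ θ : G → ℂ) - 1 +
      ∑ χ ∈ X.erase (triv G), (a χ : ℚ) / charDegree (χ : G → ℂ) = 0 := by
    exact_mod_cast hE
  obtain ⟨n, hn⟩ := P.isPGroup'.exists_card_eq
  have hp2 := hp.out.two_le
  have hq : p * p ≤ Nat.card P := by
    rw [hn, ← sq]
    refine Nat.pow_le_pow_right hp.out.pos ?_
    by_contra hc
    exact hP (hn ▸ (pow_dvd_pow p (by omega : n ≤ 1)).trans (pow_one p).dvd)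
  have he : X.card ≤ p - 1 := h.card_X ▸ Nat.le_of_dvd (by omega) h.toSetup.inert_dvd
  have he0 : 0 < X.card := Finset.card_pos.2 ⟨_, h1⟩
  have hlow := sum_lower h h1 ha hperf
  have hup := sum_upper h h1 ha (by nlinarith)
  have hy := degree_Y h h1 ha (h.mu_mem θ hθ hθ1)
  have hy0 := irr_charDegree_pos (μ θ)
  set S := ∑ χ ∈ X.erase (triv G), (a χ : ℚ) / charDegree (χ : G → ℂ)
  set y := charDegree (μ θ : G → ℂ)
  set e := X.card
  set q := Nat.card P
  have he' : (e : ℚ) + 1 ≤ p := by exact_mod_cast (by omega : e + 1 ≤ p)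
  have hq' : (p : ℚ) * p ≤ q := by exact_mod_cast hq
  have he0' : (1 : ℚ) ≤ e := by exact_mod_cast he0
  have hy0' : (0 : ℚ) < y := by exact_mod_cast hy0
  have hq1 : (0 : ℚ) < (q : ℚ) - 1 := by nlinarith
  have heq : (e : ℚ) ^ 2 + e < q := by nlinarith
  rcases h.sign with rfl | rfl
  · push_cast at hE'
    rw [mul_one] at hy
    rw [one_mul] at hE'
    by_cases hye : y = e
    · rw [hye, sq, mul_div_assoc, div_self (by linarith), mul_one] at hE'
      have h2 : (e : ℚ) - 1 ≤ ((e : ℚ) - 1) / ((q : ℚ) + 1) := by linarith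
      rw [le_div_iff₀ (by linarith)] at h2
      have h3 : (e : ℚ) ≤ 1 := by nlinarith
      have h4 : e ≤ 1 := by exact_mod_cast h3
      omega
    · exfalso
      have h2 : (q : ℤ) ∣ y - e := hy.symm.dvd
      have heq' : e < q := by
        have : (e : ℚ) < q := by nlinarith
        exact_mod_cast this
      have h3 : (q : ℤ) ≤ y - e := by
        rcases lt_trichotomy y e with h4 | h4 | h4
        · have := Int.le_of_dvd (by omega) ((dvd_neg).2 h2)
          omega
        · exact absurd h4 hye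
        · exact Int.le_of_dvd (by omega) h2
      have h4 : (q : ℚ) ≤ y - e := by exact_mod_cast h3
      have h5 : (e : ℚ) ^ 2 / y ≤ (e : ℚ) ^ 2 / ((q : ℚ) - 1) :=
        div_le_div_of_nonneg_left (by positivity) hq1 (by linarith)
      have h6 : (1 : ℚ) ≤ ((e : ℚ) ^ 2 + (e - 1)) / ((q : ℚ) - 1) := by
        rw [add_div]
        linarith
      rw [le_div_iff₀ hq1] at h6
      linarith
  · exfalso
    push_cast at hE'
    have h2 : (0 : ℚ) ≤ (e : ℚ) ^ 2 / y := by positivity
    have h3 : (1 : ℚ) ≤ ((e : ℚ) - 1) / ((q : ℚ) - 1) := by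
      rw [neg_mul, neg_div, one_mul] at hE'
      linarith
    rw [le_div_iff₀ hq1] at h3
    nlinarith

include h hz in
theorem le_card_X (hall : ∀ b : G, orderOf b = p → IsConj z⁻¹ b) : p - 1 ≤ X.card := by
  have hconj : ∀ k : Finset.Ico 1 p, ∃ g : Nz (zpowers z), (g : G) * z * (g : G)⁻¹ = z ^ (k : ℕ) := by
    rintro ⟨k, hk⟩
    have hk' := Finset.mem_Ico.1 hk
    have ho : orderOf (z ^ k) = p := by
      rw [Nat.Coprime.orderOf_pow (by
        rw [hz]; exact (Nat.coprime_of_lt_prime (by omega) hk'.2 hp.out)), hz]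
    obtain ⟨g, hg⟩ := isConj_iff.1 ((hall z hz).symm.trans (hall _ ho))
    refine ⟨⟨g, ?_⟩, hg⟩
    refine mem_normalizer_fintype fun n hn => ?_
    obtain ⟨m, rfl⟩ := mem_zpowers_iff.1 hn
    rw [← conj_zpow, hg]
    exact zpow_mem (pow_mem (mem_zpowers z) _) _
  choose g hg using hconj
  rw [h.card_X, inert_principal h.hM (isPGroup_zpowers_of_pow (hz ▸ pow_orderOf_eq_one z)),
    relIndex, index, ← Nat.card_Ico, ← Fintype.card_coe, ← Nat.card_eq_fintype_card]
  refine Nat.card_le_card_of_injective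
    (fun k => (g k : Nz (zpowers z) ⧸ (Cz (zpowers z)).subgroupOf (Nz (zpowers z))))
    fun k l hkl => ?_
  have h2 := mem_centralizer_iff.1 (mem_subgroupOf.1 (QuotientGroup.eq.1 hkl)) z (mem_zpowers z)
  have h3 : z ^ (k : ℕ) = z ^ (l : ℕ) := by
    rw [← hg, ← hg]
    push_cast at h2
    calc (g k : G) * z * (g k : G)⁻¹ = g k * (z * ((g k : G)⁻¹ * g l)) * (g l : G)⁻¹ := by group
      _ = g l * z * (g l : G)⁻¹ := by rw [h2]; group
  rw [pow_eq_pow_iff_modEq, hz] at h3
  exact Subtype.ext (Nat.ModEq.eq_of_lt_of_lt h3 (Finset.mem_Ico.1 k.2).2 (Finset.mem_Ico.1 l.2).2)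

theorem card_filter_dvd {i : ℕ} (hi : ¬ p ∣ i) :
    ((Finset.Ico 1 p).filter fun k => p ∣ 1 + i * k).card = 1 := by
  have hi' : (i : ZMod p) ≠ 0 := fun hc => hi ((ZMod.natCast_eq_zero_iff i p).1 hc)
  refine Finset.card_eq_one.2 ⟨(-(i : ZMod p)⁻¹).val, Finset.eq_singleton_iff_unique_mem.2 ⟨?_, ?_⟩⟩
  · refine Finset.mem_filter.2 ⟨Finset.mem_Ico.2 ⟨?_, ZMod.val_lt _⟩, ?_⟩
    · rw [Nat.one_le_iff_ne_zero, Ne, ZMod.val_eq_zero]
      simpa using hi'
    · rw [← ZMod.natCast_eq_zero_iff]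
      push_cast
      rw [ZMod.natCast_zmod_val, mul_neg, mul_inv_cancel₀ hi', add_neg_cancel]
  · intro k hk
    obtain ⟨h1, h2⟩ := Finset.mem_filter.1 hk
    rw [← ZMod.natCast_eq_zero_iff] at h2
    push_cast at h2
    have h3 : -(i : ZMod p)⁻¹ = k := by
      field_simp
      linear_combination -h2
    rw [h3, ZMod.val_cast_of_lt (Finset.mem_Ico.1 h1).2]

include h h1 ha hval hperf hz hpair in
theorem eq_two_of_card (hP : Nat.card P = p) (hall : ∀ b : G, orderOf b = p → IsConj z⁻¹ b) :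
    p = 2 := by
  have hp2 := hp.out.two_le
  have he := le_card_X h hz hall
  have hY := h.card_Y
  rw [← h.card_X, hP] at hY
  have hY0 := Finset.card_pos.2 h.Y_nonempty
  have hY1 : Y.card = 1 := by
    by_contra hc
    have : X.card * 2 ≤ X.card * Y.card := Nat.mul_le_mul_left _ (by omega)
    omega
  have he' : X.card + 1 = p := by rw [← hY, hY1, mul_one]
  obtain ⟨ψ, rfl⟩ := Finset.card_eq_one.1 hY1
  have hψ : ψ ∈ ({ψ} : Finset (IrrCharacter G)) := Finset.mem_singleton_self ψ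
  have hε : (ε : ℂ) * ε = 1 := by exact_mod_cast h.sign_mul_self
  have hψv : ∀ g : G, p ∣ orderOf g → (ψ : G → ℂ) g = -ε := by
    intro g hg
    have := h.sum_Y_apply_eq h1 hg
    rw [Finset.sum_singleton, ha, triv_apply] at this
    push_cast at this
    linear_combination ε * this - (ψ : G → ℂ) g * hε
  let F : G → ℂ := fun g => ε * (ψ : G → ℂ) g + ∑ χ ∈ X, (a χ : ℂ) * (χ : G → ℂ) g
  have hF0 : ∀ g : G, ¬ p ∣ orderOf g → F g = 0 := fun g hg => h.sign_rel hψ hg
  have hF1 : ∀ g : G, p ∣ orderOf g → F g = -p := by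
    intro g hg
    have h2 : ∀ χ ∈ X, (a χ : ℂ) * (χ : G → ℂ) g = -1 := fun χ hχ => by
      have : (a χ : ℂ) * a χ = 1 := by exact_mod_cast h.sign_X_mul_self hχ
      rw [hval χ hχ g hg]
      linear_combination -this
    simp only [F]
    rw [Finset.sum_congr rfl h2, hψv g hg, Finset.sum_const, ← he']
    push_cast
    rw [nsmul_eq_mul]
    linear_combination -hε
  have hrow : ∀ k ∈ Finset.Ico 1 p, ∑ g : G, F (z * (g * z * g⁻¹) ^ k) =
      (Nat.card G : ℂ) * (ε / charDegree (ψ : G → ℂ) +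
        ∑ χ ∈ X, (a χ : ℂ) / charDegree (χ : G → ℂ)) := by
    intro k hk
    have hk' := Finset.mem_Ico.1 hk
    have ho : p ∣ orderOf (z ^ k) := by
      rw [Nat.Coprime.orderOf_pow (by
        rw [hz]; exact (Nat.coprime_of_lt_prime (by omega) hk'.2 hp.out)), hz]
    simp only [F, conj_pow, Finset.sum_add_distrib]
    rw [sum_conj_X h hval hz ho, ← Finset.mul_sum, sum_conj_eq, hψv z (by rw [hz]), hψv _ ho]
    linear_combination (Nat.card G : ℂ) * (ε / charDegree (ψ : G → ℂ)) * hε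
  have hcol : ∀ g : G, ∑ k ∈ Finset.Ico 1 p, F (z * (g * z * g⁻¹) ^ k) = -p * (p - 2) := by
    intro g
    obtain ⟨i, hi, hk, -⟩ := hpair z (g * z * g⁻¹) hz ((orderOf_conj' g z).trans hz)
    have hi' : ¬ p ∣ i := by
      intro hc
      rw [← hz, orderOf_dvd_iff_pow_eq_one] at hc
      rw [hc, isConj_one_right, mul_inv_eq_one, mul_eq_left] at hi
      exact hp.out.ne_one (by rw [← hz, hi, orderOf_one])
    rw [← Finset.sum_filter_add_sum_filter_not _ fun k => p ∣ 1 + i * k,
      Finset.sum_eq_zero fun k hk' => hF0 _ ((hk k).2 (Finset.mem_filter.1 hk').2),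
      Finset.sum_congr rfl fun k hk' => hF1 _ (by
        by_contra hc
        exact (Finset.mem_filter.1 hk').2 ((hk k).1 hc)), Finset.sum_const, zero_add, nsmul_eq_mul]
    have h2 := Finset.card_filter_add_card_filter_not (s := Finset.Ico 1 p)
      fun k => p ∣ 1 + i * k
    rw [card_filter_dvd hi', Nat.card_Ico] at h2
    have h3 : ((Finset.Ico 1 p).filter fun k => ¬ p ∣ 1 + i * k).card + 2 = p := by omega
    have h4 : (((Finset.Ico 1 p).filter fun k => ¬ p ∣ 1 + i * k).card : ℂ) + 2 = p := by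
      exact_mod_cast h3
    linear_combination -p * h4
  have htot := Finset.sum_congr rfl hrow
  rw [Finset.sum_comm, Finset.sum_congr rfl fun g _ => hcol g, Finset.sum_const, Finset.sum_const,
    Finset.card_univ, ← Nat.card_eq_fintype_card, Nat.card_Ico, nsmul_eq_mul, nsmul_eq_mul,
    ← Finset.add_sum_erase _ _ h1, ha, charDegree_triv, Nat.cast_sub hp.out.one_le] at htot
  have hG : (Nat.card G : ℂ) ≠ 0 := Nat.cast_ne_zero.2 Nat.card_pos.ne'
  have hE : ((p : ℂ) - 1) * (ε / charDegree (ψ : G → ℂ) - 1 +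
      ∑ χ ∈ X.erase (triv G), (a χ : ℂ) / charDegree (χ : G → ℂ)) = -p * (p - 2) := by
    apply mul_left_cancel₀ hG
    push_cast at htot
    linear_combination -htot
  have hE' : ((p : ℚ) - 1) * (ε / charDegree (ψ : G → ℂ) - 1 +
      ∑ χ ∈ X.erase (triv G), (a χ : ℚ) / charDegree (χ : G → ℂ)) = -p * (p - 2) := by
    exact_mod_cast hE
  have hψ1 : charDegree (ψ : G → ℂ) ≠ 1 := fun hc =>
    Finset.disjoint_left.1 h.disj h1 (eq_triv_of_perfect hperf hc ▸ hψ)
  have hψd : ε * charDegree (ψ : G → ℂ) ≡ -1 [ZMOD p] := by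
    have h2 := (degree_Y h h1 ha hψ).mul_left ε
    rw [hP, mul_comm (X.card : ℤ), ← mul_assoc, h.sign_mul_self, one_mul] at h2
    refine h2.trans (Int.modEq_iff_dvd.2 ⟨-1, ?_⟩)
    rw [← he']
    push_cast
    ring
  have hec : (X.card : ℚ) = p - 1 := by
    rw [← he']
    push_cast
    ring
  have hlow := sum_lower h h1 ha hperf
  have hψlow := lower_bound (irr_charDegree_pos ψ) hψ1 h.sign hψd
  rw [hP, hec] at hlow
  have hp' : (2 : ℚ) ≤ p := by exact_mod_cast hp2
  have hstrict : -(((p : ℚ) - 1) / ((p : ℚ) + 1)) < ε / charDegree (ψ : G → ℂ) +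
      ∑ χ ∈ X.erase (triv G), (a χ : ℚ) / charDegree (χ : G → ℂ) := by
    have hsplit : ((p : ℚ) - 1) / ((p : ℚ) + 1) = 1 / ((p : ℚ) + 1) + (p - 1 - 1) / (p + 1) := by
      ring
    have hpos : (0 : ℚ) < 1 / ((p : ℚ) + 1) := by positivity
    rcases h.sign with rfl | rfl
    · have : (0 : ℚ) < ((1 : ℤ) : ℚ) / charDegree (ψ : G → ℂ) :=
        div_pos (by norm_num) (by exact_mod_cast irr_charDegree_pos ψ)
      linarith
    · obtain ⟨χ, hχ, hχ1⟩ : ∃ χ ∈ X, a χ = 1 := by
        by_contra hc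
        push Not at hc
        have h2 := h.degree_rel hψ
        have h3 : ∑ χ ∈ X, a χ * charDegree (χ : G → ℂ) ≤ 0 :=
          Finset.sum_nonpos fun χ hχ => by
            rw [(h.sign_X χ hχ).resolve_left (hc χ hχ)]
            omega
        have := irr_charDegree_pos ψ
        omega
      have hχ' : χ ∈ X.erase (triv G) :=
        Finset.mem_erase.2 ⟨fun hc => by rw [hc, ha] at hχ1; omega, hχ⟩
      have h2 : ∑ χ ∈ X.erase (triv G), -(1 / ((p : ℚ) + 1)) <
          ∑ χ ∈ X.erase (triv G), (a χ : ℚ) / charDegree (χ : G → ℂ) := by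
        refine Finset.sum_lt_sum (fun χ hχ => ?_) ⟨χ, hχ', ?_⟩
        · have := lower_bound (irr_charDegree_pos χ)
            (fun hc => (Finset.mem_erase.1 hχ).1 (eq_triv_of_perfect hperf hc))
            (h.sign_X χ (Finset.mem_erase.1 hχ).2) (degree_X h h1 ha (Finset.mem_erase.1 hχ).2)
          rwa [hP] at this
        · rw [hχ1]
          have : (0 : ℚ) < ((1 : ℤ) : ℚ) / charDegree (χ : G → ℂ) :=
            div_pos (by norm_num) (by exact_mod_cast irr_charDegree_pos χ)
          linarith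
      rw [Finset.sum_const, Finset.card_erase_of_mem h1, nsmul_eq_mul,
        Nat.cast_sub (Finset.card_pos.2 ⟨_, h1⟩), Nat.cast_one, hec] at h2
      have h3 : ((p : ℚ) - 1 - 1) * -(1 / ((p : ℚ) + 1)) = -((p - 1 - 1) / (p + 1)) := by ring
      linarith
  set T := (ε : ℚ) / charDegree (ψ : G → ℂ) +
      ∑ χ ∈ X.erase (triv G), (a χ : ℚ) / charDegree (χ : G → ℂ) with hT
  have hE2 : ((p : ℚ) - 1) * (T - 1) = -p * (p - 2) := by
    rw [← hE', hT]
    ring
  rw [neg_lt, lt_div_iff₀ (by linarith)] at hstrict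
  by_contra hc
  have hp3 : (3 : ℚ) ≤ p := by exact_mod_cast (by omega : 3 ≤ p)
  have h5 : ((p : ℚ) - 1) * (-T * (p + 1)) < (p - 1) * (p - 1) :=
    mul_lt_mul_of_pos_left hstrict (by linarith)
  have h6 : ((p : ℚ) - 1) * (-T * (p + 1)) = (p * (p - 2) - (p - 1)) * (p + 1) := by
    linear_combination -(p + 1) * hE2
  nlinarith

include h h1 ha hval hperf hz hpair in
theorem card_X_eq_one : X.card = 1 := by
  by_cases hP : Nat.card P ∣ p
  · by_cases hall : ∀ b : G, orderOf b = p → IsConj z⁻¹ b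
    · have hP' : Nat.card P = p :=
        Nat.dvd_antisymm hP (h.card.symm.dvd.trans (card_dvd_of_le h.le))
      have h2 := eq_two_of_card h h1 ha hval hperf hz hpair hP' hall
      have h3 := h.toSetup.inert_dvd
      rw [← h.card_X, h2] at h3
      exact Nat.dvd_one.1 h3
    · push Not at hall
      obtain ⟨b, hb, hbz⟩ := hall
      exact card_X_of_not_isConj h h1 hval hperf hz hpair hb hbz
  · exact card_X_of_not_dvd h h1 ha hval hperf hz hpair hP

end Main

theorem isPSolvable_of_perfect (hc : CycSyl p G) (hperf : commutator G = ⊤)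
    (hs : ∀ x y : G, orderOf x = p → orderOf y = p →
      IsPSolvable p (closure ({x, y} : Set G))) : IsPSolvable p G := by
  by_cases hG : p ∣ Nat.card G
  swap
  · exact IsPSolvable.of_coprime (hp.out.coprime_iff_not_dvd.2 hG).symm
  obtain ⟨z, hz⟩ := exists_prime_orderOf_dvd_card' p hG
  have hzp := isPGroup_zpowers_of_pow (hz ▸ pow_orderOf_eq_one z : z ^ p = 1)
  obtain ⟨P, hP⟩ := hzp.exists_le_sylow
  haveI := hc P P.isPGroup'
  obtain ⟨M, hM⟩ := exists_isPModular hp.out
  obtain ⟨X, Y, μ, ε, a, h, h1, ha, hval⟩ :=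
    exists_struct_principal hM P hP ((Nat.card_zpowers z).trans hz)
  have he := card_X_eq_one h h1 ha hval hperf hz fun x y hx hy => pair hc hx hy (hs x y hx hy)
  rw [h.card_X, inert_principal hM hzp, relIndex_eq_one] at he
  have hz1 : z ≠ 1 := fun hc => hp.out.ne_one (by rw [← hz, hc, orderOf_one])
  refine isPSolvable_of_normalizer_le P (normalizer_le_centralizer P (hP (mem_zpowers z)) hz1
    fun g hg => ?_)
  have hgN : g ∈ Nz (zpowers z) := by
    refine mem_normalizer_fintype fun n hn => ?_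
    refine mem_zpowers_of_isCyclic ‹_› (hP (mem_zpowers z))
      ((mem_normalizer_iff.1 hg n).1 (hP hn)) hz ?_
    obtain ⟨m, rfl⟩ := mem_zpowers_iff.1 hn
    rw [conj_pow, ← zpow_natCast, ← zpow_mul, mul_comm m, zpow_mul, zpow_natCast, ← hz,
      pow_orderOf_eq_one, one_zpow, mul_one, mul_inv_cancel]
  rw [← mem_centralizer_iff.1 (he hgN) z (mem_zpowers z), mul_inv_cancel_right]

theorem isPSolvable_of_pairs (n : ℕ) : ∀ (G : Type u) [Group G] [Finite G], Nat.card G = n →
    CycSyl p G → (∀ x y : G, orderOf x = p → orderOf y = p →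
      IsPSolvable p (closure ({x, y} : Set G))) → IsPSolvable p G := by
  induction n using Nat.strong_induction_on with
  | _ n ih =>
  intro G _ _ hn hc hs
  by_cases hperf : commutator G = ⊤
  · haveI := Fintype.ofFinite G
    exact isPSolvable_of_perfect hc hperf hs
  refine IsPSolvable.extension (commutator G) ?_ ?_
  · refine ih _ ?_ _ rfl (hc.subgroup _) fun x y hx hy => ?_
    · rw [← hn]
      exact Finite.card_subtype_lt (not_forall.1 fun h => hperf (eq_top_iff.2 fun g _ => h g)).choose_spec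
    · have := hs x y (by rw [Subgroup.orderOf_coe, hx]) (by rw [Subgroup.orderOf_coe, hy])
      rw [show ({(x : G), (y : G)} : Set G) = (commutator G).subtype '' {x, y} by
        rw [Set.image_pair]; rfl, ← MonoidHom.map_closure] at this
      exact this.of_equiv (equivMapOfInjective _ _ (subtype_injective _)).symm
  · letI : CommGroup (G ⧸ commutator G) := inferInstanceAs (CommGroup (Abelianization G))
    exact IsPSolvable.of_isSolvable p _

end Cfsg.Lib.Block.CycPair
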