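import Cfsg.Agent.Block.DefCount
import Cfsg.Agent.Chev.ClsSL

/-!
# The blocks of `SL_n(q)` in the defining characteristic
-/

set_option autoImplicit false

open Subgroup Matrix
open Cfsg.Lib.Char Cfsg.Lib.Chev

namespace Cfsg.Lib.Block.DZ

theorem mem_of_prod_eq_one {A : Type*} [CommGroup A] {n : ℕ} (T : Subgroup (Fin (n + 1) → A))
    (h : ∀ (i : Fin n) (s : A), Pi.mulSingle i.castSucc s * Pi.mulSingle i.succ s⁻¹ ∈ T)
    {d : Fin (n + 1) → A} (hd : ∏ a, d a = 1) : d ∈ T := by
  have h1 : ∀ (a : Fin (n + 1)) (s : A), Pi.mulSingle a s * Pi.mulSingle 0 s⁻¹ ∈ T := by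
    intro a s
    induction a using Fin.induction with
    | zero => rw [← Pi.mulSingle_mul, mul_inv_cancel, Pi.mulSingle_one]; exact one_mem _
    | succ i ih =>
      have := mul_mem (inv_mem (h i s)) ih
      rwa [Pi.mulSingle_inv, _root_.mul_inv_rev, inv_inv, mul_assoc, inv_mul_cancel_left] at this
  have h2 := T.prod_mem (t := Finset.univ) fun a _ => h1 a (d a)
  rw [Finset.prod_mul_distrib, Finset.univ_prod_mulSingle] at h2
  have h3 : ∏ a, (Pi.mulSingle 0 (d a)⁻¹ : Fin (n + 1) → A) = 1 := by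
    have := map_prod (MonoidHom.mulSingle (fun _ : Fin (n + 1) => A) 0) (fun a => (d a)⁻¹)
      Finset.univ
    simp only [MonoidHom.mulSingle_apply] at this
    rw [← this, Finset.prod_inv_distrib, hd, inv_one, Pi.mulSingle_one]
  rwa [h3, mul_one] at h2

variable {F : Type*} [Field F]

theorem coe_slE_tor {κ : Type} [Fintype κ] [DecidableEq κ] {a b : κ} (h : a ≠ b) (s : Fˣ) {t : F}
    (ht : t ≠ 0) :
    (slE a b ((s - 1) * s / t) * slE b a ((s : F)⁻¹ * t) * slE a b ((1 - s) / t) *
      slE b a (-t)).1 = diagonal fun x =>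
        ((Pi.mulSingle a s * Pi.mulSingle b s⁻¹ : κ → Fˣ) x : F) := by
  have hs := s.ne_zero
  change (slE a b _).1 * (slE b a _).1 * (slE a b _).1 * (slE b a _).1 = _
  simp only [coe_slE h, coe_slE h.symm, mul_add, add_mul, mul_one, one_mul,
    single_mul_single_same, single_mul_single_of_ne _ _ _ _ h.symm,
    single_mul_single_of_ne _ _ _ _ h, add_zero]
  ext x y
  simp only [Matrix.add_apply, one_apply, single_apply, diagonal_apply, Pi.mul_apply,
    Pi.mulSingle_apply]
  by_cases h1 : a = x <;> by_cases h2 : b = x <;> by_cases h3 : a = y <;> by_cases h4 : b = y <;>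
    simp_all [eq_comm] <;> field_simp <;> ring

variable {n : ℕ}

theorem slGr_H_le : (slGr n F).rgd.H ≤ closure {h | RankOne (slGr n F).rgd h} := by
  set K := closure {h | RankOne (slGr n F).rgd h}
  let T : Subgroup (Fin (n + 1) → Fˣ) :=
    { carrier := {d | ∃ g ∈ K, slMat _ F g = diagonal fun x => (d x : F)}
      one_mem' := ⟨1, one_mem _, by simp⟩
      mul_mem' := by
        rintro c d ⟨g, hg, e⟩ ⟨g', hg', e'⟩
        refine ⟨g * g', mul_mem hg hg', ?_⟩
        rw [map_mul, e, e', diagonal_mul_diagonal]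
        simp
      inv_mem' := by
        rintro c ⟨g, hg, e⟩
        refine ⟨g⁻¹, inv_mem hg, ?_⟩
        have h2 : slMat _ F g * diagonal (fun x => (c⁻¹ x : F)) = 1 := by
          rw [e, diagonal_mul_diagonal]; simp
        rw [← mul_one (slMat _ F g⁻¹), ← h2, ← mul_assoc, ← map_mul, inv_mul_cancel, map_one,
          one_mul] }
  have hT : ∀ (i : Fin n) (s : Fˣ), Pi.mulSingle i.castSucc s * Pi.mulSingle i.succ s⁻¹ ∈ T := by
    intro i s
    have h : i.castSucc ≠ i.succ := Fin.castSucc_lt_succ.ne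
    have hs := s.ne_zero
    refine ⟨_, subset_closure ?_, (slMat_apply _).trans (coe_slE_tor h s one_ne_zero)⟩
    have hX : ∀ u : F, slE i.castSucc i.succ u ∈ (slGr n F).rgd.X ((Chev.typeA n).weyl.simple i) :=
      fun u => by
        change _ ∈ (slGr n F).X ((Chev.typeA n).α i)
        rw [typeA_α']; exact (mem_slGr_X h).2 ⟨u, rfl⟩
    have hX' : ∀ g, g ∈ (slGr n F).rgd.X ((Chev.typeA n).weyl.neg ((Chev.typeA n).weyl.simple i)) ↔
        ∃ t : F, slE i.succ i.castSucc t = g := fun g => by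
      change _ ∈ (slGr n F).X (-(Chev.typeA n).α i) ↔ _
      rw [typeA_α', neg_sub]; exact mem_slGr_X h.symm
    have hinj : Function.Injective (slE (F := F) i.succ i.castSucc) := fun t u e => by
      have := congrFun (congrFun (congrArg Subtype.val e) i.succ) i.castSucc
      simpa [coe_slE h.symm] using this
    refine rankOne_of_param ?_ i (slE i.succ i.castSucc) (fun t => (hX' _).2 ⟨t, rfl⟩) hinj
      (fun x hx => (hX' x).1 hx) (Equiv.mulLeft₀ (s : F)⁻¹ (inv_ne_zero hs)) (fun t ht => ?_)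
      fun t ht => ?_
    · intro x y e
      rw [slGr_ρ, coe_slE_tor h s one_ne_zero] at e
      have : x = y := by
        by_contra hne
        exact e (diagonal_apply_ne _ hne)
      simp [this]
    · rw [slE_eq_one_iff h.symm] at ht ⊢
      simp [ht]
    · have t0 : t ≠ 0 := fun e => ht ((slE_eq_one_iff h.symm).2 e)
      refine ⟨_, (slGr n F).rgd.X_le_U ((Chev.typeA n).weyl.pos_simple i) (hX ((s - 1) * s / t)), _,
        hX ((1 - s) / t), ?_⟩
      rw [Subtype.ext ((coe_slE_tor h s one_ne_zero).trans (coe_slE_tor h s t0).symm),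
        Equiv.mulLeft₀_apply, mul_assoc _ (slE _ _ (-t)), stA_slE.add _ _ h.symm,
        neg_add_cancel, (slE_eq_one_iff h.symm).2 rfl, mul_one]
  intro g hg
  have hd := (slGr n F).eq_diagonal slGr_wt_injective hg
  obtain ⟨g', hg', e⟩ := mem_of_prod_eq_one T hT
    (d := fun a => Units.mk0 _ ((slGr n F).diag_ne_zero slGr_wt_injective hg a)) (by
      refine Units.ext ?_
      rw [Units.coe_prod, Units.val_one, ← g.2]
      conv_rhs => rw [← slGr_ρ, hd, det_diagonal]
      rfl)
  have : g' = g := Subtype.ext (e.trans hd.symm)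
  exact this ▸ hg'

variable [Fintype F] (p : ℕ) [Fact p.Prime] [CharP F p] {M : Ideal AlgInt}

theorem card_block_defect_zero_SL (hM : IsPModular p M) :
    Nat.card {B : Set (IrrCharacter (SpecialLinearGroup (Fin (n + 1)) F)) //
      IsPBlock M B ∧ blockDefect p B = 0} = 1 := by
  refine card_block_defect_zero (slGr n F).faithful (f := MonoidHom.id _) Function.injective_id
    (by rw [slGr_G0, MonoidHom.range_eq_top]; exact Function.surjective_id)
    ((slGr n F).isPGroup_U p) (fun h hh ⟨k, hk⟩ => ?_) slGr_H_le hM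
  have h1 := orderOf_dvd_of_pow_eq_one ((slGr n F).H_pow slGr_wt_injective hh)
  rw [← orderOf_eq_one_iff]
  obtain ⟨m, -, hm⟩ := FiniteField.card F p
  refine Nat.eq_one_of_dvd_coprimes (a := p ^ k) ?_ hk.dvd h1
  rw [hm]
  exact Nat.Coprime.pow_left _ ((Nat.coprime_pow_right_iff m.pos _ _).1
    ((Nat.coprime_self_sub_left (Nat.one_le_pow _ _ hM.1.pos)).2 (Nat.coprime_one_left _))).symm

theorem card_blocks_SL (hn : 1 ≤ n) (hM : IsPModular p M) :
    Nat.card {B : Set (IrrCharacter (SpecialLinearGroup (Fin (n + 1)) F)) // IsPBlock M B} =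
      Nat.gcd (n + 1) (Nat.card F - 1) + 1 := by
  have hZ := Class.card_center_SL (ι := Fin (n + 1)) (F := F) (by simp)
  rw [Fintype.card_fin] at hZ
  rw [← hZ]
  refine (radCent_SL (n + 1)).card_blocks hM ?_ ?_ (card_block_defect_zero_SL p hM)
  · have h : (0 : Fin (n + 1)) ≠ Fin.last n := by
      rw [Ne, Fin.ext_iff]; simp; omega
    have ho : orderOf (slE 0 (Fin.last n) (1 : F)) = p := by
      refine orderOf_eq_prime ?_ fun e => one_ne_zero ((slE_eq_one_iff h).1 e)
      have : ∀ k : ℕ, slE 0 (Fin.last n) (1 : F) ^ k = slE 0 (Fin.last n) (k : F) := by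
        intro k
        induction k with
        | zero => rw [pow_zero, eq_comm, slE_eq_one_iff h, Nat.cast_zero]
        | succ k ih => rw [pow_succ, ih, Nat.cast_succ, stA_slE.add _ _ h]
      rw [this, slE_eq_one_iff h, CharP.cast_eq_zero]
    exact ho ▸ orderOf_dvd_natCard _
  · obtain ⟨m, -, hm⟩ := FiniteField.card F p
    rw [hZ, Nat.card_eq_fintype_card, hm]
    intro h
    have h1 := h.trans (Nat.gcd_dvd_right _ _)
    exact hM.1.not_dvd_one ((Nat.dvd_sub_iff_right (Nat.one_le_pow _ _ hM.1.pos)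
      (dvd_pow_self p m.pos.ne')).1 h1)

end Cfsg.Lib.Block.DZ
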