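import Cfsg.Agent.Block.DefCount
import Cfsg.Agent.Chev.TwistCent

/-!
# Radical subgroups of twisted groups and of central quotients
-/

set_option autoImplicit false

open Subgroup
open Cfsg.Lib.Chev

namespace Cfsg.Lib.Block.DZ

variable {p : ℕ} [hp : Fact p.Prime]

theorem RadCent.of_surjective {G H : Type*} [Group G] [Finite G] [Group H] (h : RadCent p G)
    (π : G →* H) (hπ : Function.Surjective π) (hk : π.ker ≤ center G)
    (hm : ¬ p ∣ Nat.card π.ker) : RadCent p H := by
  intro D hD h0 hrad x hx ho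
  haveI : Finite H := Finite.of_surjective π hπ
  have hpow : ∀ z ∈ π.ker, z ^ Nat.card π.ker = 1 := fun z hz =>
    congrArg Subtype.val (pow_card_eq_one' (x := (⟨z, hz⟩ : π.ker)))
  have hcop : ∀ k, (p ^ k).Coprime (Nat.card π.ker) := fun k =>
    Nat.Coprime.pow_left _ (hp.out.coprime_iff_not_dvd.2 hm)
  haveI : Group.IsNilpotent (D.comap π) := by
    haveI := hD.isNilpotent
    refine Subgroup.isNilpotent_of_ker_le_center (π.subgroupComap D) fun z hz => ?_
    exact mem_center_iff.2 fun y => Subtype.ext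
      (mem_center_iff.1 (hk (congrArg Subtype.val (MonoidHom.mem_ker.1 hz))) y)
  obtain ⟨P⟩ : Nonempty (Sylow p (D.comap π)) := inferInstance
  haveI : (P : Subgroup (D.comap π)).Normal := inferInstance
  set E := (P : Subgroup (D.comap π)).map (D.comap π).subtype with hE
  have hEp : IsPGroup p E := P.isPGroup'.map _
  have hED : E ≤ D.comap π := map_subtype_le _
  have hmax : ∀ R : Subgroup G, IsPGroup p R → R ≤ D.comap π → R ≤ E := fun R hR hRD y hy => by
    obtain ⟨Q, hQ⟩ := (hR.comap_subtype (K := D.comap π)).exists_le_sylow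
    haveI := P.unique_of_normal inferInstance
    rw [Subsingleton.elim Q P] at hQ
    exact ⟨⟨y, hRD hy⟩, hQ hy, rfl⟩
  have hsurj : ∀ d ∈ D, ∃ e ∈ E, π e = d := by
    intro d hd
    obtain ⟨e, rfl⟩ := hπ d
    obtain ⟨k, hk'⟩ := hD ⟨_, hd⟩
    have h1 : π e ^ p ^ k = 1 := congrArg Subtype.val hk'
    have h2 : e ^ Nat.card π.ker ∈ E := by
      refine hmax (zpowers _) (IsPGroup.of_card_dvd_pow (n := k) ?_)
        (zpowers_le.2 (pow_mem (mem_comap.2 hd) _)) (mem_zpowers _)
      rw [Nat.card_zpowers, orderOf_dvd_iff_pow_eq_one, ← pow_mul, mul_comm, pow_mul]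
      exact hpow _ (by rw [MonoidHom.mem_ker, map_pow, h1])
    obtain ⟨j, hj⟩ := exists_pow_eq_self_of_coprime (x := π e)
      (Nat.Coprime.coprime_dvd_right (orderOf_dvd_of_pow_eq_one h1) (hcop k).symm)
    exact ⟨_, pow_mem h2 j, by rw [map_pow, map_pow, hj]⟩
  obtain ⟨x, rfl⟩ := hπ x
  have hx' : x ∈ center G := by
    refine h E hEp (fun e => h0 (eq_bot_iff.2 fun d hd => ?_)) (fun R hR hN => ?_) x
      (fun e he => ?_) fun hd => ?_
    · obtain ⟨y, hy, rfl⟩ := hsurj d hd
      rw [e, mem_bot] at hy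
      rw [hy, map_one]; exact one_mem _
    · refine hmax R hR (map_le_iff_le_comap.1 (hrad _ (hR.map π) fun n hn => ?_))
      obtain ⟨n, rfl⟩ := hπ n
      refine le_normalizer_map π ⟨n, hN (mem_normalizer_fintype fun y hy => ?_), rfl⟩
      refine hmax (E.map (MulAut.conj n).toMonoidHom) (hEp.map _) ?_ ⟨y, hy, rfl⟩
      rintro _ ⟨z, hz, rfl⟩
      simpa using (mem_normalizer_iff.1 hn _).1 (hED hz)
    · have h1 : x⁻¹ * e * x * e⁻¹ ∈ π.ker := by
        rw [MonoidHom.mem_ker, map_mul, map_mul, map_mul, map_inv, map_inv, mul_assoc _ (π e),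
          hx _ (hED he)]
        group
      obtain ⟨k, hk'⟩ := hEp ⟨e, he⟩
      have h2 : e ^ p ^ k = 1 := congrArg Subtype.val hk'
      have h3 : (x⁻¹ * e * x * e⁻¹) ^ p ^ k = 1 := by
        have h4 : (x⁻¹ * e * x) ^ p ^ k = 1 := by
          have := conj_pow (a := x⁻¹) (b := e) (i := p ^ k)
          rwa [inv_inv, h2, mul_one, inv_mul_cancel] at this
        have h5 : Commute (x⁻¹ * e * x * e⁻¹) e := (mem_center_iff.1 (hk h1) e).symm
        have h6 := h5.mul_pow (p ^ k)
        rwa [inv_mul_cancel_right, h4, h2, mul_one, eq_comm] at h6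
      have h4 : x⁻¹ * e * x * e⁻¹ = 1 := by
        rw [← orderOf_eq_one_iff]
        exact Nat.eq_one_of_dvd_coprimes (hcop k) (orderOf_dvd_of_pow_eq_one h3)
          (orderOf_dvd_of_pow_eq_one (hpow _ h1))
      rw [mul_inv_eq_one, mul_assoc, inv_mul_eq_iff_eq_mul] at h4
      exact h4
    · have h1 : orderOf x ∣ orderOf (π x) * Nat.card π.ker := by
        rw [orderOf_dvd_iff_pow_eq_one, pow_mul]
        exact hpow _ (by rw [MonoidHom.mem_ker, map_pow, pow_orderOf_eq_one])
      exact (hp.out.dvd_mul.1 (hd.trans h1)).elim ho hm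
  refine mem_center_iff.2 fun y => ?_
  obtain ⟨y, rfl⟩ := hπ y
  rw [← map_mul, mem_center_iff.1 hx' y, map_mul]

theorem RadCent.of_equiv {G H : Type*} [Group G] [Finite G] [Group H] (h : RadCent p G)
    (e : G ≃* H) : RadCent p H := by
  have : e.toMonoidHom.ker = ⊥ := (MonoidHom.ker_eq_bot_iff _).2 e.injective
  exact h.of_surjective e.toMonoidHom e.surjective (this.le.trans bot_le)
    (by rw [this, card_bot]; exact hp.out.not_dvd_one)

theorem RadCent.quotient_center {G : Type*} [Group G] [Finite G] (h : RadCent p G)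
    (hm : ¬ p ∣ Nat.card (center G)) : RadCent p (G ⧸ center G) :=
  h.of_surjective (QuotientGroup.mk' _) (QuotientGroup.mk'_surjective _)
    (QuotientGroup.ker_mk' _).le (by rwa [QuotientGroup.ker_mk'])

variable {ι A : Type} [Fintype ι] [DecidableEq ι] [DecidableEq A] {G : Type*} [Group G]
  {R : WeylData ι A} {Y : RGD R G} {S : R.Sym}

theorem radCent_of_twist [Finite G] (T : Y.Twist S) (hY : Y.Faithful)
    (hc : ∀ J : Set ι, J.Nonempty → Jᶜ.Nonempty → ∃ i ∈ J, ∃ j ∉ J, R.C i j ≠ 0)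
    (hU : IsPGroup p Y.U) (hH : ∀ h ∈ Y.H, (∃ k, orderOf h = p ^ k) → h = 1)
    (hinj : ∀ a ∈ Y.G0, T.σ a = 1 → a = 1) : RadCent p T.G1 := by
  intro D hD h0 hrad x hx ho
  obtain ⟨Q, P, hQ, -, hQP, hPG, hN, hPQ, hC⟩ := T.exists_radical hY hc hU hH hinj
    (map_subtype_le D) (hD.map _) (by rwa [Ne, map_eq_bot_iff_of_injective _ (subtype_injective _)])
  have h1 : ∀ n ∈ normalizer (D : Set T.G1), (n : G) ∈ P := fun n hn =>
    hN ⟨le_normalizer_map _ ⟨n, hn, rfl⟩, n.2⟩
  have h2 := hrad (Q.subgroupOf T.G1) hQ.comap_subtype fun n hn =>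
    mem_normalizer_comap T.G1.subtype (hPQ (h1 n hn))
  refine mem_center_iff.2 fun y => Subtype.ext ((hC x (h1 x (centralizer_le_normalizer _ hx))
    (fun a ha => ?_)).2 (by rwa [orderOf_coe]) y y.2).symm
  exact congrArg Subtype.val (hx ⟨a, hPG (hQP ha)⟩ (h2 ha)).symm

/-- The centre of a twisted group has order prime to `p`. -/
theorem not_dvd_card_center_twist [Finite G] (T : Y.Twist S) (hY : Y.Faithful)
    (hH : ∀ h ∈ Y.H, (∃ k, orderOf h = p ^ k) → h = 1) : ¬ p ∣ Nat.card (center T.G1) := by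
  intro h
  obtain ⟨z, hz⟩ := exists_prime_orderOf_dvd_card' p h
  have h1 : orderOf ((z : T.G1) : G) = p := by rw [orderOf_coe, orderOf_coe, hz]
  have h2 := hH _ (T.mem_H_of_centralizes hY (T.G1_le_F z.1.2) fun a ha =>
    congrArg Subtype.val (mem_center_iff.1 z.2 ⟨a, ha⟩).symm) ⟨1, by rw [h1, pow_one]⟩
  rw [h2, orderOf_one] at h1
  exact hp.out.ne_one h1.symm

end Cfsg.Lib.Block.DZ
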