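import Cfsg.Agent.Block.Induce
import Cfsg.Agent.Block.Height
import Cfsg.Agent.Block.PrincSection
import Cfsg.Agent.S0908

/-!
# Defects of induced blocks; deficiency classes
-/

namespace Cfsg.Lib.Block

open Subgroup

variable {G : Type*} [Group G] [Finite G] {M : Ideal AlgInt} {p : ℕ} [hp : Fact p.Prime]

/-- If `P ≤ D ≤ H` and `C(P) ≤ H ≤ N(P)` for a defect group `D` of `B`, some block of `H` inducing `B` has a defect
group containing `D`. -/
theorem exists_isInducedBlock_brC_ne_zero (hM : IsPModular p M) {B : Set (IrrCharacter G)} (hB : IsPBlock M B)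
    {P D H : Subgroup G} (hD : IsPGroup p D) (hbr : brC D (eB M B) ≠ 0) (hPD : P ≤ D) (hDH : D ≤ H)
    (hCH : centralizer (P : Set G) ≤ H) (hHN : H ≤ normalizer (P : Set G)) :
    ∃ b : Set (IrrCharacter H), IsInducedBlock M H b B ∧ brC (D.subgroupOf H) (eB M b) ≠ 0 := by
  classical
  obtain ⟨c, hc, hc0⟩ := brC_ne_zero_iff.1 hbr
  have hcP : c ∈ centralizer (P : Set G) := centralizer_le hPD hc
  have h1 := coeff_brH_of_mem (P := P) (H := H) (eB M B) (h := ⟨c, hCH hcP⟩) hcP
  rw [brH_eB_eq_sum hM (hD.to_le hPD) (hPD.trans hDH) hCH hHN hB] at h1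
  rw [← h1, MonoidAlgebra.coeff_sum, Finsupp.finsetSum_apply] at hc0
  obtain ⟨b, hb, hb0⟩ := Finset.exists_ne_zero_of_sum_ne_zero hc0
  refine ⟨b.1, (Finset.mem_filter.1 hb).2, brC_ne_zero_iff.2 ⟨_, ?_, hb0⟩⟩
  exact (mem_centralizer_subgroupOf_iff hDH).2 hc

theorem exists_isInducedBlock_defect_eq (hM : IsPModular p M) {B : Set (IrrCharacter G)} (hB : IsPBlock M B)
    {P D H : Subgroup G} (hD : IsDefectGroup p M B D) (hPD : P ≤ D) (hDH : D ≤ H)
    (hCH : centralizer (P : Set G) ≤ H) (hHN : H ≤ normalizer (P : Set G)) :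
    ∃ b : Set (IrrCharacter H), IsInducedBlock M H b B ∧ blockDefect p b = blockDefect p B := by
  obtain ⟨b, hb, hbr⟩ := exists_isInducedBlock_brC_ne_zero hM hB (defect_isPGroup hD)
    (defect_brC_ne_zero hM hB hD) hPD hDH hCH hHN
  refine ⟨b, hb, le_antisymm (blockDefect_le_of_isInducedBlock hM hb) ?_⟩
  obtain ⟨E, hE⟩ := exists_isDefectGroup hM hb.1
  have := defect_card_le hM hb.1 hE (P := D.subgroupOf H) ((defect_isPGroup hD).comap_subtype) hbr
  rw [Cfsg.Agent.S0908.result p M hM b hb.1 E hE, Nat.card_congr (subgroupOfEquivOfLe hDH).toEquiv,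
    Cfsg.Agent.S0908.result p M hM B hB D hD] at this
  exact (Nat.pow_le_pow_iff_right hp.out.one_lt).1 this

/-- A block of positive defect is induced by a block of the same defect of the centralizer of an element of
order `p`. -/
theorem exists_centralizer_isInducedBlock_defect_eq (hM : IsPModular p M) {B : Set (IrrCharacter G)}
    (hB : IsPBlock M B) (h0 : blockDefect p B ≠ 0) :
    ∃ y : G, orderOf y = p ∧ ∃ b : Set (IrrCharacter (centralizer ({y} : Set G))),
      IsInducedBlock M (centralizer ({y} : Set G)) b B ∧ blockDefect p b = blockDefect p B := by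
  obtain ⟨D, hD⟩ := exists_isDefectGroup hM hB
  have hc := Cfsg.Agent.S0908.result p M hM B hB D hD
  have : Nontrivial D := by
    rw [← Finite.one_lt_card_iff_nontrivial, hc]
    exact Nat.one_lt_pow h0 hp.out.one_lt
  have := (defect_isPGroup hD).center_nontrivial
  have hdvd : p ∣ Nat.card (center D) := by
    obtain ⟨k, hk0, hk⟩ := ((defect_isPGroup hD).to_subgroup (center D)).nontrivial_iff_card.1 inferInstance
    rw [hk]; exact dvd_pow_self p hk0.ne'
  obtain ⟨z, hz⟩ := exists_prime_orderOf_dvd_card' p hdvd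
  refine ⟨((z : D) : G), by rw [orderOf_coe, orderOf_coe, hz], ?_⟩
  refine exists_isInducedBlock_defect_eq hM hB (P := zpowers ((z : D) : G)) hD (zpowers_le.2 (z : D).2) ?_
    (Princ.centralizer_zpowers _).le ?_
  · intro d hd
    rw [mem_centralizer_singleton_iff]
    exact congrArg Subtype.val (mem_center_iff.1 z.2 ⟨d, hd⟩)
  · rw [← Princ.centralizer_zpowers]; exact centralizer_le_normalizer _

/-- The deficiency class passes to the centralizers of `p`-elements. -/
theorem deficiency_centralizer (hM : IsPModular p M) {r : ℕ}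
    (h : ∀ B : Set (IrrCharacter G), IsPBlock M B → B ≠ principalBlock M G → blockDefect p B < r)
    {y : G} (hy : ∃ k : ℕ, orderOf y = p ^ k) (b : Set (IrrCharacter (centralizer ({y} : Set G))))
    (hb : IsPBlock M b) (hne : b ≠ principalBlock M (centralizer ({y} : Set G))) : blockDefect p b < r := by
  have hdef := Princ.inducedBlockDefined_centralizer hM hy hb
  obtain ⟨B, hB⟩ := hdef
  refine lt_of_le_of_lt (blockDefect_le_of_isInducedBlock hM hB) (h B hB.2.1 fun hB0 => hne ?_)
  exact (Ht.third_main hM _ b ⟨B, hB⟩).1 (hB0 ▸ hB)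

theorem deficiency_of_centralizer (hM : IsPModular p M) {r : ℕ} (hr : 0 < r)
    (h : ∀ y : G, orderOf y = p → ∀ b : Set (IrrCharacter (centralizer ({y} : Set G))), IsPBlock M b →
      b ≠ principalBlock M (centralizer ({y} : Set G)) → blockDefect p b < r)
    (B : Set (IrrCharacter G)) (hB : IsPBlock M B) (hne : B ≠ principalBlock M G) : blockDefect p B < r := by
  by_cases h0 : blockDefect p B = 0
  · rwa [h0]
  obtain ⟨y, hy, b, hb, hd⟩ := exists_centralizer_isInducedBlock_defect_eq hM hB h0
  rw [← hd]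
  refine h y hy b hb.1 fun hb0 => hne ?_
  exact isInducedBlock_unique' hM hb ((Ht.third_main hM _ b ⟨B, hb⟩).2 hb0)

end Cfsg.Lib.Block
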