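import Cfsg.Agent.Block.F3Tc
import Cfsg.Agent.S3362
import Cfsg.Agent.Spor.O95040C
import Cfsg.Agent.Class.SLGen
import Cfsg.Agent.Class.PSLSimple
import Cfsg.Agent.Ngrp.Plane3

/-!
# The two completions of the amalgam of two affine groups `3²:GL₂(3)`
-/

set_option autoImplicit false
set_option maxRecDepth 100000

namespace Cfsg.Lib.Block.F3

open Cfsg.Lib.Spor Cfsg.Lib.Spor.Bulk Cfsg.Lib.Known

universe u

variable {G : Type u} [Group G]

/-- Relations between generators of the affine group `3²:GL₂(3)`. -/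
structure Rel (a b z t u m : G) : Prop where
  a3 : a * a * a = 1
  b3 : b * b * b = 1
  t2 : t * t = 1
  u2 : u * u = 1
  m2 : m * m = 1
  tu : t * u = u * t
  ta : t * a * t * a = 1
  tb : t * b = b * t
  ua : u * a = a * u
  ub : u * b * u * b = 1
  ab : a * b = z * b * a
  az : a * z = z * a
  bz : b * z = z * b
  mt : m * t = t * m
  mu : m * u * m * u = t
  ma : m * a * m * z = 1
  mb : b * m * b * (b * m * b) = m * u

/-- The letters. -/
def lets (a b t u m n : G) (l : ℕ) : G := [1, a, a⁻¹, b, b⁻¹, t, u, m, n].getD l 1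

/-- The three cubes. -/
structure Cub (b t u m j : G) (e0 e1 e2 : Bool) : Prop where
  c0 : b * m * u * j * (b * m * u * j) * (b * m * u * j) = bif e0 then t else 1
  c1 : m * u * b * j * (m * u * b * j) * (m * u * b * j) = bif e1 then t else 1
  c2 : b * b * m * u * b * b * j * (b * b * m * u * b * b * j) * (b * b * m * u * b * b * j) =
    bif e2 then t else 1

section

variable {a b z z' t u m n : G}

theorem Rel.binv (h : Rel a b z t u m) : b⁻¹ = b * b :=
  inv_eq_of_mul_eq_one_left h.b3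

theorem Rel.zdef (h : Rel a b z t u m) : z = a * b * a⁻¹ * b⁻¹ := by
  rw [h.ab]; group

theorem sat0 (h : Rel a b z t u m) (h' : Rel b a z' u t n) : Sat (lets a b t u m n) 9 io R0 := by
  have ti := inv_eq_of_mul_eq_one_left h.t2
  have ui := inv_eq_of_mul_eq_one_left h.u2
  have mi := inv_eq_of_mul_eq_one_left h.m2
  have ni := inv_eq_of_mul_eq_one_left h'.m2
  refine ⟨rfl, fun l hl => ?_, fun r hr => ?_⟩
  · interval_cases l
    exacts [inv_one.symm, rfl, (inv_inv a).symm, rfl, (inv_inv b).symm, ti.symm, ui.symm, mi.symm,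
      ni.symm]
  simp only [R0, List.mem_cons, List.not_mem_nil, or_false] at hr
  rcases hr with rfl | rfl | rfl | rfl | rfl | rfl | rfl | rfl | rfl | rfl | rfl | rfl | rfl | rfl |
    rfl | rfl | rfl
  · exact (show 1 * a * a * a = a * a * a by group).trans h.a3
  · exact (show 1 * b * b * b = b * b * b by group).trans h.b3
  · show 1 * t * u * t * u = 1
    rw [one_mul, h.tu, mul_assoc u, h.t2, mul_one, h.u2]
  · exact (show 1 * t * a * t * a = _ by group).trans h.ta
  · show 1 * t * b * t * b⁻¹ = 1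
    rw [one_mul, h.tb, mul_assoc b, h.t2]; group
  · show 1 * u * a * u * a⁻¹ = 1
    rw [one_mul, h.ua, mul_assoc a, h.u2]; group
  · exact (show 1 * u * b * u * b = _ by group).trans h.ub
  · show 1 * a * b * a⁻¹ * b⁻¹ * a⁻¹ * b * a * b⁻¹ = 1
    have := h.az
    rw [h.zdef] at this
    rw [show 1 * a * b * a⁻¹ * b⁻¹ * a⁻¹ * b * a * b⁻¹ =
      a⁻¹ * (a * (a * b * a⁻¹ * b⁻¹)) * a⁻¹ * b * a * b⁻¹ by group, this]; group
  · show 1 * b * a * b * a⁻¹ * b⁻¹ * a * b⁻¹ * a⁻¹ = 1
    have := h.bz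
    rw [h.zdef] at this
    rw [show 1 * b * a * b * a⁻¹ * b⁻¹ * a * b⁻¹ * a⁻¹ =
      b * (a * b * a⁻¹ * b⁻¹) * a * b⁻¹ * a⁻¹ by group, this]; group
  · show 1 * m * t * m * t = 1
    rw [one_mul, h.mt, mul_assoc t, h.m2, mul_one, h.t2]
  · show 1 * m * u * m * u * t = 1
    rw [one_mul, h.mu, h.t2]
  · show 1 * m * a * m * a * b * a⁻¹ * b⁻¹ = 1
    exact Eq.trans (by rw [h.zdef]; group) h.ma
  · show 1 * b * m * b * b * m * b * u * m = 1
    rw [show 1 * b * m * b * b * m * b * u * m = b * m * b * (b * m * b) * u * m by group, h.mb,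
      mul_assoc m, h.u2, mul_one, h.m2]
  · show 1 * n * u * n * u = 1
    rw [one_mul, h'.mt, mul_assoc u, h'.m2, mul_one, h.u2]
  · show 1 * n * t * n * t * u = 1
    rw [one_mul, h'.mu, h.u2]
  · show 1 * n * b * n * b * a * b⁻¹ * a⁻¹ = 1
    exact Eq.trans (by rw [h'.zdef]; group) h'.ma
  · show 1 * a * n * a * a * n * a * t * n = 1
    rw [show 1 * a * n * a * a * n * a * t * n = a * n * a * (a * n * a) * t * n by group, h'.mb,
      mul_assoc n, h.t2, mul_one, h'.m2]

theorem sat (h : Rel a b z t u m) (h' : Rel b a z' u t n) {e0 e1 e2 : Bool}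
    (c : Cub b t u m (n * m * n * t * m * n) e0 e1 e2) :
    Sat (lets a b t u m n) 9 io (RR e0 e1 e2) := by
  have s := sat0 h h'
  have key : ∀ (e : Bool) (w : List ℕ), wv (lets a b t u m n) w = (bif e then t else 1) →
      wv (lets a b t u m n) (bif e then 5 :: w else w) = 1 := fun e w hw => by
    cases e
    · exact hw
    · exact (congrArg (· * t) hw).trans h.t2
  refine ⟨s.zero, s.inv, fun r hr => ?_⟩
  rcases List.mem_append.1 hr with hr | hr
  · exact s.rel r hr
  simp only [List.mem_cons, List.not_mem_nil, or_false] at hr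
  rcases hr with rfl | rfl | rfl <;> refine key _ _ ?_
  · refine Eq.trans ?_ c.c0
    show 1 * b * m * u * n * m * n * t * m * n * b * m * u * n * m * n * t * m * n * b * m * u * n * m *
      n * t * m * n = _
    simp only [one_mul, mul_assoc]
  · refine Eq.trans ?_ c.c1
    show 1 * m * u * b * n * m * n * t * m * n * m * u * b * n * m * n * t * m * n * m * u * b * n * m *
      n * t * m * n = _
    simp only [one_mul, mul_assoc]
  · refine Eq.trans ?_ c.c2
    show 1 * b⁻¹ * m * u * b⁻¹ * n * m * n * t * m * n * b⁻¹ * m * u * b⁻¹ * n * m * n * t * m * n * b⁻¹ *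
      m * u * b⁻¹ * n * m * n * t * m * n = _
    simp only [h.binv, one_mul, mul_assoc]

end

theorem equiv_of_surj {P : Type*} [Group P] [IsSimpleGroup P] [Nontrivial G] (f : P →* G)
    (hf : Function.Surjective f) : Nonempty (G ≃* P) := by
  rcases f.normal_ker.eq_bot_or_eq_top with e | e
  · exact ⟨(MulEquiv.ofBijective f ⟨(MonoidHom.ker_eq_bot_iff f).1 e, hf⟩).symm⟩
  · obtain ⟨x, hx⟩ := exists_ne (1 : G)
    obtain ⟨y, rfl⟩ := hf x
    exact absurd (e ▸ Subgroup.mem_top y : y ∈ f.ker) hx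

namespace MM

/-- A permutation given by its table and the table of its inverse. -/
def pm (f g : Fin 12 → Fin 12) (h : (∀ x, g (f x) = x) ∧ ∀ x, f (g x) = x := by decide) :
    Equiv.Perm (Fin 12) := ⟨f, g, h.1, h.2⟩

def a := pm ![0, 1, 2, 4, 5, 3, 7, 8, 6, 10, 11, 9] ![0, 1, 2, 5, 3, 4, 8, 6, 7, 11, 9, 10]
def b := pm ![1, 2, 0, 3, 8, 10, 5, 7, 9, 4, 6, 11] ![2, 0, 1, 3, 9, 6, 10, 7, 4, 8, 5, 11]
def z := pm ![0, 1, 2, 11, 9, 10, 5, 3, 4, 8, 6, 7] ![0, 1, 2, 7, 8, 6, 10, 11, 9, 4, 5, 3]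
def t := pm ![0, 1, 2, 11, 10, 9, 8, 7, 6, 5, 4, 3] ![0, 1, 2, 11, 10, 9, 8, 7, 6, 5, 4, 3]
def u := pm ![2, 1, 0, 11, 9, 10, 6, 7, 8, 4, 5, 3] ![2, 1, 0, 11, 9, 10, 6, 7, 8, 4, 5, 3]
def m := pm ![2, 1, 0, 6, 10, 5, 3, 7, 11, 9, 4, 8] ![2, 1, 0, 6, 10, 5, 3, 7, 11, 9, 4, 8]
def n := pm ![11, 7, 3, 2, 9, 5, 6, 1, 8, 4, 10, 0] ![11, 7, 3, 2, 9, 5, 6, 1, 8, 4, 10, 0]

theorem sat : Sat (lets a b t u m n) 9 io (RR true true true) :=
  F3.sat (z := z) (z' := z⁻¹) (by constructor <;> decide +kernel) (by constructor <;> decide +kernel)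
    (by constructor <;> decide +kernel)

theorem simple : IsSimpleGroup (gL (lets a b t u m n) [1,2,3,4,5,6,7,8]) ∧
    Nat.card (gL (lets a b t u m n) [1,2,3,4,5,6,7,8]) = 95040 := by
  have k : ∀ w : List ℕ, (∀ l ∈ w, l ∈ [1,2,3,4,5,6,7,8]) →
      wv (lets a b t u m n) w ∈ gL (lets a b t u m n) [1,2,3,4,5,6,7,8] :=
    fun w h => wv_mem _ fun l hl => mem_gL (h l hl)
  obtain ⟨h1, -, h2, -⟩ := Agent.S3362.result (wv (lets a b t u m n) [1]) (wv (lets a b t u m n) [3, 2, 4])
    (wv (lets a b t u m n) [4, 7, 6, 3, 1]) (wv (lets a b t u m n) [6, 2, 7, 2])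
    (wv (lets a b t u m n) [6, 4, 7, 4, 2]) (wv (lets a b t u m n) [8, 4, 7, 2, 8, 7, 3, 8, 4])
    (wv (lets a b t u m n) [4, 7, 5, 1, 3, 1]) (wv (lets a b t u m n) [3, 1, 7, 4, 1])
    (by decide +kernel) (by decide +kernel) (by decide +kernel) (by decide +kernel) (by decide +kernel)
    (by decide +kernel) (by decide +kernel) (by decide +kernel) _ _ rfl rfl
  obtain ⟨h3, h4⟩ := ordM _ _ sat
  have e := Subgroup.eq_of_le_of_card_ge (K := gL (lets a b t u m n) [1,2,3,4,5,6,7,8])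
    ((Subgroup.closure_le _).2 fun g hg => by
      simp only [Set.mem_insert_iff, Set.mem_singleton_iff] at hg
      rcases hg with rfl | rfl | rfl | rfl | rfl | rfl | rfl | rfl <;> exact k _ (by decide))
    (h4.trans h2.ge)
  rw [← e]
  exact (SharpTrans.of_card h1 (by rw [h2]; simp [Nat.descFactorial])).simple_12 (by simp)

end MM

namespace ML

/-- The special linear group. -/
abbrev SL3 := Matrix.SpecialLinearGroup (Fin 3) (ZMod 3)

/-- A matrix of determinant one. -/
def mx (M : Matrix (Fin 3) (Fin 3) (ZMod 3)) (h : M.det = 1 := by decide +kernel) : SL3 := ⟨M, h⟩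

def a := mx !![1, 1, 0; 0, 1, 0; 0, 0, 1]
def b := mx !![1, 0, 0; 0, 1, 1; 0, 0, 1]
def z := mx !![1, 0, 1; 0, 1, 0; 0, 0, 1]
def z' := mx !![1, 0, 2; 0, 1, 0; 0, 0, 1]
def t := mx !![1, 0, 0; 0, 2, 0; 0, 0, 2]
def u := mx !![2, 0, 0; 0, 2, 0; 0, 0, 1]
def m := mx !![2, 0, 0; 0, 0, 1; 0, 1, 0]
def n := mx !![0, 2, 0; 2, 0, 0; 0, 0, 2]
def j := mx !![1, 0, 0; 0, 0, 2; 0, 1, 0]

theorem rel : Rel a b z t u m := by constructor <;> decide +kernel
theorem rel' : Rel b a z' u t n := by constructor <;> decide +kernel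

theorem sat : Sat (lets a b t u m n) 9 io (RR false false true) := by
  refine F3.sat rel rel' ?_
  rw [show n * m * n * t * m * n = j by decide +kernel]
  refine ⟨?_, ?_, ?_⟩
  · rw [show b * m * u * j = b by decide +kernel]; decide +kernel
  · rw [show m * u * b * j = mx !![1, 0, 0; 0, 1, 0; 0, 2, 1] by decide +kernel]; decide +kernel
  · rw [show b * b * m * u * b * b * j = mx !![1, 0, 0; 0, 0, 2; 0, 1, 1] by decide +kernel]
    decide +kernel

theorem top : gL (lets a b t u m n) [1,2,3,4,5,6,7,8] = ⊤ := by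
  set K := gL (lets a b t u m n) [1,2,3,4,5,6,7,8]
  have ha : a ∈ K := mem_gL (g := lets a b t u m n) (l := 1) (by decide)
  have hb : b ∈ K := mem_gL (g := lets a b t u m n) (l := 3) (by decide)
  have hm : m ∈ K := mem_gL (g := lets a b t u m n) (l := 7) (by decide)
  have hn : n ∈ K := mem_gL (g := lets a b t u m n) (l := 8) (by decide)
  refine Class.SL_eq_top_of_transvection_mem K fun i j hij c => ?_
  have k : ∀ x ∈ K, (x : Matrix (Fin 3) (Fin 3) (ZMod 3)) = Matrix.transvection i j 1 →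
      Matrix.SpecialLinearGroup.transvection hij c ∈ K := fun x hx e => by
    have e' : x = Matrix.SpecialLinearGroup.transvection hij 1 := Subtype.ext e
    have : c = 0 ∨ c = 1 ∨ c = 1 + 1 := by revert c; decide
    rcases this with rfl | rfl | rfl
    · rw [Matrix.SpecialLinearGroup.transvection_coeff_zero]; exact one_mem _
    · exact e' ▸ hx
    · rw [Matrix.SpecialLinearGroup.transvection_add]; exact e' ▸ mul_mem hx hx
  fin_cases i <;> fin_cases j <;> first | exact absurd rfl hij | skip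
  · exact k a ha (by decide +kernel)
  · exact k (m * a * a * m) (by apply_rules [mul_mem]) (by decide +kernel)
  · exact k (n * a * n) (by apply_rules [mul_mem]) (by decide +kernel)
  · exact k b hb (by decide +kernel)
  · exact k (m * n * a * a * n * m) (by apply_rules (maxDepth := 20) [mul_mem]) (by decide +kernel)
  · exact k (m * b * m) (by apply_rules [mul_mem]) (by decide +kernel)

end ML

/-- The completions of the amalgam. -/
theorem ident {a b z z' t u m n : G} (h : Rel a b z t u m) (h' : Rel b a z' u t n) {e0 e1 e2 : Bool}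
    (c : Cub b t u m (n * m * n * t * m * n) e0 e1 e2) {A : Subgroup G} (ha : a ∈ A) (hb : b ∈ A)
    (ht : t ∈ A) (hu : u ∈ A) (hm : m ∈ A) (hn : n ∉ A)
    (top : ∀ K : Subgroup G, a ∈ K → b ∈ K → t ∈ K → u ∈ K → m ∈ K → n ∈ K → K = ⊤) :
    Cfsg.Spor.IsoM12 G ∨ Nonempty (G ≃* Matrix.ProjectiveSpecialLinearGroup (Fin 3) (ZMod 3)) := by
  have s := sat h h' c
  have : Nontrivial G := ⟨n, 1, fun e => hn (e ▸ one_mem _)⟩
  have k : ∀ l ∈ [1,2,3,4,5,6,7,8], lets a b t u m n l ∈ gL (lets a b t u m n) [1,2,3,4,5,6,7,8] :=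
    fun l => mem_gL
  have htop := top _ (k 1 (by decide)) (k 3 (by decide)) (k 5 (by decide)) (k 6 (by decide))
    (k 7 (by decide)) (k 8 (by decide))
  have hA : ∀ l ∈ [1,2,3,4,5,6,7], lets a b t u m n l ∈ A := fun l hl => by
    simp only [List.mem_cons, List.not_mem_nil, or_false] at hl
    rcases hl with rfl | rfl | rfl | rfl | rfl | rfl | rfl
    exacts [ha, inv_mem ha, hb, inv_mem hb, ht, hu, hm]
  have one : ¬ IdxLe A (gL (lets a b t u m n) [1,2,3,4,5,6,7,8]) 1 := fun i => by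
    rw [htop] at i
    have e : A = ⊤ := Subgroup.index_eq_one.1 (by have := i.index; omega)
    exact hn (e ▸ Subgroup.mem_top n)
  cases e0 <;> cases e1 <;> cases e2
  · exact absurd (c000 s (by simp [c000_U]) hA) one
  · right
    have sP := ML.sat.map (QuotientGroup.mk' (Subgroup.center ML.SL3))
    have tP := gL_map_top _ (QuotientGroup.mk'_surjective (Subgroup.center ML.SL3)) ML.top
    obtain ⟨θ, hθ, -⟩ := exists_surj_of_bound (ordL _ _ (Sat.prod' sP s)) (by
      rw [tP, Subgroup.card_top]; exact (Ngrp.card_psl33 (ZMod 3) (by simp)).ge) htop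
    have := Class.PSL_isSimpleGroup (ι := Fin 3) (F := ZMod 3) (by simp)
    exact equiv_of_surj (θ.comp ((MulEquiv.subgroupCongr tP).trans Subgroup.topEquiv).symm.toMonoidHom)
      (hθ.comp (MulEquiv.surjective _))
  · exact absurd (c010 s (by simp [c010_U]) hA) one
  · exact absurd (c011 s (by simp [c011_U]) hA) one
  · exact absurd (c100 s (by simp [c100_U]) hA) one
  · exact absurd (c101 s (by simp [c101_U]) hA) one
  · exact absurd (c110 s (by simp [c110_U]) hA) one
  · left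
    obtain ⟨h1, h2⟩ := MM.simple
    obtain ⟨θ, hθ, -⟩ := exists_surj_of_bound (ordM _ _ (Sat.prod' MM.sat s)) h2.ge htop
    obtain ⟨e⟩ := equiv_of_surj θ hθ
    obtain ⟨e'⟩ := O95040.isoM12 h2
    exact ⟨e.trans e'⟩

end Cfsg.Lib.Block.F3
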