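import Cfsg.Agent.Block.QuotReg
import Cfsg.Agent.Block.FongRed

/-!
`l(B)` equals the rank of the set of characters of `B` containing a normal `p`-subgroup in their
kernels (no centralizing hypothesis).
-/

set_option autoImplicit false

open MonoidAlgebra Subgroup
open Cfsg Cfsg.Lib.Char

namespace Cfsg.Lib.Block

open Pair

universe u

variable {G H : Type u} [Group G] [Group H] {p : ℕ} {M : Ideal AlgInt} {f : G →* H}
  [Finite G] [Fact p.Prime]

theorem regDown_apply_of_class (hK : IsPGroup p f.ker) {ψ : G → ℂ} (hψ : IsClassFunction G ψ)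
    {y : G} (hy : ¬ p ∣ orderOf y) : regDown p f ψ (f y) = ψ y := by
  have hh : ∃ y', ¬ p ∣ orderOf y' ∧ f y' = f y := ⟨y, hy, rfl⟩
  rw [regDown, dif_pos hh]
  obtain ⟨h1, h2⟩ := hh.choose_spec
  have hr : hh.choose * y⁻¹ ∈ f.ker := by
    rw [MonoidHom.mem_ker, map_mul, map_inv, h2, mul_inv_cancel]
  obtain ⟨x, -, hx⟩ := exists_conj_of_regular_coset hK (y := y) (r := hh.choose * y⁻¹)
    (by rw [normalizer_eq_top]; trivial) hr hy (by rwa [inv_mul_cancel_right])
  rw [inv_mul_cancel_right] at hx
  conv_rhs => rw [← hx]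
  exact (hψ _ _).symm

theorem regUp_regDown_of_class (hK : IsPGroup p f.ker) {ψ : G → ℂ} (hψ : IsClassFunction G ψ) :
    regUp p f (regDown p f ψ) = pRegularPart p ψ :=
  (pRegularPart_eq_iff p).2 fun _ hg => regDown_apply_of_class hK hψ hg

theorem isClassFunction_regDown_of_class (hf : Function.Surjective f) (hK : IsPGroup p f.ker)
    {ψ : G → ℂ} (hψ : IsClassFunction G ψ) : IsClassFunction H (regDown p f ψ) := by
  intro h x
  by_cases hh : p ∣ orderOf h
  · rw [regDown_of_dvd ψ hh, regDown_of_dvd ψ (by rwa [orderOf_conj'])]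
  · obtain ⟨y, hy, rfl⟩ := exists_regular_lift f Fact.out hf hh
    obtain ⟨z, rfl⟩ := hf x
    rw [← map_inv, ← map_mul, ← map_mul, regDown_apply_of_class hK hψ hy,
      regDown_apply_of_class hK hψ (by rwa [orderOf_conj']), hψ]

variable [Finite H] {B : Set (IrrCharacter G)}

theorem span_eq_map_regUp_of_isPGroup (hM : IsPModular p M) (hf : Function.Surjective f)
    (hK : IsPGroup p f.ker) (hB : IsPBlock M B) :
    Submodule.span ℂ ((fun χ : IrrCharacter G => pRegularPart p (χ : G → ℂ)) '' B) =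
      (Submodule.span ℂ ((fun χ : IrrCharacter H => pRegularPart p (χ : H → ℂ)) ''
        (infI hf ⁻¹' B))).map (regUp p f) := by
  have := Fintype.ofFinite H
  refine le_antisymm ?_ ?_
  · rw [Submodule.span_le]
    rintro _ ⟨ψ, hψ, rfl⟩
    have hcl := isClassFunction_regDown_of_class hf hK ψ.2.isClassFunction
    refine ⟨pRegularPart p (blockPart (infI hf ⁻¹' B) (regDown p f ψ)), ?_, ?_⟩
    · rw [SetLike.mem_coe, ← range_regLin_comp_partLin]
      exact ⟨_, rfl⟩
    · rw [regUp_pRegularPart, ← blockPart_regUp hM hf hB hcl,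
        regUp_regDown_of_class hK ψ.2.isClassFunction]
      exact inSpan_pRegularPart_irr hM hB hψ
  · rw [Submodule.map_span, Submodule.span_le]
    rintro _ ⟨_, ⟨χ, hχ, rfl⟩, rfl⟩
    rw [regUp_pRegularPart]
    exact Submodule.subset_span ⟨infI hf χ, hχ, rfl⟩

/-- `l(B)` is the rank of the characters of `B` inflated from `G / Q`, `Q` a normal
`p`-subgroup. -/
theorem blockRank_preimage_of_isPGroup (hM : IsPModular p M) (hf : Function.Surjective f)
    (hK : IsPGroup p f.ker) (hB : IsPBlock M B) :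
    blockRank p (infI hf ⁻¹' B) = blockRank p B := by
  rw [← finrank_map_regUp hM.1 hf, ← span_eq_map_regUp_of_isPGroup hM hf hK hB]
  rfl

theorem blockRank_le_card_preimage (hM : IsPModular p M) (hf : Function.Surjective f)
    (hK : IsPGroup p f.ker) (hB : IsPBlock M B) :
    blockRank p B ≤ Nat.card (infI hf ⁻¹' B) := by
  rw [← blockRank_preimage_of_isPGroup hM hf hK hB]
  exact blockRank_le_card p _

end Cfsg.Lib.Block
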