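import Cfsg.Agent.Block.KThreeA
import Cfsg.Agent.Block.QuotRank
import Cfsg.Agent.Block.EqDeg
import Cfsg.Agent.Block.Reynolds
import Cfsg.Agent.Block.CoverDefect
import Cfsg.Agent.Block.FongReynolds
import Cfsg.Agent.Block.SubClass
import Cfsg.Agent.Block.BrauerFeit

/-!
A block with three characters and a normal elementary abelian defect group `V` has `|V| ≤ 3`.
-/

set_option autoImplicit false

open Subgroup
open Cfsg Cfsg.Lib.Char

namespace Cfsg.Lib.Block.KThree

open Pair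

universe u

variable {G : Type u} [Group G] [Finite G] {p : ℕ} [hp : Fact p.Prime] {M : Ideal AlgInt}
  {B : Set (IrrCharacter G)} {V N : Subgroup G}

theorem card_conjClasses_of_comm {X : Type*} [Group X] (h : ∀ a b : X, a * b = b * a) :
    Nat.card (ConjClasses X) = Nat.card X := by
  refine (Nat.card_congr (Equiv.ofBijective ConjClasses.mk ⟨fun a b hab => ?_,
    ConjClasses.mk_surjective⟩)).symm
  obtain ⟨c, hc⟩ := isConj_iff.1 (ConjClasses.mk_eq_mk_iff_isConj.1 hab)
  rw [← hc, h c a, mul_inv_cancel_right]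

/-- If `k(B) = l(B) + 1` all nontrivial elements of a defect group are conjugate. -/
theorem isConj_of_card_eq (hM : IsPModular p M) (hB : IsPBlock M B) (hD : IsDefectGroup p M B V)
    (hk : Nat.card B = blockRank p B + 1) {v w : G} (hv : v ∈ V) (hw : w ∈ V) (hv1 : v ≠ 1)
    (hw1 : w ≠ 1) : IsConj v w := by
  classical
  have := Fintype.ofFinite G
  have := charP_kM hM
  obtain ⟨e, he⟩ := exists_isMax_eB hM hB hD
  obtain ⟨X, hX, -⟩ := exists_isReps he (fun _ => True) fun u hu => ⟨u, ef_refl he hu, trivial⟩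
  have h := hX.card_eq_add hM hB he
  have h1 : (X.erase 1).card ≤ 1 := by
    calc (X.erase 1).card = ∑ x ∈ X.erase 1, 1 := by simp
      _ ≤ ∑ x ∈ X.erase 1, blockRank p (subBlk p M V e x) :=
        Finset.sum_le_sum fun x hx => blockRank_pos hM.1
          (isPBlock_nonempty hM (isPBlock_subBlk hM he (hX.mem x (Finset.mem_of_mem_erase hx))))
      _ = 1 := by omega
  obtain ⟨x, hx, hvx⟩ := hX.cover v hv
  obtain ⟨y, hy, hwy⟩ := hX.cover w hw
  have hxy : x = y := Finset.card_le_one.1 h1 x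
    (Finset.mem_erase.2 ⟨fun h => hv1 (ef_one_left (h ▸ hvx.symm)), hx⟩) y
    (Finset.mem_erase.2 ⟨fun h => hw1 (ef_one_left (h ▸ hwy.symm)), hy⟩)
  exact hvx.isConj.trans (hxy ▸ hwy.isConj.symm)

theorem card_le_three_of_stable (hM : IsPModular p M) (hB : IsPBlock M B) [V.Normal] [N.Normal]
    (hN : N = centralizer (V : Set G)) (hVN : V ≤ N) (hV : ∀ v ∈ V, v ^ p = 1)
    (hD : IsDefectGroup p M B V) {c : Set (IrrCharacter N)} (hc : IsPBlock M c)
    (hst : stabB c = ⊤) (hcov : Covers N B c) (hk : Nat.card B = 3) : Nat.card V ≤ 3 := by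
  classical
  have := Fintype.ofFinite G
  have := Fintype.ofFinite N
  have := charP_kM hM
  by_cases hV0 : V = ⊥
  · simp [hV0]
  have hd : blockDefect p B ≠ 0 := fun h => hV0 ((blockDefect_eq_zero_iff hM hB hD).1 h)
  have hl1 := blockRank_lt_card hM hB hd
  have hl2 := blockRank_pos hM.1 (isPBlock_nonempty hM hB)
  by_cases hl : blockRank p B = 1
  · obtain ⟨n, hn⟩ := SymLoc.exists_eq_deg_of_card_le hM hB hl (by omega)
    rw [card_defect hM hB hD, ← (SymLoc.card_eq_of_eq_deg hM hB hn).2, hk]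
  have hl3 : blockRank p B = 2 := by omega
  have hVp : IsPGroup p V := defect_isPGroup hD
  have hBo : B = overSet N c := hcov.eq_overSet_of_support hM hB hc fun g hg =>
    hN ▸ mem_centralizer_of_coeff_eB hM hB inferInstance hVp hg
  have hcD : IsDefectGroup p M c (V.subgroupOf N) := by
    rw [isDefectGroup_subgroupOf_iff hM hc hVN]
    have h := IsDefect.isDefect_inf_of_stable_cover (le_top : N ≤ ⊤)
      (by rw [normalizer_eq_top]) (isPrim_hat hM hc) (by rw [← stabB_eq_stab hM hc, hst])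
      (isPrim_eB hM hB) ((covers_iff_mul_hat_ne_zero hM hB hc).1 hcov)
      ((isDefectGroup_iff_isDefect hM hB).1 hD)
    rwa [inf_eq_left.2 hVN] at h
  have hcen : ∀ x : N, x ∈ centralizer (V.subgroupOf N : Set N) := fun x y hy => by
    have hx : (x : G) ∈ centralizer (V : Set G) := hN ▸ x.2
    exact Subtype.ext (hx y hy)
  have hcc : Nat.card c = Nat.card V := by
    rw [card_eq_card_conjClasses_of_sup hM (eq_top_iff.2 fun x _ => mem_sup_right (hcen x)) hc hcD,
      card_conjClasses_of_comm (X := V.subgroupOf N) fun a b => Subtype.ext (hcen b.1 a.1 a.2),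
      Nat.card_congr (subgroupOfEquivOfLe hVN).toEquiv]
  obtain ⟨θ, ⟨hθ, hθV⟩, huniq⟩ := existsUnique_canonical hM hc hcD fun x _ => hcen x
  have hcj : ∀ g : G, cjI g θ = θ := fun g => by
    refine huniq _ ⟨cjI_mem_of_mem_stabB (hst ▸ trivial) hθ, fun x hx => ?_⟩
    rw [cjI_apply_one, cjI_apply]
    exact hθV _ (‹V.Normal›.conj_mem _ hx g)
  have hinv : inertia N (θ : N → ℂ) = ⊤ := eq_top_iff.2 fun g _ =>
    mem_inertia.2 (congrArg Subtype.val (hcj g))
  -- the members of `B` over `θ`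
  have hsub : ∀ ξ ∈ c, overSet N {ξ} ⊆ B := fun ξ hξ =>
    hBo ▸ overSet_mono (Set.singleton_subset_iff.2 hξ)
  have hdis : ∀ ξ : IrrCharacter N, ξ ≠ θ → ∀ χ ∈ overSet N {ξ}, χ ∉ overSet N {θ} := by
    rintro ξ hξ χ ⟨_, rfl, h1⟩ ⟨_, rfl, h2⟩
    obtain ⟨g, hg⟩ := h2.exists_cjI h1
    exact hξ (hg.trans (hcj g))
  have h2 : 2 ≤ Nat.card (overSet N {θ}) := by
    have hf := QuotientGroup.mk'_surjective V
    have h := blockRank_le_card_preimage hM hf (by rwa [QuotientGroup.ker_mk']) hB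
    rw [hl3] at h
    refine h.trans (Nat.card_le_card_of_injective
      (fun χ => ⟨infI hf χ, ?_⟩) fun χ ψ e => Subtype.ext (infI_injective hf
        (congrArg Subtype.val e)))
    obtain ⟨φ, hφ⟩ := exists_over_under N (infI hf χ.1)
    refine ⟨φ, huniq φ ⟨hcov.mem_of_stable hM hB hc hst χ.2 hφ, fun x hx => ?_⟩, hφ⟩
    refine apply_of_mem_charKer (((infI hf χ.1).2.isCharacter.comp N.subtype
      ).charKer_le_of_classInner_ne_zero φ.2 (Block.over_iff.1 hφ) ?_)
    refine comap_charKer_le N.subtype (ker_le_charKer_infI hf χ.1 ?_)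
    rwa [QuotientGroup.ker_mk']
  have hV2 : 1 < Nat.card c := hcc ▸ (one_lt_card_iff_ne_bot V).2 hV0
  obtain ⟨ξ, hξ, hξθ⟩ : ∃ ξ ∈ c, ξ ≠ θ := by
    have := Finite.one_lt_card_iff_nontrivial.1 hV2
    obtain ⟨ξ, hξ⟩ := exists_ne (⟨θ, hθ⟩ : c)
    exact ⟨ξ, ξ.2, fun h => hξ (Subtype.ext h)⟩
  obtain ⟨χ, hχ⟩ := exists_over_over ξ
  have hχ' : χ ∈ overSet N {ξ} := ⟨ξ, rfl, hχ⟩
  have hkF : (irrFin B).card = 3 := by rw [card_irrFin, hk]
  have hθF : irrFin (overSet N {θ}) = (irrFin B).erase χ := by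
    refine Finset.eq_of_subset_of_card_le (fun ψ hψ => Finset.mem_erase.2 ⟨fun h => ?_, ?_⟩) ?_
    · exact hdis ξ hξθ χ hχ' (h ▸ mem_irrFin.1 hψ)
    · exact mem_irrFin.2 (hsub θ hθ (mem_irrFin.1 hψ))
    · rw [Finset.card_erase_of_mem (mem_irrFin.2 (hsub ξ hξ hχ')), hkF, card_irrFin]
      exact h2
  have hθ2 : (irrFin (overSet N {θ})).card = 2 := by
    rw [hθF, Finset.card_erase_of_mem (mem_irrFin.2 (hsub ξ hξ hχ')), hkF]
  have hoth : ∀ η ∈ c, η ≠ θ → ∀ ψ ∈ overSet N {η}, ψ = χ := fun η hη hne ψ hψ => by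
    by_contra h
    refine hdis η hne ψ hψ (mem_irrFin.1 ?_)
    rw [hθF]
    exact Finset.mem_erase.2 ⟨h, mem_irrFin.2 (hsub η hη hψ)⟩
  obtain ⟨m, hm⟩ := exists_relIndex_eq_sum θ
  obtain ⟨m', hm'⟩ := exists_relIndex_eq_sum ξ
  obtain ⟨χ₁, χ₂, hne, h12⟩ := Finset.card_eq_two.1 hθ2
  rw [h12, Finset.sum_pair hne, hinv, relIndex_top_right] at hm
  have hξF : irrFin (overSet N {ξ}) = {χ} := Finset.eq_singleton_iff_unique_mem.2
    ⟨mem_irrFin.2 hχ', fun ψ hψ => hoth ξ hξ hξθ ψ (mem_irrFin.1 hψ)⟩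
  rw [hξF, Finset.sum_singleton] at hm'
  have hidx : (inertia N (ξ : N → ℂ)).index = Nat.card V - 1 := by
    rw [← card_conjSet, ← hcc, ← card_irrFin, ← Finset.card_erase_of_mem (mem_irrFin.2 hθ),
      ← Finset.card_image_of_injective _ Subtype.val_injective]
    congr 1
    ext φ
    rw [mem_conjSet, Finset.mem_image]
    constructor
    · rintro ⟨g, rfl⟩
      refine ⟨cjI g ξ, Finset.mem_erase.2 ⟨fun h => hξθ ?_,
        mem_irrFin.2 (cjI_mem_of_mem_stabB (hst ▸ trivial) hξ)⟩, rfl⟩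
      rw [← cjI_inv_cjI g ξ, h, hcj]
    · rintro ⟨η, hη, rfl⟩
      obtain ⟨hne, hη⟩ := Finset.mem_erase.1 hη
      obtain ⟨ψ, hψ⟩ := exists_over_over η
      obtain rfl := hoth η (mem_irrFin.1 hη) hne ψ ⟨η, rfl, hψ⟩
      obtain ⟨g, rfl⟩ := hχ.exists_cjI hψ
      exact ⟨g, rfl⟩
  refine card_le_three_of_normal hN hVN hV
    (fun v hv w hw => isConj_of_card_eq hM hB hD (by omega) hv hw) hm (d := m' χ) ?_ θ hinv
    (by rw [← card_irrFin, hθ2])
  rw [← hm', ← hidx, relIndex_mul_index (le_inertia ξ.2.isClassFunction)]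

/-- A block with three characters and normal elementary abelian defect group. -/
theorem card_le_three_of_normal_defect (hM : IsPModular p M) (hB : IsPBlock M B) [V.Normal]
    (hVc : V ≤ centralizer (V : Set G)) (hV : ∀ v ∈ V, v ^ p = 1) (hD : IsDefectGroup p M B V)
    (hk : Nat.card B = 3) : Nat.card V ≤ 3 := by
  obtain ⟨c, hc, hcov⟩ := exists_covers_below hM (centralizer (V : Set G)) hB
  have hNT := le_stabB c
  obtain ⟨B', hB', h1, h2⟩ := hcov.exists_between hM hNT
  have hFR := isFR_stabB hM hc hNT rfl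
  have hc' : IsPBlock M (subB hNT c) := (isPBlock_trB _).2 hc
  have hA := h2.subset_overSet hM hB' hc'
  have hind := hFR.isInducedBlock_of_covers hM hB' hA hB h1
  have hVT : V ≤ stabB c := hVc.trans hNT
  have hcard := Nat.card_congr (subgroupOfEquivOfLe hVT).toEquiv
  obtain ⟨D', hD'⟩ := exists_isDefectGroup hM hB'
  have hle := le_defect_of_normal hM hB' (P := V.subgroupOf (stabB c)) inferInstance
    ((defect_isPGroup hD).comap_of_injective _ (stabB c).subtype_injective) hD'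
  have hDV : V.subgroupOf (stabB c) = D' := eq_of_le_of_card_ge hle (by
    rw [hcard, card_defect hM hB hD, card_defect hM hB' hD', hFR.blockDefect_eq hM hA hind])
  rw [← hcard]
  refine card_le_three_of_stable hM hB' (N := (centralizer (V : Set G)).subgroupOf (stabB c)) ?_
    (fun x hx => hVc hx) (fun v hv => Subtype.ext (hV v hv)) (hDV ▸ hD') hc'
    (stabB_subB_eq_top hNT le_rfl) h2 (by rw [← hFR.card_eq hM hA hind, hk])
  ext x
  rw [mem_subgroupOf, mem_centralizer_iff, mem_centralizer_iff]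
  exact ⟨fun h y hy => Subtype.ext (h y hy),
    fun h y hy => congrArg Subtype.val (h ⟨y, hVT hy⟩ hy)⟩

end Cfsg.Lib.Block.KThree
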