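import Cfsg.Agent.Block.TwoGood
import Cfsg.Agent.Block.Cover
import Cfsg.Agent.Block.Part
import Cfsg.Agent.Char.GoodCount
import Cfsg.Agent.Char.Clifford

/-!
Character-theoretic core of the theorem on blocks with three characters: a normal subgroup `N`, an
invariant character `θ` with two characters over it, and one more character over all the other
members of a stable set.
-/

set_option autoImplicit false

open Subgroup
open Cfsg Cfsg.Lib.Char

namespace Cfsg.Lib.Block.KThree

universe u

variable {G : Type u} [Group G] [Finite G] {N : Subgroup G} [hN : N.Normal]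

theorem exists_relIndex_eq_sum (ξ : IrrCharacter N) : ∃ m : IrrCharacter G → ℕ,
    N.relIndex (inertia N (ξ : N → ℂ)) = ∑ χ ∈ irrFin (overSet N {ξ}), m χ ^ 2 := by
  classical
  have := Fintype.ofFinite G
  have := Fintype.ofFinite N
  obtain ⟨c, hc, -, h⟩ := (isCharacter_indFun (H := N) ξ.2.isCharacter).exists_nat_multiplicity
  refine ⟨c, ?_⟩
  rw [classInner_indFun_normal_self ξ.2, Nat.cast_inj] at h
  rw [h]
  refine (Finset.sum_subset (Finset.subset_univ _) fun χ _ hχ => ?_).symm
  rw [mem_irrFin] at hχ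
  have h0 : classInner (fun n : N => (χ : G → ℂ) n) (ξ : N → ℂ) = 0 := by
    by_contra h0
    exact hχ ⟨ξ, rfl, Block.over_iff.2 h0⟩
  have h1 := hc χ
  rw [classInner_indFun_left N _ χ.2.isClassFunction, classInner_eq_zero_comm.1 h0] at h1
  rw [Nat.cast_eq_zero.1 h1.symm]
  rfl

theorem extSub_of_isCyclic {X : Type*} [Group X] {π : G →* X} (hker : π.ker = N)
    {θ : N → ℂ} (hθ : IsIrrCharacter N θ) (hinv : inertia N θ = ⊤) (U : Subgroup X)
    (hU : IsCyclic U) : ExtSub N.subtype θ (U.comap π) := by
  have h : ∀ n, N.subtype n ∈ U.comap π := fun n => by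
    have : π n = 1 := by rw [← MonoidHom.mem_ker, hker]; exact n.2
    simp [this, U.one_mem]
  rw [extSub_iff h]
  have hr : (N.subtype.codRestrict (U.comap π) h).range = (π.subgroupComap U).ker := by
    ext x
    constructor
    · rintro ⟨n, rfl⟩
      refine Subtype.ext ?_
      change π n = 1
      rw [← MonoidHom.mem_ker, hker]; exact n.2
    · intro hx
      have h1 : π x = 1 := congrArg Subtype.val hx
      rw [← MonoidHom.mem_ker, hker] at h1
      exact ⟨⟨x, h1⟩, rfl⟩
  have : (N.subtype.codRestrict (U.comap π) h).range.Normal := hr ▸ inferInstance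
  refine ext_of_isCyclic (fun a b hab => Subtype.ext (congrArg Subtype.val hab :)) ?_ hθ fun g => ?_
  · have h1 : IsCyclic (U.comap π ⧸ (π.subgroupComap U).ker) :=
      isCyclic_of_surjective _ (QuotientGroup.quotientKerEquivRange _).symm.surjective
    exact isCyclic_of_surjective _ (QuotientGroup.quotientMulEquivOfEq hr).symm.surjective
  · refine InvBy.of_comp (j := (U.comap π).subtype) (i := N.subtype) (fun _ => rfl) ?_
    rw [invBy_subtype_iff, hinv]
    trivial

theorem isConj_of_card_over_le_two {X : Type*} [Group X] {π : G →* X}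
    (hπ : Function.Surjective π) (hker : π.ker = N) (θ : IrrCharacter N)
    (hinv : inertia N (θ : N → ℂ) = ⊤) (h2 : Nat.card (overSet N {θ}) ≤ 2) {a b : X} (ha : a ≠ 1)
    (hb : b ≠ 1) (hca : IsCyclic (centralizer ({a} : Set X)))
    (hcb : IsCyclic (centralizer ({b} : Set X))) : IsConj a b := by
  classical
  have := Fintype.ofFinite N
  have : Finite X := Finite.of_surjective π hπ
  have h := cnt_zero_eq_good N.subtype_injective hπ (by rw [hker, range_subtype]) θ.2
    fun g => by rw [invBy_subtype_iff, hinv]; trivial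
  have h1 : cnt 0 N.subtype (θ : N → ℂ) = Nat.card (overSet N {θ}) := by
    rw [cnt_zero]
    refine Nat.card_congr (Equiv.subtypeEquivRight fun χ => ?_)
    rw [over_subtype_iff, mem_overSet]
    simp only [Set.mem_singleton_iff, exists_eq_left, Block.over_iff]
  have good : ∀ x : X, IsCyclic (centralizer ({x} : Set X)) → ∀ y, Commute x y →
      ExtSub N.subtype (θ : N → ℂ) ((Subgroup.closure {x, y}).comap π) := by
    intro x hx y hy
    refine extSub_of_isCyclic hker θ.2 hinv _ (Subgroup.isCyclic_of_le (H' := centralizer {x}) ?_)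
    rw [closure_le]
    rintro z (rfl | rfl)
    · exact mem_centralizer_singleton_iff.2 rfl
    · exact mem_centralizer_singleton_iff.2 hy.symm.eq
  have good1 : ∀ y, Commute (1 : X) y →
      ExtSub N.subtype (θ : N → ℂ) ((Subgroup.closure {1, y}).comap π) := by
    intro y _
    refine extSub_of_isCyclic hker θ.2 hinv _ (Subgroup.isCyclic_of_le (H' := zpowers y) ?_)
    rw [closure_le]
    rintro z (rfl | rfl)
    · exact one_mem _
    · exact mem_zpowers _
  rw [h1] at h
  rw [h] at h2
  by_contra hab
  have h3 := Fintype.ofFinite {C : ConjClasses X // ∃ x, ConjClasses.mk x = C ∧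
      ∀ y, Commute x y → ExtSub N.subtype (θ : N → ℂ) ((Subgroup.closure {x, y}).comap π)}
  rw [Nat.card_eq_fintype_card, ← not_lt, Fintype.two_lt_card_iff] at h2
  refine h2 ⟨⟨_, 1, rfl, good1⟩, ⟨_, a, rfl, good a hca⟩, ⟨_, b, rfl, good b hcb⟩, ?_, ?_, ?_⟩
  · intro e
    exact ha (isConj_one_right.1 (ConjClasses.mk_eq_mk_iff_isConj.1 (congrArg Subtype.val e)))
  · intro e
    exact hb (isConj_one_right.1 (ConjClasses.mk_eq_mk_iff_isConj.1 (congrArg Subtype.val e)))
  · intro e
    exact hab (ConjClasses.mk_eq_mk_iff_isConj.1 (congrArg Subtype.val e))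

/-- `TwoGood.card_le_three` for a normal subgroup. -/
theorem card_le_three_of_normal {p : ℕ} [Fact p.Prime] {V : Subgroup G} [V.Normal]
    (hN : N = centralizer (V : Set G)) (hVN : V ≤ N) (hV : ∀ v ∈ V, v ^ p = 1)
    (htr : ∀ v ∈ V, ∀ w ∈ V, v ≠ 1 → w ≠ 1 → IsConj v w) {x y d : ℕ}
    (h1 : N.index = x ^ 2 + y ^ 2) (h2 : N.index = d ^ 2 * (Nat.card V - 1))
    (θ : IrrCharacter N) (hinv : inertia N (θ : N → ℂ) = ⊤)
    (h3 : Nat.card (overSet N {θ}) ≤ 2) : Nat.card V ≤ 3 := by
  let φ : G →* MulAut V := MulAut.conjNormal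
  have hker : φ.rangeRestrict.ker = N := by
    rw [MonoidHom.ker_rangeRestrict, hN]
    ext g
    rw [MonoidHom.mem_ker, mem_centralizer_iff]
    constructor
    · intro h v hv
      have := congrArg Subtype.val (DFunLike.congr_fun h ⟨v, hv⟩)
      change g * v * g⁻¹ = v at this
      rw [← mul_inv_eq_iff_eq_mul.1 this]
    · intro h
      ext v
      change g * v * g⁻¹ = v
      rw [← h v v.2, mul_inv_cancel_right]
  have hcard : Nat.card φ.range = N.index := by
    rw [← hker, index_ker, MonoidHom.range_eq_top.2 φ.rangeRestrict_surjective, card_top]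
  have hcomm : ∀ a b : V, a * b = b * a := fun a b => by
    have := hVN a.2
    rw [hN] at this
    exact Subtype.ext (this b b.2).symm
  have hf : FaithfulSMul φ.range V := ⟨fun {a b} h => Subtype.ext (MulEquiv.ext h)⟩
  refine @TwoGood.card_le_three p _ V φ.range { (inferInstance : Group V) with mul_comm := hcomm }
    _ _ _ (inferInstanceAs (MulDistribMulAction φ.range V)) hf (fun v => Subtype.ext (hV v v.2))
    (fun v w hv hw => ?_) x y d (hcard.trans h1) (hcard.trans h2) fun a b ha hb hca hcb =>
      isConj_of_card_over_le_two φ.rangeRestrict_surjective hker θ hinv h3 ha hb hca hcb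
  obtain ⟨g, hg⟩ := isConj_iff.1 (htr v v.2 w w.2 (fun h => hv (Subtype.ext h))
    fun h => hw (Subtype.ext h))
  exact ⟨φ.rangeRestrict g, Subtype.ext hg⟩

end Cfsg.Lib.Block.KThree
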