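import Cfsg.Agent.Block.KThree
import Cfsg.Agent.Block.NormDeg
import Cfsg.Agent.Block.CycAut
import Cfsg.Agent.Solv.FrattiniP
import Cfsg.Agent.Solv.Frattini
import Cfsg.Agent.Solv.CoprimeFixed
import Cfsg.Agent.S4607

/-!
A block with a normal defect group and at most three characters of height zero has a cyclic
defect group.
-/

set_option autoImplicit false

open Subgroup
open scoped commutatorElement
open Cfsg Cfsg.Lib.Char

namespace Cfsg.Lib.Block.KThree

open Pair

universe u

variable {G : Type u} [Group G] [Finite G] {p : ℕ} [hp : Fact p.Prime] {M : Ideal AlgInt}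
  {B : Set (IrrCharacter G)} {D : Subgroup G}

theorem card_le_three_of_card_le (hM : IsPModular p M) (hB : IsPBlock M B) [D.Normal]
    (hVc : D ≤ centralizer (D : Set G)) (hV : ∀ v ∈ D, v ^ p = 1) (hD : IsDefectGroup p M B D)
    (hk : Nat.card B ≤ 3) : Nat.card D ≤ 3 := by
  by_cases h0 : D = ⊥
  · simp [h0]
  have hd : blockDefect p B ≠ 0 := fun h => h0 ((blockDefect_eq_zero_iff hM hB hD).1 h)
  have hl1 := blockRank_lt_card hM hB hd
  have hl2 := blockRank_pos hM.1 (isPBlock_nonempty hM hB)
  by_cases h2 : Nat.card B = 2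
  · rw [(Cfsg.Agent.S4607.result p M hM B hB D hD).1 h2]
    omega
  · exact card_le_three_of_normal_defect hM hB hVc hV hD (by omega)

theorem index_frattini_le_three (hM : IsPModular p M) (hB : IsPBlock M B) [hN : D.Normal]
    (hD : IsDefectGroup p M B D)
    (hk : Nat.card {χ : IrrCharacter G // χ ∈ B ∧ blockHeight p B (χ : G → ℂ) = 0} ≤ 3) :
    (frattini D).index ≤ 3 := by
  have hDp := defect_isPGroup hD
  let Φ : Subgroup G := (frattini D).map D.subtype
  have : Φ.Normal := ConjAct.normal_of_characteristic_of_normal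
  have hΦD : Φ ≤ D := map_subtype_le _
  have hf := QuotientGroup.mk'_surjective Φ
  have hker : (QuotientGroup.mk' Φ).ker = Φ := QuotientGroup.ker_mk' Φ
  have hcomm : ⁅D, D⁆ ≤ Φ := Solv.commutator_le_map_frattini hDp
  have hB' : IsPBlock M (infI hf ⁻¹' B) := by
    refine isPBlock_preimage_of_isPGroup hM hf hDp (hker.le.trans hΦD) (fun y hy h => ?_) hB
    refine Solv.Coprime.le_centralizer_of_commutator_le_frattini (A := zpowers y) (K := D)
      (by rw [normalizer_eq_top]; exact le_top) ?_ ?_ (mem_zpowers y)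
    · obtain ⟨n, hn⟩ := IsPGroup.iff_card.1 (hDp.to_subgroup (frattini D))
      rw [hn, Nat.card_zpowers]
      exact ((hp.out.coprime_iff_not_dvd.2 hy).symm).pow_right n
    · rw [commutator_le]
      intro a ha b hb
      have hb' : zpowers y ≤ (centralizer (D.map (QuotientGroup.mk' Φ) : Set (G ⧸ Φ))).comap
        (QuotientGroup.mk' Φ) := zpowers_le.2 h
      change ⁅a, b⁆ ∈ Φ
      rw [← hker, MonoidHom.mem_ker, map_commutatorElement, commutatorElement_eq_one_iff_mul_comm]
      exact hb' hb _ (mem_map_of_mem _ ha)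
  have hD' : IsDefectGroup p M (infI hf ⁻¹' B) (D.map (QuotientGroup.mk' Φ)) :=
    (isDefectGroup_preimage_iff hM hf (hDp.to_le (hker.le.trans hΦD)) hB hB').2 ⟨D, hD, rfl⟩
  have : (D.map (QuotientGroup.mk' Φ)).Normal := hN.map _ hf
  have h := card_le_three_of_card_le hM hB' ?_ ?_ hD' ?_
  · have h1 : ((QuotientGroup.mk' Φ).comp D.subtype).ker = frattini D := by
      rw [← MonoidHom.comap_ker, hker, comap_map_eq_self_of_injective D.subtype_injective]
    rwa [← h1, index_ker, MonoidHom.range_comp, range_subtype]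
  · rintro _ ⟨a, ha, rfl⟩ _ ⟨b, hb, rfl⟩
    rw [← commutatorElement_eq_one_iff_mul_comm, ← map_commutatorElement, ← MonoidHom.mem_ker, hker]
    exact hcomm (commutator_mem_commutator hb ha)
  · rintro _ ⟨a, ha, rfl⟩
    rw [← map_pow, ← MonoidHom.mem_ker, hker]
    exact Solv.pow_mem_map_frattini hDp ha
  · let F : (infI hf ⁻¹' B) →
        {χ : IrrCharacter G // χ ∈ B ∧ blockHeight p B (χ : G → ℂ) = 0} := fun χ =>
      ⟨infI hf χ.1, χ.2, blockHeight_eq_zero_of_commutator_le hM hB hD χ.2
        (hcomm.trans (hker.ge.trans (ker_le_charKer_infI hf χ.1)))⟩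
    exact le_trans (Nat.card_le_card_of_injective F
      fun χ ψ e => Subtype.ext (infI_injective hf (congrArg Subtype.val e))) hk

theorem isCyclic_of_index_frattini {P : Type*} [Group P] [Finite P] (hP : IsPGroup p P)
    (h : (frattini P).index ≤ 3) : IsCyclic P ∧ (Nontrivial P → p ≤ 3) := by
  have h0 : (frattini P).index ≠ 0 := index_ne_zero_of_finite
  constructor
  · rw [Solv.isCyclic_iff_isCyclic_quotient_frattini]
    have h1 : Nat.card (P ⧸ frattini P) = 1 ∨ Nat.card (P ⧸ frattini P) = 2 ∨
        Nat.card (P ⧸ frattini P) = 3 := by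
      rw [← index_eq_card]; omega
    rcases h1 with h1 | h1 | h1
    · have := (Nat.card_eq_one_iff_unique.1 h1).1
      exact isCyclic_of_subsingleton
    · have : Fact (Nat.Prime 2) := ⟨Nat.prime_two⟩
      exact isCyclic_of_prime_card h1
    · have : Fact (Nat.Prime 3) := ⟨Nat.prime_three⟩
      exact isCyclic_of_prime_card h1
  · intro hP1
    obtain ⟨n, hn⟩ := hP.index (frattini P)
    rcases n with _ | n
    · rw [pow_zero, index_eq_one] at hn
      have := frattini_nongenerating (K := (⊥ : Subgroup P)) (by rw [hn, bot_sup_eq])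
      exact absurd this bot_ne_top
    · exact (Nat.le_of_dvd (Nat.pos_of_ne_zero h0) (hn ▸ dvd_pow_self p n.succ_ne_zero)).trans h

theorem card_eq_three_of_isCyclic (hM : IsPModular p M) (hB : IsPBlock M B)
    (hD : IsDefectGroup p M B D) [IsCyclic D] (hp3 : Nontrivial D → p ≤ 3)
    (hk : Nat.card B = 3) : Nat.card D = 3 := by
  have h0 : D ≠ ⊥ := fun h => by
    rw [card_eq_one_of_defect_zero hM hB ((blockDefect_eq_zero_iff hM hB hD).2 h)] at hk
    omega
  obtain ⟨h1, h2⟩ := CD.blockRank_dvd_and_card hM hB hD h0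
  have h3 := hp3 ((nontrivial_iff_ne_bot D).2 h0)
  have h4 := hp.out.two_le
  have h5 : blockRank p B ≤ 2 := (Nat.le_of_dvd (by omega) h1).trans (by omega)
  have hl2 := blockRank_pos hM.1 (isPBlock_nonempty hM hB)
  rw [hk] at h2
  have h6 : blockRank p B = 1 ∨ blockRank p B = 2 := by omega
  rcases h6 with h6 | h6
  · rw [h6] at h2
    omega
  · rw [h6] at h2 h1
    have h7 : p = 3 := by omega
    have h8 : p ∣ Nat.card D :=
      ((defect_isPGroup hD).card_eq_or_dvd).resolve_left (by rwa [card_eq_one])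
    rw [h7] at h8
    omega

end Cfsg.Lib.Block.KThree
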