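import Cfsg.Agent.Char.Cyclo
import Cfsg.Agent.Char.Galois
import Cfsg.Agent.Char.Extension
import Cfsg.Agent.Block.PPart
import Cfsg.Agent.Block.PrincBasic
import Cfsg.Agent.S0876

/-! Knörr's criterion for the `k(GV)` problem. -/

open scoped ComplexConjugate
open Cfsg Cfsg.Lib.Char Cfsg.Lib.Block.Loc Subgroup

namespace Cfsg.Lib.Block.Kgv

section Cyc

theorem isIntegral_conj {z : ℂ} (h : IsIntegral ℤ z) : IsIntegral ℤ (conj z) :=
  h.map (starRingEnd ℂ).toIntAlgHom

theorem cyc_mono {m n : ℕ} (h : m ∣ n) : cycField m ≤ cycField n := by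
  refine IntermediateField.adjoin.mono _ _ _ fun z hz => ?_
  obtain ⟨c, rfl⟩ := h
  change z ^ (m * c) = 1
  rw [pow_mul, hz, one_pow]

theorem conj_eq_inv_of_pow {n : ℕ} (hn : n ≠ 0) {z : ℂ} (hz : z ^ n = 1) : conj z = z⁻¹ :=
  (Complex.inv_eq_conj (Complex.norm_eq_one_of_pow_eq_one hz hn)).symm

theorem cyc_conj {n : ℕ} (hn : n ≠ 0) {z : ℂ} (hz : z ∈ cycField n) :
    ∃ w : cycField n, (w : ℂ) = conj z ∧ ∀ φ : cycField n →+* ℂ, φ w = conj (φ ⟨z, hz⟩) := by
  induction hz using IntermediateField.adjoin_induction with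
  | mem x hx =>
    refine ⟨(⟨x, mem_cycField_of_pow_eq_one hx⟩ : cycField n)⁻¹,
      (conj_eq_inv_of_pow hn hx).symm, fun φ => ?_⟩
    refine (map_inv₀ φ _).trans (conj_eq_inv_of_pow hn ?_).symm
    have h1 : (⟨x, mem_cycField_of_pow_eq_one hx⟩ : cycField n) ^ n = 1 := Subtype.ext hx
    exact (map_pow φ _ n).symm.trans ((congrArg φ h1).trans (map_one φ))
  | algebraMap q =>
    refine ⟨(q : cycField n), by simp, fun φ => ?_⟩
    have h2 : ∀ (x : ℂ) (h : x ∈ cycField n), x = algebraMap ℚ ℂ q → φ ⟨x, h⟩ = q := by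
      rintro _ h rfl
      exact (congrArg φ (Subtype.ext (by simp))).trans (map_ratCast φ q)
    exact (map_ratCast φ q).trans
      ((map_ratCast (starRingEnd ℂ) q).symm.trans (congrArg conj (h2 _ _ rfl).symm))
  | add x y hx hy ihx ihy =>
    obtain ⟨a, h1, h2⟩ := ihx
    obtain ⟨b, h3, h4⟩ := ihy
    refine ⟨a + b, by rw [map_add, ← h1, ← h3]; rfl, fun φ => ?_⟩
    rw [map_add, h2, h4, ← map_add conj]
    exact congrArg conj (map_add φ ⟨x, hx⟩ ⟨y, hy⟩).symm
  | inv x hx ihx =>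
    obtain ⟨a, h1, h2⟩ := ihx
    refine ⟨a⁻¹, by rw [map_inv₀, ← h1]; rfl, fun φ => ?_⟩
    rw [map_inv₀, h2, ← map_inv₀ conj]
    exact congrArg conj (map_inv₀ φ ⟨x, hx⟩).symm
  | mul x y hx hy ihx ihy =>
    obtain ⟨a, h1, h2⟩ := ihx
    obtain ⟨b, h3, h4⟩ := ihy
    refine ⟨a * b, by rw [map_mul, ← h1, ← h3]; rfl, fun φ => ?_⟩
    rw [map_mul, h2, h4, ← map_mul conj]
    exact congrArg conj (map_mul φ ⟨x, hx⟩ ⟨y, hy⟩).symm

theorem conj_mem_cyc {n : ℕ} (hn : n ≠ 0) {z : ℂ} (hz : z ∈ cycField n) :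
    conj z ∈ cycField n := by
  obtain ⟨w, hw, -⟩ := cyc_conj hn hz
  exact hw ▸ w.2

/-- Nonzero cyclotomic integers have average norm at least one. -/
theorem card_le_of_cyc {n : ℕ} (hn : n ≠ 0) {ι : Type*} [Fintype ι] (a : ι → ℂ)
    (hm : ∀ i, a i ∈ cycField n) (hi : ∀ i, IsIntegral ℤ (a i)) (h0 : ∀ i, a i ≠ 0) {r : ℚ}
    (h : ∑ i, a i * conj (a i) = r) : (Fintype.card ι : ℚ) ≤ r := by
  have := numberField_cycField hn
  have h1 : ∀ φ : cycField n →+* ℂ, ∑ i, ‖φ ⟨a i, hm i⟩‖ ^ 2 = (r : ℝ) := by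
    intro φ
    choose w hw hw' using fun i => cyc_conj hn (hm i)
    have h2 : (∑ i, (⟨a i, hm i⟩ * w i : cycField n)) =
        (r : cycField n) := Subtype.ext (by simpa [hw] using h)
    have h3 := congrArg φ h2
    rw [map_sum, map_ratCast] at h3
    apply Complex.ofReal_injective
    push_cast
    rw [← h3]
    refine Finset.sum_congr rfl fun i _ => ?_
    rw [map_mul, hw', Complex.mul_conj, Complex.normSq_eq_norm_sq]
    push_cast
    rfl
  have h4 : ∀ i, (Fintype.card (cycField n →+* ℂ) : ℝ) ≤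
      ∑ φ : cycField n →+* ℂ, ‖φ ⟨a i, hm i⟩‖ ^ 2 := fun i =>
    card_le_sum_norm_sq_embedding (fun h => h0 i (congrArg Subtype.val h))
      ((isIntegral_algHom_iff (cycField n).val.toRingHom.toIntAlgHom Subtype.val_injective).1 (hi i))
  have h5 := Finset.sum_le_sum fun i (_ : i ∈ Finset.univ) => h4 i
  rw [Finset.sum_comm] at h5
  simp only [h1, Finset.sum_const, Finset.card_univ, nsmul_eq_mul] at h5
  have h6 : (0 : ℝ) < Fintype.card (cycField n →+* ℂ) := by
    have : Nonempty (cycField n →+* ℂ) := ⟨(cycField n).val.toRingHom⟩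
    exact_mod_cast Fintype.card_pos
  rw [mul_comm] at h5
  exact_mod_cast le_of_mul_le_mul_left h5 h6

end Cyc

section IS

variable {H : Type*} [Group H] [Fintype H]

/-- Combinations of characters with algebraic integer coefficients. -/
def IS (θ : H → ℂ) : Prop :=
  IsClassFunction H θ ∧ ∀ χ : IrrCharacter H, IsIntegral ℤ (classInner θ (χ : H → ℂ))

variable {θ φ : H → ℂ}

theorem IS.of_gen (h : IsGeneralizedCharacter H θ) : IS θ :=
  ⟨h.isClassFunction, fun χ => by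
    obtain ⟨n, hn⟩ := h.exists_int_classInner χ.2.isGeneralizedCharacter
    rw [hn]; exact isIntegral_algebraMap (x := n)⟩

theorem IS.add (h : IS θ) (h' : IS φ) : IS (θ + φ) :=
  ⟨h.1.add h'.1, fun χ => by rw [classInner_add_left]; exact (h.2 χ).add (h'.2 χ)⟩

theorem IS.smul (h : IS θ) {c : ℂ} (hc : IsIntegral ℤ c) : IS (c • θ) :=
  ⟨h.1.smul c, fun χ => by rw [classInner_smul_left]; exact hc.mul (h.2 χ)⟩

theorem IS.sum {ι : Type*} (s : Finset ι) {f : ι → H → ℂ} (h : ∀ i ∈ s, IS (f i)) :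
    IS (∑ i ∈ s, f i) :=
  Finset.sum_induction f IS (fun _ _ => IS.add) (IS.of_gen isGeneralizedCharacter_zero) h

theorem IS.of_irr {K : Type*} [Group K] [Fintype K] (h : IS θ) (T : (H → ℂ) →ₗ[ℂ] (K → ℂ))
    (hT : ∀ χ : IrrCharacter H, IS (T χ)) : IS (T θ) := by
  rw [h.1.eq_sum_irr, map_sum]
  exact IS.sum _ fun χ _ => by rw [map_smul]; exact (hT χ).smul (h.2 χ)

theorem IS.mul (h : IS θ) (h' : IS φ) : IS (θ * φ) :=
  h.of_irr (LinearMap.mulRight ℂ φ) fun χ => h'.of_irr (LinearMap.mulLeft ℂ (χ : H → ℂ)) fun ψ =>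
    IS.of_gen (χ.2.isGeneralizedCharacter.mul ψ.2.isGeneralizedCharacter)

theorem IS.comp {K : Type*} [Group K] [Fintype K] (h : IS θ) (f : K →* H) :
    IS fun k => θ (f k) :=
  h.of_irr (LinearMap.funLeft ℂ ℂ f) fun χ => IS.of_gen (χ.2.isGeneralizedCharacter.comp f)

theorem IS.translate (h : IS θ) {z : H} (hz : z ∈ center H) : IS fun g => θ (z * g) :=
  h.of_irr (LinearMap.funLeft ℂ ℂ fun g => z * g) fun χ => by
    have h1 : (LinearMap.funLeft ℂ ℂ fun g => z * g) (χ : H → ℂ) =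
        ((χ : H → ℂ) z / (χ : H → ℂ) 1) • (χ : H → ℂ) := funext fun g => irr_mul_center χ.2 hz g
    rw [h1]
    refine (IS.of_gen χ.2.isGeneralizedCharacter).smul ?_
    have h2 := irr_isIntegral_index_mul_div χ.2 z
    have h3 : centralizer ({z} : Set H) = ⊤ := by
      rw [eq_top_iff]
      exact fun x _ => mem_centralizer_singleton_iff.2 (mem_center_iff.1 hz x)
    rwa [h3, index_top, Nat.cast_one, one_mul] at h2

theorem IS.isIntegral (h : IS θ) (g : H) : IsIntegral ℤ (θ g) := by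
  rw [h.1.apply_eq_sum_irr]
  exact IsIntegral.sum _ fun χ _ => (h.2 χ).mul (χ.2.isGeneralizedCharacter.isIntegral g)

theorem IS.conj (h : IS θ) : IS fun g => conj (θ g) :=
  ⟨h.1.conj, fun χ => by
    have h1 := classInner_conj_conj θ fun g => conj ((χ : H → ℂ) g)
    simp only [Complex.conj_conj] at h1
    rw [h1, ← conj_classInner]
    exact isIntegral_conj (h.2 ⟨_, χ.2.conj⟩)⟩

theorem IS.inner (h : IS θ) (h' : IS φ) : IsIntegral ℤ (classInner θ φ) := by
  rw [h.1.classInner_eq_sum_irr]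
  exact IsIntegral.sum _ fun χ _ => (h.2 χ).mul (by
    rw [← conj_classInner]; exact isIntegral_conj (h'.2 χ))

omit [Fintype H] in
open Polynomial in
theorem gen_aeval (h : IsGeneralizedCharacter H θ) (P : ℤ[X]) :
    IsGeneralizedCharacter H fun g => aeval (θ g) P := by
  induction P using Polynomial.induction_on with
  | C a =>
    have := isCharacter_one.isGeneralizedCharacter.intCast_smul (G := H) a
    convert this using 1
    ext g
    simp
  | add p q hp hq =>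
    convert hp.add hq using 1
    ext g
    simp
  | monomial n a ih =>
    convert ih.mul h using 1
    ext g
    simp [pow_succ, mul_assoc]

open Polynomial in
/-- Division by a `p`-power valued generalized character of a `p'`-group. -/
theorem IS.of_mul {p : ℕ} (hp : p.Prime) (hH : ¬ p ∣ Nat.card H) {π : H → ℕ}
    (hπ : IsGeneralizedCharacter H fun g => (π g : ℂ)) (hπp : ∀ g, ∃ k, π g = p ^ k)
    (hθ : ∀ g, IsIntegral ℤ (θ g)) (hφ : IS φ) (h : ∀ g, θ g * π g = φ g) : IS θ := by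
  have hπ0 : ∀ g, (π g : ℂ) ≠ 0 := fun g => by
    obtain ⟨k, hk⟩ := hπp g
    rw [hk]
    exact_mod_cast pow_ne_zero k hp.ne_zero
  choose k hk using hπp
  let P : ℤ[X] := ∏ g : H, (C (π g : ℤ) - X)
  have hP0 : P.coeff 0 = ((p ^ ∑ g, k g : ℕ) : ℤ) := by
    rw [coeff_zero_eq_eval_zero, eval_prod, ← Finset.prod_pow_eq_pow_sum]
    simp [hk]
  have hP : ∀ g, ((p ^ ∑ g, k g : ℕ) : ℂ) * θ g = φ g * aeval (π g : ℂ) (-P.divX) := by
    intro g
    have h1 : aeval (π g : ℂ) P = 0 := by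
      rw [map_prod]
      exact Finset.prod_eq_zero (Finset.mem_univ g) (by simp)
    rw [← divX_mul_X_add P, hP0, map_add, map_mul, aeval_X, aeval_C, algebraMap_int_eq,
      eq_intCast, Int.cast_natCast] at h1
    rw [← h, map_neg]
    linear_combination θ g * h1
  have h2 : IS (((p ^ ∑ g, k g : ℕ) : ℂ) • θ) := by
    convert hφ.mul (IS.of_gen (gen_aeval hπ (-P.divX))) using 1
    exact funext hP
  refine ⟨fun g x => mul_right_cancel₀ (hπ0 g) ?_, fun χ => ?_⟩
  · have h3 : (π (x * g * x⁻¹) : ℂ) = π g := hπ.isClassFunction g x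
    rw [h g, ← h3, h, hφ.1 g x]
  · have h3 := h2.2 χ
    rw [classInner_smul_left] at h3
    have h4 : IsIntegral ℤ ((Nat.card H : ℂ) * classInner θ χ) := by
      rw [card_mul_classInner]
      exact IsIntegral.sum _ fun g _ =>
        (hθ g).mul (isIntegral_conj (χ.2.isGeneralizedCharacter.isIntegral g))
    obtain ⟨a, b, hab⟩ := Nat.isCoprime_iff_coprime.2
      (((Nat.Prime.coprime_iff_not_dvd hp).2 hH).pow_left (∑ g, k g))
    have h5 := ((isIntegral_algebraMap (R := ℤ) (A := ℂ) (x := a)).mul h3).add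
      ((isIntegral_algebraMap (R := ℤ) (A := ℂ) (x := b)).mul h4)
    have h6 : (a : ℂ) * ((p ^ ∑ g, k g : ℕ) : ℂ) + b * (Nat.card H : ℂ) = 1 := by
      exact_mod_cast congrArg (Int.cast : ℤ → ℂ) hab
    simp only [algebraMap_int_eq, eq_intCast] at h5
    have h7 : classInner θ χ = a * (((p ^ ∑ g, k g : ℕ) : ℂ) * classInner θ χ) +
        b * ((Nat.card H : ℂ) * classInner θ χ) := by
      linear_combination -(classInner θ χ) * h6
    rw [h7]
    exact h5

end IS

section Sq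

variable {H : Type*} [Group H] [Fintype H] {p : ℕ} {M : Ideal AlgInt} {n : ℕ}

/-- `ψ` is a square root of `d`. -/
structure Sq (M : Ideal AlgInt) (n : ℕ) (d : H → ℕ) (ψ : H → ℂ) : Prop where
  is : IS ψ
  cyc : ∀ h, ψ h ∈ cycField n
  norm : ∀ h, ψ h * conj (ψ h) = d h
  ideal : ∀ h, d h ≠ 1 → MemLocalIdeal M (ψ h)

theorem sq_one (M : Ideal AlgInt) (n : ℕ) : Sq M n (fun _ : H => 1) (fun _ => 1) :=
  ⟨IS.of_gen isCharacter_one.isGeneralizedCharacter, fun _ => one_mem _, fun _ => by simp,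
    fun _ h => absurd rfl h⟩

theorem Sq.mul (hM : IsPModular p M) {d e : H → ℕ} {ψ φ : H → ℂ} (h : Sq M n d ψ)
    (h' : Sq M n e φ) : Sq M n (d * e) (ψ * φ) := by
  refine ⟨h.is.mul h'.is, fun g => mul_mem (h.cyc g) (h'.cyc g), fun g => ?_, fun g hg => ?_⟩
  · simp only [Pi.mul_apply, map_mul, Nat.cast_mul, ← h.norm g, ← h'.norm g]
    ring
  · by_cases h1 : d g = 1
    · refine ideal_mul_left hM (ring_of_isIntegral hM (h.is.isIntegral g)) (h'.ideal g fun h2 => ?_)
      exact hg (by rw [Pi.mul_apply, h1, h2])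
    · exact ideal_mul_right hM (h.ideal g h1) (ring_of_isIntegral hM (h'.is.isIntegral g))

end Sq

section Main

variable {X : Type*} [Group X] [Finite X] {p : ℕ} {V G : Subgroup X} [hV : V.Normal] {v : X}

omit [Finite X] in
theorem exists_pow_order (hp : p.Prime) (hv : v ^ p = 1) : ∃ k, orderOf v = p ^ k := by
  rcases (Nat.dvd_prime hp).1 (orderOf_dvd_of_pow_eq_one hv) with h | h
  · exact ⟨0, by rw [h, pow_zero]⟩
  · exact ⟨1, by rw [h, pow_one]⟩

omit [Finite X] in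
theorem card_conj_eq (hp : p.Prime) (hcomm : ∀ a ∈ V, ∀ b ∈ V, a * b = b * a)
    (hGV : IsComplement' V G) (hG : ¬ p ∣ Nat.card G) (hv : v ∈ V) (hvp : v ^ p = 1)
    {H : Subgroup X} (hH : ∀ x, x ∈ H ↔ x ∈ G ∧ x * v = v * x) (h h' : H) :
    Nat.card {y : X // y * (v * h) * y⁻¹ = v * h'} =
      Nat.card {k : H // k * h * k⁻¹ = h'} *
        Nat.card (V ⊓ centralizer ({(h' : X)} : Set X) : Subgroup X) := by
  rw [← Nat.card_prod]
  have hc : ∀ k : H, (k : X) * v = v * k := fun k => ((hH k).1 k.2).2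
  have hm : ∀ k : H, (k : X) ∈ G := fun k => ((hH k).1 k.2).1
  have hpp : ∀ k : H, IsPPart p (v * k) v := fun k =>
    isPPart_mul (hc k).symm (exists_pow_order hp hvp) fun h1 =>
      hG (h1.trans (Subgroup.orderOf_dvd_natCard G (hm k)))
  have huniq : ∀ w ∈ V, ∀ a ∈ G, ∀ b ∈ G, w * a = b → a = b := fun w hw a ha b hb h1 => by
    have h2 : b * a⁻¹ = 1 := (disjoint_def.1 hGV.disjoint)
      (by rw [← h1, mul_inv_cancel_right]; exact hw) (G.mul_mem hb (G.inv_mem ha))
    exact (mul_inv_eq_one.1 h2).symm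
  symm
  refine Nat.card_congr (Equiv.ofBijective (fun x => ⟨(x.2 : X) * x.1.1, ?_⟩) ⟨?_, ?_⟩)
  · have h1 : ((x.1.1 : X) * h * (x.1.1 : X)⁻¹) = h' := congrArg Subtype.val x.1.2
    have h2 : (x.2 : X) * h' = h' * x.2 := mem_centralizer_singleton_iff.1 x.2.2.2
    have h3 := hcomm _ x.2.2.1 _ hv
    calc (x.2 : X) * x.1.1 * (v * h) * ((x.2 : X) * x.1.1)⁻¹
        = x.2 * (x.1.1 * v) * h * (x.1.1 : X)⁻¹ * (x.2 : X)⁻¹ := by group
      _ = (x.2 * v) * (x.1.1 * h * (x.1.1 : X)⁻¹) * (x.2 : X)⁻¹ := by rw [hc]; group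
      _ = v * (x.2 * h') * (x.2 : X)⁻¹ := by rw [h1, h3]; group
      _ = v * h' := by rw [h2]; group
  · rintro ⟨⟨k, hk⟩, w⟩ ⟨⟨k', hk'⟩, w'⟩ h1
    have h2 : (w : X) * k = w' * k' := congrArg Subtype.val h1
    have h3 : (k : X) = k' := huniq ((w' : X)⁻¹ * w) (V.mul_mem (V.inv_mem w'.2.1) w.2.1) _ (hm k)
      _ (hm k') (by rw [mul_assoc, h2, inv_mul_cancel_left])
    rw [h3, mul_left_inj] at h2
    exact Prod.ext (Subtype.ext (Subtype.ext h3)) (Subtype.ext h2)
  · rintro ⟨y, hy⟩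
    obtain ⟨⟨w, k⟩, rfl⟩ := hGV.2 y
    dsimp only at hy
    have h1 := IsPPart_conj hp (hpp h) ((w : X) * k)
    rw [hy] at h1
    have h2 := IsPPart_unique hp h1 (hpp h')
    have h3 : (k : X) * v = v * k := by
      have h4 : (k : X) * v * (k : X)⁻¹ = v := by
        have h5 := hcomm _ w.2 _ hv
        calc (k : X) * v * (k : X)⁻¹ = (w : X)⁻¹ * ((w : X) * k * v * ((w : X) * k)⁻¹) * w := by
              group
          _ = (w : X)⁻¹ * (w * v) := by rw [h2, h5]; group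
          _ = v := by group
      exact mul_inv_eq_iff_eq_mul.1 h4
    have h6 : (w : X) * (k * h * (k : X)⁻¹) * (w : X)⁻¹ = h' := by
      apply mul_left_cancel (a := v)
      rw [← hy]
      nth_rewrite 1 [← h2]
      group
    have h7 : (k : X) * h * (k : X)⁻¹ ∈ G := G.mul_mem (G.mul_mem k.2 (hm h)) (G.inv_mem k.2)
    have h8 : (k : X) * h * (k : X)⁻¹ = h' :=
      huniq (w * (((k : X) * h * (k : X)⁻¹) * (w : X)⁻¹ * ((k : X) * h * (k : X)⁻¹)⁻¹))
        (V.mul_mem w.2 (hV.conj_mem _ (V.inv_mem w.2) _)) _ h7 _ (hm h') (by rw [← h6]; group)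
    rw [h8] at h6
    exact ⟨⟨⟨⟨k, (hH k).2 ⟨k.2, h3⟩⟩, Subtype.ext h8⟩,
      ⟨w, w.2, mem_centralizer_singleton_iff.2 (mul_inv_eq_iff_eq_mul.1 h6)⟩⟩, rfl⟩

theorem sum_mul_card_conj {H : Type*} [Group H] [Fintype H] {ψ : H → ℂ}
    (hψ : IsClassFunction H ψ) (h' : H) :
    ∑ h, ψ h * (Nat.card {k : H // k * h * k⁻¹ = h'} : ℂ) = Nat.card H * ψ h' := by
  classical
  have h1 : ∀ h, (Nat.card {k : H // k * h * k⁻¹ = h'} : ℂ) =
      ∑ k : H, if h = k⁻¹ * h' * k then 1 else 0 := fun h => by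
    rw [Finset.sum_boole, Nat.subtype_card (Finset.univ.filter fun k => h = k⁻¹ * h' * k)]
    intro k
    simp only [Finset.mem_filter, Finset.mem_univ, true_and]
    constructor
    · rintro rfl; group
    · rintro rfl; group
  simp only [h1, Finset.mul_sum, mul_ite, mul_one, mul_zero]
  rw [Finset.sum_comm]
  simp [hψ.apply_conj']

theorem card_conjClasses_le {M : Ideal AlgInt} (hM : IsPModular p M)
    (hcomm : ∀ a ∈ V, ∀ b ∈ V, a * b = b * a) (hGV : IsComplement' V G) (hG : ¬ p ∣ Nat.card G)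
    (hv : v ∈ V) (hvp : v ^ p = 1) {H : Subgroup X} (hH : ∀ x, x ∈ H ↔ x ∈ G ∧ x * v = v * x)
    [Fintype H] {n : ℕ} (hn : n ≠ 0) {d : H → ℕ} {ψ : H → ℂ} (hψ : Sq M n d ψ) (hd1 : d 1 = 1)
    (hd : ∀ h, h ≠ 1 → d h ≠ 1)
    (hle : ∀ h, d h * Nat.card (V ⊓ centralizer ({(h : X)} : Set X) : Subgroup X) ≤ Nat.card V) :
    Nat.card (ConjClasses X) ≤ Nat.card V := by
  classical
  have hp := hM.1
  have := Fintype.ofFinite X
  have hX : Nat.card X ≠ 0 := Nat.card_pos.ne'
  have hH0 : (Nat.card H : ℂ) ≠ 0 := card_ne_zero H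
  have hHp : ¬ p ∣ Nat.card H := fun h => hG (h.trans (card_dvd_of_le fun x hx => ((hH x).1 hx).1))
  let a : IrrCharacter X → ℂ := fun χ => classInner ψ fun h : H => (χ : X → ℂ) (v * h)
  have ha : ∀ χ, a χ = (Nat.card H : ℂ)⁻¹ * ∑ h : H, ψ h * conj ((χ : X → ℂ) (v * h)) :=
    fun χ => rfl
  have hn' : n * Nat.card X ≠ 0 := mul_ne_zero hn hX
  have h1 : ∀ χ, a χ ∈ cycField (n * Nat.card X) := fun χ =>
    mul_mem (inv_mem (natCast_mem _ _)) (sum_mem fun h _ => mul_mem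
      (cyc_mono (dvd_mul_right _ _) (hψ.cyc h)) (conj_mem_cyc hn' (cyc_mono (dvd_mul_left _ _)
        (char_mem_cycField χ.2.isCharacter hX pow_card_eq_one'))))
  have h2 : ∀ χ, IsIntegral ℤ (a χ) := fun χ => by
    let C := centralizer ({v} : Set X)
    have hvC : v ∈ C := mem_centralizer_singleton_iff.2 rfl
    have hz : (⟨v, hvC⟩ : C) ∈ center C :=
      mem_center_iff.2 fun g => Subtype.ext (mem_centralizer_singleton_iff.1 g.2)
    exact hψ.is.inner (((IS.of_gen (χ.2.isGeneralizedCharacter.res C)).translate hz).comp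
      (inclusion (fun x hx => mem_centralizer_singleton_iff.2 ((hH x).1 hx).2 : H ≤ C)))
  have h3 : ∀ χ, a χ ≠ 0 := fun χ => by
    refine ne_zero_of_not_ideal hM ?_
    have hint : ∀ g, MemLocalRing M (conj ((χ : X → ℂ) g)) := fun g =>
      ring_of_isIntegral hM (isIntegral_conj (χ.2.isGeneralizedCharacter.isIntegral g))
    have hψ1 := hψ.is.isIntegral 1
    rw [ha, ideal_mul_unit_iff hM (ring_inv_natCast hM hHp) (not_ideal_inv hM (ring_natCast hM _)
      fun h => hHp ((ideal_natCast_iff hM _).1 h)), ← Finset.add_sum_erase _ _ (Finset.mem_univ 1)]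
    have h4 : MemLocalIdeal M (∑ h ∈ Finset.univ.erase (1 : H),
        ψ h * conj ((χ : X → ℂ) (v * h))) := ideal_sum hM _ fun h hh =>
      ideal_mul_right hM (hψ.ideal h (hd h (Finset.ne_of_mem_erase hh))) (hint _)
    intro h5
    have h6 := ideal_sub hM h5 h4
    rw [add_sub_cancel_right] at h6
    rcases ideal_or_ideal_of_mul hM (ring_of_isIntegral hM hψ1) h6 with h7 | h7
    · have h8 := ideal_mul_right hM h7 (ring_of_isIntegral hM (isIntegral_conj hψ1))
      rw [hψ.norm, hd1, Nat.cast_one] at h8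
      exact not_ideal_one hM h8
    · obtain ⟨k, hk⟩ := exists_pow_order hp (show v⁻¹ ^ p = 1 by rw [inv_pow, hvp, inv_one])
      have h8 := Cfsg.Agent.S0876.ideal_char_sub_pRegular hM χ.2.isCharacter
        (Commute.one_right v⁻¹) hk (by simpa using hp.ne_one)
      rw [OneMemClass.coe_one, mul_one, ← χ.2.isCharacter.apply_inv] at h7
      rw [mul_one] at h8
      have h9 := (ideal_iff_of_sub hM h8).1 h7
      obtain ⟨c, hc⟩ := χ.2.isCharacter.exists_nat_degree
      rw [hc, ideal_natCast_iff hM] at h9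
      have h10 := h9.trans (irr_degree_dvd_index_of_comm χ.2 hc V hcomm)
      rw [hGV.symm.index_eq_card] at h10
      exact hG h10
  let c : H → ℕ := fun h => Nat.card (V ⊓ centralizer ({(h : X)} : Set X) : Subgroup X)
  have h4 : ∑ χ, a χ * conj (a χ) =
      (((Nat.card H : ℚ)⁻¹ * ∑ h, (d h * c h : ℕ) : ℚ) : ℂ) := by
    have h5 : ∀ χ, a χ * conj (a χ) = (Nat.card H : ℂ)⁻¹ * (Nat.card H : ℂ)⁻¹ *
        ∑ h' : H, ∑ h : H, ψ h * conj (ψ h') *
          ((χ : X → ℂ) (v * h') * conj ((χ : X → ℂ) (v * h))) := fun χ => by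
      rw [ha]
      simp only [map_mul, map_inv₀, map_natCast, map_sum, Complex.conj_conj]
      rw [mul_mul_mul_comm, Finset.sum_mul_sum, Finset.sum_comm]
      congr 1
      exact Finset.sum_congr rfl fun _ _ => Finset.sum_congr rfl fun _ _ => by ring
    simp only [h5]
    rw [← Finset.mul_sum, Finset.sum_comm]
    have h6 : ∀ h' : H, ∑ χ : IrrCharacter X, ∑ h : H, ψ h * conj (ψ h') *
        ((χ : X → ℂ) (v * h') * conj ((χ : X → ℂ) (v * h))) =
          Nat.card H * ((d h' * c h' : ℕ) : ℂ) := fun h' => by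
      rw [Finset.sum_comm]
      simp only [← Finset.mul_sum, sum_irr_mul_conj, card_conj_eq hp hcomm hGV hG hv hvp hH]
      have h7 := sum_mul_card_conj hψ.is.1 h'
      have h8 := hψ.norm h'
      push_cast
      rw [← h8]
      calc _ = (∑ h, ψ h * (Nat.card {k : H // k * h * k⁻¹ = h'} : ℂ)) * (conj (ψ h') * c h') := by
            rw [Finset.sum_mul]
            exact Finset.sum_congr rfl fun _ _ => by ring
        _ = _ := by rw [h7]; ring
    simp only [h6]
    rw [← Finset.mul_sum]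
    push_cast
    field_simp
  have h5 := card_le_of_cyc hn' a h1 h2 h3 h4
  rw [← card_irr_eq_card_conjClasses, Nat.card_eq_fintype_card]
  have h6 : ((∑ h, (d h * c h : ℕ) : ℕ) : ℚ) ≤ Nat.card H * Nat.card V := by
    have := Finset.sum_le_card_nsmul Finset.univ (fun h => d h * c h) _ fun h _ => hle h
    rw [Finset.card_univ, smul_eq_mul, ← Nat.card_eq_fintype_card] at this
    exact_mod_cast this
  have h7 : (0 : ℚ) < Nat.card H := by exact_mod_cast Nat.card_pos
  have h8 : (Nat.card H : ℚ)⁻¹ * ((∑ h, (d h * c h : ℕ) : ℕ) : ℚ) ≤ Nat.card V := by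
    rw [inv_mul_le_iff₀ h7]; exact h6
  push_cast at h5 h8
  exact_mod_cast h5.trans h8

end Main

end Cfsg.Lib.Block.Kgv
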