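import Cfsg.Agent.Solv.HallHigmanRep
import Mathlib.LinearAlgebra.BilinearForm.Orthogonal
import Mathlib.LinearAlgebra.Matrix.BilinearForm
import Mathlib.FieldTheory.Finite.Basic
import Mathlib.RingTheory.Trace.Basic
import Mathlib.RingTheory.IntegralDomain

/-! Self-dual coprime modules: splitting into a symplectic and an orthogonal part, and the field
attached to an irreducible module of an abelian group. -/

open Module Cfsg.Lib.Solv.HH

namespace Cfsg.Lib.Block.Kgv

section Split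

variable {F : Type*} [Field F] {G : Type*} [Group G]
variable {V : Type*} [AddCommGroup V] [Module F V]

theorem exists_inv_compl [Finite G] (hG : (Nat.card G : F) ≠ 0) (ρ : G →* End F V)
    {U : Submodule F V} (hU : Inv ρ U) : ∃ W, IsCompl U W ∧ Inv ρ W := by
  obtain ⟨π, h1, h2⟩ := exists_leftInverse hG (res ρ U hU) ρ (h := U.subtype)
    U.injective_subtype (fun _ _ => rfl)
  refine ⟨LinearMap.ker π, LinearMap.isCompl_of_proj h1, fun g w hw => ?_⟩
  rw [LinearMap.mem_ker] at hw ⊢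
  rw [h2, hw, map_zero]

theorem exists_proj {U W : Submodule F V} (h : Disjoint U W) :
    ∃ π : V →ₗ[F] V, (∀ u ∈ U, π u = u) ∧ ∀ w ∈ W, π w = 0 := by
  obtain ⟨C, hWC, hC⟩ := h.symm.exists_isCompl
  refine ⟨U.subtype ∘ₗ U.projectionOnto C hC.symm, fun u hu => ?_, fun w hw => ?_⟩
  · simpa using congrArg Subtype.val (Submodule.projectionOnto_apply_left hC.symm ⟨u, hu⟩)
  · simpa using congrArg Subtype.val (Submodule.projectionOnto_apply_right hC.symm ⟨w, hWC hw⟩)

/-- `A` is invariant and nondegenerate on `U`. -/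
structure Nd (ρ : G →* End F V) (U : Submodule F V) (A : LinearMap.BilinForm F V) : Prop where
  inv : ∀ g : G, ∀ x ∈ U, ∀ y ∈ U, A (ρ g x) (ρ g y) = A x y
  nd : ∀ x ∈ U, (∀ y ∈ U, A x y = 0) → x = 0

theorem nd_bot (ρ : G →* End F V) : Nd ρ ⊥ 0 :=
  ⟨fun _ _ _ _ _ => rfl, fun _ hx _ => hx⟩

theorem Inv.sup {ρ : G →* End F V} {U W : Submodule F V} (hU : Inv ρ U) (hW : Inv ρ W) :
    Inv ρ (U ⊔ W) := fun g x hx => by
  obtain ⟨a, ha, b, hb, rfl⟩ := Submodule.mem_sup.1 hx
  rw [map_add]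
  exact Submodule.add_mem_sup (hU g a ha) (hW g b hb)

theorem Nd.sup {ρ : G →* End F V} {U W : Submodule F V} (hU : Inv ρ U) (hW : Inv ρ W)
    (h : Disjoint U W) {A A' : LinearMap.BilinForm F V} (hA : Nd ρ U A) (hA' : Nd ρ W A') :
    ∃ π π' : V →ₗ[F] V, Nd ρ (U ⊔ W) (A.comp π π + A'.comp π' π') := by
  obtain ⟨π, h1, h2⟩ := exists_proj h
  obtain ⟨π', h3, h4⟩ := exists_proj h.symm
  have key : ∀ a ∈ U, ∀ b ∈ W, ∀ c ∈ U, ∀ d ∈ W,
      (A.comp π π + A'.comp π' π') (a + b) (c + d) = A a c + A' b d := by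
    intro a ha b hb c hc d hd
    simp [h1 a ha, h1 c hc, h2 b hb, h2 d hd, h3 b hb, h3 d hd, h4 a ha, h4 c hc]
  refine ⟨π, π', fun g x hx y hy => ?_, fun x hx h0 => ?_⟩
  · obtain ⟨a, ha, b, hb, rfl⟩ := Submodule.mem_sup.1 hx
    obtain ⟨c, hc, d, hd, rfl⟩ := Submodule.mem_sup.1 hy
    rw [map_add (ρ g), map_add (ρ g), key _ (hU g a ha) _ (hW g b hb) _ (hU g c hc) _ (hW g d hd),
      key a ha b hb c hc d hd, hA.inv g a ha c hc, hA'.inv g b hb d hd]
  · obtain ⟨a, ha, b, hb, rfl⟩ := Submodule.mem_sup.1 hx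
    have ha0 : a = 0 := hA.nd a ha fun c hc => by
      have := h0 (c + 0) (Submodule.add_mem_sup hc W.zero_mem)
      rwa [key a ha b hb c hc 0 W.zero_mem, map_zero, add_zero] at this
    have hb0 : b = 0 := hA'.nd b hb fun d hd => by
      have := h0 (0 + d) (Submodule.add_mem_sup U.zero_mem hd)
      rwa [key a ha b hb 0 U.zero_mem d hd, map_zero, zero_add] at this
    rw [ha0, hb0, add_zero]

theorem Nd.map {ρ : G →* End F V} {T : Submodule F V} (hT : Inv ρ T) {U : Submodule F T}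
    {A : LinearMap.BilinForm F T} (hA : Nd (res ρ T hT) U A) :
    ∃ r : V →ₗ[F] T, Nd ρ (U.map T.subtype) (A.comp r r) := by
  obtain ⟨C, hC⟩ := T.exists_isCompl
  have hr : ∀ t : T, T.projectionOnto C hC t = t := fun t => Submodule.projectionOnto_apply_left hC t
  refine ⟨T.projectionOnto C hC, ?_, ?_⟩
  · rintro g _ ⟨x, hx, rfl⟩ _ ⟨y, hy, rfl⟩
    have := hA.inv g x hx y hy
    simp only [Submodule.subtype_apply, LinearMap.BilinForm.comp_apply, hr]
    rw [← coe_res_apply ρ T hT, ← coe_res_apply ρ T hT, hr, hr, this]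
  · rintro _ ⟨x, hx, rfl⟩ h0
    have : x = 0 := hA.nd x hx fun y hy => by
      have := h0 y ⟨y, hy, rfl⟩
      simpa only [Submodule.subtype_apply, LinearMap.BilinForm.comp_apply, hr] using this
    rw [this, map_zero]

/-- invariant subspace with an invariant nondegenerate alternating form. -/
def Symp (ρ : G →* End F V) (U : Submodule F V) : Prop :=
  Inv ρ U ∧ ∃ A : LinearMap.BilinForm F V, (∀ x, A x x = 0) ∧ Nd ρ U A

/-- invariant subspace with an invariant nondegenerate symmetric form, trivial in char. 2. -/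
def Orth (ρ : G →* End F V) (U : Submodule F V) : Prop :=
  Inv ρ U ∧ (∃ S : LinearMap.BilinForm F V, (∀ x y, S x y = S y x) ∧ Nd ρ U S) ∧
    ((2 : F) = 0 → ∀ g, ∀ w ∈ U, ρ g w = w)

theorem symp_bot (ρ : G →* End F V) : Symp ρ ⊥ :=
  ⟨fun g w hw => by rw [(Submodule.mem_bot F).1 hw, map_zero]; exact Submodule.zero_mem _,
    0, fun _ => rfl, nd_bot ρ⟩

theorem orth_bot (ρ : G →* End F V) : Orth ρ ⊥ :=
  ⟨fun g w hw => by rw [(Submodule.mem_bot F).1 hw, map_zero]; exact Submodule.zero_mem _,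
    ⟨0, fun _ _ => rfl, nd_bot ρ⟩, fun _ g w hw => by rw [(Submodule.mem_bot F).1 hw, map_zero]⟩

theorem Symp.sup {ρ : G →* End F V} {U W : Submodule F V} (hU : Symp ρ U) (hW : Symp ρ W)
    (h : Disjoint U W) : Symp ρ (U ⊔ W) := by
  obtain ⟨hU, A, hA, hA'⟩ := hU
  obtain ⟨hW, C, hC, hC'⟩ := hW
  obtain ⟨π, π', h1⟩ := Nd.sup hU hW h hA' hC'
  exact ⟨Inv.sup hU hW, _, fun x => by simp [hA, hC], h1⟩

theorem Orth.sup {ρ : G →* End F V} {U W : Submodule F V} (hU : Orth ρ U) (hW : Orth ρ W)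
    (h : Disjoint U W) : Orth ρ (U ⊔ W) := by
  obtain ⟨hU, ⟨A, hA, hA'⟩, h2⟩ := hU
  obtain ⟨hW, ⟨C, hC, hC'⟩, h2'⟩ := hW
  obtain ⟨π, π', h1⟩ := Nd.sup hU hW h hA' hC'
  refine ⟨Inv.sup hU hW, ⟨_, fun x y => ?_, h1⟩, fun h g x hx => ?_⟩
  · simp only [LinearMap.add_apply, LinearMap.BilinForm.comp_apply]
    rw [hA, hC]
  · obtain ⟨a, ha, b, hb, rfl⟩ := Submodule.mem_sup.1 hx
    rw [map_add, h2 h g a ha, h2' h g b hb]

theorem Inv.map {ρ : G →* End F V} {T : Submodule F V} (hT : Inv ρ T) {U : Submodule F T}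
    (hU : Inv (res ρ T hT) U) : Inv ρ (U.map T.subtype) := by
  rintro g _ ⟨x, hx, rfl⟩
  exact ⟨_, hU g x hx, rfl⟩

theorem Symp.map {ρ : G →* End F V} {T : Submodule F V} (hT : Inv ρ T) {U : Submodule F T}
    (hU : Symp (res ρ T hT) U) : Symp ρ (U.map T.subtype) := by
  obtain ⟨hU, A, hA, hA'⟩ := hU
  obtain ⟨r, h1⟩ := hA'.map hT
  exact ⟨Inv.map hT hU, _, fun x => hA _, h1⟩

theorem Orth.map {ρ : G →* End F V} {T : Submodule F V} (hT : Inv ρ T) {U : Submodule F T}
    (hU : Orth (res ρ T hT) U) : Orth ρ (U.map T.subtype) := by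
  obtain ⟨hU, ⟨A, hA, hA'⟩, h2⟩ := hU
  obtain ⟨r, h1⟩ := hA'.map hT
  refine ⟨Inv.map hT hU, ⟨_, fun x y => hA _ _, h1⟩, ?_⟩
  rintro h g _ ⟨x, hx, rfl⟩
  exact congrArg Subtype.val (h2 h g x hx)

variable [FiniteDimensional F V]

theorem exists_piece [Finite G] (hG : (Nat.card G : F) ≠ 0) (ρ : G →* End F V) [Nontrivial V]
    {B : LinearMap.BilinForm F V} (hB : B.Nondegenerate)
    (hinv : ∀ g x y, B (ρ g x) (ρ g y) = B x y) :
    ∃ X T : Submodule F V, IsCompl X T ∧ X ≠ ⊥ ∧ Inv ρ T ∧ (B.restrict T).Nondegenerate ∧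
      (Symp ρ X ∨ Orth ρ X) := by
  classical
  let θ : V →ₗ[F] V := LinearMap.BilinForm.symmCompOfNondegenerate B.flip B hB
  have hθ : ∀ x y, B (θ x) y = B y x := fun x y =>
    LinearMap.BilinForm.symmCompOfNondegenerate_left_apply _ hB y x
  have hθi : Function.Injective θ := by
    rw [injective_iff_map_eq_zero]
    intro x hx
    exact hB.2 x fun y => by rw [← hθ, hx, map_zero, LinearMap.zero_apply]
  obtain ⟨U, ⟨hU0, hUi, hUθ⟩, hmin⟩ := WellFounded.has_min (wellFounded_lt (α := Submodule F V))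
    {U | U ≠ ⊥ ∧ Inv ρ U ∧ ∀ u ∈ U, θ u ∈ U} ⟨⊤, top_ne_bot, fun _ _ _ => trivial, fun _ _ => trivial⟩
  have hirr : ∀ N ≤ U, Inv ρ N → (∀ u ∈ N, θ u ∈ N) → N = ⊥ ∨ N = U := fun N hN h1 h2 => by
    by_contra h
    push Not at h
    exact hmin N ⟨h.1, h1, h2⟩ (lt_of_le_of_ne hN h.2)
  have hsurj : ∀ u ∈ U, ∃ u' ∈ U, θ u' = u := fun u hu => by
    have h1 : Function.Injective (θ.restrict hUθ) := fun a b h =>
      Subtype.ext (hθi (congrArg Subtype.val h))
    obtain ⟨u', h⟩ := LinearMap.injective_iff_surjective.1 h1 ⟨u, hu⟩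
    exact ⟨u', u'.2, congrArg Subtype.val h⟩
  have hθθ : ∀ x y, B (θ x) (θ y) = B x y := fun x y => by rw [hθ, hθ]
  have hg : ∀ g x y, B (ρ g x) y = B x (ρ g⁻¹ y) := fun g x y => by
    rw [← hinv g x, apply_inv_apply]
  have hg' : ∀ g x y, B x (ρ g y) = B (ρ g⁻¹ x) y := fun g x y => by
    rw [← hinv g _ y, apply_inv_apply]
  let R := B.orthogonal U
  have hR : ∀ y, y ∈ R ↔ ∀ u ∈ U, B u y = 0 := fun y => Iff.rfl
  have hR' : ∀ y ∈ R, ∀ u ∈ U, B y u = 0 := fun y hy u hu => by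
    rw [← hθ]; exact hy _ (hUθ u hu)
  have hRi : Inv ρ R := fun g y hy u hu => by
    change B u (ρ g y) = 0
    rw [hg']; exact hy _ (hUi _ u hu)
  have hRθ : ∀ y ∈ R, θ y ∈ R := fun y hy u hu => by
    obtain ⟨u', hu', rfl⟩ := hsurj u hu
    change B _ _ = 0
    rw [hθθ]; exact hy u' hu'
  have hfr : finrank F R = finrank F V - finrank F U := LinearMap.BilinForm.finrank_orthogonal hB U
  have hle : finrank F U ≤ finrank F V := Submodule.finrank_le U
  rcases hirr (U ⊓ R) inf_le_left (fun g x hx => ⟨hUi g x hx.1, hRi g x hx.2⟩)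
    (fun x hx => ⟨hUθ x hx.1, hRθ x hx.2⟩) with h | h
  · -- `U` nondegenerate
    have hc : IsCompl U R := by
      refine IsCompl.of_eq h (Submodule.eq_top_of_finrank_eq ?_)
      have := Submodule.finrank_sup_add_finrank_inf_eq U R
      rw [h, finrank_bot] at this
      omega
    have hdec : ∀ v : V, ∃ a ∈ U, ∃ b ∈ R, a + b = v := fun v =>
      Submodule.mem_sup.1 (hc.sup_eq_top ▸ Submodule.mem_top)
    have hBU : Nd ρ U B := ⟨fun g x _ y _ => hinv g x y, fun x hx h0 => hB.1 x fun v => by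
      obtain ⟨a, ha, b, hb, rfl⟩ := hdec v
      rw [map_add, h0 a ha, hb x hx, add_zero]⟩
    refine ⟨U, R, hc, hU0, hRi, LinearMap.BilinForm.Nondegenerate.ofSeparatingLeft fun x h0 =>
      Subtype.ext (hB.1 x fun v => ?_), ?_⟩
    · obtain ⟨a, ha, b, hb, rfl⟩ := hdec v
      rw [map_add, hR' x x.2 a ha, zero_add]
      exact h0 ⟨b, hb⟩
    let S : LinearMap.BilinForm F V := B + B.flip
    have hS : ∀ x y, S x y = B x y + B y x := fun x y => rfl
    let N : Submodule F V := U ⊓ S.flip.orthogonal U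
    have hN : ∀ x, x ∈ N ↔ x ∈ U ∧ ∀ u ∈ U, B x u + B u x = 0 := fun x => Iff.rfl
    rcases hirr N inf_le_left (fun g x hx => (hN _).2 ⟨hUi g x hx.1, fun u hu => by
        rw [hg, hg' g u]; exact ((hN x).1 hx).2 _ (hUi _ u hu)⟩)
      (fun x hx => (hN _).2 ⟨hUθ x hx.1, fun u hu => by
        obtain ⟨u', hu', rfl⟩ := hsurj u hu
        rw [hθθ, hθθ]; exact ((hN x).1 hx).2 _ hu'⟩) with h1 | h1
    · have hSU : Nd ρ U S := ⟨fun g x _ y _ => by rw [hS, hS, hinv, hinv], fun x hx h0 => by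
        have : x ∈ N := (hN x).2 ⟨hx, h0⟩
        rwa [h1] at this⟩
      by_cases h2 : (2 : F) = 0
      · exact Or.inl ⟨hUi, S, fun x => by rw [hS, ← two_mul, h2, zero_mul], hSU⟩
      · exact Or.inr ⟨hUi, ⟨S, fun x y => by rw [hS, hS, add_comm], hSU⟩, fun h => absurd h h2⟩
    · have hsk : ∀ x ∈ U, ∀ y ∈ U, B x y + B y x = 0 := fun x hx y hy =>
        ((hN x).1 (h1 ▸ hx)).2 y hy
      obtain ⟨C, hC⟩ := U.exists_isCompl
      obtain ⟨π, hπ, -⟩ := exists_proj hC.disjoint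
      obtain ⟨π₀, hπ₀, hπ₁⟩ : ∃ π₀ : V →ₗ[F] V, (∀ u ∈ U, π₀ u = u) ∧ ∀ v, π₀ v ∈ U :=
        ⟨U.subtype ∘ₗ U.projectionOnto C hC, fun u hu => by
          simpa using congrArg Subtype.val (Submodule.projectionOnto_apply_left hC ⟨u, hu⟩),
          fun v => (U.projectionOnto C hC v).2⟩
      have hBU' : Nd ρ U (B.comp π₀ π₀) := ⟨fun g x hx y hy => by
        simp only [LinearMap.BilinForm.comp_apply, hπ₀ _ (hUi g x hx), hπ₀ _ (hUi g y hy),
          hπ₀ _ hx, hπ₀ _ hy, hinv], fun x hx h0 => hBU.nd x hx fun y hy => by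
        simpa only [LinearMap.BilinForm.comp_apply, hπ₀ _ hx, hπ₀ _ hy] using h0 y hy⟩
      by_cases h2 : (2 : F) = 0
      · have hadd : ∀ x ∈ U, ∀ y ∈ U, B (x + y) (x + y) = B x x + B y y := fun x hx y hy => by
          simp only [map_add, LinearMap.add_apply]
          linear_combination hsk x hx y hy
        let N' : Submodule F V :=
          { carrier := {x | x ∈ U ∧ B x x = 0}
            add_mem' := fun {x y} hx hy => ⟨U.add_mem hx.1 hy.1, by
              rw [hadd x hx.1 y hy.1, hx.2, hy.2, add_zero]⟩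
            zero_mem' := ⟨U.zero_mem, by simp⟩
            smul_mem' := fun c x hx => ⟨U.smul_mem c hx.1, by simp [hx.2]⟩ }
        rcases hirr N' (fun x hx => hx.1) (fun g x hx => ⟨hUi g x hx.1, by rw [hinv]; exact hx.2⟩)
          (fun x hx => ⟨hUθ x hx.1, by rw [hθθ]; exact hx.2⟩) with h3 | h3
        · refine Or.inr ⟨hUi, ⟨B.comp π₀ π₀, fun x y => ?_, hBU'⟩, fun _ g w hw => ?_⟩
          · simp only [LinearMap.BilinForm.comp_apply]
            linear_combination hsk _ (hπ₁ x) _ (hπ₁ y) - B (π₀ y) (π₀ x) * h2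
          · have : ρ g w + -w ∈ N' := ⟨U.add_mem (hUi g w hw) (U.neg_mem hw), by
              rw [hadd _ (hUi g w hw) _ (U.neg_mem hw), hinv]
              simp only [map_neg, LinearMap.neg_apply, neg_neg]
              linear_combination B w w * h2⟩
            rw [h3, Submodule.mem_bot] at this
            exact add_neg_eq_zero.1 this
        · exact Or.inl ⟨hUi, B.comp π₀ π₀, fun x => (h3.ge (hπ₁ x)).2, hBU'⟩
      · refine Or.inl ⟨hUi, B.comp π₀ π₀, fun x => ?_, hBU'⟩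
        have := hsk _ (hπ₁ x) _ (hπ₁ x)
        rw [← two_mul] at this
        exact (mul_eq_zero.1 this).resolve_left h2
  · -- `U` totally isotropic
    have hUR : U ≤ R := inf_eq_left.1 h
    obtain ⟨U₁, hc₁, hi₁⟩ := exists_inv_compl hG ρ hRi
    obtain ⟨T₀, hc₀, hi₀⟩ := exists_inv_compl hG ρ hUi
    have hd : Disjoint U U₁ := hc₁.disjoint.mono_left hUR
    have hRT : U ⊔ T₀ ⊓ R = R := by
      rw [← sup_inf_assoc_of_le _ hUR, hc₀.sup_eq_top, top_inf_eq]
    have hdec : ∀ v : V, ∃ a ∈ R, ∃ b ∈ U₁, a + b = v := fun v =>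
      Submodule.mem_sup.1 (hc₁.sup_eq_top ▸ Submodule.mem_top)
    refine ⟨U ⊔ U₁, T₀ ⊓ R, ⟨?_, ?_⟩, fun h0 => hU0 (le_bot_iff.1 (h0 ▸ le_sup_left)),
      fun g x hx => ⟨hi₀ g x hx.1, hRi g x hx.2⟩,
      LinearMap.BilinForm.Nondegenerate.ofSeparatingLeft fun x h0 => Subtype.ext ?_, Or.inl ?_⟩
    · rw [Submodule.disjoint_def]
      intro x hx hx'
      obtain ⟨a, ha, b, hb, rfl⟩ := Submodule.mem_sup.1 hx
      have hb0 : b = 0 := Submodule.disjoint_def.1 hc₁.disjoint b
        (by simpa using R.sub_mem hx'.2 (hUR ha)) hb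
      rw [hb0, add_zero] at hx' ⊢
      exact Submodule.disjoint_def.1 hc₀.disjoint a ha hx'.1
    · rw [codisjoint_iff, sup_right_comm, hRT, hc₁.sup_eq_top]
    · have hL : B.flip.orthogonal R = U := by
        refine (Submodule.eq_of_le_of_finrank_le (fun u hu y hy => hy u hu) ?_).symm
        rw [LinearMap.BilinForm.finrank_orthogonal hB.flip, hfr]
        omega
      have hx : (x : V) ∈ B.flip.orthogonal R := fun y hy => by
        rw [← hRT] at hy
        obtain ⟨a, ha, b, hb, rfl⟩ := Submodule.mem_sup.1 hy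
        change B x (a + b) = 0
        rw [map_add, hR' x x.2.2 a ha, zero_add]
        exact h0 ⟨b, hb⟩
      rw [hL] at hx
      exact Submodule.disjoint_def.1 hc₀.disjoint _ hx x.2.1
    · obtain ⟨π, h1, h2⟩ := exists_proj hd
      obtain ⟨π', h3, h4⟩ := exists_proj hd.symm
      let A : LinearMap.BilinForm F V := B.comp π π' - (B.comp π π').flip
      have hA : ∀ x y, A x y = B (π x) (π' y) - B (π y) (π' x) := fun x y => rfl
      have key : ∀ a ∈ U, ∀ b ∈ U₁, ∀ c ∈ U, ∀ d ∈ U₁, A (a + b) (c + d) = B a d - B c b := by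
        intro a ha b hb c hc d hd
        rw [hA]
        simp [h1 a ha, h1 c hc, h2 b hb, h2 d hd, h3 b hb, h3 d hd, h4 a ha, h4 c hc]
      refine ⟨Inv.sup hUi hi₁, A, fun x => by rw [hA, sub_self], fun g x hx y hy => ?_,
        fun x hx h0 => ?_⟩
      · obtain ⟨a, ha, b, hb, rfl⟩ := Submodule.mem_sup.1 hx
        obtain ⟨c, hc, d, hd, rfl⟩ := Submodule.mem_sup.1 hy
        rw [map_add (ρ g), map_add (ρ g),
          key _ (hUi g a ha) _ (hi₁ g b hb) _ (hUi g c hc) _ (hi₁ g d hd),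
          key a ha b hb c hc d hd, hinv, hinv]
      · obtain ⟨a, ha, b, hb, rfl⟩ := Submodule.mem_sup.1 hx
        have ha0 : a = 0 := hB.1 a fun v => by
          obtain ⟨c, hc, d, hd, rfl⟩ := hdec v
          have := h0 (0 + d) (Submodule.add_mem_sup U.zero_mem hd)
          rw [key a ha b hb 0 U.zero_mem d hd] at this
          rw [map_add, hc a ha, zero_add]
          simpa using this
        have hb0 : b = 0 := Submodule.disjoint_def.1 hc₁.disjoint b (fun c hc => by
          have := h0 (c + 0) (Submodule.add_mem_sup hc U₁.zero_mem)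
          rw [key a ha b hb c hc 0 U₁.zero_mem] at this
          simpa using this) hb
        rw [ha0, hb0, add_zero]

universe w

theorem exists_split_aux [Finite G] (hG : (Nat.card G : F) ≠ 0) (n : ℕ) :
    ∀ (V : Type w) [AddCommGroup V] [Module F V] [FiniteDimensional F V] (ρ : G →* End F V)
      (B : LinearMap.BilinForm F V), B.Nondegenerate → (∀ g x y, B (ρ g x) (ρ g y) = B x y) →
      finrank F V = n → ∃ U W : Submodule F V, IsCompl U W ∧ Symp ρ U ∧ Orth ρ W := by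
  induction n using Nat.strong_induction_on with
  | _ n ih =>
  intro V _ _ _ ρ B hB hinv hn
  rcases subsingleton_or_nontrivial V with hV | hV
  · exact ⟨⊥, ⊥, ⟨disjoint_bot_left, by rw [codisjoint_iff]; exact Subsingleton.elim _ _⟩,
      symp_bot ρ, orth_bot ρ⟩
  obtain ⟨X, T, hc, hX, hT, hBT, h⟩ := exists_piece hG ρ hB hinv
  have hlt : finrank F T < n := by
    rw [← hn]
    refine Submodule.finrank_lt fun h => hX ?_
    exact hc.disjoint.eq_bot_of_le (h ▸ le_top)
  obtain ⟨U, W, hc', hU, hW⟩ := ih _ hlt T (res ρ T hT) (B.restrict T) hBT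
    (fun g x y => hinv g x y) rfl
  have hsup : U.map T.subtype ⊔ W.map T.subtype = T := by
    rw [← Submodule.map_sup, hc'.sup_eq_top, Submodule.map_subtype_top]
  have hdis : Disjoint (U.map T.subtype) (W.map T.subtype) := by
    rw [disjoint_iff, ← Submodule.map_inf _ T.injective_subtype, hc'.inf_eq_bot, Submodule.map_bot]
  have key : ∀ P Q : Submodule F V, P ⊔ Q = T → Disjoint P Q → IsCompl (X ⊔ P) Q := by
    intro P Q h1 h2
    refine ⟨?_, by rw [codisjoint_iff, sup_assoc, h1, hc.sup_eq_top]⟩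
    rw [Submodule.disjoint_def]
    intro x hx hx'
    obtain ⟨a, ha, b, hb, rfl⟩ := Submodule.mem_sup.1 hx
    have ha0 : a = 0 := Submodule.disjoint_def.1 hc.disjoint a ha (by
      simpa using T.sub_mem ((h1 ▸ le_sup_right : Q ≤ T) hx') ((h1 ▸ le_sup_left : P ≤ T) hb))
    rw [ha0, zero_add] at hx' ⊢
    exact Submodule.disjoint_def.1 h2 b hb hx'
  rcases h with h | h
  · exact ⟨_, _, key _ _ hsup hdis,
      h.sup (hU.map hT) (hc.disjoint.mono_right (Submodule.map_subtype_le _ _)), hW.map hT⟩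
  · exact ⟨_, _, (key _ _ ((sup_comm _ _).trans hsup) hdis.symm).symm, hU.map hT,
      h.sup (hW.map hT) (hc.disjoint.mono_right (Submodule.map_subtype_le _ _))⟩

theorem exists_split [Finite G] (hG : (Nat.card G : F) ≠ 0) (ρ : G →* End F V)
    {B : LinearMap.BilinForm F V} (hB : B.Nondegenerate)
    (hinv : ∀ g x y, B (ρ g x) (ρ g y) = B x y) :
    ∃ U W : Submodule F V, IsCompl U W ∧ Symp ρ U ∧ Orth ρ W :=
  exists_split_aux hG _ V ρ B hB hinv rfl

end Split

section Field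

variable {F : Type*} [Field F] {H : Type*} [Group H]

universe w

/-- An irreducible module of an abelian group over a finite field is a field. -/
theorem exists_field [Finite F] (hH : ∀ a b : H, a * b = b * a) {W : Type w} [AddCommGroup W]
    [Module F W] [FiniteDimensional F W] [Nontrivial W] (σ : H →* End F W) (hσ : Irr σ) :
    ∃ (K : Type w) (_ : Field K) (_ : Algebra F K) (_ : Finite K) (x : H →* Kˣ)
      (e : K ≃ₗ[F] W), (∀ h k, e (x h * k) = σ h (e k)) ∧
        Submodule.span F (Set.range fun h => (x h : K)) = ⊤ := by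
  classical
  have : Finite (End F W) := Module.finite_of_finite F
  let D : Subalgebra F (End F W) := Algebra.adjoin F (Set.range σ)
  have hcomm : ∀ a ∈ Set.range σ, ∀ b ∈ Set.range σ, a * b = b * a := by
    rintro _ ⟨a, rfl⟩ _ ⟨b, rfl⟩
    rw [← map_mul, ← map_mul, hH]
  let _ : CommRing D := Algebra.adjoinCommRingOfComm F hcomm
  have hσD : ∀ h, σ h ∈ D := fun h => Algebra.subset_adjoin ⟨h, rfl⟩
  have hc : ∀ (d : D) h w, d.1 (σ h w) = σ h (d.1 w) := fun d h w =>
    LinearMap.congr_fun (congrArg Subtype.val (mul_comm d ⟨σ h, hσD h⟩)) w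
  have hinj : ∀ d : D, d ≠ 0 → Function.Injective d.1 := fun d hd =>
    hσ.injective (fun h0 => hd (Subtype.ext h0)) fun g w hw => by rw [hc, hw, map_zero]
  have : NoZeroDivisors D := ⟨fun {x y} h => by
    by_cases hx : x = 0
    · exact Or.inl hx
    · refine Or.inr (Subtype.ext (LinearMap.ext fun v => hinj x hx ?_))
      change x.1 (y.1 v) = x.1 0
      rw [map_zero]
      exact LinearMap.congr_fun (congrArg Subtype.val h) v⟩
  have : IsDomain D := NoZeroDivisors.to_isDomain D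
  let _ : Field D := (Finite.isField_of_domain D).toField
  obtain ⟨w₀, hw₀⟩ := exists_ne (0 : W)
  let f : D →ₗ[F] W := LinearMap.applyₗ w₀ ∘ₗ D.val.toLinearMap
  have hf : ∀ d : D, f d = d.1 w₀ := fun d => rfl
  have hfi : Function.Injective f := by
    rw [injective_iff_map_eq_zero]
    intro d hd
    by_contra h0
    exact hw₀ (hinj d h0 (by rw [map_zero]; exact hd))
  have hfs : Function.Surjective f := by
    rw [← LinearMap.range_eq_top]
    refine (hσ _ ?_).resolve_left fun h0 => hw₀ ?_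
    · rintro g _ ⟨d, rfl⟩
      exact ⟨⟨σ g, hσD g⟩ * d, rfl⟩
    · have : f 1 ∈ LinearMap.range f := ⟨1, rfl⟩
      rwa [h0] at this
  let y : H →* D := σ.codRestrict D hσD
  refine ⟨D, inferInstance, inferInstance, inferInstance, y.toHomUnits,
    LinearEquiv.ofBijective f ⟨hfi, hfs⟩, fun h k => rfl, ?_⟩
  rw [eq_top_iff]
  rintro ⟨d, hd⟩ -
  induction hd using Algebra.adjoin_induction with
  | mem x hx =>
    obtain ⟨h, rfl⟩ := hx
    exact Submodule.subset_span ⟨h, rfl⟩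
  | algebraMap r =>
    have : (⟨algebraMap F _ r, D.algebraMap_mem r⟩ : D) = r • ((y.toHomUnits 1 : Dˣ) : D) := by
      rw [map_one, Units.val_one]
      exact Subtype.ext (Algebra.algebraMap_eq_smul_one r)
    rw [this]
    exact Submodule.smul_mem _ _ (Submodule.subset_span ⟨1, rfl⟩)
  | add a b ha hb iha ihb => exact Submodule.add_mem _ iha ihb
  | mul a b ha hb iha ihb =>
    have := Submodule.mul_mem_mul iha ihb
    rw [Submodule.span_mul_span] at this
    refine Submodule.span_mono ?_ this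
    rintro _ ⟨_, ⟨g, rfl⟩, _, ⟨h, rfl⟩, rfl⟩
    exact ⟨g * h, by simp⟩

end Field

end Cfsg.Lib.Block.Kgv
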