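import Cfsg.Agent.Block.Kgv
import Cfsg.Agent.Block.KgvLin
import Cfsg.Agent.Solv.ElemAb
import Mathlib.NumberTheory.GaussSum
import Mathlib.NumberTheory.LegendreSymbol.Complex
import Mathlib.GroupTheory.FiniteAbelian.Duality
import Mathlib.RingTheory.RootsOfUnity.AlgebraicallyClosed

/-! Square roots of the Knörr character of a module. -/

open scoped ComplexConjugate
open Cfsg Cfsg.Lib.Char Cfsg.Lib.Block.Loc Module Cfsg.Lib.Solv.HH

namespace Cfsg.Lib.Block.Kgv

variable {p : ℕ} [hp : Fact p.Prime] {H : Type*} [Group H]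
  {W : Type*} [AddCommGroup W] [Module (ZMod p) W] {M : Ideal AlgInt} {n : ℕ}

/-- number of fixed vectors -/
noncomputable def fx (ρ : H →* End (ZMod p) W) (h : H) : ℕ := Nat.card {w // ρ h w = w}

/-- fixed space -/
def fs (ρ : H →* End (ZMod p) W) (h : H) : Submodule (ZMod p) W where
  carrier := {w | ρ h w = w}
  add_mem' {a b} ha hb := by
    change ρ h (a + b) = a + b
    rw [map_add, ha, hb]
  zero_mem' := map_zero _
  smul_mem' c a ha := by
    change ρ h (c • a) = c • a
    rw [map_smul, ha]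

theorem fx_eq (ρ : H →* End (ZMod p) W) (h : H) : fx ρ h = Nat.card (fs ρ h) := rfl

theorem card_eq_pow [Finite W] : ∃ k, Nat.card W = p ^ k :=
  ⟨_, by rw [Module.natCard_eq_pow_finrank (K := ZMod p), Nat.card_zmod]⟩

theorem fx_pow [Finite W] (ρ : H →* End (ZMod p) W) (h : H) : ∃ k, fx ρ h = p ^ k :=
  card_eq_pow (W := fs ρ h)

theorem fx_one (ρ : H →* End (ZMod p) W) : fx ρ 1 = Nat.card W :=
  Nat.card_congr (Equiv.subtypeUnivEquiv fun w => by simp)

theorem fx_dvd (ρ : H →* End (ZMod p) W) (h : H) : fx ρ h ∣ Nat.card W :=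
  AddSubgroup.card_addSubgroup_dvd_card (fs ρ h).toAddSubgroup

theorem isCharacter_fix [Finite W] (ρ : H →* End (ZMod p) W) (P : W → Prop)
    (hP : ∀ h w, P w → P (ρ h w)) :
    IsCharacter H fun h => (Nat.card {w // P w ∧ ρ h w = w} : ℂ) := by
  letI : MulAction H {w // P w} :=
    { smul := fun h w => ⟨ρ h w, hP h w w.2⟩
      one_smul := fun w => Subtype.ext (by change ρ 1 w = w; simp)
      mul_smul := fun a b w => Subtype.ext (by change ρ (a * b) w = ρ a (ρ b w); simp) }
  convert isCharacter_card_fixedBy H {w // P w} using 3 with h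
  exact Nat.card_congr
    { toFun := fun w => ⟨⟨w.1, w.2.1⟩, Subtype.ext w.2.2⟩
      invFun := fun w => ⟨w.1.1, w.1.2, congrArg Subtype.val w.2⟩
      left_inv := fun _ => rfl
      right_inv := fun _ => rfl }

theorem isCharacter_fx [Finite W] (ρ : H →* End (ZMod p) W) :
    IsCharacter H fun h => (fx ρ h : ℂ) := by
  simpa [fx] using isCharacter_fix ρ (fun _ => True) fun _ _ _ => trivial

theorem card_isCompl {U T : Submodule (ZMod p) W} (h : IsCompl U T) :
    Nat.card W = Nat.card U * Nat.card T := by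
  rw [← Nat.card_prod]
  exact (Nat.card_congr (Submodule.prodEquivOfIsCompl U T h).toEquiv).symm

theorem fx_isCompl {ρ : H →* End (ZMod p) W} {U T : Submodule (ZMod p) W} (h : IsCompl U T)
    (hU : Inv ρ U) (hT : Inv ρ T) (g : H) :
    fx ρ g = fx (res ρ U hU) g * fx (res ρ T hT) g := by
  rw [fx, fx, fx, ← Nat.card_prod]
  symm
  refine Nat.card_congr (Equiv.ofBijective (fun x => ⟨(x.1.1 : W) + x.2.1, ?_⟩) ⟨?_, ?_⟩)
  · rw [map_add, ← coe_res_apply ρ U hU, ← coe_res_apply ρ T hT, x.1.2, x.2.2]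
  · rintro ⟨a, b⟩ ⟨c, d⟩ h1
    have h2 := (Submodule.prodEquivOfIsCompl U T h).injective (a₁ := (a.1, b.1)) (a₂ := (c.1, d.1))
      (by simpa using congrArg Subtype.val h1)
    exact Prod.ext (Subtype.ext (congrArg Prod.fst h2)) (Subtype.ext (congrArg Prod.snd h2))
  · rintro ⟨w, hw⟩
    obtain ⟨⟨a, b⟩, rfl⟩ := (Submodule.prodEquivOfIsCompl U T h).surjective w
    have h2 := (Submodule.prodEquivOfIsCompl U T h).injective
      (a₁ := (res ρ U hU g a, res ρ T hT g b)) (a₂ := (a, b)) (by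
        rw [← hw]
        simp)
    exact ⟨⟨⟨a, congrArg Prod.fst h2⟩, ⟨b, congrArg Prod.snd h2⟩⟩, rfl⟩

variable [Fintype H]

/-- The Knörr character of the module is a norm. -/
def SqM (M : Ideal AlgInt) (n : ℕ) (ρ : H →* End (ZMod p) W) : Prop :=
  ∃ d ψ, Sq M n d ψ ∧ ∀ h, d h * fx ρ h = Nat.card W

theorem sqM_triv {ρ : H →* End (ZMod p) W} (h : ∀ g w, ρ g w = w) : SqM M n ρ :=
  ⟨_, _, sq_one M n, fun g => by
    rw [one_mul]
    exact Nat.card_congr (Equiv.subtypeUnivEquiv (h g))⟩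

theorem SqM.of_isCompl (hM : IsPModular p M) {ρ : H →* End (ZMod p) W}
    {U T : Submodule (ZMod p) W} (h : IsCompl U T) (hU : Inv ρ U) (hT : Inv ρ T)
    (h1 : SqM M n (res ρ U hU)) (h2 : SqM M n (res ρ T hT)) : SqM M n ρ := by
  obtain ⟨d, ψ, h3, h4⟩ := h1
  obtain ⟨e, φ, h5, h6⟩ := h2
  refine ⟨_, _, h3.mul hM h5, fun g => ?_⟩
  rw [card_isCompl h, fx_isCompl h hU hT, ← h4 g, ← h6 g, Pi.mul_apply]
  ring

theorem isIntegral_of_pow {z : ℂ} {m : ℕ} (hm : m ≠ 0) (h : z ^ m = 1) : IsIntegral ℤ z :=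
  IsIntegral.of_pow (Nat.pos_of_ne_zero hm) (h ▸ isIntegral_one)

omit hp in
theorem ideal_sub_one (hM : IsPModular p M) {z : ℂ} (h : z ^ p = 1) : MemLocalIdeal M (z - 1) :=
  Cfsg.Agent.S0876.ideal_sub_one_of_pow hM (k := 1) (by rwa [pow_one])

theorem sqM_irr (hM : IsPModular p M) (hH : ∀ a b : H, a * b = b * a) [Finite W] [Nontrivial W]
    {ρ : H →* End (ZMod p) W} (hρ : Irr ρ) : SqM M (p * Nat.card H) ρ := by
  classical
  have : FiniteDimensional (ZMod p) W := Module.Finite.of_finite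
  obtain ⟨K, _, _, _, x, e, he, -⟩ := exists_field hH ρ hρ
  have := Fintype.ofFinite K
  have : NeZero (Monoid.exponent Kˣ) := ⟨Monoid.exponent_ne_zero_of_finite⟩
  obtain ⟨E⟩ := CommGroup.monoidHom_mulEquiv_of_hasEnoughRootsOfUnity Kˣ ℂ
  let a := AddChar.FiniteField.primitiveChar_to_Complex K
  have ha : a.IsPrimitive := AddChar.FiniteField.primitiveChar_to_Complex_isPrimitive K
  have hap : ∀ t, a t ^ p = 1 := fun t => by
    rw [← AddChar.map_nsmul_eq_pow, ← Nat.cast_smul_eq_nsmul (ZMod p), ZMod.natCast_self, zero_smul,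
      AddChar.map_zero_eq_one]
  let χ : H → MulChar K ℂ := fun h => MulChar.ofUnitHom (E.symm (x h))
  have hχ : ∀ h, χ h = 1 ↔ x h = 1 := fun h => by
    rw [← map_eq_one_iff E.symm E.symm.injective]
    constructor
    · intro h1
      ext t
      have := DFunLike.congr_fun h1 (t : K)
      rwa [MulChar.ofUnitHom_coe, MulChar.one_apply_coe] at this
    · intro h1
      ext t
      simp only [χ, MulChar.ofUnitHom_coe, h1, MulChar.one_apply_coe, MonoidHom.one_apply,
        Units.val_one]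
  let lam : Kˣ → H →* ℂˣ := fun t =>
    { toFun := fun h => E.symm (x h) t
      map_one' := by simp
      map_mul' := fun g h => by simp }
  have hψ : ∀ h, gaussSum (χ h) a = ∑ t : Kˣ, a t * (lam t h : ℂ) := fun h => by
    rw [gaussSum, ← Finset.add_sum_erase _ _ (Finset.mem_univ 0), MulChar.map_zero, zero_mul,
      zero_add]
    symm
    refine Finset.sum_bij (fun t _ => (t : K)) (fun t _ => by simp)
      (fun _ _ _ _ h => Units.ext h)
      (fun b hb => ⟨Units.mk0 b (Finset.ne_of_mem_erase hb), Finset.mem_univ _, rfl⟩) fun t _ => ?_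
    rw [mul_comm, MulChar.ofUnitHom_coe]
    rfl
  have hcard : Nat.card W = Fintype.card K := by
    rw [← Nat.card_eq_fintype_card]; exact (Nat.card_congr e.toEquiv).symm
  refine ⟨fun h => if x h = 1 then 1 else Fintype.card K, fun h => gaussSum (χ h) a,
    ⟨?_, fun h => ?_, fun h => ?_, fun h h1 => ?_⟩, fun h => ?_⟩
  · have : (fun h => gaussSum (χ h) a) = ∑ t : Kˣ, a t • fun h => (lam t h : ℂ) := by
      ext h
      simp [hψ]
    rw [this]
    exact IS.sum _ fun t _ => (IS.of_gen (isIrrCharacter_monoidHom _).isGeneralizedCharacter).smul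
      (isIntegral_of_pow hp.out.ne_zero (hap t))
  · rw [hψ]
    refine sum_mem fun t _ => mul_mem (cyc_mono (dvd_mul_right _ _) (mem_cycField_of_pow_eq_one
      (hap t))) (cyc_mono (dvd_mul_left _ _) (mem_cycField_of_pow_eq_one ?_))
    rw [← Units.val_pow_eq_pow_val, ← map_pow, pow_card_eq_one', map_one, Units.val_one]
  · split_ifs with h1
    · rw [(hχ h).2 h1, gaussSum_one_left]
      · simp
      · simpa using ha one_ne_zero
    · rw [starRingEnd_apply, star_gaussSum_eq, gaussSum_mul_gaussSum_eq_card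
        (fun h2 => h1 ((hχ h).1 h2)) ha]
  · have h2 : χ h ≠ 1 := fun h2 => h1 (if_pos ((hχ h).1 h2))
    have h3 : gaussSum (χ h) a = ∑ t, χ h t * (a t - 1) := by
      simp only [mul_sub, Finset.sum_sub_distrib, mul_one, MulChar.sum_eq_zero_of_ne_one h2,
        sub_zero, gaussSum]
    rw [h3]
    refine ideal_sum hM _ fun t _ => ideal_mul_left hM ?_ (ideal_sub_one hM (hap t))
    by_cases ht : t = 0
    · rw [ht, MulChar.map_zero]; exact ring_zero hM
    · lift t to Kˣ using IsUnit.mk0 t ht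
      refine ring_of_isIntegral hM (isIntegral_of_pow (Nat.card_pos (α := Kˣ)).ne' ?_)
      rw [← map_pow, ← Units.val_pow_eq_pow_val, pow_card_eq_one', Units.val_one, map_one]
  · dsimp only
    split_ifs with h1
    · rw [one_mul]
      refine Nat.card_congr (Equiv.subtypeUnivEquiv fun w => ?_)
      obtain ⟨k, rfl⟩ := e.surjective w
      rw [← he, h1, Units.val_one, one_mul]
    · have : fx ρ h = 1 := by
        rw [fx_eq, Nat.card_eq_one_iff_exists]
        refine ⟨0, fun ⟨w, hw⟩ => Subtype.ext ?_⟩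
        obtain ⟨k, rfl⟩ := e.surjective w
        have h2 : (x h : K) * k = k := e.injective ((he h k).trans hw)
        have h3 : k = 0 := by
          by_contra h3
          exact h1 (Units.ext (mul_right_cancel₀ h3 (h2.trans (one_mul k).symm)))
        simp [h3]
      rw [this, mul_one, hcard]

universe w

theorem sqM_comm (hM : IsPModular p M) (hH : ∀ a b : H, a * b = b * a) (hp' : ¬ p ∣ Nat.card H)
    (k : ℕ) : ∀ (W : Type w) [AddCommGroup W] [Module (ZMod p) W] [Finite W]
      (ρ : H →* End (ZMod p) W), finrank (ZMod p) W = k → SqM M (p * Nat.card H) ρ := by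
  induction k using Nat.strong_induction_on with
  | _ k ih =>
  intro W _ _ _ ρ hk
  have : FiniteDimensional (ZMod p) W := Module.Finite.of_finite
  rcases subsingleton_or_nontrivial W with hW | hW
  · exact sqM_triv fun _ _ => Subsingleton.elim _ _
  obtain ⟨U, hU, -, h0, hirr⟩ := exists_irr_le ρ (U := ⊤) (fun _ _ _ => trivial) top_ne_bot
  obtain ⟨T, hc, hT⟩ := exists_inv_compl
    (fun h => hp' ((ZMod.natCast_eq_zero_iff _ _).1 h)) ρ hU
  have : Nontrivial U := Submodule.nontrivial_iff_ne_bot.2 h0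
  refine SqM.of_isCompl hM hc hU hT (sqM_irr hM hH hirr) (ih _ ?_ T _ rfl)
  rw [← hk]
  exact Submodule.finrank_lt fun h => h0 (hc.disjoint.eq_bot_of_le (h ▸ le_top))

section Final

open Subgroup Cfsg.Lib.Solv

variable {X : Type*} [Group X] [Finite X] {V G U : Subgroup X} [V.Normal] {v : X}

theorem card_conjClasses_le_of_sqM (hM : IsPModular p M)
    (hcomm : ∀ a ∈ V, ∀ b ∈ V, a * b = b * a) (hGV : IsComplement' V G) (hG : ¬ p ∣ Nat.card G)
    (hv : v ∈ V) (hvp : v ^ p = 1) {H : Subgroup X} (hH : ∀ x, x ∈ H ↔ x ∈ G ∧ x * v = v * x)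
    [Fintype H] (hn : n ≠ 0) (hUV : U ≤ V) [ElemAb p U] (hN : H ≤ normalizer (U : Set X))
    (hf : ∀ h ∈ H, (∀ u ∈ U, h * u = u * h) → h = 1)
    (hS : SqM M n (Vec.rep p (conjAutOf U H hN))) : Nat.card (ConjClasses X) ≤ Nat.card V := by
  obtain ⟨d, ψ, h1, h2⟩ := hS
  have h3 : ∀ h : H, fx (Vec.rep p (conjAutOf U H hN)) h =
      Nat.card ((centralizer ({(h : X)} : Set X)).subgroupOf U) := fun h =>
    Nat.card_congr
      { toFun := fun w => ⟨Vec.toMul w.1, mem_centralizer_singleton_iff.2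
          ((conjAutOf_apply_eq_self_iff hN h _).1 w.2).symm⟩
        invFun := fun w => ⟨Vec.ofMul p w.1, (conjAutOf_apply_eq_self_iff hN h _).2
          (mem_centralizer_singleton_iff.1 w.2).symm⟩
        left_inv := fun _ => rfl
        right_inv := fun _ => rfl }
  have h4 : ∀ h : H, d h = (centralizer ({(h : X)} : Set X)).relIndex U := fun h => by
    have h5 := h2 h
    rw [h3, Vec.card_vec, ← index_mul_card ((centralizer ({(h : X)} : Set X)).subgroupOf U)] at h5
    exact Nat.eq_of_mul_eq_mul_right Nat.card_pos h5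
  refine card_conjClasses_le hM hcomm hGV hG hv hvp hH hn h1 ?_ (fun h h0 h5 => h0 ?_) fun h => ?_
  · rw [h4, relIndex_eq_one]
    exact fun u _ => mem_centralizer_singleton_iff.2 (by simp)
  · rw [h4, relIndex_eq_one] at h5
    exact Subtype.ext (hf h h.2 fun u hu => (mem_centralizer_singleton_iff.1 (h5 hu)).symm)
  · rw [h4, ← index_mul_card ((centralizer ({(h : X)} : Set X)).subgroupOf V), inf_comm,
      ← subgroupOf_map_subtype, card_map_of_injective V.subtype_injective]
    exact Nat.mul_le_mul_right _ (relIndex_le_of_le_right hUV index_ne_zero_of_finite)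

end Final

end Cfsg.Lib.Block.Kgv
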