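import Cfsg.Agent.Block.KgvMod
import Cfsg.Agent.Char.GlaubermanCyc
import Mathlib.GroupTheory.SemidirectProduct

/-! Weil characters and quadratic Gauss sums: the Knörr character of a self-dual module is a norm. -/

open scoped ComplexConjugate
open Cfsg Cfsg.Lib.Char Cfsg.Lib.Block.Loc Module Cfsg.Lib.Solv.HH

namespace Cfsg.Lib.Block.Kgv

section Abstract

open Subgroup

theorem exists_weil {Γ : Type*} [Group Γ] [Finite Γ] {N : Subgroup Γ} [hN : N.Normal]
    (hcop : (Nat.card N).Coprime N.index) {z : Γ} (hzN : z ∈ N) (hz : z ∈ center Γ) (hz1 : z ≠ 1)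
    (S : Set Γ) (h1 : 1 ∈ S) (hS : ∀ s ∈ S, orderOf s ∣ N.index)
    (hc : ∀ s ∈ S, ∀ c ∈ N, c * s = s * c → c ∉ zpowers z →
      ∃ f ∈ N, f * s = s * f ∧ f * c * f⁻¹ = z * c) :
    ∃ χ, IsCharacter Γ χ ∧ ∀ s ∈ S, ∃ k : ℤ, χ s = k ∧
      k ^ 2 * orderOf z = Nat.card (N ⊓ centralizer ({s} : Set Γ) : Subgroup Γ) := by
  classical
  have hzc : ∀ x ∈ zpowers z, x ∈ center Γ := fun x hx => (zpowers_le.2 hz) hx
  obtain ⟨θ, hθ, hθz⟩ : ∃ θ : N → ℂ, IsIrrCharacter N θ ∧ θ ⟨z, hzN⟩ ≠ θ 1 := by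
    by_contra h
    push Not at h
    have := isConj_one_left.1 ((isConj_iff_forall_irr _ _).2 h)
    exact hz1 (congrArg Subtype.val this)
  have key : ∀ {a b c : ℂ}, a ≠ b → b ≠ 0 → c = a / b * c → c = 0 := fun {a b c} h hb h2 => by
    by_contra h3
    exact h ((div_eq_one_iff_eq hb).1 (mul_right_cancel₀ h3 (h2.symm.trans (one_mul c).symm)))
  have hv : ∀ n : N, (n : Γ) ∉ zpowers z → θ n = 0 := fun n hn => by
    obtain ⟨f, hf, -, h2⟩ := hc 1 h1 n n.2 (by simp) hn
    refine key hθz hθ.apply_one_ne_zero ?_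
    rw [← irr_mul_center hθ (mem_center_iff.2 fun g => Subtype.ext (mem_center_iff.1 hz g)),
      ← hθ.isClassFunction n ⟨f, hf⟩]
    exact congrArg θ (Subtype.ext h2)
  obtain ⟨χ, hχ, hres, hdet, -⟩ := exists_canonical_ext_hall hcop hθ fun g n => by
    by_cases hn : (n : Γ) ∈ zpowers z
    · refine congrArg θ (Subtype.ext ?_)
      change g * n * g⁻¹ = n
      rw [mem_center_iff.1 (hzc _ hn) g, mul_inv_cancel_right]
    · rw [hv n hn, hv]
      intro h2
      have h3 := mem_center_iff.1 (hzc _ h2) g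
      have h4 : (n : Γ) = g * n * g⁻¹ := by
        change g * (g * n * g⁻¹) = g * n * g⁻¹ * g at h3
        rw [inv_mul_cancel_right] at h3
        exact (mul_left_cancel h3).symm
      exact hn (h4 ▸ h2)
  have hirr : IsIrrCharacter N fun n : N => χ n := by rwa [funext hres]
  have hχz : χ z ≠ χ 1 := by
    rw [hres ⟨z, hzN⟩, ← OneMemClass.coe_one N, hres]; exact hθz
  refine ⟨χ, hχ.isCharacter, fun s hs => ?_⟩
  obtain ⟨k, hk⟩ := (hχ.isGeneralizedCharacter.exists_int_iff s).2 fun m hm => by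
    simpa using canonical_ext_mul_pow hcop hχ.isCharacter hirr hdet (hS s hs) N.one_mem
      (by simp) hm
  refine ⟨k, hk, ?_⟩
  let C : Subgroup Γ := N ⊓ centralizer ({s} : Set Γ)
  have := Fintype.ofFinite C
  have hC : ∀ x, x ∈ C ↔ x ∈ N ∧ x * s = s * x := fun x => by
    rw [mem_inf, mem_centralizer_singleton_iff]
  have h2 := classInner_coset_self (hcop.coprime_dvd_right (hS s hs)) hC hχ.isCharacter hirr
  have h3 := card_mul_classInner (fun c : C => χ (c * s)) fun c : C => χ (c * s)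
  rw [h2, mul_one] at h3
  have h4 : ∀ c : C, χ (c * s) * conj (χ (c * s)) =
      if (c : Γ) ∈ zpowers z then ((k ^ 2 : ℤ) : ℂ) else 0 := fun c => by
    split_ifs with h
    · have h5 := irr_mul_center hχ (hzc _ h) (c : Γ)⁻¹
      obtain ⟨d, hd⟩ := hχ.isCharacter.exists_nat_degree
      have hd0 : (d : ℂ) ≠ 0 := hd ▸ hχ.apply_one_ne_zero
      rw [mul_inv_cancel, hχ.isCharacter.apply_inv, hd] at h5
      rw [irr_mul_center hχ (hzc _ h), hk, hd]
      simp only [map_mul, map_div₀, map_natCast, map_intCast]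
      push_cast
      field_simp
      field_simp at h5
      linear_combination -(k : ℂ) ^ 2 * h5
    · obtain ⟨f, hf, h5, h6⟩ := hc s hs c ((hC c).1 c.2).1 ((hC c).1 c.2).2 h
      have : χ (c * s) = 0 := by
        refine key hχz hχ.apply_one_ne_zero ?_
        rw [← irr_mul_center hχ hz, ← hχ.isClassFunction (c * s) f, ← mul_assoc z, ← h6]
        congr 1
        calc f * (c * s) * f⁻¹ = f * c * f⁻¹ * (f * s) * f⁻¹ := by group
          _ = f * c * f⁻¹ * s := by rw [h5]; group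
      rw [this, zero_mul]
  simp only [h4] at h3
  rw [← Finset.sum_filter, Finset.sum_const, nsmul_eq_mul] at h3
  have h5 : (Finset.univ.filter fun c : C => (c : Γ) ∈ zpowers z).card = orderOf z := by
    rw [← Nat.card_zpowers, ← Nat.subtype_card _ (p := fun c : C => (c : Γ) ∈ zpowers z)
      (by simp)]
    exact Nat.card_congr
      { toFun := fun c => ⟨c.1.1, c.2⟩
        invFun := fun c => ⟨⟨c.1, (hC _).2 ⟨(zpowers_le.2 hzN) c.2,
          (mem_center_iff.1 (hzc _ c.2) s).symm⟩⟩, c.2⟩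
        left_inv := fun _ => rfl
        right_inv := fun _ => rfl }
  rw [h5, mul_comm] at h3
  exact_mod_cast h3.symm

end Abstract

variable {p : ℕ} [hp : Fact p.Prime] {H : Type*} [Group H]
  {W : Type*} [AddCommGroup W] [Module (ZMod p) W] {M : Ideal AlgInt} {n : ℕ}

/-- An invariant form stays nondegenerate on the fixed space of a `p'`-element. -/
theorem eq_zero_of_fix [Finite H] (hH : ¬ p ∣ Nat.card H) {ρ : H →* End (ZMod p) W}
    {B : LinearMap.BilinForm (ZMod p) W} (hB : ∀ g x y, B (ρ g x) (ρ g y) = B x y)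
    (hnd : ∀ x, (∀ y, B x y = 0) → x = 0) {h : H} {c : W} (hc : ρ h c = c)
    (h0 : ∀ y, ρ h y = y → B c y = 0) : c = 0 := by
  classical
  have := Fintype.ofFinite (Subgroup.zpowers h)
  refine hnd c fun y => ?_
  have hk : ∀ k : Subgroup.zpowers h, ρ k c = c := by
    rintro ⟨k, hk⟩
    obtain ⟨m, rfl⟩ := (mem_powers_iff_mem_zpowers.2 hk : k ∈ Submonoid.powers h)
    change ρ (h ^ m) c = c
    clear hk
    induction m with
    | zero => simp
    | succ m ih => rw [pow_succ, map_mul, End.mul_apply, hc, ih]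
  have h1 := h0 (∑ k : Subgroup.zpowers h, ρ k y) (by
    rw [map_sum]
    exact Fintype.sum_equiv (Equiv.mulLeft ⟨h, Subgroup.mem_zpowers h⟩) _ _ fun k => by simp)
  rw [map_sum] at h1
  have h2 : ∀ k : Subgroup.zpowers h, B c (ρ k y) = B c y := fun k => by
    rw [← hB k c y, hk]
  simp only [h2, Finset.sum_const, Finset.card_univ, nsmul_eq_mul, mul_eq_zero] at h1
  refine h1.resolve_left fun h3 => hH (((ZMod.natCast_eq_zero_iff _ _).1 h3).trans ?_)
  rw [← Nat.card_eq_fintype_card]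
  exact Subgroup.card_subgroup_dvd_card _

section Gauss

/-- quadratic Gauss sum over a subspace -/
noncomputable def gs (e : AddChar (ZMod p) ℂ) (S : LinearMap.BilinForm (ZMod p) W)
    (C : Submodule (ZMod p) W) : ℂ := ∑ᶠ u : C, e (S u u)

variable [Finite W] {e : AddChar (ZMod p) ℂ} {S : LinearMap.BilinForm (ZMod p) W}

theorem gs_norm (h2 : p ≠ 2) (he : e.IsPrimitive) (hS : ∀ x y, S x y = S y x)
    {C : Submodule (ZMod p) W} (hC : ∀ x ∈ C, (∀ y ∈ C, S x y = 0) → x = 0) :
    gs e S C * conj (gs e S C) = Nat.card C := by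
  classical
  have := Fintype.ofFinite C
  rw [gs, finsum_eq_sum_of_fintype, map_sum, Finset.sum_mul_sum, Finset.sum_comm]
  have h1 : ∀ w : C, ∑ u : C, e (S u u) * conj (e (S w w)) =
      ∑ t : C, e (S t t) * e (2 * S t w) := fun w => by
    refine (Fintype.sum_equiv (Equiv.addLeft w) _ _ fun t => ?_).symm
    rw [← AddChar.map_neg_eq_conj, ← AddChar.map_add_eq_mul, ← AddChar.map_add_eq_mul]
    congr 1
    simp only [Equiv.coe_addLeft, Submodule.coe_add, map_add, LinearMap.add_apply, hS w t]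
    ring
  simp only [h1]
  rw [Finset.sum_comm, Finset.sum_eq_single 0]
  · simp
  · intro t _ ht
    rw [← Finset.mul_sum]
    let a : AddChar C ℂ := e.compAddMonoidHom
      (((2 : ZMod p) • S t ∘ₗ C.subtype : C →ₗ[ZMod p] ZMod p) : C →+ ZMod p)
    have h3 : ∑ w : C, a w = 0 := by
      refine AddChar.sum_eq_zero_iff_ne_zero.2 fun h0 => ht (Subtype.ext (hC t t.2 fun y hy => ?_))
      have h4 : e (2 * S t y) = 1 := DFunLike.congr_fun h0 ⟨y, hy⟩
      rw [he.zmod_char_eq_one_iff, mul_eq_zero] at h4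
      refine h4.resolve_left fun h5 => h2 ?_
      exact (Nat.prime_dvd_prime_iff_eq hp.out Nat.prime_two).1
        ((ZMod.natCast_eq_zero_iff 2 p).1 (by exact_mod_cast h5))
    exact mul_eq_zero_of_right _ h3
  · simp

theorem gs_mul (hS : ∀ x y, S x y = S y x) {C D : Submodule (ZMod p) W} (h : IsCompl C D)
    (h0 : ∀ x ∈ C, ∀ y ∈ D, S x y = 0) : gs e S C * gs e S D = ∑ᶠ u, e (S u u) := by
  classical
  have := Fintype.ofFinite W
  rw [gs, gs, finsum_eq_sum_of_fintype, finsum_eq_sum_of_fintype, finsum_eq_sum_of_fintype,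
    Finset.sum_mul_sum, ← Finset.sum_product', Finset.univ_product_univ]
  refine Fintype.sum_equiv (Submodule.prodEquivOfIsCompl C D h).toEquiv _ _ fun x => ?_
  rw [← AddChar.map_add_eq_mul]
  congr 1
  simp [hS x.2 x.1, h0 x.1 x.1.2 x.2 x.2.2]

omit [Finite W] in
theorem pow_addChar (a : ZMod p) : e a ^ p = 1 := by
  rw [← AddChar.map_nsmul_eq_pow, nsmul_eq_mul, ZMod.natCast_self, zero_mul,
    AddChar.map_zero_eq_one]

theorem gs_isIntegral (C : Submodule (ZMod p) W) : IsIntegral ℤ (gs e S C) := by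
  have := Fintype.ofFinite C
  rw [gs, finsum_eq_sum_of_fintype]
  exact IsIntegral.sum _ fun _ _ => isIntegral_of_pow hp.out.ne_zero (pow_addChar _)

theorem gs_mem (C : Submodule (ZMod p) W) : gs e S C ∈ cycField p := by
  have := Fintype.ofFinite C
  rw [gs, finsum_eq_sum_of_fintype]
  exact sum_mem fun _ _ => mem_cycField_of_pow_eq_one (pow_addChar _)

theorem gs_ideal (hM : IsPModular p M) {C : Submodule (ZMod p) W} (hC : Nat.card C ≠ 1) :
    MemLocalIdeal M (gs e S C) := by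
  have := Fintype.ofFinite C
  have h1 : gs e S C = ∑ u : C, (e (S u u) - 1) + Nat.card C := by
    rw [gs, finsum_eq_sum_of_fintype]
    simp
  rw [h1]
  refine ideal_add hM (ideal_sum hM _ fun _ _ => ideal_sub_one hM (pow_addChar _))
    ((ideal_natCast_iff hM _).2 ?_)
  obtain ⟨k, hk⟩ := card_eq_pow (p := p) (W := C)
  rw [hk] at hC ⊢
  exact dvd_pow_self p fun h => hC (by rw [h, pow_zero])

variable [Fintype H]

theorem is_gs {ρ : H →* End (ZMod p) W} (hinv : ∀ g x y, S (ρ g x) (ρ g y) = S x y) :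
    IS fun h => gs e S (fs ρ h) := by
  classical
  have := Fintype.ofFinite W
  have h1 : (fun h => gs e S (fs ρ h)) =
      ∑ a : ZMod p, e a • fun h => (Nat.card {w // S w w = a ∧ ρ h w = w} : ℂ) := by
    ext h
    rw [gs, finsum_eq_sum_of_fintype, Finset.sum_apply,
      ← Finset.sum_fiberwise Finset.univ (fun u : fs ρ h => S u u)]
    refine Finset.sum_congr rfl fun a _ => ?_
    rw [Finset.sum_congr rfl fun u hu => congrArg e (Finset.mem_filter.1 hu).2, Finset.sum_const,
      nsmul_eq_mul, Pi.smul_apply, smul_eq_mul, mul_comm,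
      ← Nat.subtype_card _ (p := fun u : fs ρ h => S u u = a) (by simp)]
    congr 2
    exact Nat.card_congr
      { toFun := fun u => ⟨u.1.1, u.2, u.1.2⟩
        invFun := fun u => ⟨⟨u.1, u.2.2⟩, u.2.1⟩
        left_inv := fun _ => rfl
        right_inv := fun _ => rfl }
  rw [h1]
  exact IS.sum _ fun a _ => (IS.of_gen (isCharacter_fix ρ (fun w => S w w = a)
    fun h w hw => by rwa [hinv]).isGeneralizedCharacter).smul
      (isIntegral_of_pow hp.out.ne_zero (pow_addChar _))

theorem sqM_symm (hM : IsPModular p M) (h2 : p ≠ 2) (hH : ¬ p ∣ Nat.card H)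
    {ρ : H →* End (ZMod p) W} (hS : ∀ x y, S x y = S y x)
    (hinv : ∀ g x y, S (ρ g x) (ρ g y) = S x y) (hnd : ∀ x, (∀ y, S x y = 0) → x = 0) :
    SqM M p ρ := by
  have : FiniteDimensional (ZMod p) W := Module.Finite.of_finite
  let e := AddChar.FiniteField.primitiveChar_to_Complex (ZMod p)
  have he : e.IsPrimitive := AddChar.FiniteField.primitiveChar_to_Complex_isPrimitive _
  have hC : ∀ h, ∀ x ∈ fs ρ h, (∀ y ∈ fs ρ h, S x y = 0) → x = 0 := fun h x hx h0 =>
    eq_zero_of_fix hH hinv hnd hx h0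
  have hc : ∀ h, IsCompl (fs ρ h) (S.orthogonal (fs ρ h)) := fun h =>
    (LinearMap.BilinForm.isCompl_orthogonal_iff_disjoint fun x y h => (hS y x).trans h).2
      (Submodule.disjoint_def.2 fun x hx hx' => hC h x hx fun y hy => (hS x y).trans (hx' y hy))
  have hD : ∀ h, ∀ x ∈ S.orthogonal (fs ρ h), (∀ y ∈ S.orthogonal (fs ρ h), S x y = 0) → x = 0 :=
    fun h x hx h0 => hnd x fun v => by
      obtain ⟨a, ha, b, hb, rfl⟩ := Submodule.mem_sup.1 ((hc h).sup_eq_top ▸ Submodule.mem_top :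
        v ∈ fs ρ h ⊔ S.orthogonal (fs ρ h))
      rw [map_add, h0 b hb, add_zero, hS]
      exact hx a ha
  refine ⟨fun h => Nat.card (S.orthogonal (fs ρ h)), fun h => gs e S (S.orthogonal (fs ρ h)),
    ⟨?_, fun h => gs_mem _, fun h => gs_norm h2 he hS (hD h), fun h => gs_ideal hM⟩, fun h => ?_⟩
  · refine IS.of_mul hp.out hH (isCharacter_fx ρ).isGeneralizedCharacter (fx_pow ρ)
      (fun h => gs_isIntegral _) ((is_gs (e := e) hinv).conj.smul (c := ∑ᶠ u, e (S u u)) ?_)
      fun h => ?_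
    · rw [← gs_mul hS (hc 1) fun x hx y hy => hy x hx]
      exact (gs_isIntegral _).mul (gs_isIntegral _)
    · rw [fx_eq, ← gs_norm h2 he hS (hC h), Pi.smul_apply, smul_eq_mul,
        ← gs_mul hS (hc h) fun x hx y hy => hy x hx]
      ring
  · rw [fx_eq, mul_comm, card_isCompl (hc h)]

end Gauss

section Heis

/-- The Heisenberg group of a bilinear form. -/
@[ext] structure Heis (B : LinearMap.BilinForm (ZMod p) W) where
  u : W
  a : ZMod p

namespace Heis

variable {B : LinearMap.BilinForm (ZMod p) W}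

instance : Mul (Heis B) := ⟨fun x y => ⟨x.u + y.u, x.a + y.a + B x.u y.u⟩⟩
instance : One (Heis B) := ⟨⟨0, 0⟩⟩
instance : Inv (Heis B) := ⟨fun x => ⟨-x.u, -x.a + B x.u x.u⟩⟩

@[simp] theorem mul_u (x y : Heis B) : (x * y).u = x.u + y.u := rfl
@[simp] theorem mul_a (x y : Heis B) : (x * y).a = x.a + y.a + B x.u y.u := rfl
@[simp] theorem one_u : (1 : Heis B).u = 0 := rfl
@[simp] theorem one_a : (1 : Heis B).a = 0 := rfl
@[simp] theorem inv_u (x : Heis B) : x⁻¹.u = -x.u := rfl
@[simp] theorem inv_a (x : Heis B) : x⁻¹.a = -x.a + B x.u x.u := rfl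

instance : Group (Heis B) where
  mul_assoc x y z := by
    ext
    · simp [add_assoc]
    · simp only [mul_u, mul_a, map_add, LinearMap.add_apply]; ring
  one_mul x := by ext <;> simp
  mul_one x := by ext <;> simp
  inv_mul_cancel x := by ext <;> simp

/-- underlying set -/
def equivProd : Heis B ≃ W × ZMod p where
  toFun x := (x.u, x.a)
  invFun x := ⟨x.1, x.2⟩
  left_inv _ := rfl
  right_inv _ := rfl

instance [Finite W] : Finite (Heis B) := Finite.of_equiv _ equivProd.symm

/-- action of the isometry group -/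
def aut (ρ : H →* End (ZMod p) W) (hB : ∀ g x y, B (ρ g x) (ρ g y) = B x y) :
    H →* MulAut (Heis B) where
  toFun g :=
    { toFun := fun x => ⟨ρ g x.u, x.a⟩
      invFun := fun x => ⟨ρ g⁻¹ x.u, x.a⟩
      left_inv := fun x => by ext <;> simp [inv_apply_apply]
      right_inv := fun x => by ext <;> simp [apply_inv_apply]
      map_mul' := fun x y => by ext <;> simp [hB] }
  map_one' := by ext <;> simp
  map_mul' g h := by ext <;> simp

@[simp] theorem aut_u (ρ : H →* End (ZMod p) W) (hB : ∀ g x y, B (ρ g x) (ρ g y) = B x y)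
    (g : H) (x : Heis B) : (aut ρ hB g x).u = ρ g x.u := rfl

@[simp] theorem aut_a (ρ : H →* End (ZMod p) W) (hB : ∀ g x y, B (ρ g x) (ρ g y) = B x y)
    (g : H) (x : Heis B) : (aut ρ hB g x).a = x.a := rfl

theorem pow_z (k : ℕ) : (⟨0, 1⟩ : Heis B) ^ k = ⟨0, k⟩ := by
  induction k with
  | zero => ext <;> simp
  | succ k ih => rw [pow_succ, ih]; ext <;> simp

end Heis

open SemidirectProduct Subgroup in
theorem exists_weil_char [Finite W] [Finite H] (hH : ¬ p ∣ Nat.card H) {ρ : H →* End (ZMod p) W}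
    {B : LinearMap.BilinForm (ZMod p) W} (hB : ∀ g x y, B (ρ g x) (ρ g y) = B x y)
    (hnd : ∀ x, (∀ y, B x y - B y x = 0) → x = 0) :
    ∃ ω : H → ℤ, IsCharacter H (fun h => (ω h : ℂ)) ∧ ∀ h, ω h ^ 2 = fx ρ h := by
  let Γ := Heis B ⋊[Heis.aut ρ hB] H
  have : Finite Γ := Finite.of_equiv _ SemidirectProduct.equivProd.symm
  let N : Subgroup Γ := (rightHom : Γ →* H).ker
  have hN : ∀ x : Γ, x ∈ N ↔ x.right = 1 := fun x => Iff.rfl
  have hidx : N.index = Nat.card H := by
    rw [index_ker, MonoidHom.range_eq_top.2 rightHom_surjective, card_top]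
  let z : Γ := inl ⟨0, 1⟩
  have hzo : orderOf z = p := by
    rw [orderOf_injective inl inl_injective]
    refine orderOf_eq_prime ?_ fun h => one_ne_zero (congrArg Heis.a h)
    rw [Heis.pow_z]
    ext <;> simp
  have hC : ∀ h : H, Nat.card (N ⊓ centralizer ({inr h} : Set Γ) : Subgroup Γ) = fx ρ h * p := by
    intro h
    refine Eq.trans ?_ ((Nat.card_prod {w // ρ h w = w} (ZMod p)).trans (by rw [Nat.card_zmod, fx]))
    refine Nat.card_congr
      { toFun := fun x => (⟨x.1.left.u, ?_⟩, x.1.left.a)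
        invFun := fun x => ⟨inl ⟨x.1.1, x.2⟩, rfl, mem_centralizer_singleton_iff.2 ?_⟩
        left_inv := fun x => Subtype.ext (SemidirectProduct.ext rfl x.2.1.symm)
        right_inv := fun _ => rfl }
    · have := congrArg (fun y : Γ => y.left.u) (mem_centralizer_singleton_iff.1 x.2.2)
      simpa [Γ] using this.symm
    · refine SemidirectProduct.ext (Heis.ext ?_ ?_) ?_ <;> simp [Γ, x.1.2]
  have hcop : (Nat.card N).Coprime N.index := by
    have h1 := hC 1
    rw [map_one, (centralizer_eq_top_iff_subset.2 (by simp) : centralizer ({1} : Set Γ) = ⊤),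
      inf_top_eq] at h1
    obtain ⟨k, hk⟩ := fx_pow ρ 1
    rw [h1, hk, hidx, ← pow_succ]
    exact ((Nat.Prime.coprime_iff_not_dvd hp.out).2 hH).pow_left _
  obtain ⟨χ, hχ, h⟩ := exists_weil hcop (z := z) rfl
    (mem_center_iff.2 fun g => by
      refine SemidirectProduct.ext (Heis.ext ?_ ?_) ?_ <;> simp [Γ, z, add_comm])
    (fun h => hp.out.ne_one (by rw [← hzo, h, orderOf_one])) (Set.range inr) ⟨1, map_one _⟩
    (by
      rintro _ ⟨h, rfl⟩
      rw [orderOf_injective inr inr_injective, hidx]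
      exact orderOf_dvd_natCard h)
    (by
      rintro _ ⟨h, rfl⟩ c hc h1 h2
      have h3 : ρ h c.left.u = c.left.u := by
        simpa [Γ] using (congrArg (fun y : Γ => y.left.u) h1).symm
      have h4 : c.left.u ≠ 0 := fun h4 => h2 (by
        refine ⟨(c.left.a.val : ℕ), ?_⟩
        change z ^ ((c.left.a.val : ℕ) : ℤ) = c
        rw [zpow_natCast, ← map_pow, Heis.pow_z]
        exact SemidirectProduct.ext (Heis.ext h4.symm (by simp)) ((hN c).1 hc).symm)
      obtain ⟨y, hy, h5⟩ : ∃ y, ρ h y = y ∧ B c.left.u y - B y c.left.u ≠ 0 := by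
        by_contra h5
        push Not at h5
        exact h4 (eq_zero_of_fix hH (B := B - B.flip) (fun g x y => by simp [hB]) hnd h3 h5)
      refine ⟨inl ⟨(-(B c.left.u y - B y c.left.u)⁻¹) • y, 0⟩, rfl, ?_, ?_⟩
      · refine SemidirectProduct.ext (Heis.ext ?_ ?_) ?_ <;> simp [Γ, hy]
      · rw [mul_inv_eq_iff_eq_mul]
        refine SemidirectProduct.ext (Heis.ext ?_ ?_) ?_
        · simp [Γ, z, (hN c).1 hc, add_comm]
        · simp only [Γ, z, (hN c).1 hc, mul_left, left_inl, right_inl, map_one, MulAut.one_apply,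
            Heis.mul_a, Heis.mul_u, mul_right, mul_one, map_smul, LinearMap.smul_apply,
            smul_eq_mul, zero_add, map_zero, LinearMap.zero_apply, add_zero]
          field_simp
          ring
        · simp [Γ, z])
  choose ω h1 h2 using fun g : H => h (inr g) ⟨g, rfl⟩
  refine ⟨ω, ?_, fun g => ?_⟩
  · simpa only [h1] using hχ.comp inr
  · have h3 := h2 g
    rw [hC, hzo, Nat.cast_mul] at h3
    exact mul_right_cancel₀ (by exact_mod_cast hp.out.ne_zero) h3

theorem exists_half [Finite W] [Finite H] (hH : ¬ p ∣ Nat.card H) {ρ : H →* End (ZMod p) W}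
    {A : LinearMap.BilinForm (ZMod p) W} (hA : ∀ x, A x x = 0)
    (hinv : ∀ g x y, A (ρ g x) (ρ g y) = A x y) :
    ∃ B : LinearMap.BilinForm (ZMod p) W, (∀ g x y, B (ρ g x) (ρ g y) = B x y) ∧
      ∀ x y, B x y - B y x = Nat.card H * A x y := by
  classical
  have := Fintype.ofFinite H
  have : FiniteDimensional (ZMod p) W := Module.Finite.of_finite
  let b := Module.finBasis (ZMod p) W
  let B₀ : LinearMap.BilinForm (ZMod p) W :=
    Matrix.toBilin b (Matrix.of fun i j => if i < j then A (b i) (b j) else 0)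
  have h0 : ∀ i j, B₀ (b i) (b j) = if i < j then A (b i) (b j) else 0 := fun i j => by
    rw [← LinearMap.BilinForm.toMatrix_apply b, LinearMap.BilinForm.toMatrix_toBilin]
    rfl
  have h1 : B₀ - B₀.flip = A := LinearMap.BilinForm.ext_basis b fun i j => by
    rw [LinearMap.sub_apply, LinearMap.sub_apply, LinearMap.BilinForm.flip_apply, h0, h0]
    rcases lt_trichotomy i j with h | rfl | h
    · simp [h, h.asymm]
    · simp [hA]
    · rw [if_neg h.asymm, if_pos h, zero_sub]
      exact LinearMap.IsAlt.neg hA _ _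
  have h2 : ∀ x y, B₀ x y - B₀ y x = A x y := fun x y => by rw [← h1]; rfl
  refine ⟨∑ g : H, B₀.comp (ρ g) (ρ g), fun g x y => ?_, fun x y => ?_⟩
  · simp only [LinearMap.sum_apply, LinearMap.BilinForm.comp_apply]
    exact Fintype.sum_equiv (Equiv.mulRight g) _ _ fun k => by simp
  · simp only [LinearMap.sum_apply, LinearMap.BilinForm.comp_apply, ← Finset.sum_sub_distrib, h2,
      hinv]
    simp

theorem sqM_alt [Finite W] [Fintype H] (hM : IsPModular p M) (hH : ¬ p ∣ Nat.card H)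
    {ρ : H →* End (ZMod p) W} {A : LinearMap.BilinForm (ZMod p) W} (hA : ∀ x, A x x = 0)
    (hinv : ∀ g x y, A (ρ g x) (ρ g y) = A x y) (hnd : ∀ x, (∀ y, A x y = 0) → x = 0) :
    SqM M p ρ := by
  obtain ⟨B, hB, hBA⟩ := exists_half hH hA hinv
  obtain ⟨ω, hω, h1⟩ := exists_weil_char hH hB fun x hx => hnd x fun y =>
    (mul_eq_zero.1 ((hBA x y).symm.trans (hx y))).resolve_left
      fun h => hH ((ZMod.natCast_eq_zero_iff _ _).1 h)
  choose d hd using fx_dvd ρ
  have h2 : ∀ h, ω h ∣ ω 1 := fun h => by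
    rw [← Int.pow_dvd_pow_iff two_ne_zero, h1, h1, fx_one]
    exact_mod_cast fx_dvd ρ h
  choose c hc using h2
  have h0 : ∀ h, (fx ρ h : ℤ) ≠ 0 := fun h => by
    obtain ⟨k, hk⟩ := fx_pow ρ h
    rw [hk]
    exact_mod_cast pow_ne_zero k hp.out.ne_zero
  have h3 : ∀ h, c h ^ 2 = d h := fun h => by
    refine mul_left_cancel₀ (h0 h) ?_
    rw [← Nat.cast_mul, ← hd, ← fx_one ρ, ← h1, ← h1, hc h, mul_pow]
  refine ⟨d, fun h => c h, ⟨?_, fun h => intCast_mem _ _, fun h => ?_, fun h h4 => ?_⟩,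
    fun h => by rw [hd h, mul_comm]⟩
  · refine IS.of_mul hp.out hH (isCharacter_fx ρ).isGeneralizedCharacter (fx_pow ρ)
      (fun h => isIntegral_algebraMap (x := c h)) ((IS.of_gen hω.isGeneralizedCharacter).smul
        (isIntegral_algebraMap (R := ℤ) (x := ω 1))) fun h => ?_
    have h5 : (c h : ℤ) * fx ρ h = ω 1 * ω h := by rw [← h1, hc h]; ring
    simpa using congrArg (Int.cast : ℤ → ℂ) h5
  · rw [map_intCast, ← sq]
    exact_mod_cast h3 h
  · rw [ideal_intCast_iff hM]
    refine (Nat.prime_iff_prime_int.1 hp.out).dvd_of_dvd_pow (n := 2) ?_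
    rw [h3]
    obtain ⟨k, hk⟩ := card_eq_pow (p := p) (W := W)
    obtain ⟨j, -, hj⟩ := (Nat.dvd_prime_pow hp.out).1 (hk ▸ hd h ▸ dvd_mul_left (d h) (fx ρ h))
    rw [hj] at h4 ⊢
    exact_mod_cast dvd_pow_self p fun h => h4 (by rw [h, pow_zero])

end Heis

/-- The Knörr character of a self-dual module is a norm. -/
theorem sqM_of_form [Finite W] [Fintype H] (hM : IsPModular p M) (hH : ¬ p ∣ Nat.card H)
    {ρ : H →* End (ZMod p) W} {B : LinearMap.BilinForm (ZMod p) W} (hB : B.Nondegenerate)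
    (hinv : ∀ g x y, B (ρ g x) (ρ g y) = B x y) : SqM M p ρ := by
  have : FiniteDimensional (ZMod p) W := Module.Finite.of_finite
  obtain ⟨U, T, hc, ⟨hU, A, hA, hA'⟩, hT, ⟨S, hS, hS'⟩, h2⟩ :=
    exists_split (fun h => hH ((ZMod.natCast_eq_zero_iff _ _).1 h)) ρ hB hinv
  refine SqM.of_isCompl hM hc hU hT
    (sqM_alt hM hH (A := A.restrict U) (fun x => hA x) (fun g x y => hA'.inv g x x.2 y y.2)
      fun x hx => Subtype.ext (hA'.nd x x.2 fun y hy => hx ⟨y, hy⟩)) ?_
  by_cases hp2 : p = 2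
  · subst hp2
    exact sqM_triv fun g w => Subtype.ext (h2 rfl g w w.2)
  · exact sqM_symm hM hp2 hH (S := S.restrict T) (fun x y => hS x y)
      (fun g x y => hS'.inv g x x.2 y y.2)
      fun x hx => Subtype.ext (hS'.nd x x.2 fun y hy => hx ⟨y, hy⟩)

end Cfsg.Lib.Block.Kgv
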