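import Mathlib

/-!
A cyclic lattice `ℤ^k + ℤ · f / q` with `f i0 = 1` which avoids the open ball `|y|^2 < y i0`
has bounded denominator `q`.
-/

set_option autoImplicit false

namespace Cfsg.Lib.Block.LatBall

open Finset

theorem core {ι : Type*} [Fintype ι] (i0 : ι) (L : AddSubgroup (ι → ℝ)) (k : ℕ)
    (hk : Fintype.card ι ≤ k) (H : ∀ y ∈ L, |y i0| ≤ k * ‖y‖ ^ 2) {d : ℝ} (hd : 0 < d)
    {w : ι → ℝ} (hw1 : ‖w‖ ≤ 1)
    (hs : w ∈ Submodule.span ℝ {y | y ∈ L ∧ ‖y‖ ≤ d}) :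
    |w i0| ≤ (k * (k + 1) ^ 2 + k ^ 2) * d := by
  classical
  obtain ⟨b, hb, hsp, hli⟩ := exists_linearIndependent ℝ {y | y ∈ L ∧ ‖y‖ ≤ d}
  have hfin : b.Finite := hli.set_finite_of_isNoetherian
  have := hfin.fintype
  have hc : Fintype.card b ≤ k := by
    have := hli.fintype_card_le_finrank
    rw [Module.finrank_fintype_fun_eq_card] at this
    exact le_trans (by convert this) hk
  rw [← hsp, ← Subtype.range_coe (s := b), Submodule.mem_span_range_iff_exists_fun] at hs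
  obtain ⟨c, rfl⟩ := hs
  set w := ∑ v : b, c v • (v : ι → ℝ) with hw
  set r := ∑ v : b, Int.fract (d * c v) • (v : ι → ℝ) with hr
  have hL : d • w - r ∈ L := by
    have : d • w - r = ∑ v : b, ⌊d * c v⌋ • (v : ι → ℝ) := by
      rw [hw, hr, Finset.smul_sum, ← Finset.sum_sub_distrib]
      refine Finset.sum_congr rfl fun v _ => ?_
      rw [smul_smul, ← sub_smul, Int.self_sub_fract, Int.cast_smul_eq_zsmul]
    rw [this]
    exact L.sum_mem fun v _ => L.zsmul_mem (hb v.2).1 _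
  have hkr : (Fintype.card b : ℝ) ≤ k := by exact_mod_cast hc
  have h1 : ‖r‖ ≤ k * d := by
    refine (norm_sum_le_of_le (n := fun _ => d) _ fun v _ => ?_).trans ?_
    · rw [norm_smul, Real.norm_eq_abs, abs_of_nonneg (Int.fract_nonneg _)]
      exact (mul_le_of_le_one_left (norm_nonneg _) (Int.fract_lt_one _).le).trans (hb v.2).2
    · rw [Finset.sum_const, Finset.card_univ, nsmul_eq_mul]
      gcongr
  have h2 : |r i0| ≤ k * (k * d ^ 2) := by
    rw [hr, Finset.sum_apply]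
    refine (Finset.abs_sum_le_sum_abs _ _).trans
      ((Finset.sum_le_sum (g := fun _ => k * d ^ 2) fun v _ => ?_).trans ?_)
    · rw [Pi.smul_apply, smul_eq_mul, abs_mul, abs_of_nonneg (Int.fract_nonneg _)]
      refine (mul_le_of_le_one_left (abs_nonneg _) (Int.fract_lt_one _).le).trans
        ((H _ (hb v.2).1).trans ?_)
      have := (hb v.2).2
      gcongr
    · rw [Finset.sum_const, Finset.card_univ, nsmul_eq_mul]
      gcongr
  have h3 : ‖d • w - r‖ ≤ (k + 1) * d := by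
    refine (norm_sub_le _ _).trans ?_
    rw [norm_smul, Real.norm_eq_abs, abs_of_pos hd]
    nlinarith
  have h4 : |(d • w - r) i0| ≤ k * ((k + 1) * d) ^ 2 := (H _ hL).trans (by gcongr)
  have h5 : d * |w i0| ≤ |(d • w - r) i0| + |r i0| := by
    have : d * w i0 = (d • w - r) i0 + r i0 := by simp
    rw [← abs_of_pos hd, ← abs_mul, abs_of_pos hd, this]
    exact abs_add_le _ _
  refine le_of_mul_le_mul_left ?_ hd
  nlinarith

theorem window {ι : Type*} [Fintype ι] (k : ℕ) (hk : Fintype.card ι ≤ k)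
    (V : ℕ → Submodule ℝ (ι → ℝ)) (hV : ∀ j, V (j + 1) ≤ V j) :
    ∃ j ≤ k, V j ≤ V (j + 1) := by
  by_contra h
  push Not at h
  have key : ∀ j ≤ k + 1, Module.finrank ℝ (V j) + j ≤ k := by
    intro j
    induction j with
    | zero =>
      intro _
      have := Submodule.finrank_le (V 0)
      rw [Module.finrank_fintype_fun_eq_card] at this
      omega
    | succ j ih =>
      intro hj
      have := Submodule.finrank_lt_finrank_of_lt (lt_of_le_not_ge (hV j) (h j (by omega)))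
      have := ih (by omega)
      omega
  have := key (k + 1) le_rfl
  omega

theorem pigeon {ι : Type*} [Fintype ι] (i0 : ι) (f : ι → ℕ) (hf : f i0 = 1) (k : ℕ)
    (hk : Fintype.card ι ≤ k) {N q : ℕ} (hN : 0 < N) (hq : 2 * (N ^ k + 1) ≤ q) :
    ∃ (t : ℤ) (m : ℕ → ℤ), (∀ i, N * |t * f i - q * m (f i)| ≤ q) ∧
      (q : ℤ) ≤ 2 * N ^ k * |t - q * m 1| := by
  classical
  have hq0 : 0 < q := by omega
  have hNk : 0 < N ^ k := pow_pos hN k
  set D := (q - 1) / N ^ k with hD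
  have hD1 : N ^ k * D ≤ q - 1 := Nat.mul_div_le _ _
  have hD2 : q - 1 < N ^ k * D + N ^ k := by
    have := Nat.div_add_mod (q - 1) (N ^ k)
    have := Nat.mod_lt (q - 1) hNk
    rw [hD]; omega
  let B : Fin (N ^ k + 1) → ι → Fin N := fun j i => ⟨(j * D * f i % q) * N / q, by
    rw [Nat.div_lt_iff_lt_mul hq0, mul_comm]
    exact Nat.mul_lt_mul_of_pos_left (Nat.mod_lt _ hq0) hN⟩
  obtain ⟨j, j', hne, he⟩ := Fintype.exists_ne_map_eq_of_card_lt B (by
    rw [Fintype.card_fun, Fintype.card_fin, Fintype.card_fin]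
    exact Nat.lt_succ_of_le (Nat.pow_le_pow_right hN hk))
  have e : ∀ n : ℕ, ((j : ℕ) * D - (j' : ℕ) * D : ℤ) * n -
      q * (((j * D * n / q : ℕ) : ℤ) - ((j' * D * n / q : ℕ) : ℤ)) =
      ((j * D * n % q : ℕ) : ℤ) - ((j' * D * n % q : ℕ) : ℤ) := fun n => by
    have a1 : ((q * (j * D * n / q) + j * D * n % q : ℕ) : ℤ) = (j * D * n : ℕ) := by
      rw [Nat.div_add_mod]
    have a2 : ((q * (j' * D * n / q) + j' * D * n % q : ℕ) : ℤ) = (j' * D * n : ℕ) := by
      rw [Nat.div_add_mod]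
    simp only [Nat.cast_add, Nat.cast_mul] at a1 a2
    linear_combination a2 - a1
  refine ⟨(j : ℕ) * D - (j' : ℕ) * D,
    fun n => ((j * D * n / q : ℕ) : ℤ) - ((j' * D * n / q : ℕ) : ℤ), fun i => ?_, ?_⟩
  · rw [e]
    have h1 : (j * D * f i % q) * N / q = (j' * D * f i % q) * N / q :=
      congrArg Fin.val (congrFun he i)
    generalize j * D * f i % q = a at h1 ⊢
    generalize j' * D * f i % q = a' at h1 ⊢
    have a1 := Nat.div_add_mod (a * N) q
    have a2 := Nat.div_add_mod (a' * N) q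
    have a3 := Nat.mod_lt (a * N) hq0
    have a4 := Nat.mod_lt (a' * N) hq0
    rw [h1] at a1
    rw [← abs_of_nonneg (Int.natCast_nonneg N), ← abs_mul, abs_le]
    zify at a1 a2 a3 a4
    have a5 : (0 : ℤ) ≤ (a * N) % q := Int.emod_nonneg _ (by omega)
    have a6 : (0 : ℤ) ≤ (a' * N) % q := Int.emod_nonneg _ (by omega)
    constructor <;> linarith
  · have l : ∀ j : Fin (N ^ k + 1), j * D * 1 / q = 0 := fun j => by
      rw [Nat.div_eq_zero_iff, mul_one]
      have := Nat.mul_le_mul_right D (Nat.lt_succ_iff.1 j.2)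
      omega
    simp only [l, Nat.cast_zero, sub_self, mul_zero, sub_zero]
    rw [← sub_mul, abs_mul, abs_of_nonneg (Int.natCast_nonneg D)]
    have h1 : (1 : ℤ) ≤ |((j : ℕ) : ℤ) - (j' : ℕ)| :=
      Int.one_le_abs (sub_ne_zero.2 fun h => hne (Fin.ext (by exact_mod_cast h)))
    have h2 : q ≤ 2 * (N ^ k * D) := by omega
    have h3 : (q : ℤ) ≤ 2 * (N ^ k * D) := by exact_mod_cast h2
    have h4 : (0 : ℤ) ≤ 2 * (N ^ k * D) := by positivity
    nlinarith

/-- The scales. -/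
def sc (k : ℕ) : ℕ → ℕ
  | 0 => 1
  | j + 1 => 2 * (k * (k + 1) ^ 2 + k ^ 2) * sc k j ^ k + sc k j

theorem sc_eq_1' : type_of% @sc.eq_1 := @sc.eq_1
theorem sc_eq_2' : type_of% @sc.eq_2 := @sc.eq_2

theorem sc_mono (k : ℕ) : Monotone (sc k) :=
  monotone_nat_of_le_succ fun j => by rw [sc_eq_2']; omega

theorem sc_pos (k j : ℕ) : 0 < sc k j := sc_mono k (Nat.zero_le j)

theorem bound (k : ℕ) : ∃ Q : ℕ, ∀ (ι : Type*) [Fintype ι] (i0 : ι) (f : ι → ℕ) (q : ℕ),
    Fintype.card ι ≤ k → f i0 = 1 →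
    (∀ (t : ℤ) (m : ℕ → ℤ), q * (t - q * m 1) ≤ ∑ i, (t * f i - q * m (f i)) ^ 2) → q ≤ Q := by
  refine ⟨2 * (sc k k ^ k + 1), fun ι _ i0 f q hk hf H => ?_⟩
  by_contra hq
  have hq0 : (0 : ℝ) < q := by exact_mod_cast (by omega : 0 < q)
  let L : AddSubgroup (ι → ℝ) :=
    { carrier := {y | ∃ (t : ℤ) (m : ℕ → ℤ), ∀ i, q * y i = (t * f i - q * m (f i) : ℤ)}
      zero_mem' := ⟨0, 0, fun i => by simp⟩
      add_mem' := by
        rintro y z ⟨t, m, h⟩ ⟨t', m', h'⟩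
        refine ⟨t + t', m + m', fun i => ?_⟩
        rw [Pi.add_apply, mul_add, h, h', Pi.add_apply]
        push_cast
        ring
      neg_mem' := by
        rintro y ⟨t, m, h⟩
        refine ⟨-t, -m, fun i => ?_⟩
        rw [Pi.neg_apply, mul_neg, h, Pi.neg_apply]
        push_cast
        ring }
  have H1 : ∀ y ∈ L, y i0 ≤ k * ‖y‖ ^ 2 := by
    rintro y ⟨t, m, h⟩
    have h1 : ((q * (t - q * m 1) : ℤ) : ℝ) ≤ ((∑ i, (t * f i - q * m (f i)) ^ 2 : ℤ) : ℝ) := by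
      exact_mod_cast H t m
    have h2 := h i0
    rw [hf, Nat.cast_one, mul_one] at h2
    rw [Int.cast_mul, ← h2, Int.cast_sum] at h1
    simp only [Int.cast_pow, ← h, Int.cast_natCast] at h1
    have h3 : ∑ i, (q * y i) ^ 2 ≤ q ^ 2 * (k * ‖y‖ ^ 2) := by
      refine (Finset.sum_le_sum (g := fun _ => (q : ℝ) ^ 2 * ‖y‖ ^ 2) fun i _ => ?_).trans ?_
      · rw [mul_pow, ← sq_abs (y i)]
        have := norm_le_pi_norm y i
        rw [Real.norm_eq_abs] at this
        gcongr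
      · rw [Finset.sum_const, Finset.card_univ, nsmul_eq_mul]
        have : (Fintype.card ι : ℝ) ≤ k := by exact_mod_cast hk
        calc (Fintype.card ι : ℝ) * (q ^ 2 * ‖y‖ ^ 2) ≤ k * (q ^ 2 * ‖y‖ ^ 2) := by gcongr
          _ = _ := by ring
    refine le_of_mul_le_mul_left ?_ (pow_pos hq0 2)
    nlinarith
  have H2 : ∀ y ∈ L, |y i0| ≤ k * ‖y‖ ^ 2 := fun y hy =>
    abs_le.2 ⟨by have := H1 _ (L.neg_mem hy); rw [norm_neg, Pi.neg_apply] at this; linarith,
      H1 y hy⟩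
  have sp : ∀ j, (0 : ℝ) < sc k j := fun j => by exact_mod_cast sc_pos k j
  obtain ⟨j, hj, hV⟩ := window k hk
    (fun j => Submodule.span ℝ {y | y ∈ L ∧ ‖y‖ ≤ (sc k j : ℝ)⁻¹}) fun j =>
      Submodule.span_mono fun y hy => ⟨hy.1, hy.2.trans (inv_anti₀ (sp j)
        (by exact_mod_cast sc_mono k (Nat.le_succ j)))⟩
  obtain ⟨t, m, h1, h2⟩ := pigeon i0 f hf k hk (sc_pos k j) (q := q) (by
    have := Nat.pow_le_pow_left (sc_mono k hj) k
    omega)
  let w : ι → ℝ := fun i => ((t * f i - q * m (f i) : ℤ) : ℝ) / q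
  have hwL : w ∈ L := ⟨t, m, fun i => mul_div_cancel₀ _ hq0.ne'⟩
  have hwn : ‖w‖ ≤ (sc k j : ℝ)⁻¹ := by
    refine (pi_norm_le_iff_of_nonneg (inv_pos.2 (sp j)).le).2 fun i => ?_
    rw [Real.norm_eq_abs, abs_div, abs_of_pos hq0, div_le_iff₀ hq0, le_inv_mul_iff₀ (sp j)]
    exact_mod_cast h1 i
  have h3 := core i0 L k hk H2 (inv_pos.2 (sp (j + 1))) (w := w)
    (hwn.trans (inv_le_one_of_one_le₀ (by exact_mod_cast sc_pos k j)))
    (hV (Submodule.subset_span ⟨hwL, hwn⟩))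
  have h4 : (1 : ℝ) ≤ 2 * sc k j ^ k * |w i0| := by
    simp only [w, hf, Nat.cast_one, mul_one]
    rw [abs_div, abs_of_pos hq0, ← mul_div_assoc, one_le_div hq0]
    exact_mod_cast h2
  rw [← div_eq_mul_inv, le_div_iff₀ (sp _), sc_eq_2'] at h3
  push_cast at h3
  have h5 : 0 < |w i0| := by
    by_contra h
    rw [le_antisymm (not_lt.1 h) (abs_nonneg _)] at h4
    norm_num at h4
  have h6 : (0 : ℝ) ≤ k * (k + 1) ^ 2 + k ^ 2 := by positivity
  nlinarith [mul_pos h5 (sp j), mul_le_mul_of_nonneg_left h4 h6]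

end Cfsg.Lib.Block.LatBall
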