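import Cfsg.Agent.Char.McKay
import Cfsg.Agent.Char.DegIto
import Cfsg.Agent.Char.DegChief
import Cfsg.Agent.Solv.CoprimeFixed
import Cfsg.Agent.Solv.PConstrained
import Cfsg.Agent.S0012

/-!
# Coprime automorphisms fixing all characters of `p'`-degree
-/

set_option autoImplicit false

namespace Cfsg.Lib.Block.PQ

open Cfsg Cfsg.Lib.Char Cfsg.Lib.Char.Deg Cfsg.Lib.Solv Subgroup
open scoped commutatorElement

universe u

/-- The irreducible characters of degree prime to `p`. -/
abbrev IrrP (p : ℕ) (G : Type*) [Group G] := {χ : IrrCharacter G // ¬ p ∣ charDegree χ.1}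

variable {G : Type u} [Group G] [Finite G] {p : ℕ}

omit [Finite G] in
theorem card_irrP_congr {H : Type*} [Group H] (e : G ≃* H) :
    Nat.card (IrrP p G) = Nat.card (IrrP p H) :=
  Nat.card_congr ((irrCongr e).subtypeEquiv fun χ => by
    rw [deg_congr (φ := (irrCongr e χ).1) (by simp)])

theorem not_dvd_of_lies_over (hp : p.Prime) {K : Subgroup G} [K.Normal] [Fintype K]
    (hK : ¬ p ∣ K.index) {χ : G → ℂ} {θ : K → ℂ} (hχ : IsIrrCharacter G χ)
    (hθ : IsIrrCharacter K θ) (h : classInner (fun n : K => χ n) θ ≠ 0)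
    (hd : ¬ p ∣ charDegree θ) : ¬ p ∣ charDegree χ := fun h1 => by
  have := Fintype.ofFinite G
  exact (hp.dvd_mul.1 (h1.trans (degree_dvd_index_mul hχ hθ h (cast_deg_irr hχ).symm
    (cast_deg_irr hθ).symm))).elim hK hd

theorem card_irrP_eq_sum (hp : p.Prime) (K : Subgroup G) [K.Normal] [Fintype K]
    [Fintype (IrrP p K)] (hK : ¬ p ∣ K.index) : (Nat.card (IrrP p G) : ℚ) = ∑ θ : IrrP p K,
      (Nat.card {χ : IrrCharacter G // classInner (fun n : K => χ.1 n) θ.1.1 ≠ 0} : ℚ) /
        (inertia K θ.1.1).index := by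
  classical
  have := Fintype.ofFinite G
  rw [card_eq_sum_div (fun (χ : IrrP p G) (θ : IrrP p K) =>
    classInner (fun n : K => χ.1.1 n) θ.1.1 ≠ 0) (fun θ φ => φ.1.1 ∈ conjSet K θ.1.1)]
  · refine Finset.sum_congr rfl fun θ _ => ?_
    congr 2
    · exact Nat.card_congr
        { toFun := fun a => ⟨a.1.1, a.2⟩
          invFun := fun a => ⟨⟨a.1, not_dvd_of_lies_over hp hK a.1.2 θ.1.2 a.2 θ.2⟩, a.2⟩
          left_inv := fun _ => rfl
          right_inv := fun _ => rfl }
    · rw [← card_conjSet, ← Nat.card_eq_finsetCard]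
      exact Nat.card_congr
        { toFun := fun a => ⟨a.1.1.1, a.2⟩
          invFun := fun a => ⟨⟨⟨a.1, θ.1.2.of_mem_conjSet a.2⟩,
            deg_congr (apply_one_of_mem_conjSet a.2) ▸ θ.2⟩, a.2⟩
          left_inv := fun _ => rfl
          right_inv := fun _ => rfl }
  · intro χ
    obtain ⟨θ, hθ, h⟩ := (χ.1.2.isClassFunction.res K).exists_irr_classInner_ne_zero
      fun e => χ.1.2.apply_one_ne_zero (congrFun e 1)
    exact ⟨⟨⟨θ, hθ⟩, fun h1 => χ.2 (h1.trans (deg_dvd_of_lies_over χ.1.2 hθ h))⟩, h⟩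
  · refine fun χ θ h φ => ⟨mem_conjSet_of_lies_over χ.1.2 θ.1.2 φ.1.2 h, fun h1 => ?_⟩
    obtain ⟨g, hg⟩ := mem_conjSet.1 h1
    rwa [← hg, classInner_res_conjChar χ.1.2.isClassFunction]

theorem card_over_le (K : Subgroup G) [K.Normal] [Fintype K] {θ : K → ℂ}
    (hθ : IsIrrCharacter K θ) :
    Nat.card {χ : IrrCharacter G // classInner (fun n : K => χ.1 n) θ ≠ 0} ≤ K.index := by
  classical
  have := Fintype.ofFinite G
  obtain ⟨c, h1, -, h2⟩ := (isCharacter_indFun hθ.isCharacter).exists_nat_multiplicity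
  rw [classInner_indFun_normal_self hθ, Nat.cast_inj] at h2
  refine le_trans ?_ (Nat.le_of_dvd (Nat.pos_of_ne_zero index_ne_zero_of_finite)
    (relIndex_dvd_index_of_normal K (inertia K θ)))
  rw [h2, Nat.card_eq_fintype_card, Fintype.card_subtype, Finset.card_filter]
  refine Finset.sum_le_sum fun χ _ => ?_
  split_ifs with h
  · rw [← classInner_indFun_irr_eq hθ.isCharacter χ.2.isCharacter, h1, Nat.cast_ne_zero] at h
    exact Nat.one_le_pow _ _ (Nat.pos_of_ne_zero h)
  · exact Nat.zero_le _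

theorem card_over_eq (K : Subgroup G) [K.Normal] [Fintype K] (hc : IsCyclic (G ⧸ K)) {θ : K → ℂ}
    (hθ : IsIrrCharacter K θ) (hi : inertia K θ = ⊤) :
    Nat.card {χ : IrrCharacter G // classInner (fun n : K => χ.1 n) θ ≠ 0} = K.index := by
  have := Fintype.ofFinite G
  obtain ⟨χ, hχ, he⟩ := exists_ext_of_isCyclic hc hθ (inertia_eq_top_iff.1 hi)
  obtain rfl : (fun n : K => χ n) = θ := funext he
  have h1 := (gallagher_ker_bijOn hχ.isCharacter hθ).equiv
  have h2 := card_irr_le_charKer K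
  have h3 : Nat.card (G ⧸ K) = Nat.card (ConjClasses (G ⧸ K)) := by
    letI := IsCyclic.commGroup (α := G ⧸ K)
    exact Nat.card_congr (Equiv.ofBijective _ (ConjClasses.mk_bijective (α := G ⧸ K)))
  rw [← h3, ← index_eq_card] at h2
  rw [← h2]
  refine Nat.card_congr (Equiv.trans ?_ (h1.symm.trans ?_))
  · exact
      { toFun := fun a => ⟨a.1.1, a.1.2, a.2⟩
        invFun := fun a => ⟨⟨a.1, a.2.1⟩, a.2.2⟩
        left_inv := fun _ => rfl
        right_inv := fun _ => rfl }
  · exact
      { toFun := fun a => ⟨⟨a.1, a.2.1⟩, a.2.2⟩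
        invFun := fun a => ⟨a.1.1, a.1.2, a.2⟩
        left_inv := fun _ => rfl
        right_inv := fun _ => rfl }

theorem card_irrP_eq (hp : p.Prime) (K : Subgroup G) [K.Normal] (hK : ¬ p ∣ K.index)
    (hc : IsCyclic (G ⧸ K))
    (h : ∀ θ, IsIrrCharacter K θ → ¬ p ∣ charDegree θ → inertia K θ = ⊤) :
    Nat.card (IrrP p G) = K.index * Nat.card (IrrP p K) := by
  have := Fintype.ofFinite K
  have := Fintype.ofFinite (IrrP p K)
  have h1 := card_irrP_eq_sum hp K hK
  rw [Finset.sum_congr rfl (g := fun _ => (K.index : ℚ)) fun θ _ => by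
    rw [card_over_eq K hc θ.1.2 (h _ θ.1.2 θ.2), h _ θ.1.2 θ.2, index_top, Nat.cast_one, div_one],
    Finset.sum_const, Finset.card_univ, ← Nat.card_eq_fintype_card, nsmul_eq_mul, mul_comm] at h1
  exact_mod_cast h1

theorem inertia_eq_top_of_card (hp : p.Prime) (K : Subgroup G) [K.Normal] (hK : ¬ p ∣ K.index)
    (h : Nat.card (IrrP p G) = K.index * Nat.card (IrrP p K)) {θ : K → ℂ}
    (hθ : IsIrrCharacter K θ) (hd : ¬ p ∣ charDegree θ) : inertia K θ = ⊤ := by
  have := Fintype.ofFinite K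
  have := Fintype.ofFinite (IrrP p K)
  by_contra h0
  have h1 := card_irrP_eq_sum hp K hK
  have h2 : ∀ φ : IrrP p K, (1 : ℚ) ≤ (inertia K φ.1.1).index := fun φ => by
    exact_mod_cast Nat.pos_of_ne_zero index_ne_zero_of_finite
  have h3 : (0 : ℚ) < K.index := by exact_mod_cast Nat.pos_of_ne_zero index_ne_zero_of_finite
  refine (Finset.sum_lt_sum (g := fun _ => (K.index : ℚ)) (fun φ _ => ?_)
    ⟨⟨⟨θ, hθ⟩, hd⟩, Finset.mem_univ _, ?_⟩).ne (h1.symm.trans ?_)
  · exact (div_le_self (Nat.cast_nonneg _) (h2 φ)).trans (by exact_mod_cast card_over_le K φ.1.2)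
  · refine (div_le_div_of_nonneg_right (b := (K.index : ℚ))
      (by exact_mod_cast card_over_le K hθ) (Nat.cast_nonneg _)).trans_lt (div_lt_self h3 ?_)
    exact_mod_cast one_lt_index_of_ne_top h0
  · rw [h, Finset.sum_const, Finset.card_univ, ← Nat.card_eq_fintype_card, nsmul_eq_mul,
      Nat.cast_mul, mul_comm]

theorem deg_dvd_index_of_ker {χ : G → ℂ} (hχ : IsIrrCharacter G χ) (A : Subgroup G) [A.Normal]
    (h : ∀ a ∈ A, ∀ b ∈ A, ⁅a, b⁆ ∈ charKer χ) : charDegree χ ∣ A.index := by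
  have := hχ.charKer_normal
  have := Normal.map (inferInstance : A.Normal) _ (QuotientGroup.mk'_surjective (charKer χ))
  have h1 := ito (hχ.deflate (N := charKer χ) le_rfl) (A.map (QuotientGroup.mk' _)) (by
    rintro _ ⟨a, ha, rfl⟩ _ ⟨b, hb, rfl⟩
    rw [← commutatorElement_eq_one_iff_mul_comm, ← map_commutatorElement]
    exact (QuotientGroup.eq_one_iff _).2 (h a ha b hb))
  rw [deg_congr (φ := χ) (hχ.isClassFunction.deflate_mk le_rfl 1)] at h1
  exact h1.trans (index_map_dvd _ (QuotientGroup.mk'_surjective _))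

/-- A `q`-subgroup fixing all `p'`-degree characters of a normal `q'`-subgroup `K` centralizes the
normal Sylow `p`-subgroup of `K`. -/
theorem le_centralizer_of_inertia {q : ℕ} [Fact p.Prime] [Fact q.Prime] (K P : Subgroup G)
    [K.Normal] [P.Normal] (hq : ¬ q ∣ Nat.card K) (hPK : P ≤ K) (hP : IsPGroup p P)
    (hi : ¬ p ∣ P.relIndex K) {R : Subgroup G} (hR : IsPGroup q R)
    (h : ∀ θ, IsIrrCharacter K θ → ¬ p ∣ charDegree θ → R ≤ inertia K θ) :
    R ≤ centralizer (P : Set G) := by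
  set f := QuotientGroup.mk' ⁅P, P⁆ with hf
  have := Normal.map (inferInstance : K.Normal) f (QuotientGroup.mk'_surjective _)
  have h1 := le_centralizer_of_forall_le_inertia (N := K.map f) (p := q)
    (fun h => hq (h.trans (Subgroup.card_map_dvd _ _))) (hR.map f) fun θ hθ => by
      rintro _ ⟨r, hr, rfl⟩
      have hθ' := hθ.comp_of_surjective _ (f.subgroupMap_surjective K)
      have h2 := mem_inertia'.1 (h _ hθ' (fun hd => hi (hd.trans
        (deg_dvd_index_of_ker hθ' (P.subgroupOf K) fun a ha b hb x => ?_))) hr)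
      · refine mem_inertia'.2 ?_
        rintro ⟨_, k, hk, rfl⟩
        exact h2 ⟨k, hk⟩
      · beta_reduce
        rw [map_mul, show f.subgroupMap K ⁅a, b⁆ = 1 from Subtype.ext
          ((QuotientGroup.eq_one_iff _).2 (commutator_mem_commutator ha hb)), one_mul]
  have hc : (Nat.card R).Coprime (Nat.card P) := coprime_card_of_isPGroup hR
    (((Nat.Prime.coprime_iff_not_dvd Fact.out).2 fun h => hq (h.trans (card_dvd_of_le hPK))).symm)
  refine Coprime.le_centralizer_of_commutator_le_frattini (by simp [normalizer_eq_top])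
    (hc.coprime_dvd_right (card_subgroup_dvd_card _)) (le_trans (commutator_le.2 fun x hx r hr => ?_)
      ((Subgroup.map_subtype_commutator P).ge.trans (map_mono (Cfsg.Agent.S0012.result p hP).1)))
  rw [← QuotientGroup.eq_one_iff, ← QuotientGroup.mk'_apply, map_commutatorElement,
    commutatorElement_eq_one_iff_mul_comm]
  exact (h1 (mem_map_of_mem f (hPK hx)) _ (mem_map_of_mem f hr)).symm

/-- McKay count: an automorphism of prime order `q` fixing all `p'`-degree characters of a
`p`-solvable `q'`-group centralizes a Sylow `p`-subgroup. -/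
theorem exists_centralizes_sylow {q : ℕ} [hp : Fact p.Prime] [hq : Fact q.Prime] (hpq : p ≠ q)
    (hG : IsPSolvable p G) (S : Subgroup G) [S.Normal] (hS : S.index = q)
    (hqS : ¬ q ∣ Nat.card S)
    (h : ∀ θ, IsIrrCharacter S θ → ¬ p ∣ charDegree θ → inertia S θ = ⊤) (P : Sylow p G) :
    ∃ y : G, orderOf y = q ∧ y ∈ centralizer (P : Set G) := by
  have hpq' : ¬ p ∣ q := fun h => hpq ((Nat.prime_dvd_prime_iff_eq hp.out hq.out).1 h)
  have hPS : (P : Subgroup G) ≤ S := le_of_coprime_card_index (coprime_card_of_isPGroup P.isPGroup'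
    (hS ▸ (Nat.coprime_primes hq.out hp.out).2 hpq.symm))
  set Y := normalizer ((P : Subgroup G) : Set G) with hY
  have hK : (S.subgroupOf Y).index = q := by
    have h1 := relIndex_sup_right Y S
    rw [show Y ⊔ S = ⊤ from P.normalizer_sup_eq_top' hPS, relIndex_top_right, hS] at h1
    exact h1.symm
  have h1 := card_irrP_eq hp.out S (hS ▸ hpq') (isCyclic_of_prime_card hS) h
  have h2 := mckay (hG.subgroup S) (P.subtype hPS)
  rw [Sylow.coe_subtype, ← subgroupOf_normalizer_eq hPS] at h2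
  obtain ⟨y, hy⟩ := exists_prime_orderOf_dvd_card' (G := Y) q (hK ▸ index_dvd_card _)
  have : ((P : Subgroup G).subgroupOf Y).Normal := normal_in_normalizer
  have h3 := le_centralizer_of_inertia (p := p) (q := q) (S.subgroupOf Y)
    ((P : Subgroup G).subgroupOf Y) (fun h => hqS (h.trans 
      (card_comap_dvd_of_injective _ _ Y.subtype_injective)))
    (subgroupOf_mono Y hPS) (P.isPGroup'.comap_subtype) (fun h => P.not_dvd_index
      ((h.trans (relIndex_dvd_index_of_normal _ _)).trans (relIndex_dvd_index_of_le le_normalizer)))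
    (R := zpowers y) (IsPGroup.iff_card.2 ⟨1, by rw [Nat.card_zpowers, hy, pow_one]⟩)
    fun θ hθ hd => by
      rw [inertia_eq_top_of_card hp.out _ (hK ▸ hpq') (by
        rw [hK, ← card_irrP_congr (subgroupOfSwap Y S), ← h2, ← hS, ← h1]
        exact (mckay hG P).symm) hθ hd]
      exact le_top
  exact ⟨y, by rw [orderOf_coe, hy], fun x hx =>
    congrArg Subtype.val (h3 (mem_zpowers y) ⟨x, le_normalizer hx⟩ hx)⟩

end Cfsg.Lib.Block.PQ
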