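import Cfsg.Agent.Block.PQCount
import Cfsg.Agent.Solv.CoprimeSylow

/-!
# Principal blocks for two primes in `p`-solvable and `q`-solvable groups
-/

set_option autoImplicit false

namespace Cfsg.Lib.Block.PQ

open Cfsg Cfsg.Lib.Char Cfsg.Lib.Char.Deg Cfsg.Lib.Solv Subgroup
open scoped commutatorElement

universe u

/-- The `p'`-degree characters of `G / O_{p'}(G)` have `q'`-degree. -/
def Hyp (p q : ℕ) (G : Type*) [Group G] : Prop :=
  ∀ χ, IsIrrCharacter G χ → pPrimeCore p G ≤ charKer χ → ¬ p ∣ charDegree χ → ¬ q ∣ charDegree χ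

variable {G : Type u} [Group G] [Finite G] {p q : ℕ}

omit [Finite G] in
theorem Hyp.quotient (h : Hyp p q G) (N : Subgroup G) [N.Normal] : Hyp p q (G ⧸ N) :=
  fun χ hχ hk hd => deg_inflate N χ ▸ h _ hχ.inflate (fun g hg x => by
    rw [QuotientGroup.mk_mul]
    exact hk (map_pPrimeCore_le _ (QuotientGroup.mk'_surjective N) (mem_map_of_mem _ hg)) _)
      (deg_inflate N χ ▸ hd)

theorem Hyp.not_dvd_card [hp : Fact p.Prime] [hq : Fact q.Prime] (hpq : p ≠ q) (h : Hyp p q G)
    (hps : IsPSolvable p G) (hqs : IsPSolvable q G) (h0 : pPrimeCore p G = ⊥)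
    (hi : ¬ p ∣ (pPrimeCore q G).index) : ¬ q ∣ Nat.card G := fun hd => by
  have := Fintype.ofFinite G
  set S := pPrimeCore q G with hS
  have := Fintype.ofFinite S
  have hqS := not_dvd_card_pPrimeCore q G
  have : Nontrivial (G ⧸ S) := QuotientGroup.nontrivial_iff.2 fun e =>
    hqS (by rwa [← hS, e, card_top])
  have h1 := ((hqs.quotient S).core_ne_bot).resolve_right
    (not_not.2 (pPrimeCore_quotient_pPrimeCore q G))
  obtain ⟨⟨y, hy⟩, hyo⟩ := exists_prime_orderOf_dvd_card' (G := pCore q (G ⧸ S)) q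
    ((pCore_isPGroup q _).card_eq_or_dvd.resolve_left (mt card_eq_one.1 h1))
  rw [← orderOf_coe, coe_mk] at hyo
  set X := (zpowers y).comap (QuotientGroup.mk' S) with hX
  have hSX : S ≤ X := (QuotientGroup.ker_mk' S).ge.trans (ker_le_comap _ _)
  have hXK : X ≤ pPrimePCore q G := le_pPrimePCore_iff_map_le.2
    ((map_comap_le _ _).trans (zpowers_le.2 hy))
  obtain ⟨k, hk⟩ := exists_relIndex_pPrimePCore q G
  obtain ⟨P⟩ : Nonempty (Sylow p X) := inferInstance
  obtain ⟨z, hz, hzP⟩ := exists_centralizes_sylow hpq (hps.subgroup X) (S.subgroupOf X) (by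
      change S.relIndex X = q
      have h2 := relIndex_comap ⊥ (QuotientGroup.mk' S) X
      rwa [MonoidHom.comap_bot, QuotientGroup.ker_mk', hX,
        map_comap_eq_self_of_surjective (QuotientGroup.mk'_surjective S), relIndex_bot_left,
        Nat.card_zpowers, hyo] at h2)
    (fun h => hqS (h.trans (card_comap_dvd_of_injective _ _ X.subtype_injective)))
    (fun θ hθ hθd => by
      have hθ' := hθ.comp_equiv (subgroupOfEquivOfLe hSX).symm
      obtain ⟨χ, hχ, hχθ⟩ := exists_irr_over hθ'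
      have h2 := h χ hχ (h0 ▸ bot_le) (not_dvd_of_lies_over hp.out hi hχ hθ' hχθ hθd)
      have h3 := le_of_not_dvd_index (le_inertia hθ'.isClassFunction) hk fun h3 => h2
        ((h3.mul_right _).trans (index_inertia_mul_deg_dvd hχ hθ' hχθ))
      exact (inertia_subgroupOf _ hSX).trans (subgroupOf_eq_top.2 (hXK.trans h3))) P
  have h2 : (z : G) ∈ pCore p G := hps.centralizer_pCore_le h0 fun x hx =>
    congrArg Subtype.val (hzP ⟨x, hSX (pCore_le_pPrimeCore_of_ne hpq.symm hx)⟩
      (pCore_le_sylow P (pCore_subgroupOf_le X hx)))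
  obtain ⟨j, hj⟩ := IsPGroup.iff_orderOf.1 (pCore_isPGroup p G) ⟨z, h2⟩
  rw [← orderOf_coe, coe_mk, orderOf_coe, hz] at hj
  exact hpq ((Nat.prime_dvd_prime_iff_eq hq.out hp.out).1 (hq.out.dvd_of_dvd_pow hj.dvd)).symm

theorem not_dvd_index_aux (n : ℕ) : ∀ (G : Type u) [Group G] [Finite G] (p q : ℕ) [Fact p.Prime]
    [Fact q.Prime], Nat.card G = n → p ≠ q → IsPSolvable p G → IsPSolvable q G → Hyp p q G →
    Hyp q p G → ¬ q ∣ (pPrimeCore p G).index := by
  induction n using Nat.strong_induction_on with | _ n ih =>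
  intro G _ _
  have aux : ∀ (p q : ℕ) [Fact p.Prime] [Fact q.Prime], Nat.card G = n → p ≠ q → IsPSolvable p G →
      IsPSolvable q G → Hyp p q G → Hyp q p G → pPrimeCore p G ≠ ⊥ →
      ¬ q ∣ (pPrimeCore p G).index := fun p q _ _ hn hpq hp hq h1 h2 h0 => by
    have := ih _ ?_ (G ⧸ pPrimeCore p G) p q rfl hpq (hp.quotient _) (hq.quotient _)
      (h1.quotient _) (h2.quotient _)
    · rwa [pPrimeCore_quotient_pPrimeCore, index_bot] at this
    · rw [← hn, ← (pPrimeCore p G).card_mul_index]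
      exact lt_mul_of_one_lt_left Nat.card_pos ((one_lt_card_iff_ne_bot _).2 h0)
  intro p q _ hq' hn hpq hp hq h1 h2
  by_cases h0 : pPrimeCore p G = ⊥
  · rw [h0, index_bot]
    rcases subsingleton_or_nontrivial G with h | h
    · rw [Nat.card_of_subsingleton (1 : G)]
      exact hq'.out.one_lt.ne' ∘ Nat.dvd_one.1
    exact h1.not_dvd_card hpq hp hq h0 (aux q p hn hpq.symm hq hp h2 h1 fun e =>
      hp.core_ne_bot.elim (fun h => h (eq_bot_iff.2 (e ▸ pCore_le_pPrimeCore_of_ne hpq.symm)))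
        fun h => h h0)
  · exact aux p q hn hpq hp hq h1 h2 h0

variable [hp : Fact p.Prime] [hq : Fact q.Prime]

theorem Hyp.not_dvd_index (hpq : p ≠ q) (hps : IsPSolvable p G) (hqs : IsPSolvable q G)
    (h1 : Hyp p q G) (h2 : Hyp q p G) : ¬ q ∣ (pPrimeCore p G).index :=
  not_dvd_index_aux _ G p q rfl hpq hps hqs h1 h2

omit hp in
theorem le_of_not_dvd {N Q : Subgroup G} [N.Normal] (hQ : IsPGroup q Q) (h : ¬ q ∣ N.index) :
    Q ≤ N :=
  le_of_coprime_card_index (coprime_card_of_isPGroup hQ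
    ((Nat.Prime.coprime_iff_not_dvd hq.out).2 h).symm)

theorem exists_commuting (h1 : ¬ q ∣ (pPrimeCore p G).index) (h2 : ¬ p ∣ (pPrimeCore q G).index) :
    ∃ (P : Sylow p G) (Q : Sylow q G),
      ∀ x ∈ (P : Subgroup G), ∀ y ∈ (Q : Subgroup G), x * y = y * x := by
  obtain ⟨Q⟩ : Nonempty (Sylow q G) := inferInstance
  obtain ⟨P, hPS, hP, hi, hQ⟩ := Coprime.exists_invariant_sylow' (A := (Q : Subgroup G))
    (K := pPrimeCore q G) (by simp [normalizer_eq_top])
    (coprime_card_of_isPGroup Q.isPGroup' (coprime_card_pPrimeCore q G))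
    (Or.inl (isSolvable_of_isPGroup Q.isPGroup')) p
  refine ⟨hP.toSylow fun h => ?_, Q, fun x hx y hy => ?_⟩
  · rw [← relIndex_mul_index hPS] at h
    exact (hp.out.dvd_mul.1 h).elim hi h2
  · refine commutatorElement_eq_one_iff_mul_comm.1 (disjoint_def.1 (disjoint_of_coprime_natCard
      (coprime_card_of_isPGroup hP (coprime_card_pPrimeCore p G))) ?_ ?_)
    · rw [commutatorElement_def, mul_assoc, mul_assoc, ← mul_assoc y]
      exact mul_mem hx (Coprime.conj_mem hQ hy (inv_mem hx))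
    · exact mul_mem (Normal.conj_mem inferInstance y (le_of_not_dvd Q.isPGroup' h1 hy) x)
        (inv_mem (le_of_not_dvd Q.isPGroup' h1 hy))

theorem not_dvd_index_of_commute (hpq : p ≠ q) (hps : IsPSolvable p G) (P : Sylow p G)
    (Q : Sylow q G) (h : ∀ x ∈ (P : Subgroup G), ∀ y ∈ (Q : Subgroup G), x * y = y * x) :
    ¬ q ∣ (pPrimeCore p G).index := fun hd => Q.not_dvd_index (hd.trans (index_dvd_of_le
      fun y hy => by
  have h1 : (y : G ⧸ pPrimeCore p G) ∈ pCore p (G ⧸ pPrimeCore p G) :=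
    (hps.quotient _).centralizer_pCore_le (pPrimeCore_quotient_pPrimeCore p G) fun x hx => by
      obtain ⟨x, hx', rfl⟩ := pCore_le_sylow (P.mapSurjective (QuotientGroup.mk'_surjective _)) hx
      exact congrArg (QuotientGroup.mk' _) (h x hx' y hy)
  exact (QuotientGroup.eq_one_iff _).1 (disjoint_def.1 (IsPGroup.disjoint_of_ne p q hpq _ _
    (pCore_isPGroup p _) (Q.isPGroup'.map (QuotientGroup.mk' _))) h1 (mem_map_of_mem _ hy))))

end Cfsg.Lib.Block.PQ
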