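import Cfsg.Agent.Block.AlperinDade
import Cfsg.Agent.Char.Extension
import Cfsg.Agent.Char.GlaubermanCyc

/-!
# `p`-rational extensions in the principal block

An invariant `p`-rational character of `p'`-degree in the principal block of `N` has a
distinguished extension to `N C_G(Q)`, `Q` a Sylow `p`-subgroup of `N`.
-/

set_option autoImplicit false

open MonoidAlgebra Subgroup
open Cfsg Cfsg.Lib.Char Cfsg.Lib.Block Cfsg.Lib.Block.Ht

namespace Cfsg.Lib.Block.PRat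

universe u

variable {G : Type u} [Group G] [Finite G] {M : Ideal AlgInt} {p : ℕ} {N : Subgroup G}

/-- Every coset of `N` has an element centralizing a Sylow `p`-subgroup of `N`. -/
def Cos (p : ℕ) (N : Subgroup G) : Prop :=
  ∀ g : G, ∃ x : G, x⁻¹ * g ∈ N ∧ ¬ p ∣ (centralizer ({x} : Set G)).relIndex N

/-- The values at elements centralizing a Sylow `p`-subgroup of `N` are congruent to the degree. -/
def GoodAt (M : Ideal AlgInt) (p : ℕ) (N : Subgroup G) (χ : G → ℂ) : Prop :=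
  ∀ x : G, ¬ p ∣ (centralizer ({x} : Set G)).relIndex N → vM M (χ x - χ 1) < 1

omit [Finite G] in
theorem relIndex_centralizer_subgroupOf {J : Subgroup G} (hNJ : N ≤ J) (x : J) :
    (centralizer ({x} : Set J)).relIndex (N.subgroupOf J) =
      (centralizer ({(x : G)} : Set G)).relIndex N := by
  have : centralizer ({x} : Set J) = (centralizer ({(x : G)} : Set G)).subgroupOf J := by
    ext y
    rw [mem_subgroupOf, mem_centralizer_singleton_iff, mem_centralizer_singleton_iff,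
      Subtype.ext_iff]
    rfl
  rw [this, relIndex_subgroupOf hNJ]

omit [Finite G] in
theorem cos_subgroupOf {J : Subgroup G} (hNJ : N ≤ J)
    (h : ∀ g ∈ J, ∃ x : G, x⁻¹ * g ∈ N ∧ ¬ p ∣ (centralizer ({x} : Set G)).relIndex N) :
    Cos p (N.subgroupOf J) := by
  intro g
  obtain ⟨x, hx, hp⟩ := h g g.2
  have hxJ : x ∈ J := by
    have := J.mul_mem g.2 (J.inv_mem (hNJ hx))
    simpa using this
  refine ⟨⟨x, hxJ⟩, hx, ?_⟩
  rwa [relIndex_centralizer_subgroupOf hNJ]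

theorem cls_mem_OG (N : Subgroup G) (x : G) : Pair.cls ℂ N x ∈ OG M G := by
  rw [mem_OG]
  intro y
  by_cases hy : ∃ z ∈ N, z * x * z⁻¹ = y
  · rw [Pair.coeff_cls_of_conj hy, map_one]
  · rw [Pair.coeff_cls_of_not_conj hy, map_zero]; exact zero_le_one

theorem Cos.full [N.Normal] (hM : IsPModular p M) (h : Cos p N) : Full M N := by
  intro q
  obtain ⟨g, rfl⟩ := QuotientGroup.mk_surjective q
  obtain ⟨x, hx, hp⟩ := h g
  have hxq : (g : G ⧸ N) = x := (QuotientGroup.eq.2 hx).symm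
  have hv : vM M (aug (Pair.cls ℂ N x)) = 1 := by
    rw [aug_cls, vM_natCast_eq_one_iff hM]; exact hp
  refine ⟨(aug (Pair.cls ℂ N x))⁻¹ • Pair.cls ℂ N x,
    smul_mem_OG (by rw [map_inv₀, hv, inv_one]) (cls_mem_OG N x),
    (Pair.le_stab_iff_isFixedBy.1 (Pair.le_stab_cls N x)).smul _, SuppCoset.smul ?_ _, ?_⟩
  · intro y hy
    obtain ⟨z, hz, rfl⟩ := Pair.exists_conj_of_coeff_cls_ne_zero hy
    rw [hxq]
    simp [(QuotientGroup.eq_one_iff z).2 hz]
  · rw [map_smul, smul_eq_mul, inv_mul_cancel₀ (ne_zero_of_vM_eq_one hv)]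

theorem evalFn_cls {χ : G → ℂ} (hχ : IsClassFunction G χ) (x : G) :
    evalFn χ (Pair.cls ℂ N x) = aug (Pair.cls ℂ N x) * χ x := by
  letI := Fintype.ofFinite G
  rw [aug_eq_evalFn, evalFn_apply, evalFn_apply, Finset.sum_mul]
  refine Finset.sum_congr rfl fun g _ => ?_
  by_cases hg : (Pair.cls ℂ N x).coeff g = 0
  · simp [hg]
  · obtain ⟨z, -, rfl⟩ := Pair.exists_conj_of_coeff_cls_ne_zero hg
    rw [mul_one, hχ x z]

theorem goodAt_of_good (hM : IsPModular p M) {χ : G → ℂ} (hχ : IsCharacter G χ)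
    (h1 : vM M (χ 1) = 1)
    (h : ∀ a ∈ OG M G, IsFixedBy N a → vM M (omega χ a - aug a) < 1) : GoodAt M p N χ := by
  intro x hx
  have hv : vM M (aug (Pair.cls ℂ N x)) = 1 := by
    rw [aug_cls, vM_natCast_eq_one_iff hM]; exact hx
  have h2 := h _ (cls_mem_OG N x) (Pair.le_stab_iff_isFixedBy.1 (Pair.le_stab_cls N x))
  have h0 := ne_zero_of_vM_eq_one h1
  rw [omega_eq, evalFn_cls hχ.isClassFunction] at h2
  have h3 : aug (Pair.cls ℂ N x) * χ x / χ 1 - aug (Pair.cls ℂ N x) =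
      aug (Pair.cls ℂ N x) * (χ x - χ 1) / χ 1 := by field_simp
  rwa [h3, map_div₀, map_mul, hv, h1, one_mul, div_one] at h2

omit [Finite G] in
theorem GoodAt.comp_equiv {χ : G → ℂ} (h : GoodAt M p N χ) (e : G ≃* G)
    (he : ∀ x, e x ∈ N ↔ x ∈ N) : GoodAt M p N (fun x => χ (e x)) := by
  intro x hx
  have h1 : centralizer ({x} : Set G) = (centralizer ({e x} : Set G)).comap e.toMonoidHom := by
    ext y
    rw [mem_comap, mem_centralizer_singleton_iff, mem_centralizer_singleton_iff]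
    change _ ↔ e y * e x = e x * e y
    rw [← map_mul, ← map_mul, e.injective.eq_iff]
  have h2 : N.map e.toMonoidHom = N := by
    ext y
    constructor
    · rintro ⟨z, hz, rfl⟩; exact (he z).2 hz
    · intro hy; exact ⟨e.symm y, (he _).1 (by simpa using hy), by simp⟩
  rw [h1, relIndex_comap, h2] at hx
  simpa using h _ hx

omit [Finite G] in
theorem GoodAt.comp_pow {χ : G → ℂ} (h : GoodAt M p N χ) (m : ℕ) :
    GoodAt M p N (fun x => χ (x ^ m)) := by
  intro x hx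
  have h1 : centralizer ({x} : Set G) ≤ centralizer ({x ^ m} : Set G) := by
    intro y hy
    rw [mem_centralizer_singleton_iff] at hy ⊢
    exact (Commute.pow_right hy m)
  simpa using h (x ^ m) fun hd => hx (hd.trans (relIndex_dvd_of_le_left N h1))

theorem grp1 {A : Type*} [CommGroup A] {μ ν : A} {a b d : ℕ} (h1 : (μ * ν ^ d) ^ b = 1)
    (h2 : μ ^ a = 1) : ν ^ (d * (a * b)) = 1 := by
  have h3 := congrArg (· ^ a) h1
  simp only [mul_pow, one_pow] at h3
  rw [← pow_mul, mul_comm b, pow_mul, h2, one_pow, one_mul, ← pow_mul, ← pow_mul] at h3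
  rw [mul_comm a]
  exact h3

theorem grp2 {A : Type*} [CommGroup A] {μ : A} {P r d : ℕ} {u v : ℤ}
    (huv : u * (r * d : ℕ) + v * P = 1) (h : μ ^ (P * r) = 1) :
    ((μ ^ r) ^ (-u)) ^ P = 1 ∧ (μ * ((μ ^ r) ^ (-u)) ^ d) ^ r = 1 := by
  constructor
  · rw [← zpow_natCast, ← zpow_mul, mul_comm, zpow_mul, zpow_natCast, ← pow_mul, mul_comm r,
      h, one_zpow]
  · have h1 : (μ * ((μ ^ r) ^ (-u)) ^ d) = (μ ^ P) ^ v := by
      rw [← zpow_natCast μ r, ← zpow_mul, ← zpow_natCast, ← zpow_mul, ← zpow_one_add,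
        ← zpow_natCast, ← zpow_mul]
      congr 1
      push_cast at huv ⊢
      linear_combination -huv
    rw [h1, ← zpow_natCast, ← zpow_mul, mul_comm v, zpow_mul, zpow_natCast, ← pow_mul, h,
      one_zpow]

theorem good_unique [N.Normal] (hM : IsPModular p M) (hC : Cos p N) {θ : N → ℂ}
    (hθ : IsIrrCharacter N θ) {d : ℕ} (hd : θ 1 = d) (hpd : ¬ p ∣ d) {χ ψ : G → ℂ}
    (hχ : IsCharacter G χ) (hψ : IsCharacter G ψ) (he : ∀ n : N, χ n = θ n)
    (he' : ∀ n : N, ψ n = θ n) (hg : GoodAt M p N χ) (hg' : GoodAt M p N ψ)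
    (ho : ¬ p ∣ detOrder χ) (ho' : ¬ p ∣ detOrder ψ) : ψ = χ := by
  obtain ⟨ν, hν, rfl⟩ := exists_monoidHom_of_ext_ext hθ hχ hψ he he'
  have hχ1 : χ 1 = d := by rw [← hd, ← he 1]; rfl
  have hv : vM M (χ 1) = 1 := by rw [hχ1, vM_natCast_eq_one_iff hM]; exact hpd
  have hpow : ν ^ (d * (detOrder χ * detOrder (χ * fun g => (ν g : ℂ)))) = 1 := by
    have h1 := pow_orderOf_eq_one (detHom (χ * fun g => (ν g : ℂ)))
    have h2 := pow_orderOf_eq_one (detHom χ)
    rw [← detOrder_eq_orderOf_detHom] at h1 h2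
    generalize detOrder (χ * fun g => (ν g : ℂ)) = b at h1 ⊢
    rw [detHom_mul_monoidHom hχ hχ1] at h1
    exact grp1 h1 h2
  have hn : ¬ p ∣ d * (detOrder χ * detOrder (χ * fun g => (ν g : ℂ))) := by
    rw [hM.1.dvd_mul, hM.1.dvd_mul]; tauto
  have h1 : ∀ g, (ν g : ℂ) = 1 := by
    intro g
    obtain ⟨x, hx, hp⟩ := hC g
    have h2 : ν g = ν x := by
      have := hν _ hx
      rw [map_mul, map_inv, inv_mul_eq_one] at this
      exact this.symm
    rw [h2]
    refine eq_one_of_pow_eq_one_of_vM_sub_one_lt hM hn ?_ ?_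
    · have := congrArg (fun f : G →* ℂˣ => (f x : ℂ)) hpow
      simpa using this
    · have h3 := hg x hp
      have h4 := hg' x hp
      simp only [Pi.mul_apply, map_one, Units.val_one, mul_one] at h4
      have h5 : vM M (χ x) = 1 := by
        have := Valuation.map_add_eq_of_lt_right (vM M) (x := χ x - χ 1) (y := χ 1) (by rwa [hv])
        rwa [sub_add_cancel, hv] at this
      have h6 : χ x * ((ν x : ℂ) - 1) = (χ x * ν x - χ 1) - (χ x - χ 1) := by ring
      have h7 : vM M (χ x * ((ν x : ℂ) - 1)) < 1 := by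
        rw [h6]; exact Valuation.map_sub_lt _ h4 h3
      rwa [map_mul, h5, one_mul] at h7
  funext g
  simp [h1 g]

theorem exists_ext [hN : N.Normal] (hM : IsPModular p M) (hC : Cos p N) {θ : IrrCharacter N}
    (hB : θ ∈ principalBlock M N)
    (hinv : ∀ (g : G) (n : N), (θ : N → ℂ) ⟨g * n * g⁻¹, hN.conj_mem n n.2 g⟩ = (θ : N → ℂ) n)
    {d : ℕ} (hd : (θ : N → ℂ) 1 = d) (hpd : ¬ p ∣ d) (ho : ¬ p ∣ detOrder (θ : N → ℂ)) :
    ∃ χ : G → ℂ, IsIrrCharacter G χ ∧ ∀ n : N, χ n = (θ : N → ℂ) n := by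
  refine exists_ext_of_forall_prime θ.2 hinv hd fun q hq hqd => ?_
  haveI := Fact.mk hq
  have hqp : q ≠ p := by
    rintro rfl
    rcases hq.dvd_mul.1 hqd with h | h
    exacts [hpd h, ho h]
  obtain ⟨S⟩ : Nonempty (Sylow q (G ⧸ N)) := inferInstance
  set J : Subgroup G := (S : Subgroup (G ⧸ N)).comap (QuotientGroup.mk' N) with hJ
  have hNJ : N ≤ J := by
    intro n hn
    rw [hJ, mem_comap, QuotientGroup.mk'_apply, (QuotientGroup.eq_one_iff n).2 hn]
    exact one_mem _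
  have hidx : ¬ p ∣ (N.subgroupOf J).index := by
    obtain ⟨k, hk⟩ := IsPGroup.iff_card.1 S.isPGroup'
    have h1 : (N.subgroupOf J).index = Nat.card (S : Subgroup (G ⧸ N)) := by
      change N.relIndex J = _
      have h2 : N = (⊥ : Subgroup (G ⧸ N)).comap (QuotientGroup.mk' N) := by
        rw [MonoidHom.comap_bot, QuotientGroup.ker_mk']
      conv_lhs => rw [h2]
      rw [relIndex_comap, hJ, map_comap_eq_self_of_surjective (QuotientGroup.mk'_surjective N),
        relIndex_bot_left]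
    rw [h1, hk]
    intro h
    exact hqp ((Nat.prime_dvd_prime_iff_eq hM.1 hq).1 (hM.1.dvd_of_dvd_pow h)).symm
  have hF : Full M (N.subgroupOf J) := (cos_subgroupOf hNJ fun g _ => hC g).full hM
  have hB' : irrComap (subgroupOfEquivOfLe hNJ) θ ∈ principalBlock M (N.subgroupOf J) := by
    rw [← trB_principalBlock (subgroupOfEquivOfLe hNJ), irrComap_mem_trB]; exact hB
  obtain ⟨ψ, hψ, hψe⟩ := hF.exists_ext hM hidx hB'
  refine ⟨J, hNJ, ψ, ?_, ?_, fun n => hψe ⟨⟨n, hNJ n.2⟩, n.2⟩⟩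
  · rw [hJ, index_comap_of_surjective _ (QuotientGroup.mk'_surjective N)]
    exact S.not_dvd_index
  · refine hψ.isIrrCharacter_of_comp (N.subgroupOf J).subtype ?_
    have : (fun n => ψ ((N.subgroupOf J).subtype n)) =
        (irrComap (subgroupOfEquivOfLe hNJ) θ : N.subgroupOf J → ℂ) := funext hψe
    rw [this]
    exact (irrComap (subgroupOfEquivOfLe hNJ) θ).2

theorem exists_good [hN : N.Normal] (hM : IsPModular p M) (hC : Cos p N) {θ : IrrCharacter N}
    (hB : θ ∈ principalBlock M N)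
    (hinv : ∀ (g : G) (n : N), (θ : N → ℂ) ⟨g * n * g⁻¹, hN.conj_mem n n.2 g⟩ = (θ : N → ℂ) n)
    {d : ℕ} (hd : (θ : N → ℂ) 1 = d) (hpd : ¬ p ∣ d) (ho : ¬ p ∣ detOrder (θ : N → ℂ)) :
    ∃ χ : IrrCharacter G, χ ∈ principalBlock M G ∧ (∀ n : N, (χ : G → ℂ) n = (θ : N → ℂ) n) ∧
      GoodAt M p N (χ : G → ℂ) ∧ ¬ p ∣ detOrder (χ : G → ℂ) := by
  obtain ⟨ψ, hψ, hψe⟩ := exists_ext hM hC hB hinv hd hpd ho
  obtain ⟨χ, he, hgood⟩ := (hC.full hM).exists_good_ext hM hB hψ.isCharacter hψe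
  have hχ1 : (χ : G → ℂ) 1 = d := by rw [← hd, ← he 1]; rfl
  have hv : vM M ((χ : G → ℂ) 1) = 1 := by rw [hχ1, vM_natCast_eq_one_iff hM]; exact hpd
  have hg := goodAt_of_good (N := N) hM χ.2.isCharacter hv hgood
  have hχB := mem_principalBlock_of_good hM hgood
  obtain ⟨a, r, hr, hor⟩ := Nat.exists_eq_pow_mul_and_not_dvd (detOrder_pos (χ : G → ℂ)).ne' p
    hM.1.ne_one
  have hcop : IsCoprime ((r * d : ℕ) : ℤ) ((p ^ a : ℕ) : ℤ) := by
    rw [Nat.isCoprime_iff_coprime]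
    refine Nat.Coprime.pow_right _ (Nat.Coprime.symm ((Nat.Prime.coprime_iff_not_dvd hM.1).2 ?_))
    rw [hM.1.dvd_mul]; tauto
  obtain ⟨u, v, huv⟩ := hcop
  set μ := detHom (χ : G → ℂ) with hμ
  have hμo : μ ^ (p ^ a * r) = 1 := by
    rw [← hor, detOrder_eq_orderOf_detHom]; exact pow_orderOf_eq_one _
  set l : G →* ℂˣ := (μ ^ r) ^ (-u) with hl
  have hlp : l ^ p ^ a = 1 := (grp2 (μ := μ) huv hμo).1
  have hlp' : ∀ g, (l g : ℂ) ^ p ^ a = 1 := fun g => by
    have := congrArg (fun f : G →* ℂˣ => (f g : ℂ)) hlp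
    simpa using this
  have hl1 : ∀ g, vM M ((l g : ℂ) - 1) < 1 := fun g => vM_sub_one_lt_of_pow_p_pow hM (hlp' g)
  have hlN : ∀ n : N, l n = 1 := by
    intro n
    have h1 : detOrder (θ : N → ℂ) ∣ r := by
      have h2 : detOrder (θ : N → ℂ) ∣ p ^ a * r := by
        rw [← hor, ← funext he]
        exact detOrder_comp_dvd χ.2.isCharacter N.subtype
      exact (Nat.Coprime.pow_right _
        (Nat.Coprime.symm ((Nat.Prime.coprime_iff_not_dvd hM.1).2 ho))).dvd_of_dvd_mul_left h2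
    have h3 : μ n ^ r = 1 := by
      refine Units.ext ?_
      rw [Units.val_pow_eq_pow_val, hμ, coe_detHom, detChar_res_of_ext χ.2.isCharacter he]
      exact (detOrder_dvd_iff _ _).1 h1 n
    rw [hl]
    simp [h3]
  refine ⟨⟨(χ : G → ℂ) * fun g => (l g : ℂ), χ.2.mul_monoidHom l⟩, ?_, fun n => ?_, ?_, ?_⟩
  · refine (sameBlock_iff_redM hM isIrrCharacter_one (χ.2.mul_monoidHom l)).2 fun g => ?_
    rw [(sameBlock_iff_redM hM isIrrCharacter_one χ.2).1 hχB g]
    have h1 : centralChar ((χ : G → ℂ) * fun g => (l g : ℂ)) g =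
        centralChar (χ : G → ℂ) g * l g := by
      simp only [centralChar, Pi.mul_apply, map_one, Units.val_one, mul_one]
      ring
    rw [h1, redM_mul (vM_centralChar_le_one χ.2 g)
      (vM_eq_one_of_pow_eq_one (pow_pos hM.1.pos a).ne' (hlp' g)).le,
      redM_eq_one_iff.2 (hl1 g), mul_one]
  · simp [he n, hlN n]
  · intro x hx
    have h1 : (χ : G → ℂ) x * l x - (χ : G → ℂ) 1 =
        (χ : G → ℂ) x * ((l x : ℂ) - 1) + ((χ : G → ℂ) x - (χ : G → ℂ) 1) := by ring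
    simp only [Pi.mul_apply, map_one, Units.val_one, mul_one]
    rw [h1]
    refine Valuation.map_add_lt _ ?_ (hg x hx)
    rw [map_mul]
    exact mul_lt_one_of_nonneg_of_lt_one_right (vM_char_le_one χ.2.isCharacter x) zero_le
      (hl1 x)
  · intro h
    refine hr (h.trans ?_)
    change detOrder ((χ : G → ℂ) * fun g => (l g : ℂ)) ∣ r
    rw [detOrder_eq_orderOf_detHom, detHom_mul_monoidHom χ.2.isCharacter hχ1,
      orderOf_dvd_iff_pow_eq_one]
    exact (grp2 (μ := μ) huv hμo).2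

theorem detOrder_ringHom_dvd {χ : G → ℂ} (hχ : IsCharacter G χ) (σ : ℂ →+* ℂ) :
    detOrder (fun g => σ (χ g)) ∣ detOrder χ := by
  obtain ⟨m, hm, h⟩ := exists_pow_ringHom_char G σ
  rw [funext (h χ hχ.isGeneralizedCharacter)]
  exact detOrder_comp_pow_dvd hχ hm

theorem GoodAt.ringHom {χ : G → ℂ} (hχ : IsCharacter G χ) (h : GoodAt M p N χ) (σ : ℂ →+* ℂ) :
    GoodAt M p N (fun g => σ (χ g)) := by
  obtain ⟨m, -, h'⟩ := exists_pow_ringHom_char G σ
  rw [funext (h' χ hχ.isGeneralizedCharacter)]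
  exact h.comp_pow m

theorem fix_of_mem_adjoin {ζ z : ℂ} (hz : z ∈ IntermediateField.adjoin ℚ ({ζ} : Set ℂ))
    (σ : ℂ →+* ℂ) (hσ : σ ζ = ζ) : σ z = z := by
  induction hz using IntermediateField.adjoin_induction with
  | mem x hx => rw [Set.mem_singleton_iff.1 hx, hσ]
  | algebraMap x => simp
  | add x y _ _ hx hy => rw [map_add, hx, hy]
  | inv x _ hx => rw [map_inv₀, hx]
  | mul x y _ _ hx hy => rw [map_mul, hx, hy]

theorem not_dvd_detOrder (hp : p.Prime) (hp2 : p ≠ 2) {χ : G → ℂ} (hχ : IsCharacter G χ) {ζ : ℂ}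
    {m : ℕ} (hm : ¬ p ∣ m) (hζ : ζ ^ m = 1)
    (h : ∀ g, χ g ∈ IntermediateField.adjoin ℚ ({ζ} : Set ℂ)) : ¬ p ∣ detOrder χ := by
  rintro ⟨k, hk⟩
  have hm0 : m ≠ 0 := by rintro rfl; exact hm (dvd_zero _)
  obtain ⟨σ, h1, h2⟩ := exists_ringEquiv_pow_fix hp.ne_zero hm0
    ((Nat.Prime.coprime_iff_not_dvd hp).2 hm)
    ((Nat.coprime_primes Nat.prime_two hp).2 hp2.symm)
  obtain ⟨j, hj, hσ⟩ := exists_pow_of_ringHom (Nat.card_pos (α := G)).ne' (σ : ℂ →+* ℂ)
  have h3 : (fun x => χ (x ^ j)) = χ := by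
    funext x
    rw [← hχ.isGeneralizedCharacter.ringHom_pow x Nat.card_pos.ne' pow_card_eq_one' _ hσ]
    exact fix_of_mem_adjoin (h x) _ (h2 ζ hζ)
  have h4 : ∀ g, σ (detChar χ g) = detChar χ g := by
    intro g
    have h5 := detChar_comp_pow hχ hj g
    rw [h3] at h5
    rw [h5]
    rw [← h5]
    exact (hσ _ ((detOrder_dvd_iff _ _).1 (detOrder_dvd_card χ) g)).trans h5.symm
  have h6 : detOrder χ ∣ k := by
    rw [detOrder_dvd_iff]
    intro g
    have h7 : (detChar χ g ^ k) ^ p = 1 := by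
      rw [← pow_mul, mul_comm, ← hk, detChar_pow_detOrder]
    have h8 := h1 _ h7
    rw [map_pow, h4, sq] at h8
    have h9 : detChar χ g ^ k ≠ 0 := by
      intro h0; rw [h0, zero_pow hp.ne_zero] at h7; exact zero_ne_one h7
    exact (mul_eq_left₀ h9).1 h8.symm
  have hpos := detOrder_pos χ
  rw [hk] at h6 hpos
  have hk0 : 0 < k := Nat.pos_of_mul_pos_left hpos
  have := Nat.le_of_dvd hk0 h6
  have := hp.two_le
  nlinarith

theorem normal_sup_centralizer [Fact p.Prime] [hN : N.Normal] (Q : Sylow p N) :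
    (N ⊔ centralizer (((Q : Subgroup N).map N.subtype : Subgroup G) : Set G)).Normal := by
  set C := centralizer (((Q : Subgroup N).map N.subtype : Subgroup G) : Set G) with hC
  refine ⟨fun y hy g => ?_⟩
  have hg : g ∈ ((normalizer (((Q : Subgroup N).map N.subtype : Subgroup G) : Set G) ⊔ N :
      Subgroup G) : Set G) := by
    rw [Sylow.normalizer_sup_eq_top Q]; trivial
  rw [mul_normal] at hg
  obtain ⟨h, hh, n, hn, rfl⟩ := hg
  have h1 : n * y * n⁻¹ ∈ ((C ⊔ N : Subgroup G) : Set G) := by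
    rw [sup_comm]
    exact mul_mem (mul_mem (mem_sup_left hn) hy) (inv_mem (mem_sup_left hn))
  rw [mul_normal] at h1
  obtain ⟨c, hc, n', hn', h2⟩ := h1
  have h3 : h * n * y * (h * n)⁻¹ = (h * c * h⁻¹) * (h * n' * h⁻¹) := by
    simp only at h2
    calc h * n * y * (h * n)⁻¹ = h * (n * y * n⁻¹) * h⁻¹ := by group
      _ = _ := by rw [← h2]; group
  change h * n * y * (h * n)⁻¹ ∈ _
  rw [h3]
  refine mul_mem (mem_sup_right ?_) (mem_sup_left (hN.conj_mem _ hn' h))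
  intro z hz
  have h4 : h⁻¹ * z * h ∈ (Q : Subgroup N).map N.subtype := by
    have := (mem_normalizer_iff.1 (inv_mem hh) z).1 hz
    simpa using this
  have h5 := hc _ h4
  calc z * (h * c * h⁻¹) = h * ((h⁻¹ * z * h) * c) * h⁻¹ := by group
    _ = _ := by rw [h5]; group

theorem exists_prat_ext [Fact p.Prime] (hp : p ≠ 2) (hM : IsPModular p M) [hN : N.Normal]
    (θ : IrrCharacter N)
    (hinv : ∀ (g : G) (n n' : N), (n' : G) = g * n * g⁻¹ → (θ : N → ℂ) n' = (θ : N → ℂ) n)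
    (hdeg : ¬ p ∣ charDegree (θ : N → ℂ)) {ζ : ℂ} {m : ℕ} (hm : ¬ p ∣ m) (hζ : ζ ^ m = 1)
    (hrat : ∀ n, (θ : N → ℂ) n ∈ IntermediateField.adjoin ℚ ({ζ} : Set ℂ))
    (hB : θ ∈ principalBlock M N) (Q : Sylow p N)
    (hidx : ∃ a : ℕ, (N ⊔ centralizer (((Q : Subgroup N).map N.subtype : Subgroup G) :
      Set G)).index = p ^ a) :
    ∃ χ : IrrCharacter G, χ ∈ principalBlock M G ∧
      (∀ g, (χ : G → ℂ) g ∈ IntermediateField.adjoin ℚ ({ζ} : Set ℂ)) ∧
      ∀ n : N, (χ : G → ℂ) n = (θ : N → ℂ) n := by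
  haveI hL := normal_sup_centralizer Q
  set L := N ⊔ centralizer (((Q : Subgroup N).map N.subtype : Subgroup G) : Set G) with hLdef
  have hNL : N ≤ L := le_sup_left
  have hC : Cos p (N.subgroupOf L) := by
    refine cos_subgroupOf hNL fun g hg => ?_
    have hg' : g ∈ ((centralizer (((Q : Subgroup N).map N.subtype : Subgroup G) : Set G) ⊔ N :
        Subgroup G) : Set G) := by rw [sup_comm]; exact hg
    rw [mul_normal] at hg'
    obtain ⟨x, hx, n, hn, rfl⟩ := hg'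
    refine ⟨x, by simpa using hn, fun h => Q.not_dvd_index (h.trans ?_)⟩
    have h1 : ((Q : Subgroup N).map N.subtype).relIndex N = (Q : Subgroup N).index := by
      rw [relIndex, subgroupOf, comap_map_eq_self_of_injective N.subtype_injective]
    rw [← h1]
    exact relIndex_dvd_of_le_left N (le_centralizer_singleton_iff.2 hx)
  set θ' := irrComap (subgroupOfEquivOfLe hNL) θ with hθ'
  have hθe : ∀ n : N.subgroupOf L, (θ' : N.subgroupOf L → ℂ) n = (θ : N → ℂ) ⟨n, n.2⟩ :=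
    fun _ => rfl
  have hB' : θ' ∈ principalBlock M (N.subgroupOf L) := by
    rw [← trB_principalBlock (subgroupOfEquivOfLe hNL), irrComap_mem_trB]; exact hB
  have hd : (θ' : N.subgroupOf L → ℂ) 1 = charDegree (θ : N → ℂ) :=
    (cast_charDegree θ.2.isCharacter).symm
  have ho : ¬ p ∣ detOrder (θ' : N.subgroupOf L → ℂ) :=
    not_dvd_detOrder hM.1 hp θ'.2.isCharacter hm hζ fun n => hrat _
  obtain ⟨ξ, hξB, hξe, hξg, hξo⟩ := exists_good hM hC hB' (fun g n => hinv g _ _ rfl) hd hdeg ho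
  have huniq : ∀ ψ : L → ℂ, IsCharacter L ψ →
      (∀ n : N.subgroupOf L, ψ n = (θ' : N.subgroupOf L → ℂ) n) →
      GoodAt M p (N.subgroupOf L) ψ → detOrder ψ ∣ detOrder (ξ : L → ℂ) → ψ = ξ :=
    fun ψ hψ he hg hdvd => good_unique hM hC θ'.2 hd hdeg ξ.2.isCharacter hψ hξe he hξg hg hξo
      fun h => hξo (h.trans hdvd)
  have hξinv : ∀ (g : G) (y : L), (ξ : L → ℂ) ⟨g * y * g⁻¹, hL.conj_mem y y.2 g⟩ =
      (ξ : L → ℂ) y := by
    intro g
    have hmem : ∀ y : L, MulAut.conjNormal g y ∈ N.subgroupOf L ↔ y ∈ N.subgroupOf L := by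
      intro y
      rw [mem_subgroupOf, mem_subgroupOf, MulAut.conjNormal_apply]
      exact ⟨fun h => by simpa [mul_assoc] using hN.conj_mem _ h g⁻¹, fun h => hN.conj_mem _ h g⟩
    have := huniq (fun y => (ξ : L → ℂ) (MulAut.conjNormal g y))
      (ξ.2.comp_equiv (MulAut.conjNormal g)).isCharacter
      (fun n => (hξe ⟨_, (hmem n).2 n.2⟩).trans (hinv g _ _ rfl))
      (hξg.comp_equiv _ hmem)
      (detOrder_comp_dvd ξ.2.isCharacter (MulAut.conjNormal g : L ≃* L).toMonoidHom)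
    exact fun y => congrFun this y
  have hξ1 : (ξ : L → ℂ) 1 = charDegree (θ : N → ℂ) := by rw [← hd, ← hξe 1]; rfl
  obtain ⟨a, ha⟩ := hidx
  have hcop : ∀ k, ¬ p ∣ k → L.index.Coprime k := fun k hk => by
    rw [ha]; exact Nat.Coprime.pow_left _ ((Nat.Prime.coprime_iff_not_dvd hM.1).2 hk)
  obtain ⟨χ, ⟨hχ, hχe, hχo⟩, hχu⟩ := exists_canonical_ext ξ.2 hξinv hξ1
    (hcop _ (by rw [hM.1.dvd_mul]; tauto))
  refine ⟨⟨χ, hχ⟩, ?_, fun g => ?_, fun n => ?_⟩
  · have h1 : Covers L (blockOf M χ) (principalBlock M L) :=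
      ⟨⟨χ, hχ⟩, mem_blockOf_self hM ⟨χ, hχ⟩, ξ, hξB, over_of_res_eq ξ.2 hχe⟩
    rw [← (covers_principalBlock hM L).eq_of_index hM ⟨a, ha⟩ h1 isPBlock_principalBlock
      (isPBlock_blockOf_irr hχ) isPBlock_principalBlock]
    exact mem_blockOf_self hM ⟨χ, hχ⟩
  · have hint : IsIntegral (IntermediateField.adjoin ℚ ({ζ} : Set ℂ)) (χ g) :=
      (hχ.isCharacter.isGeneralizedCharacter.isIntegral g).tower_top
    obtain ⟨f, hf⟩ := mem_range_algebraMap_of_forall_ringEquiv hint fun σ hσ => by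
      have h1 : ∀ z ∈ IntermediateField.adjoin ℚ ({ζ} : Set ℂ), σ z = z := fun z hz => hσ ⟨z, hz⟩
      have h2 := huniq (fun y => (σ : ℂ →+* ℂ) ((ξ : L → ℂ) y)) (ξ.2.isCharacter.ringHom_comp _)
        (fun n => by rw [hξe n]; exact h1 _ (hrat _)) (hξg.ringHom ξ.2.isCharacter _)
        (detOrder_ringHom_dvd ξ.2.isCharacter _)
      have h3 := hχu (fun x => (σ : ℂ →+* ℂ) (χ x)) (hχ.ringHom_comp _)
        (fun y => by rw [hχe y]; exact congrFun h2 y)
        (hcop _ fun h => hξo (hχo ▸ h.trans (detOrder_ringHom_dvd hχ.isCharacter _)))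
      exact congrFun h3 g
    change χ g ∈ _
    rw [← hf]
    exact f.2
  · exact (hχe ⟨n, hNL n.2⟩).trans (hξe ⟨⟨n, hNL n.2⟩, n.2⟩)

end Cfsg.Lib.Block.PRat
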