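import Cfsg.Agent.Block.PrincSection

/-!
# A union of blocks whose idempotent has nonnegative coefficients

Let `u` be the `p`-part of `x` and `O` a `p'`-subgroup of `C(u)` that is closed under fusion into
`C(u)`.  If every nontrivial `x⁻¹ x^g` is `p`-singular, then `x` centralizes all conjugates of `O`.
-/

set_option autoImplicit false

open scoped ComplexConjugate
open Cfsg Cfsg.Lib.Char Cfsg.Lib.Block Cfsg.Lib.Block.Ht

namespace Cfsg.Lib.Block.PosIdem

variable {G : Type*} [Group G] {p : ℕ} {M : Ideal AlgInt}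

open Classical in
theorem sum_union [Finite G] (hM : IsPModular p M) (E : Set (IrrCharacter G))
    (hE : ∀ χ ∈ E, ∀ ψ : IrrCharacter G, SameBlock M (χ : G → ℂ) (ψ : G → ℂ) → ψ ∈ E)
    (f : IrrCharacter G → ℂ) (hf : ∀ χ ∈ E, ∑ᶠ ψ ∈ blockOf M (χ : G → ℂ), f ψ = 0) :
    ∑ χ : IrrCharacter G, (if χ ∈ E then f χ else 0) = 0 := by
  refine Finset.sum_cancels_of_partition_cancels
    ⟨fun a b : IrrCharacter G => SameBlock M (a : G → ℂ) (b : G → ℂ),
      fun _ => sameBlock_refl hM _, sameBlock_symm hM, sameBlock_trans hM⟩ fun χ _ => ?_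
  by_cases h : χ ∈ E
  · rw [← hf χ h, finsum_mem_irr']
    refine Finset.sum_congr (Finset.filter_congr fun ψ _ => ⟨sameBlock_symm hM, sameBlock_symm hM⟩)
      fun ψ hψ => if_pos (hE χ h ψ (Finset.mem_filter.1 hψ).2)
  · exact Finset.sum_eq_zero fun ψ hψ => if_neg fun k => h (hE ψ k χ (Finset.mem_filter.1 hψ).2)

open Classical in
/-- indicator function -/
noncomputable def ind (S : Set G) : G → ℂ := fun g => if g ∈ S then 1 else 0

theorem ring_ind (hM : IsPModular p M) (S : Set G) (g : G) : MemLocalRing M (ind S g) := by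
  classical
  exact Loc.ring_ite _ (Loc.ring_one hM) (Loc.ring_zero hM)

theorem cf_ind' {S : Set G} (h : ∀ g k : G, g ∈ S → k * g * k⁻¹ ∈ S) :
    IsClassFunction G (ind S) := fun g k => by
  have : k * g * k⁻¹ ∈ S ↔ g ∈ S := ⟨fun a => by simpa [mul_assoc] using h _ k⁻¹ a, h g k⟩
  unfold ind
  rw [this]

theorem cf_ind (N : Subgroup G) [hN : N.Normal] : IsClassFunction G (ind (N : Set G)) :=
  cf_ind' fun _ k a => hN.conj_mem _ a k

theorem om_ind [Fintype G] (N : Subgroup G) [N.Normal] (ψ : IrrCharacter G) :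
    om (ψ : G → ℂ) (ind (N : Set G)) = 0 ∨ om (ψ : G → ℂ) (ind (N : Set G)) = Nat.card N := by
  classical
  refine or_iff_not_imp_left.2 fun w => ?_
  have h1 := sum_classFun_mul_irr_mul ψ.2 (cf_ind N)
  have h2 : ∀ y ∈ N, (ψ : G → ℂ) y = (ψ : G → ℂ) 1 := fun y hy => by
    refine mul_left_cancel₀ w ?_
    rw [← h1, ← h1]
    refine Fintype.sum_equiv (Equiv.mulRight y) _ _ fun g => ?_
    simp [ind, mul_mem_cancel_right hy]
  have h3 : ∀ g, ind (N : Set G) g * (ψ : G → ℂ) g / (ψ : G → ℂ) 1 = if g ∈ N then 1 else 0 :=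
    fun g => by
      by_cases hg : g ∈ N
      · simp [ind, hg, h2 g hg, ψ.2.apply_one_ne_zero]
      · simp [ind, hg]
  rw [om, Finset.sum_congr rfl fun g _ => h3 g, Finset.sum_boole, Nat.card_eq_fintype_card,
    Fintype.card_subtype]

open Classical in
theorem key [Fintype G] [Fact p.Prime] (hM : IsPModular p M) {u : G} (T : Subgroup G) [Fintype T]
    (hT : T = Subgroup.centralizer ({u} : Set G)) (x : T) (hx : IsPPart p (x : G) u)
    (O : Subgroup T) [O.Normal] (hO : ¬ p ∣ Nat.card O) {S : Set G}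
    (hc : IsClassFunction G (ind S)) (hS : ∀ k : T, (k : G) ∈ S ↔ k ∈ O) (χ : IrrCharacter G) :
    ∑ k : T, ind (O : Set T) k * (χ : G → ℂ) (k * x) =
      if ¬ MemLocalIdeal M (om (χ : G → ℂ) (ind S)) then Nat.card O * (χ : G → ℂ) x else 0 := by
  have hθ := χ.2.isClassFunction.res T
  set θ : T → ℂ := fun k : T => (χ : G → ℂ) k with hθ'
  obtain ⟨D, mD⟩ : ∃ D : Set (IrrCharacter T), ∀ ψ, ψ ∈ D ↔
      ¬ MemLocalIdeal M (om (ψ : T → ℂ) (ind (O : Set T))) := ⟨setOf _, fun _ => Iff.rfl⟩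
  have hw : ∀ ψ : IrrCharacter T, om (ψ : T → ℂ) (ind (O : Set T)) =
      if ψ ∈ D then (Nat.card O : ℂ) else 0 := fun ψ => by
    rcases om_ind O ψ with e | e
    · rw [if_neg fun k => (mD ψ).1 k (Loc.ideal_of_eq_zero hM e), e]
    · rw [if_pos, e]
      rw [mD]
      intro k
      rw [e] at k
      exact hO ((Loc.ideal_natCast_iff hM _).1 k)
  have hD : ∀ ψ ξ : IrrCharacter T, SameBlock M (ψ : T → ℂ) (ξ : T → ℂ) → (ψ ∈ D ↔ ξ ∈ D) :=
    fun ψ ξ k => (mD ψ).trans ((not_congr (Loc.ideal_iff_of_sub hM (ideal_om_sub_om hM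
      ψ.2.isClassFunction ξ.2.isClassFunction k (cf_ind O) (ring_ind hM _)))).trans (mD ξ).symm)
  have hres : (fun k : T => ind S k) = ind (O : Set T) := funext fun k => by
    simp only [ind, hS, SetLike.mem_coe]
  have h0 : ∀ ψ : IrrCharacter T, ¬ (ψ ∈ D ↔ ¬ MemLocalIdeal M (om (χ : G → ℂ) (ind S))) →
      ∑ᶠ ξ ∈ blockOf M (ψ : T → ℂ), classInner θ (ξ : T → ℂ) * (ξ : T → ℂ) x = 0 := fun ψ k => by
    subst hT
    obtain ⟨B, hB⟩ := Princ.inducedBlockDefined_centralizer hM (IsPPart_orderOf hx)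
      (isPBlock_blockOf (M := M) ψ)
    have := blockPart_res_eq_zero_of_not_mem hM hB x hx le_rfl (χ := χ) fun c => k (by
      have := ideal_om_res_sub_om hM hB (mem_blockOf_self hM ψ) c hc (ring_ind hM S)
      rw [hres] at this
      exact (mD ψ).trans (not_congr (Loc.ideal_iff_of_sub hM this)))
    rw [blockPart_apply] at this
    rw [finsum_mem_irr, this]
  have h1 : ∑ k : T, ind (O : Set T) k * (χ : G → ℂ) (k * x) = Nat.card O *
      ∑ ψ : IrrCharacter T, if ψ ∈ D then classInner θ (ψ : T → ℂ) * (ψ : T → ℂ) x else 0 := by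
    have : ∀ k : T, (χ : G → ℂ) (k * x) = _ := fun k => hθ.apply_eq_sum_irr (k * x)
    simp_rw [this, Finset.mul_sum]
    rw [Finset.sum_comm]
    refine Finset.sum_congr rfl fun ψ _ => ?_
    simp_rw [mul_left_comm (ind (O : Set T) _)]
    rw [← Finset.mul_sum, sum_classFun_mul_irr_mul ψ.2 (cf_ind O), hw]
    split_ifs <;> ring
  rw [h1]
  split_ifs with c
  · rw [sum_union hM D (fun ψ a ξ b => (hD ψ ξ b).1 a) _ fun ψ a => h0 ψ fun k => k.1 a c,
      mul_zero]
  · have h2 := sum_union hM Dᶜ (fun ψ a ξ b k => a ((hD ψ ξ b).2 k)) _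
      fun ψ a => h0 ψ fun k => a (k.2 c)
    congr 1
    rw [show (χ : G → ℂ) x = _ from hθ.apply_eq_sum_irr x]
    refine (add_zero _).symm.trans ((congrArg _ h2.symm).trans ?_)
    rw [← Finset.sum_add_distrib]
    refine Finset.sum_congr rfl fun ψ _ => ?_
    by_cases k : ψ ∈ D <;> simp [k]

theorem commute_conj [Finite G] (hp : p.Prime) {u x : G} (hx : IsPPart p x u) (O : Subgroup G)
    (hT : O ≤ Subgroup.centralizer ({u} : Set G)) (hO : ¬ p ∣ Nat.card O)
    (hS : ∀ o ∈ O, ∀ g : G, g * o * g⁻¹ ∈ Subgroup.centralizer ({u} : Set G) → g * o * g⁻¹ ∈ O)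
    (h : ∀ g : G, x⁻¹ * (g * x * g⁻¹) = 1 ∨ p ∣ orderOf (x⁻¹ * (g * x * g⁻¹)))
    {o : G} (ho : o ∈ O) (g : G) : Commute x (g * o * g⁻¹) := by
  classical
  have := Fact.mk hp
  have := Fintype.ofFinite G
  obtain ⟨M, hM⟩ := Princ.exists_isPModular hp
  obtain ⟨T, eT⟩ : ∃ T, T = Subgroup.centralizer ({u} : Set G) := ⟨_, rfl⟩
  have := Fintype.ofFinite T
  have xT : x ∈ T := eT ▸ IsPPart_mem_centralizer hx
  rw [← eT] at hT hS
  have : (O.subgroupOf T).Normal := ⟨fun a ha k => hS a ha k (k * a * k⁻¹).2⟩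
  have cO : Nat.card (O.subgroupOf T) = Nat.card O :=
    Nat.card_congr (Subgroup.subgroupOfEquivOfLe hT).toEquiv
  let S : Set G := {a | ∃ b ∈ O, IsConj b a}
  have hc : IsClassFunction G (ind S) :=
    cf_ind' fun a k ⟨b, h1, h2⟩ => ⟨b, h1, h2.trans (isConj_iff.2 ⟨k, rfl⟩)⟩
  have K := key hM T eT ⟨x, xT⟩ hx (O.subgroupOf T) (cO ▸ hO) hc fun k =>
    ⟨fun ⟨b, h1, h2⟩ => by
      obtain ⟨c, e⟩ := isConj_iff.1 h2
      exact Subgroup.mem_subgroupOf.2 (e ▸ hS b h1 c (e.symm ▸ k.2)),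
      fun a => ⟨k, a, IsConj.refl _⟩⟩
  obtain ⟨A, mA⟩ : ∃ A : Set (IrrCharacter G), ∀ χ, χ ∈ A ↔
      ¬ MemLocalIdeal M (om (χ : G → ℂ) (ind S)) := ⟨setOf _, fun _ => Iff.rfl⟩
  have hA : ∀ χ ∈ A, ∀ ψ : IrrCharacter G, SameBlock M (χ : G → ℂ) (ψ : G → ℂ) → ψ ∈ A :=
    fun χ a ψ k => (mA ψ).2 fun b => (mA χ).1 a ((Loc.ideal_iff_of_sub hM (ideal_om_sub_om hM
      χ.2.isClassFunction ψ.2.isClassFunction k hc (ring_ind hM _))).2 b)
  have orth : ∀ y s : G, ¬ (p ∣ orderOf y ↔ p ∣ orderOf s) →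
      ∑ χ : IrrCharacter G, (if χ ∈ A then (χ : G → ℂ) y * conj ((χ : G → ℂ) s) else 0) = 0 :=
    fun y s k => sum_union hM A hA _ fun χ _ => by
      obtain ⟨y', hy⟩ := exists_isPPart hp y
      obtain ⟨s', hs⟩ := exists_isPPart hp s
      refine block_orth_conj hM (isPBlock_blockOf χ) hy hs fun c => k (not_iff_not.1 ?_)
      rw [← IsPPart_eq_one_iff hp hy, ← IsPPart_eq_one_iff hp hs]
      exact ⟨fun e => isConj_one_right.1 (e ▸ c), fun e => isConj_one_left.1 (e ▸ c)⟩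
  let n : ℕ := (Finset.univ.filter fun g : G => x⁻¹ * (g * x * g⁻¹) = 1).card
  have hn : 0 < n := Finset.card_pos.2 ⟨1, by simp⟩
  let P : G → ℕ := fun s => ∑ g : G, ∑ k : T, if k ∈ O.subgroupOf T then
    Nat.card {y : G // y * s * y⁻¹ = x⁻¹ * (g * (k * x) * g⁻¹)} else 0
  have hG : (Nat.card G : ℂ) ≠ 0 := by exact_mod_cast Nat.card_pos.ne'
  have hP : ∀ s, ¬ p ∣ orderOf s →
      (P s : ℂ) = (Nat.card O * n * Nat.card G : ℕ) * blockCoeff A s := fun s hs => by
    have e1 : (P s : ℂ) = ∑ χ : IrrCharacter G, (Nat.card G : ℂ) * (χ : G → ℂ) x⁻¹ / (χ : G → ℂ) 1 *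
        conj ((χ : G → ℂ) s) * ∑ k : T, ind (O.subgroupOf T : Set T) k * (χ : G → ℂ) (k * x) := by
      simp only [P, Nat.cast_sum, Nat.cast_ite, Nat.cast_zero, ← sum_irr_mul_conj]
      rw [Finset.sum_comm]
      simp_rw [Finset.mul_sum]
      rw [Finset.sum_comm (s := (Finset.univ : Finset (IrrCharacter G)))]
      refine Finset.sum_congr rfl fun k _ => ?_
      by_cases c : k ∈ O.subgroupOf T
      · simp only [c, if_true, ind, SetLike.mem_coe, one_mul]
        rw [Finset.sum_comm]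
        refine Finset.sum_congr rfl fun χ _ => ?_
        rw [← Finset.sum_mul, sum_irr_mul_conj_eq χ.2]
        ring
      · simp [c, ind]
    have e2 : ∑ g : G, ∑ χ : IrrCharacter G, (if χ ∈ A then (χ : G → ℂ) (x⁻¹ * (g * x * g⁻¹)) *
        conj ((χ : G → ℂ) s) else 0) = n * (Nat.card G * blockCoeff A s) := by
      rw [blockCoeff_eq, mul_inv_cancel_left₀ hG, ← nsmul_eq_mul, ← Finset.sum_const,
        Finset.sum_filter]
      refine Finset.sum_congr rfl fun g _ => ?_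
      split_ifs with c
      · rw [c]
      · exact orth _ _ fun k => hs (k.1 ((h g).resolve_left c))
    rw [e1, Nat.cast_mul, Nat.cast_mul, mul_assoc, mul_assoc, ← e2, Finset.sum_comm,
      Finset.mul_sum]
    refine Finset.sum_congr rfl fun χ _ => ?_
    rw [K, cO]
    by_cases c : χ ∈ A
    · simp only [c, if_true]
      rw [if_pos ((mA χ).1 c), ← Finset.sum_mul, sum_irr_mul_conj_eq χ.2]
      ring
    · rw [if_neg fun k => c ((mA χ).2 k)]
      simp [c]
  have hc0 : (0 : ℝ) < (Nat.card O * n * Nat.card G : ℕ) := by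
    exact_mod_cast Nat.mul_pos (Nat.mul_pos Nat.card_pos hn) Nat.card_pos
  let e : G → ℝ := fun s =>
    if p ∣ orderOf s then 0 else (P s : ℝ) / (Nat.card O * n * Nat.card G : ℕ)
  have he : ∀ s, blockCoeff A s = e s := fun s => by
    by_cases c : p ∣ orderOf s
    · rw [blockCoeff_eq, orth 1 s fun k => hp.one_lt.ne' (by simpa using k.2 c)]
      simp [e, c]
    · simp only [e, c, if_false]
      rw [Complex.ofReal_div, Complex.ofReal_natCast, Complex.ofReal_natCast, hP s c,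
        mul_div_cancel_left₀]
      exact_mod_cast hc0.ne'
  have e0 : ∀ s, 0 ≤ e s := fun s => by
    simp only [e]
    split_ifs
    · exact le_rfl
    · positivity
  have e1 : ∀ a ∈ O, ∀ k : G, 0 < e (k * a * k⁻¹) := fun a ha k => by
    have : e (k * a * k⁻¹) = e a := by
      have := isClassFunction_blockCoeff A a k
      rw [he, he] at this
      exact_mod_cast this
    rw [this]
    simp only [e]
    rw [if_neg fun c => hO (c.trans (O.orderOf_dvd_natCard ha))]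
    refine div_pos (Nat.cast_pos.2 ?_) hc0
    refine Finset.sum_pos' (fun _ _ => Nat.zero_le _) ⟨x, Finset.mem_univ _,
      Finset.sum_pos' (fun _ _ => Nat.zero_le _) ⟨⟨a, hT ha⟩, Finset.mem_univ _, ?_⟩⟩
    rw [if_pos (Subgroup.mem_subgroupOf.2 ha)]
    have : Nonempty {y : G // y * a * y⁻¹ = x⁻¹ * (x * (a * x) * x⁻¹)} := ⟨1, by group⟩
    exact Nat.card_pos
  have e2 : ∀ a b : G, 0 < e a → 0 < e b → 0 < e (a * b) := fun a b ha hb => by
    have := blockCoeff_conv A (a * b)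
    simp_rw [he] at this
    have h2 : ∑ g, e g * e (g⁻¹ * (a * b)) = e (a * b) := by exact_mod_cast this
    rw [← h2]
    exact Finset.sum_pos' (fun _ _ => mul_nonneg (e0 _) (e0 _))
      ⟨a, Finset.mem_univ _, by rw [inv_mul_cancel_left]; exact mul_pos ha hb⟩
  have h3 := e2 _ _ (e1 o ho (x⁻¹ * g)) (e1 o⁻¹ (inv_mem ho) g)
  rcases h (g * o * g⁻¹) with c | c
  · rw [inv_mul_eq_one, eq_mul_inv_iff_mul_eq] at c
    exact c
  · rw [show x⁻¹ * g * o * (x⁻¹ * g)⁻¹ * (g * o⁻¹ * g⁻¹) =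
      x⁻¹ * (g * o * g⁻¹ * x * (g * o * g⁻¹)⁻¹) by group] at h3
    simp only [e, c, if_true] at h3
    exact absurd h3 (lt_irrefl _)

end Cfsg.Lib.Block.PosIdem
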