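import Cfsg.Agent.Block.SLFiveF
import Cfsg.Agent.Block.EqDeg
import Cfsg.Agent.Block.RankOne
import Cfsg.Agent.Block.CycMin

/-!
Blocks with one simple module and five irreducible characters.
-/

set_option autoImplicit false

open scoped ComplexConjugate MonoidAlgebra
open Cfsg Cfsg.Lib.Char Cfsg.Lib.Block.Pair Cfsg.Lib.Block.Cyc Module
open Subgroup (centralizer zpowers)

namespace Cfsg.Lib.Block

variable {G : Type*} [Group G] {M : Ideal AlgInt} {B : Set (IrrCharacter G)}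

theorem half_le_contr [Fintype G] (hM : IsPModular 2 M) {H : Subgroup G} [Fintype H] {u : G}
    {b : Set (IrrCharacter H)} (hH : H = centralizer ({u} : Set G)) (hu : u ^ 2 = 1)
    (hind : IsInducedBlock M H b B) (hd : blockDefect 2 b = blockDefect 2 B)
    {ψ : IrrCharacter G} (hψ : ψ ∈ B) (h0 : blockHeight 2 B (ψ : G → ℂ) ≠ 0) :
    4 ≤ (2 : ℝ) ^ blockDefect 2 B * (classInner (subRes 2 H u b ψ) (subRes 2 H u b ψ)).re := by
  have : Fact (Nat.Prime 2) := ⟨Nat.prime_two⟩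
  have hζ : IsPrimitiveRoot (-1 : ℂ) (2 ^ (0 + 1)) := IsPrimitiveRoot.neg_one 0 (by norm_num)
  have hu' : u ^ 2 ^ (0 + 1) = 1 := by simpa using hu
  have hpe := pElt_of_pow_eq_one Nat.prime_two hu'
  obtain ⟨a, ha⟩ := exists_isParts Nat.prime_two hH hζ hu' b ψ.2.isCharacter.isGeneralizedCharacter
  have h1 := two_mul_sum_U_inner hζ ha ha
  have h2 := ha.pow_succ_dvd_avgQ hM hH hζ hpe hind hd hψ h0
  have h3 := ha.avgQ_pos hM hH hζ hpe hind hd hψ
  have h4 : (4 : ℤ) ≤ avgQ a := Int.le_of_dvd h3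
    ((pow_dvd_pow (2 : ℤ) (by omega : 2 ≤ blockHeight 2 B (ψ : G → ℂ) + 1)).trans h2)
  rw [show U 2 0 = {1} by decide, Finset.sum_singleton, pow_one, avgB_two, hd] at h1
  have h5 := congrArg Complex.re (mul_left_cancel₀ (two_ne_zero (α := ℂ))
    (h1.trans (by push_cast; ring : _ = (2 : ℂ) * (avgQ a : ℂ))))
  rw [Complex.intCast_re, Nat.cast_ofNat, ← Complex.ofReal_ofNat, ← Complex.ofReal_pow,
    Complex.re_ofReal_mul] at h5
  rw [h5]
  exact_mod_cast h4

variable [Finite G]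

theorem blockRank_le_three (hM : IsPModular 2 M) (hB : IsPBlock M B) (hd : blockDefect 2 B = 3)
    {z : G} (hz : orderOf z = 2) (hc : z ∈ Subgroup.center G) : blockRank 2 B ≤ 3 := by
  have : Fact (Nat.Prime 2) := ⟨Nat.prime_two⟩
  have hle : zpowers z ≤ Subgroup.center G := Subgroup.zpowers_le.2 hc
  haveI : (zpowers z).Normal :=
    ⟨fun n hn g => by rwa [Subgroup.mem_center_iff.1 (hle hn) g, mul_inv_cancel_right]⟩
  have h := isCQ_mk_of_le_center (isPGroup_zpowers_of_pElt Nat.prime_two ⟨1, hz⟩) hle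
  have h1 := h.blockDefect_add hM hB (q := 1)
    (by rw [QuotientGroup.ker_mk', Nat.card_zpowers, hz, pow_one])
  have h2 := h.isPBlock hM hB
  have h3 := card_le_of_defect_le_two hM h2 (by omega)
  have h4 := blockRank_lt_card hM h2 (by omega)
  rw [show blockDefect 2 _ = 2 by omega] at h3
  rw [← h.blockRank_eq hM hB]
  omega

/-- A 2-block with abelian defect group of order eight and a character of positive height has
`k(B) ≤ l(B) + 3`. -/
theorem card_le_of_abelian_eight (hM : IsPModular 2 M) (hB : IsPBlock M B) {D : Subgroup G}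
    (hD : IsDefectGroup 2 M B D) (hd : blockDefect 2 B = 3) (hab : D ≤ centralizer (D : Set G))
    {ψ : IrrCharacter G} (hψ : ψ ∈ B) (h0 : blockHeight 2 B (ψ : G → ℂ) ≠ 0) :
    Nat.card B ≤ blockRank 2 B + 3 := by
  classical
  have : Fact (Nat.Prime 2) := ⟨Nat.prime_two⟩
  have := Fintype.ofFinite G
  have := charP_kM hM
  obtain ⟨e, hmax⟩ := exists_isMax_eB hM hB hD
  obtain ⟨X, hX, -⟩ := exists_isReps hmax (fun _ => True) fun u hu => ⟨u, ef_refl hmax hu, trivial⟩
  obtain ⟨z₀, hz₀⟩ := exists_prime_orderOf_dvd_card' (G := D) 2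
    (by rw [card_defect hM hB hD, hd]; norm_num)
  obtain ⟨z, hz, hef⟩ := hX.cover z₀ z₀.2
  have hz2 : orderOf z = 2 := by
    obtain ⟨g, rfl⟩ := isConj_iff.1 hef.isConj
    rw [← hz₀, ← Subgroup.orderOf_coe, ← MulAut.conj_apply]
    exact (MulAut.conj g).orderOf_eq _
  have hz1 : z ≠ 1 := by
    rintro rfl
    simp at hz2
  have hdef : ∀ x ∈ X, blockDefect 2 (subBlk 2 M D e x) = blockDefect 2 B := fun x hx =>
    blockDefect_subBlk_of_le hM hB hmax (hX.mem x hx) (le_cent_of_abelian hab (hX.mem x hx))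
  have hind : ∀ x ∈ X, IsInducedBlock M _ (subBlk 2 M D e x) B := fun x hx =>
    isInducedBlock_subBlk hM hB hmax (hX.mem x hx)
  have hsum := congrArg Complex.re
    (hX.classInner_eq hM hB hmax (inSpan_irr hψ) ψ.2.isClassFunction)
  rw [ψ.2.classInner_self, Complex.one_re, Complex.re_sum] at hsum
  have h1 := half_le_contr hM rfl (one_pow 2) (hind 1 hX.one_mem) (hdef 1 hX.one_mem) hψ h0
  have h2 := half_le_contr hM rfl (hz2 ▸ pow_orderOf_eq_one z) (hind z hz) (hdef z hz) hψ h0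
  have h3 : X.erase 1 = {z} := by
    refine Finset.eq_singleton_iff_unique_mem.2 ⟨Finset.mem_erase.2 ⟨hz1, hz⟩, fun x hx => ?_⟩
    by_contra hxz
    obtain ⟨hx1, hx⟩ := Finset.mem_erase.1 hx
    have h4 := Finset.sum_le_sum_of_subset_of_nonneg (s := {1, z, x}) (t := X)
      (f := fun x => (classInner (subRes 2 _ x (subBlk 2 M D e x) ψ)
        (subRes 2 _ x (subBlk 2 M D e x) ψ)).re)
      (by simp [Finset.insert_subset_iff, hX.one_mem, hz, hx])
      fun _ _ _ => classInner_self_re_nonneg _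
    rw [Finset.sum_insert (by simp [hz1.symm, Ne.symm hx1]),
      Finset.sum_insert (by simp [Ne.symm hxz]), Finset.sum_singleton, ← hsum] at h4
    refine subRes_ne_zero_of_major hM rfl (isMax_pElt hmax (hX.mem x hx)) (hind x hx) (hdef x hx)
      hψ (classInner_self_eq_zero.1 (Complex.ext ?_ (classInner_self_im _)))
    rw [hd] at h1 h2
    have h5 := classInner_self_re_nonneg (subRes 2 _ x (subBlk 2 M D e x) ψ)
    rw [Complex.zero_re]
    norm_num at h1 h2
    linarith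
  rw [hX.card_eq_add hM hB hmax, h3, Finset.sum_singleton]
  exact Nat.add_le_add_left (blockRank_le_three hM (isPBlock_subBlk hM hmax (hX.mem z hz))
    ((hdef z hz).trans hd) (z := ⟨z, cent_self_mem rfl⟩) (by rw [← Subgroup.orderOf_coe, hz2])
    (cent_mem_center rfl)) _

theorem exists_ca_eq_sq {p : ℕ} [hp : Fact p.Prime] [Fintype G] (hM : IsPModular p M)
    (hB : IsPBlock M B) (hl : blockRank p B = 1) {χ : IrrCharacter G} (hχ : χ ∈ B) :
    ∃ n : ℤ, ca p B χ χ = n ^ 2 ∧ (charDegree (χ : G → ℂ) : ℂ) = n * posGen p B 1 := by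
  obtain ⟨n, -, hn⟩ := exists_pos_gc hM hB hl hχ
  have h1 : InSpan B (pRegularPart p (χ : G → ℂ)) :=
    regLat_inSpan hM hB ⟨_, irr_mem_regLat (p := p) hχ⟩
  refine ⟨n, ?_, ?_⟩
  · have h2 := pow_mul_classInner_eq_gc hM hB hl (pRegularPart p (χ : G → ℂ)) h1
      (pRegularPart_idem _ _)
    rw [classInner_pRegularPart_both, ← ca_cast hp.out χ hχ, hn, map_intCast, ← sq] at h2
    exact_mod_cast h2
  · have h2 := congrFun (eq_gc_smul hM hB hl h1 (pRegularPart_idem _ _)) 1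
    rwa [pRegularPart_one p hp.out, ← irr_charDegree_cast, hn] at h2

theorem rank_one_five {p : ℕ} [hp : Fact p.Prime] (hM : IsPModular p M) (hB : IsPBlock M B)
    (hl : blockRank p B = 1) (hk : Nat.card B = 5) :
    p ^ blockDefect p B = 5 ∨ (p = 2 ∧ blockDefect p B = 3 ∧
      ∃ ψ ∈ B, blockHeight p B (ψ : G → ℂ) ≠ 0) := by
  classical
  have := Fintype.ofFinite G
  obtain ⟨i, hi, l, s, d, h1, -, h2, h3, h4⟩ := SymLoc.exists_basic hM hB hl
  by_cases hc : ∀ a b : SymLoc.Cn (kM M) hi, a * b = b * a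
  · left
    rw [← hk]
    refine (SymLoc.card_eq_of_eq_deg hM hB (SymLoc.exists_eq_deg_of_sum_sq_le ?_ h4)).2.symm
    have h5 : Subalgebra.center (kM M) (SymLoc.Cn (kM M) hi) = ⊤ := eq_top_iff.2 fun x _ =>
      Subalgebra.mem_center_iff.2 fun y => hc y x
    rw [← h3, ← h2, h5, Subalgebra.topEquiv.toLinearEquiv.finrank_eq]
  · right
    have h8 := h3.symm.trans (h1.finrank_eq_eight (h2.trans hk) hc)
    have hs : s ≠ 0 := by
      obtain ⟨χ, hχ⟩ := isPBlock_nonempty hM hB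
      rintro rfl
      exact irr_charDegree_ne_zero χ (by rw [h4 χ hχ, zero_mul])
    have hd0 : ∀ χ ∈ irrFin B, 1 ≤ d χ := fun χ hχ => Nat.pos_of_ne_zero fun h0 =>
      irr_charDegree_ne_zero χ (by rw [h4 χ (mem_irrFin.1 hχ), h0, mul_zero])
    have hcard : (irrFin B).card = 5 := (card_irrFin B).trans hk
    obtain ⟨χ₀, hχ₀, hd1⟩ : ∃ χ ∈ irrFin B, d χ = 1 := by
      by_contra! H
      have := Finset.card_nsmul_le_sum (irrFin B) (fun χ => d χ ^ 2) 4 fun χ hχ =>
        Nat.pow_le_pow_left (show 2 ≤ d χ by have := hd0 χ hχ; have := H χ hχ; omega) 2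
      rw [hcard, h8, smul_eq_mul] at this
      omega
    obtain ⟨ψ, hψ, hd2⟩ : ∃ χ ∈ irrFin B, d χ = 2 := by
      by_contra! H
      have h5 : ∀ χ ∈ irrFin B, d χ ^ 2 = 1 := fun χ hχ => by
        have h6 := Finset.single_le_sum (f := fun χ => d χ ^ 2) (fun _ _ => Nat.zero_le _) hχ
        have h7 := hd0 χ hχ
        have h9 := H χ hχ
        rw [h8] at h6
        have h10 : d χ < 3 := by nlinarith
        rw [show d χ = 1 by omega, one_pow]
      rw [Finset.sum_congr rfl h5, Finset.sum_const, hcard, smul_eq_mul] at h8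
      omega
    obtain ⟨t, ht, ht'⟩ := exists_ca_eq_sq hM hB hl (mem_irrFin.1 hχ₀)
    rw [h4 _ (mem_irrFin.1 hχ₀), hd1, mul_one] at ht'
    have hca : ∀ χ ∈ irrFin B, ca p B χ χ = (d χ ^ 2 : ℕ) * t ^ 2 := fun χ hχ => by
      obtain ⟨n, hn, hn'⟩ := exists_ca_eq_sq hM hB hl (mem_irrFin.1 hχ)
      rw [h4 _ (mem_irrFin.1 hχ), Nat.cast_mul, ht'] at hn'
      have h5 : posGen p B 1 ≠ 0 := fun H => hs (by rw [H, mul_zero] at ht'; exact_mod_cast ht')
      have h6 : (n : ℂ) = d χ * t := mul_right_cancel₀ h5 (by rw [← hn']; ring)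
      have h7 : n = d χ * t := by exact_mod_cast h6
      rw [hn, h7]
      push_cast
      ring
    have h5 := sum_ca_self hM hB
    rw [Finset.sum_congr rfl hca, ← Finset.sum_mul, ← Nat.cast_sum, h8, hl] at h5
    have hp2 : p = 2 := by
      have h6 : (2 : ℤ) ∣ (p : ℤ) ^ blockDefect p B := ⟨4 * t ^ 2, by push_cast at h5; linarith⟩
      have h7 : 2 ∣ p := by exact_mod_cast Int.prime_two.dvd_of_dvd_pow h6
      exact ((Nat.prime_dvd_prime_iff_eq Nat.prime_two hp.out).1 h7).symm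
    subst hp2
    have hodd : ¬ (2 : ℤ) ∣ t := fun H => by
      obtain ⟨χ, hχ, h0⟩ := Ht.exists_blockHeight_eq_zero 2 (isPBlock_nonempty hM hB)
      refine not_pow_height_succ_dvd_ca hM hB hχ hχ h0 ?_
      rw [h0, hca χ (mem_irrFin.2 hχ)]
      exact Dvd.dvd.mul_left (by simpa using H.pow two_ne_zero) _
    refine ⟨rfl, ?_, ψ, mem_irrFin.1 hψ, fun h0 => ?_⟩
    · push_cast at h5
      rcases lt_trichotomy (blockDefect 2 B) 3 with h6 | h6 | h6
      · have h7 : (2 : ℤ) ^ blockDefect 2 B ≤ 2 ^ 2 := pow_le_pow_right₀ (by norm_num) (by omega)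
        have h9 : t ≠ 0 := fun H => hodd (H ▸ dvd_zero _)
        have := sq_pos_of_ne_zero h9
        omega
      · exact h6
      · obtain ⟨c, hc⟩ := pow_dvd_pow (2 : ℤ) (show 4 ≤ blockDefect 2 B by omega)
        exact absurd (Int.prime_two.dvd_of_dvd_pow (n := 2) ⟨c, by linarith⟩) hodd
    · refine not_pow_height_succ_dvd_ca hM hB (mem_irrFin.1 hψ) (mem_irrFin.1 hψ) h0 ?_
      rw [h0, hca ψ hψ, hd2]
      exact Dvd.dvd.mul_right (by norm_num) _

end Cfsg.Lib.Block
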