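import Cfsg.Agent.Chev.RankOneNil
import Cfsg.Agent.Char.IndChar
import Cfsg.Agent.Char.Irr
import Cfsg.Agent.Char.PermLemma
import Cfsg.Prelude.Def_Blocks

/-!
A sufficient condition for an induced character to be irreducible, and an irreducible character
induced from a point stabiliser in the rank-one set-up.
-/

set_option autoImplicit false

open Cfsg Cfsg.Lib.Char Subgroup MulAction
open scoped ComplexConjugate

namespace Cfsg.Lib.Block.RankOneChar

variable {G : Type*} [Group G]

theorem isIrrCharacter_indFun_of_sum [Fintype G] {H : Subgroup G} [Fintype H] {θ : H → ℂ}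
    (hθ : IsIrrCharacter H θ)
    (h : ∀ x ∉ H, ∑ y : H, θ y * conj (extendByZero H θ (x⁻¹ * y * x)) = 0) :
    IsIrrCharacter G (indFun H θ) := by
  classical
  have hc := isCharacter_indFun hθ.isCharacter
  refine hc.isIrrCharacter_of_classInner_self ?_
  have hH : (Nat.card H : ℂ) ≠ 0 := Nat.cast_ne_zero.2 Nat.card_pos.ne'
  have h1 : ∑ y : H, θ y * conj (θ y) = Nat.card H := by
    have := hθ.classInner_self
    rw [classInner, inv_mul_eq_one₀ hH] at this
    exact this.symm
  have h2 : ∀ x : G, ∑ y : H, θ y * conj (extendByZero H θ (x⁻¹ * y * x)) =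
      if x ∈ H then (Nat.card H : ℂ) else 0 := by
    intro x
    split_ifs with hx
    · rw [← h1]
      refine Finset.sum_congr rfl fun y _ => ?_
      have := extendByZero_conj H hθ.isCharacter.isClassFunction (inv_mem hx) y
      rw [inv_inv] at this
      rw [this, extendByZero_coe]
    · exact h x hx
  rw [classInner_indFun_left H θ hc.isClassFunction, classInner]
  simp only [indFun, map_mul, map_sum, map_inv₀, map_natCast, Finset.mul_sum]
  rw [Finset.sum_comm]
  have h3 : ∀ x : G, ∑ y : H, (Nat.card H : ℂ)⁻¹ * (θ y * ((Nat.card H : ℂ)⁻¹ *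
      conj (extendByZero H θ (x⁻¹ * y * x)))) = if x ∈ H then (Nat.card H : ℂ)⁻¹ else 0 := by
    intro x
    have : ∀ y : H, (Nat.card H : ℂ)⁻¹ * (θ y * ((Nat.card H : ℂ)⁻¹ *
        conj (extendByZero H θ (x⁻¹ * y * x)))) = (Nat.card H : ℂ)⁻¹ * (Nat.card H : ℂ)⁻¹ *
          (θ y * conj (extendByZero H θ (x⁻¹ * y * x))) := fun y => by ring
    rw [Finset.sum_congr rfl fun y _ => this y, ← Finset.mul_sum, h2]
    split_ifs
    · field_simp
    · exact mul_zero _
  rw [Finset.sum_congr rfl fun x _ => h3 x, ← Finset.sum_filter, Finset.sum_const, nsmul_eq_mul,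
    ← Fintype.card_subtype, ← Nat.card_eq_fintype_card, mul_inv_cancel₀ hH]

open Chev.RankOne

variable {Ω : Type*} [MulAction G Ω] {a : Ω} {t : G} {Q : Subgroup G}

theorem exists_proj (hS : IsRankOneSetup G Ω a t Q) :
    ∃ π : stabilizer G a →* DD a t, ∀ (h : stabilizer G a) (d : DD a t), (h : G) = d → π h = d := by
  choose x hx d hd hxd using fun h : stabilizer G a => exists_QD hS h.2
  refine ⟨MonoidHom.mk' (fun h => ⟨d h, hd h⟩) fun h k => Subtype.ext ?_, fun h e he => ?_⟩
  · refine (QD_unique hS (hx (h * k)) (mul_mem (hx h) (hS.conj_mem _ (hd h).1 _ (hx k)))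
      (hd (h * k)) (mul_mem (hd h) (hd k)) ?_).2
    rw [← hxd, coe_mul, hxd h, hxd k]
    group
  · exact Subtype.ext (QD_unique hS (hx h) (one_mem Q) (hd h) e.2 (by rw [← hxd, one_mul, he])).2

theorem exists_irr_card_dvd [Finite G] (hS : IsRankOneSetup G Ω a t Q) (h2 : TwoRank G) :
    ∃ χ : IrrCharacter G, (stabilizer G a).index ∣ charDegree (χ : G → ℂ) := by
  classical
  have := Fintype.ofFinite G
  obtain ⟨k, hk, hk1⟩ := exists_KK_ne_one hS h2
  obtain ⟨π, hπ⟩ := exists_proj hS
  have hti := t_inv hS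
  obtain ⟨θ, hθ, hθk⟩ : ∃ θ, IsIrrCharacter (DD a t) θ ∧ θ ⟨k, hk.1⟩ ≠ θ (⟨k, hk.1⟩ : DD a t)⁻¹ := by
    by_contra hc
    push Not at hc
    exact hk1 (congrArg Subtype.val
      (eq_one_of_isConj_inv_of_odd hS.odd_card ((isConj_iff_forall_irr _ _).2 hc)))
  let c : DD a t →* DD a t := MonoidHom.mk' (fun d => ⟨t * d * t, conj_t_mem_DD hS d.2⟩)
    fun d e => Subtype.ext (by
      show t * (d * e) * t = t * d * t * (t * e * t)
      rw [show t * d * t * (t * e * t) = t * d * (t * t) * e * t by group, hS.mul_self]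
      group)
  have hc : Function.Surjective c := fun d => ⟨c d, Subtype.ext (by
    show t * (t * d * t) * t = d
    rw [show t * (t * d * t) * t = (t * t) * d * (t * t) by group, hS.mul_self]
    group)⟩
  have hθ' := hθ.comp_of_surjective c hc
  have hne : θ ≠ fun d => θ (c d) := fun h => hθk (by
    rw [congrFun h ⟨k, hk.1⟩]
    congr 1
    exact Subtype.ext (by have := hk.2; rwa [hti] at this))
  have hsurj : Function.Surjective π := fun d => ⟨⟨d, d.2.1⟩, hπ _ _ rfl⟩
  have hψ := hθ.comp_of_surjective π hsurj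
  have hcl := hψ.isCharacter.isClassFunction
  have ht : ∑ y : stabilizer G a,
      θ (π y) * conj (extendByZero (stabilizer G a) (fun h => θ (π h)) (t * y * t)) = 0 := by
    have h3 := hθ.classInner_of_ne hθ' hne
    rw [classInner, mul_eq_zero, inv_eq_zero, Nat.cast_eq_zero] at h3
    rw [← h3.resolve_left Nat.card_pos.ne']
    symm
    refine Finset.sum_of_injOn (fun d : DD a t => (⟨d, d.2.1⟩ : stabilizer G a))
      (fun d _ e _ h => Subtype.ext (congrArg (fun z : stabilizer G a => (z : G)) h))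
      (fun _ _ => Finset.mem_univ _) (fun y _ hy => ?_) fun d _ => ?_
    · rw [extendByZero_of_notMem, map_zero, mul_zero]
      intro hm
      refine hy ⟨⟨y, y.2, ?_⟩, by simp, rfl⟩
      have h4 : (t * y * t) • a = a := hm
      show (y : G) • t • a = t • a
      rw [mul_smul, mul_smul] at h4
      have h5 := congrArg (t • ·) h4
      simp only [smul_smul t t, hS.mul_self, one_smul] at h5
      exact h5
    · have h6 : t * (d : G) * t ∈ stabilizer G a := (c d).2.1
      show _ = _ * conj (extendByZero _ _ (t * (d : G) * t))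
      rw [hπ _ d rfl, extendByZero_of_mem _ _ h6, hπ _ (c d) rfl]
  have hirr := isIrrCharacter_indFun_of_sum hψ fun x hx => by
    obtain ⟨u, hu, v, hv, rfl⟩ := exists_canon hS hx
    rw [← ht]
    refine Fintype.sum_equiv (MulAut.conj (⟨u, hu⟩ : stabilizer G a)⁻¹).toEquiv _ _ fun y => ?_
    have h5 := extendByZero_conj _ hcl (inv_mem (hS.le hv)) (t * (u⁻¹ * y * u) * t)
    rw [show (u * t * v)⁻¹ * y * (u * t * v) = v⁻¹ * (t⁻¹ * (u⁻¹ * y * u) * t) * v⁻¹⁻¹ by group,
      hti, h5]
    exact congrArg₂ (· * ·) (hcl y (⟨u, hu⟩ : stabilizer G a)⁻¹).symm (by simp)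
  refine ⟨⟨_, hirr⟩, charDegree θ, ?_⟩
  obtain ⟨n, hn⟩ := hθ.isCharacter.exists_nat_degree
  show charDegree (indFun _ _) = _
  rw [charDegree, charDegree, indFun_one, map_one, hn, ← Nat.cast_mul, Complex.natCast_re,
    Complex.natCast_re, Nat.floor_natCast, Nat.floor_natCast]

end Cfsg.Lib.Block.RankOneChar
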