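import Cfsg.Agent.Block.RSpan
import Cfsg.Agent.Block.Defect
import Mathlib.LinearAlgebra.Matrix.Rank

/-!
# Function level defect theory, the order of a defect group, and the theorems of Green and Robinson
-/

set_option autoImplicit false

open scoped ComplexConjugate
open Cfsg Cfsg.Lib.Char Cfsg.Lib.Block.Loc Subgroup

namespace Cfsg.Lib.Block.Ht

variable {p : ℕ} {M : Ideal AlgInt} {G : Type*} [Group G]

/-! ### Determinants modulo the local ideal; ranks -/

theorem ideal_prod_sub_prod (hM : IsPModular p M) {ι : Type*} (s : Finset ι) {f g : ι → ℂ}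
    (hf : ∀ i ∈ s, MemLocalRing M (f i)) (h : ∀ i ∈ s, MemLocalIdeal M (f i - g i)) :
    MemLocalIdeal M (∏ i ∈ s, f i - ∏ i ∈ s, g i) := by
  classical
  induction s using Finset.induction_on with
  | empty => exact ideal_sub_of_eq hM rfl
  | insert a s ha ih =>
    rw [Finset.prod_insert ha, Finset.prod_insert ha]
    refine ideal_mul_sub_mul hM (hf a (Finset.mem_insert_self a s))
      (ring_prod hM _ fun i hi => ?_) (h a (Finset.mem_insert_self a s))
      (ih (fun i hi => hf i (Finset.mem_insert_of_mem hi))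
        (fun i hi => h i (Finset.mem_insert_of_mem hi)))
    exact (ring_iff_of_sub hM (h i (Finset.mem_insert_of_mem hi))).1
      (hf i (Finset.mem_insert_of_mem hi))

theorem not_ideal_prod (hM : IsPModular p M) {ι : Type*} (s : Finset ι) {f : ι → ℂ}
    (hf : ∀ i ∈ s, MemLocalRing M (f i)) (h : ∀ i ∈ s, ¬ MemLocalIdeal M (f i)) :
    ¬ MemLocalIdeal M (∏ i ∈ s, f i) := by
  classical
  induction s using Finset.induction_on with
  | empty => simpa using not_ideal_one hM
  | insert a s ha ih =>
    rw [Finset.prod_insert ha]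
    exact not_ideal_mul hM (hf a (Finset.mem_insert_self a s)) (h a (Finset.mem_insert_self a s))
      (ih (fun i hi => hf i (Finset.mem_insert_of_mem hi))
        (fun i hi => h i (Finset.mem_insert_of_mem hi)))

theorem ideal_prod_of_mem (hM : IsPModular p M) {ι : Type*} (s : Finset ι) {f : ι → ℂ}
    (hf : ∀ i ∈ s, MemLocalRing M (f i)) {i : ι} (hi : i ∈ s) (h : MemLocalIdeal M (f i)) :
    MemLocalIdeal M (∏ i ∈ s, f i) := by
  classical
  rw [← Finset.mul_prod_erase s f hi]
  exact ideal_mul_right hM h (ring_prod hM _ fun j hj => hf j (Finset.mem_of_mem_erase hj))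

section Det

variable {ι : Type*} [Fintype ι] [DecidableEq ι]

theorem ring_det (hM : IsPModular p M) {A : Matrix ι ι ℂ} (hA : ∀ i j, MemLocalRing M (A i j)) :
    MemLocalRing M A.det := by
  rw [Matrix.det_apply']
  exact ring_sum hM _ fun σ _ => ring_mul hM (ring_intCast hM _) (ring_prod hM _ fun i _ => hA _ _)

theorem ideal_det_sub_det (hM : IsPModular p M) {A A' : Matrix ι ι ℂ}
    (hA : ∀ i j, MemLocalRing M (A i j)) (h : ∀ i j, MemLocalIdeal M (A i j - A' i j)) :
    MemLocalIdeal M (A.det - A'.det) := by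
  rw [Matrix.det_apply', Matrix.det_apply', ← Finset.sum_sub_distrib]
  refine ideal_sum hM _ fun σ _ => ?_
  rw [← mul_sub]
  exact ideal_mul_left hM (ring_intCast hM _)
    (ideal_prod_sub_prod hM _ (fun i _ => hA _ _) fun i _ => h _ _)

theorem ideal_det_of_row (hM : IsPModular p M) {A : Matrix ι ι ℂ}
    (hA : ∀ i j, MemLocalRing M (A i j)) {i : ι} (h : ∀ j, MemLocalIdeal M (A i j)) :
    MemLocalIdeal M A.det := by
  rw [Matrix.det_apply']
  refine ideal_sum hM _ fun σ _ => ideal_mul_left hM (ring_intCast hM _) ?_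
  refine ideal_prod_of_mem hM _ (fun j _ => hA _ _) (Finset.mem_univ (σ.symm i)) ?_
  simpa using h (σ.symm i)

/-- Expansion of the determinant of a product of rectangular matrices along choices of rows. -/
theorem det_mul_eq_sum_rows {κ : Type*} [Fintype κ] (E : Matrix ι κ ℂ) (L : Matrix κ ι ℂ) :
    (E * L).det = ∑ f : ι → κ, (∏ i, E i (f i)) * (L.submatrix f id).det := by
  classical
  have h1 : (E * L : Matrix ι ι ℂ) = fun i => ∑ k, E i k • L k := by
    ext i j
    simp [Matrix.mul_apply]
  have h2 := (Matrix.detRowAlternating (n := ι) (R := ℂ)).toMultilinearMap.map_sum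
    (fun i k => E i k • L k)
  refine Eq.trans (by rw [h1]; exact h2) (Finset.sum_congr rfl fun f _ => ?_)
  exact (Matrix.detRowAlternating (n := ι) (R := ℂ)).toMultilinearMap.map_smul_univ
    (fun i => E i (f i)) (fun i => L (f i))

theorem rank_map_field {F K : Type*} [Field F] [Field K] (f : F →+* K) (A : Matrix ι ι F) :
    (A.map f).rank = A.rank := by
  classical
  obtain ⟨L, L', D, hA⟩ := Matrix.Pivot.exists_list_transvec_mul_diagonal_mul_list_transvec A
  have hU := Matrix.TransvectionStruct.det_toMatrix_prod L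
  have hV := Matrix.TransvectionStruct.det_toMatrix_prod L'
  set U := (L.map Matrix.TransvectionStruct.toMatrix).prod
  set V := (L'.map Matrix.TransvectionStruct.toMatrix).prod
  have hU' : (U.map f).det = 1 := by
    rw [← RingHom.mapMatrix_apply, ← RingHom.map_det, hU, map_one]
  have hV' : (V.map f).det = 1 := by
    rw [← RingHom.mapMatrix_apply, ← RingHom.map_det, hV, map_one]
  rw [hA, Matrix.map_mul, Matrix.map_mul,
    Matrix.rank_mul_eq_left_of_isUnit_det (V.map f) _ (hV' ▸ isUnit_one),
    Matrix.rank_mul_eq_left_of_isUnit_det V _ (hV ▸ isUnit_one),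
    Matrix.rank_mul_eq_right_of_isUnit_det (U.map f) _ (hU' ▸ isUnit_one),
    Matrix.rank_mul_eq_right_of_isUnit_det U _ (hU ▸ isUnit_one),
    Matrix.diagonal_map (map_zero f), Matrix.rank_diagonal, Matrix.rank_diagonal]
  exact Fintype.card_congr (Equiv.subtypeEquivRight fun i => by simp)

omit [DecidableEq ι] in
theorem rank_mul_of_mul_eq_one {K κ : Type*} [Field K] [Fintype κ] [DecidableEq κ]
    (E : Matrix ι κ K) (L : Matrix κ ι K) (h : L * E = 1) : (E * L).rank = Fintype.card κ := by
  apply le_antisymm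
  · exact (Matrix.rank_mul_le_left E L).trans (Matrix.rank_le_card_width E)
  · have h1 : L * (E * L) * E = 1 := by
      rw [← Matrix.mul_assoc, h, Matrix.one_mul, h]
    rw [← Matrix.rank_one (R := K) (n := κ), ← h1]
    exact (Matrix.rank_mul_le_left _ _).trans (Matrix.rank_mul_le_right _ _)

end Det

/-! ### The min-max theorem at the level of functions -/

section MinMax

variable [Finite G] [Fact p.Prime] {B : Set (IrrCharacter G)} {D : Subgroup G}

theorem exists_conj_le_of_coeff (hM : IsPModular p M) (hB : IsPBlock M B)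
    (hD : IsDefectGroup p M B D) {h : G} (hh : ¬ MemLocalIdeal M (blockCoeff B h))
    {Q : Subgroup G} (hQ : IsPGroup p Q) (hQh : h ∈ centralizer (Q : Set G)) :
    ∃ x : G, Q.map (MulAut.conj x).toMonoidHom ≤ D :=
  exists_conj_le_defect_of_coeff hM hB hD
    ((coeff_eB_ne_zero_iff' hM).2 ⟨ring_blockCoeff hM hB h, hh⟩) hQ
    (le_centralizer_singleton_iff.2 hQh)

theorem card_le_of_coeff (hM : IsPModular p M) (hB : IsPBlock M B)
    (hD : IsDefectGroup p M B D) {h : G} (hh : ¬ MemLocalIdeal M (blockCoeff B h))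
    {Q : Subgroup G} (hQ : IsPGroup p Q) (hQh : h ∈ centralizer (Q : Set G)) :
    Nat.card Q ≤ Nat.card D := by
  obtain ⟨x, hx⟩ := exists_conj_le_of_coeff hM hB hD hh hQ hQh
  rw [← card_map_conj Q x]
  exact card_le_of_le hx

theorem exists_conj_le_of_centralChar (hM : IsPModular p M) (hB : IsPBlock M B)
    (hD : IsDefectGroup p M B D) {χ : IrrCharacter G} (hχ : χ ∈ B) {h : G}
    (hh : ¬ MemLocalIdeal M (centralChar (χ : G → ℂ) h)) {Q : Subgroup G}
    (hQ : IsSylowIn p Q (centralizer ({h} : Set G))) :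
    ∃ x : G, D.map (MulAut.conj x).toMonoidHom ≤ Q :=
  exists_conj_defect_le_of_lamB hM hB hD ((lamB_classSum_ne_zero_iff hM hB hχ).2 hh) hQ

/-- A p-subgroup centralizing an element with unit idempotent coefficient and Sylow in the
centralizer of an element with unit central character value is a defect group. -/
theorem isDefectGroup_of_coeff_of_centralChar (hM : IsPModular p M) (hB : IsPBlock M B)
    {χ : IrrCharacter G} (hχ : χ ∈ B) {h : G}
    (hh : ¬ MemLocalIdeal M (centralChar (χ : G → ℂ) h))
    (hD : IsSylowIn p D (centralizer ({h} : Set G))) {z : G}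
    (hz : ¬ MemLocalIdeal M (blockCoeff B z)) (hzD : z ∈ centralizer (D : Set G)) :
    IsDefectGroup p M B D := by
  obtain ⟨E, hE⟩ := exists_isDefectGroup (p := p) hM hB
  obtain ⟨x, hx⟩ := exists_conj_le_of_centralChar hM hB hE hχ hh hD
  have h1 := card_le_of_coeff hM hB hE hz hD.isPGroup hzD
  have h2 : E.map (MulAut.conj x).toMonoidHom = D :=
    eq_of_le_of_card_ge hx (by rwa [card_map_conj])
  rw [← h2]
  exact isDefectGroup_map_conj hE x

omit [Fact p.Prime] in
theorem blockPart_clInd_one [Fintype G] (B : Set (IrrCharacter G)) (g : G) :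
    blockPart B (clInd g) 1 = ((centralizer ({g} : Set G)).index : ℂ) * blockCoeff B g := by
  rw [← sum_blockCoeff_mul, ← sum_clInd_mul (isClassFunction_blockCoeff B)]
  exact Finset.sum_congr rfl fun x _ => mul_comm _ _

/-- For a p-regular `g` and a character `χ` of height zero in `B`, the class size of `g` times the
idempotent coefficient at `g` is divisible by the degree of `χ`. -/
theorem ring_index_mul_blockCoeff_div (hM : IsPModular p M) (hB : IsPBlock M B)
    {χ : IrrCharacter G} (hχ : χ ∈ B) (h0 : blockHeight p B (χ : G → ℂ) = 0) (g : G) :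
    MemLocalRing M (((centralizer ({g} : Set G)).index : ℂ) * blockCoeff B g / (χ : G → ℂ) 1) := by
  have := Fintype.ofFinite G
  by_cases hg : p ∣ orderOf g
  · rw [blockCoeff_eq_zero_of_dvd hM hB hg, mul_zero, zero_div]
    exact ring_zero hM
  obtain ⟨π, hπ, h⟩ := exists_rGen_reg_eq_clInd hM hg
  have h1 : blockPart B (clInd g) = pRegularPart p (blockPart B π) := by
    rw [← h, blockPart_reg hM hB]
  rw [← blockPart_clInd_one]
  refine (ideal_cc_sub_degree hM hB (isClassFunction_blockPart B _) (fun x _ => ?_) ?_ hχ h0).1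
  · rw [h1]
    exact ring_reg hM ((hπ.blockPart hM B).ring hM) x
  · rw [← blockPart_reg hM hB, blockPart_blockPart]

/-- The class size of a defect class has the valuation of the degrees of height zero. -/
theorem factorization_index_of_isDefectClass (hM : IsPModular p M) (hB : IsPBlock M B) {g : G}
    (hg : IsDefectClass M B g) :
    (centralizer ({g} : Set G)).index.factorization p = minVal p B := by
  obtain ⟨χ, hχ, h0⟩ := exists_blockHeight_eq_zero p (block_nonempty hM hB)
  have h1 := ring_index_mul_blockCoeff_div hM hB hχ h0 g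
  have h2 := hg.2.2 χ hχ
  have hi : (centralizer ({g} : Set G)).index ≠ 0 := index_ne_zero_of_finite
  rw [mul_comm, mul_div_assoc, ring_mul_unit_iff hM hg.1 hg.2.1, ← cast_charDegree_irr,
    ring_natCast_div_iff hM hi (charDegree_ne_zero χ.2)] at h1
  rw [← (blockHeight_eq_zero_iff hχ).1 h0]
  refine le_antisymm ?_ h1
  by_contra hlt
  apply h2
  rw [centralChar, mul_comm, mul_div_assoc, ← cast_charDegree_irr]
  refine ideal_mul_left hM (ring_char hM χ.2.isCharacter g) ?_
  rw [ideal_natCast_div_iff hM hi (charDegree_ne_zero χ.2)]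
  omega

omit [Fact p.Prime] in
theorem factorization_index_add (p : ℕ) (H : Subgroup G) :
    H.index.factorization p + (Nat.card H).factorization p = (Nat.card G).factorization p := by
  rw [← H.index_mul_card, Nat.factorization_mul index_ne_zero_of_finite Nat.card_pos.ne',
    Finsupp.add_apply]

/-- The order of a defect group. -/
theorem card_defect_eq (hM : IsPModular p M) (hB : IsPBlock M B) (hD : IsDefectGroup p M B D) :
    Nat.card D = p ^ blockDefect p B := by
  obtain ⟨g, hg, h⟩ := isDefectGroup_iff_isSylowIn.1 hD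
  rw [h.card_eq]
  congr 1
  have h1 := factorization_index_of_isDefectClass hM hB hg
  have h2 := factorization_index_add p (centralizer ({g} : Set G))
  have h3 := blockDefect_add_minVal p (block_nonempty hM hB)
  omega

/-- If a defect group of `B` is Sylow in the centralizer of `x`, the class size of `x` has the
valuation of the degrees of height zero. -/
theorem factorization_index_of_isSylowIn (hM : IsPModular p M) (hB : IsPBlock M B)
    (hD : IsDefectGroup p M B D) {x : G} (hx : IsSylowIn p D (centralizer ({x} : Set G))) :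
    (centralizer ({x} : Set G)).index.factorization p = minVal p B := by
  have h1 := hx.card_eq
  rw [card_defect_eq hM hB hD] at h1
  have h4 := Nat.pow_right_injective (Fact.out : p.Prime).two_le h1
  have h2 := factorization_index_add p (centralizer ({x} : Set G))
  have h3 := blockDefect_add_minVal p (block_nonempty hM hB)
  omega

end MinMax

/-! ### Green's theorem -/

theorem sum_eq_sum_subgroup [Fintype G] (H : Subgroup G) [Fintype H] {f : G → ℂ}
    (hf : ∀ u, u ∉ H → f u = 0) : ∑ u, f u = ∑ u : H, f u := by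
  rw [← sum_extendByZero H fun u : H => f u]
  refine Finset.sum_congr rfl fun u _ => ?_
  by_cases hu : u ∈ H
  · rw [extendByZero_of_mem _ _ hu]
  · rw [extendByZero_of_notMem _ _ hu, hf u hu]

open Classical in
theorem exists_conj_not_ideal_sum [Fintype G] [Fact p.Prime] (hM : IsPModular p M)
    {H T : Subgroup G} (hT : IsSylowIn p T H) {w : G → ℂ} (hr : ∀ u, MemLocalRing M (w u))
    (hw : ∀ u, u ∉ H → w u = 0) (h : ¬ MemLocalIdeal M (∑ u, w u * pInd p u)) :
    ∃ n ∈ H, ¬ MemLocalIdeal M (∑ u, if n⁻¹ * u * n ∈ T then w u else 0) := by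
  by_contra hc
  push Not at hc
  apply h
  obtain ⟨S, rfl⟩ := hT
  have h1 : MemLocalIdeal M (∑ u : H, w u * indFun (S : Subgroup H) (fun _ => 1) u) := by
    simp only [indFun_eq_sum_cosets (S : Subgroup H) (θ := fun _ => 1) (fun _ _ => rfl),
      Finset.mul_sum]
    rw [Finset.sum_comm]
    refine ideal_sum hM _ fun q _ => ?_
    have h2 := hc (Quotient.out q : H) (Quotient.out q).2
    rw [sum_eq_sum_subgroup H (fun u hu => by simp [hw u hu])] at h2
    convert h2 using 2 with u
    have h3 : ((Quotient.out q : H) : G)⁻¹ * u * (Quotient.out q : H) ∈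
        (S : Subgroup H).map H.subtype ↔ (Quotient.out q)⁻¹ * u * Quotient.out q ∈ (S : Subgroup H) :=
      mem_map_iff_mem (f := H.subtype) H.subtype_injective
        (x := (Quotient.out q)⁻¹ * u * Quotient.out q)
    by_cases h4 : (Quotient.out q)⁻¹ * u * Quotient.out q ∈ (S : Subgroup H)
    · rw [extendByZero_of_mem _ _ h4, if_pos (h3.2 h4), mul_one]
    · rw [extendByZero_of_notMem _ _ h4, if_neg (mt h3.1 h4), mul_zero]
  have h2 : MemLocalIdeal M (∑ u : H, w u * indFun (S : Subgroup H) (fun _ => 1) u -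
      ((S : Subgroup H).index : ℂ) * ∑ u : H, w u * pInd p u) := by
    rw [Finset.mul_sum, ← Finset.sum_sub_distrib]
    refine ideal_sum hM _ fun x _ => ?_
    rw [mul_left_comm, ← mul_sub]
    exact ideal_mul_left hM (hr x) (ideal_indFun_sylow_sub hM S _)
  rw [ideal_iff_of_sub hM h2, ideal_mul_unit_iff hM (ring_natCast hM _)
    (by rw [ideal_natCast_iff hM]; exact S.not_dvd_index)] at h1
  rw [sum_eq_sum_subgroup H (fun u hu => by rw [hw u hu, zero_mul])]
  convert h1 using 3 with u
  exact pInd_congr (orderOf_coe u)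

/-- Green's theorem: a defect group is a Sylow intersection. -/
theorem green_sylow_inter [Finite G] [Fact p.Prime] (hM : IsPModular p M)
    {B : Set (IrrCharacter G)} (hB : IsPBlock M B) {D : Subgroup G} (hD : IsDefectGroup p M B D)
    {P : Subgroup G} (hP : IsPGroup p P) (hDP : D ≤ P) :
    ∃ x : G, IsDefectClass M B x⁻¹ ∧ ¬ p ∣ orderOf x ∧ IsSylowIn p D (centralizer ({x} : Set G)) ∧
      P ⊓ P.map (MulAut.conj x).toMonoidHom = D := by
  classical
  have := Fintype.ofFinite G
  obtain ⟨g, hg, hDg⟩ := isDefectGroup_iff_isSylowIn.1 hD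
  have hgr : ¬ p ∣ orderOf g := fun h =>
    hg.2.1 (ideal_of_eq_zero hM (blockCoeff_eq_zero_of_dvd hM hB h))
  have hgC : g ∈ centralizer (D : Set G) := le_centralizer_singleton_iff.1 hDg.le
  have hacl := isClassFunction_blockCoeff B
  have har := ring_blockCoeff hM hB
  set N := normalizer (D : Set G) with hN
  have hCN : centralizer (D : Set G) ≤ N := centralizer_le_normalizer _
  obtain ⟨T, hT, hPT⟩ := exists_isSylowIn_ge (hP.to_inf_left (K := N)) (inf_le_right (a := P))
  have hDT : D ≤ T := (le_inf hDP le_normalizer).trans hPT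
  -- the sum over the centralizer of `D`
  have h1 : ¬ MemLocalIdeal M (∑ z, if z ∈ centralizer (D : Set G) then
      blockCoeff B z * pInd p (z * g⁻¹) else 0) := by
    rw [← ideal_iff_of_sub hM (ideal_sum_sub_sum_centralizer hM hDg.isPGroup (fun u hu x => ?_)
      (fun x => ring_mul hM (har x) (ring_pInd hM _))), sum_blockCoeff_mul_pInd hM hB hgr]
    · exact hg.2.1
    · rw [hacl x u, ← isClassFunction_pInd p (x * g⁻¹) u]
      congr 2
      have := mem_centralizer_iff.1 (inv_mem hgC) _ (inv_mem hu)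
      rw [mul_assoc (u * x), this]; group
  have h2 : ¬ MemLocalIdeal M (∑ u, (if u ∈ centralizer (D : Set G) then
      blockCoeff B (u * g) else 0) * pInd p u) := by
    rw [← Equiv.sum_comp (Equiv.mulRight g⁻¹)]
    convert h1 using 3 with z
    have : z * g⁻¹ ∈ centralizer (D : Set G) ↔ z ∈ centralizer (D : Set G) :=
      Subgroup.mul_mem_cancel_right _ (inv_mem hgC)
    simp only [Equiv.coe_mulRight, this, inv_mul_cancel_right]
    split_ifs <;> simp
  obtain ⟨n, hn, h3⟩ := exists_conj_not_ideal_sum hM hT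
    (fun u => ring_ite _ (har _) (ring_zero hM)) (fun u hu => if_neg fun h => hu (hCN h)) h2
  set y := n⁻¹ * g * n with hy
  have hyC : y ∈ centralizer (D : Set G) := by
    have := conj_mem_centralizer (inv_mem hn) hgC
    rwa [inv_inv] at this
  have hgy : IsConj g y := isConj_iff.2 ⟨n⁻¹, by rw [inv_inv]⟩
  have h4 : ¬ MemLocalIdeal M (∑ z, if z * y⁻¹ ∈ T ∧ z ∈ centralizer (D : Set G) then
      blockCoeff B z else 0) := by
    rw [← Equiv.sum_comp ((Equiv.mulRight g).trans (MulAut.conj n⁻¹).toEquiv)]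
    convert h3 using 3 with u
    have e1 : ((Equiv.mulRight g).trans (MulAut.conj n⁻¹).toEquiv) u = n⁻¹ * (u * g) * n⁻¹⁻¹ := rfl
    have e2 : n⁻¹ * (u * g) * n⁻¹⁻¹ * y⁻¹ = n⁻¹ * u * n := by rw [hy]; group
    rw [e1, e2, conj_mem_centralizer_iff (inv_mem hn), hacl,
      Subgroup.mul_mem_cancel_right _ hgC, ite_and]
  set Q := T ⊓ T.map (MulAut.conj y⁻¹).toMonoidHom with hQ
  have hQp : IsPGroup p Q := hT.isPGroup.to_inf_left
  have hinv : ∀ u ∈ Q, ∀ x, (if u * x * u⁻¹ * y⁻¹ ∈ T ∧ u * x * u⁻¹ ∈ centralizer (D : Set G) then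
      blockCoeff B (u * x * u⁻¹) else 0) =
      if x * y⁻¹ ∈ T ∧ x ∈ centralizer (D : Set G) then blockCoeff B x else 0 := by
    intro u hu x
    have hu2 := mem_map_conj_iff.1 hu.2
    rw [inv_inv] at hu2
    have e1 : u * x * u⁻¹ * y⁻¹ ∈ T ↔ x * y⁻¹ ∈ T := by
      rw [show u * x * u⁻¹ * y⁻¹ = u * (x * y⁻¹) * (y * u * y⁻¹)⁻¹ by group,
        Subgroup.mul_mem_cancel_right _ (inv_mem hu2), Subgroup.mul_mem_cancel_left _ hu.1]
    simp only [e1, conj_mem_centralizer_iff (hT.le hu.1), hacl x u]
  obtain ⟨z, hz, h5⟩ := exists_centralizer_not_ideal hM hQp hinv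
    (fun x => ring_ite _ (har _) (ring_zero hM)) h4
  · have h6 : ¬ MemLocalIdeal M (blockCoeff B z) := by
      intro h
      apply h5
      split_ifs
      · exact h
      · exact ideal_zero hM
    have hDy : D.map (MulAut.conj y⁻¹).toMonoidHom = D :=
      map_conj_eq_self_iff.2 (inv_mem (hCN hyC))
    have hDQ : D ≤ Q := le_inf hDT (hDy ▸ map_mono hDT)
    have hQD : Q = D := (eq_of_le_of_card_ge hDQ (card_le_of_coeff hM hB hD h6 hQp hz)).symm
    have hord : orderOf y = orderOf g := by
      have := orderOf_conj_eq g n⁻¹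
      rwa [inv_inv] at this
    refine ⟨y⁻¹, ?_, by rwa [orderOf_inv, hord], ?_, ?_⟩
    · rw [inv_inv]
      refine ⟨har y, by rw [← hacl.eq_of_isConj hgy]; exact hg.2.1, fun χ hχ => ?_⟩
      have := hg.2.2 χ hχ
      rwa [← om_clInd χ.2.isClassFunction, show clInd y = clInd g from ?_,
        om_clInd χ.2.isClassFunction]
      funext x
      by_cases hx : IsConj g x
      · rw [clInd_of_isConj hx, clInd_of_isConj (hgy.symm.trans hx)]
      · rw [clInd_of_not_isConj hx, clInd_of_not_isConj fun h => hx (hgy.trans h)]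
    · have h7 := hDg.centralizer_of_isConj hgy hyC
      have h8 : centralizer ({y⁻¹} : Set G) = centralizer ({y} : Set G) := by
        ext x
        rw [mem_centralizer_singleton_iff, mem_centralizer_singleton_iff]
        exact ⟨fun h => (Commute.inv_right_iff.1 h), fun h => (Commute.inv_right_iff.2 h)⟩
      rwa [h8]
    · by_contra hne
      have hlt : D < P ⊓ P.map (MulAut.conj y⁻¹).toMonoidHom :=
        lt_of_le_of_ne (le_inf hDP (hDy ▸ map_mono hDP)) (Ne.symm hne)
      have h9 := lt_inf_normalizer_of_lt hP.to_inf_left hlt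
      refine absurd h9 (not_lt_of_ge ?_)
      rw [← hQD]
      rintro v ⟨⟨hv1, hv2⟩, hv3⟩
      rw [hQD] at hv3
      exact ⟨hPT ⟨hv1, hv3⟩, mem_map_conj_iff.2 (hPT ⟨mem_map_conj_iff.1 hv2,
        N.mul_mem (N.mul_mem (inv_mem (inv_mem (hCN hyC))) hv3) (inv_mem (hCN hyC))⟩)⟩

/-! ### Robinson's matrix -/

section Robinson

variable [Fintype G] [Fact p.Prime]

/-- A chosen member of a block. -/
noncomputable def blRep (B : Bl M G) : IrrCharacter G := B.2.choose

omit [Fintype G] [Fact p.Prime] in
theorem blRep_mem (hM : IsPModular p M) (B : Bl M G) : blRep B ∈ B.1 := by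
  have h : B.1 = blockOf M (blRep B : G → ℂ) := B.2.choose_spec
  exact h.symm.subset (mem_blockOf_self hM _)

omit [Fintype G] [Fact p.Prime] in
theorem isClassFunction_centralChar {χ : G → ℂ} (hχ : IsClassFunction G χ) :
    IsClassFunction G (centralChar χ) := fun g x => centralChar_conj hχ x g

omit [Fact p.Prime] in
/-- A class function minus its semisimple part lies in the radical. -/
theorem ideal_om_sub_sum_blocks (hM : IsPModular p M) {a : G → ℂ} (ha : IsClassFunction G a)
    (hr : ∀ g, MemLocalRing M (a g)) (χ : IrrCharacter G) :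
    MemLocalIdeal M (om (χ : G → ℂ)
      (a - ∑ B : Bl M G, om (blRep B : G → ℂ) a • blockCoeff B.1)) := by
  rw [om_sub, om_sum, Finset.sum_eq_single (⟨_, isPBlock_blockOf χ⟩ : Bl M G)]
  · rw [om_smul, om_blockCoeff_of_mem (mem_blockOf_self hM χ), mul_one]
    exact ideal_om_sub_om hM χ.2.isClassFunction (blRep _).2.isClassFunction
      (blRep_mem hM (⟨_, isPBlock_blockOf χ⟩ : Bl M G)) ha hr
  · intro B _ hB
    rw [om_smul, om_blockCoeff_of_notMem, mul_zero]
    intro hχ
    exact hB (Subtype.ext (eq_blockOf_of_mem hM B.2 hχ))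
  · simp

/-- The product of a central element with the sum of the p-elements only depends on its central
character values. -/
theorem ideal_sum_mul_pInd_sub (hM : IsPModular p M) {a : G → ℂ} (ha : IsClassFunction G a)
    (hr : ∀ g, MemLocalRing M (a g)) (y : G) :
    MemLocalIdeal M (∑ z, a z * pInd p (z * y) -
      ∑ B : Bl M G, (∑ z, blockCoeff B.1 z * pInd p (z * y)) * om (blRep B : G → ℂ) a) := by
  have h := ideal_sum_mul_pInd hM
    (w := a - ∑ B : Bl M G, om (blRep B : G → ℂ) a • blockCoeff B.1)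
    (ha.sub (isClassFunction_sum _ fun B _ => (isClassFunction_blockCoeff B.1).smul _))
    (fun x => by
      rw [Pi.sub_apply, Finset.sum_apply]
      exact ring_sub hM (hr x) (ring_sum hM _ fun B _ =>
        ring_mul hM (ring_om hM (blRep B).2 ha hr) (ring_blockCoeff hM B.2 x)))
    (ideal_om_sub_sum_blocks hM ha hr) y
  convert h using 1
  simp only [Pi.sub_apply, Finset.sum_apply, Pi.smul_apply, smul_eq_mul, sub_mul,
    Finset.sum_sub_distrib, Finset.sum_mul]
  congr 1
  rw [Finset.sum_comm]
  exact Finset.sum_congr rfl fun z _ => Finset.sum_congr rfl fun B _ => by ring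

theorem exists_coeff_of_sum_pInd (hM : IsPModular p M) {B : Set (IrrCharacter G)}
    (hB : IsPBlock M B) {D : Subgroup G} (hD : IsPGroup p D) {y : G}
    (hy : y ∈ centralizer (D : Set G))
    (h : ¬ MemLocalIdeal M (∑ z, blockCoeff B z * pInd p (z * y))) :
    ∃ z ∈ centralizer (D : Set G), ¬ MemLocalIdeal M (blockCoeff B z) := by
  have hinv : ∀ u ∈ D, ∀ x, blockCoeff B (u * x * u⁻¹) * pInd p (u * x * u⁻¹ * y) =
      blockCoeff B x * pInd p (x * y) := by
    intro u hu x
    rw [isClassFunction_blockCoeff B x u, ← isClassFunction_pInd p (x * y) u]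
    congr 2
    have := mem_centralizer_iff.1 hy _ (inv_mem hu)
    rw [mul_assoc (u * x), this]; group
  obtain ⟨z, hz, h1⟩ := exists_centralizer_not_ideal hM hD hinv
    (fun x => ring_mul hM (ring_blockCoeff hM hB x) (ring_pInd hM _)) h
  exact ⟨z, hz, fun h2 => h1 (ideal_mul_right hM h2 (ring_pInd hM _))⟩

/-- Robinson's rank formula over the residue field. -/
theorem rank_robinson (hM : IsPModular p M) {D : Subgroup G} {ι : Type*} [Fintype ι]
    (y : ι → G) (hinj : ∀ i j, IsConj (y i) (y j) → i = j)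
    (hy : ∀ i, ¬ p ∣ orderOf (y i) ∧ IsSylowIn p D (centralizer ({y i} : Set G)))
    (hsurj : ∀ x : G, ¬ p ∣ orderOf x → IsSylowIn p D (centralizer ({x} : Set G)) →
      ∃ i, IsConj (y i) x) :
    (Matrix.of fun i j : ι => redM M (∑ z, clInd (y j) z * pInd p (z * (y i)⁻¹))).rank =
      Nat.card {B : Set (IrrCharacter G) // IsPBlock M B ∧ IsDefectGroup p M B D} := by
  classical
  let κ := {B : Bl M G // IsDefectGroup p M B.1 D}
  have hκ : Nat.card {B : Set (IrrCharacter G) // IsPBlock M B ∧ IsDefectGroup p M B D} =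
      Fintype.card κ := by
    rw [← Nat.card_eq_fintype_card]
    exact Nat.card_congr (Equiv.subtypeSubtypeEquivSubtypeInter _ _).symm
  let E : Matrix ι κ (kM M) := Matrix.of fun i B => redM M (blockCoeff B.1.1 (y i))
  let L : Matrix κ ι (kM M) := Matrix.of fun B j => redM M (centralChar (blRep B.1 : G → ℂ) (y j))
  have hv : ∀ {z : ℂ}, MemLocalRing M z → vM M z ≤ 1 := vM_le_one_of_memLocalRing hM
  have hLE : L * E = 1 := by
    ext B B'
    have := Fintype.ofFinite (ConjClasses G)
    have h1 := om_eq_sum_classes (blRep B.1).2.isClassFunction (isClassFunction_blockCoeff B'.1.1)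
    have h2 : redM M (om (blRep B.1 : G → ℂ) (blockCoeff B'.1.1)) = (1 : Matrix κ κ (kM M)) B B' := by
      by_cases h : B = B'
      · subst h
        rw [om_blockCoeff_of_mem (blRep_mem hM _), Matrix.one_apply_eq, redM_one]
      · rw [om_blockCoeff_of_notMem, Matrix.one_apply_ne h, redM_zero]
        intro h'
        exact h (Subtype.ext (Subtype.ext (block_eq_of_mem hM B.1.2 B'.1.2 (blRep_mem hM _) h')))
    rw [← h2, h1, redM_sum (f := fun C : ConjClasses G => blockCoeff B'.1.1 (Quotient.out C) *
      centralChar (blRep B.1 : G → ℂ) (Quotient.out C)) fun C _ => hv (ring_mul hM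
        (ring_blockCoeff hM B'.1.2 _) (ring_centralChar hM (blRep B.1).2 _)), Matrix.mul_apply]
    refine Finset.sum_bij_ne_zero (fun j _ _ => ConjClasses.mk (y j)) (fun _ _ _ => Finset.mem_univ _)
      (fun i _ _ j _ _ h => hinj i j (ConjClasses.mk_eq_mk_iff_isConj.1 h)) ?_ ?_
    · intro C _ hC
      rw [redM_mul (hv (ring_blockCoeff hM B'.1.2 _)) (hv (ring_centralChar hM (blRep B.1).2 _))]
        at hC
      have h3 : ¬ MemLocalIdeal M (blockCoeff B'.1.1 (Quotient.out C)) := fun h =>
        left_ne_zero_of_mul hC (redM_eq_zero_of_lt (vM_lt_one_of_memLocalIdeal hM h))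
      have h4 : ¬ MemLocalIdeal M (centralChar (blRep B.1 : G → ℂ) (Quotient.out C)) := fun h =>
        right_ne_zero_of_mul hC (redM_eq_zero_of_lt (vM_lt_one_of_memLocalIdeal hM h))
      obtain ⟨Q, hQ⟩ := exists_isSylowIn p (centralizer ({Quotient.out C} : Set G))
      obtain ⟨x, hx⟩ := exists_conj_le_of_centralChar hM B.1.2 B.2 (blRep_mem hM _) h4 hQ
      have h5 := card_le_of_coeff hM B'.1.2 B'.2 h3 hQ.isPGroup
        (le_centralizer_singleton_iff.1 hQ.le)
      have h6 : D.map (MulAut.conj x).toMonoidHom = Q :=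
        eq_of_le_of_card_ge hx (by rwa [card_map_conj])
      have h7 := hQ.map_conj x⁻¹
      rw [← h6, map_conj_map_conj, inv_mul_cancel, map_conj_one, map_conj_centralizer_singleton]
        at h7
      obtain ⟨i, hi⟩ := hsurj _ (by
        rw [orderOf_conj_eq]
        exact fun h => h3 (ideal_of_eq_zero hM (blockCoeff_eq_zero_of_dvd hM B'.1.2 h))) h7
      have h8 : IsConj (Quotient.out C) (y i) := (isConj_iff.2 ⟨x⁻¹, rfl⟩).trans hi.symm
      refine ⟨i, Finset.mem_univ _, ?_, isConj_out_iff'.1 h8⟩
      simp only [L, E, Matrix.of_apply]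
      rw [← (isClassFunction_blockCoeff B'.1.1).eq_of_isConj h8,
        ← (isClassFunction_centralChar (blRep B.1).2.isClassFunction).eq_of_isConj h8, mul_comm]
      exact hC
    · intro j _ _
      have h8 : IsConj (Quotient.out (ConjClasses.mk (y j))) (y j) := isConj_out_iff'.2 rfl
      rw [redM_mul (hv (ring_blockCoeff hM B'.1.2 _)) (hv (ring_centralChar hM (blRep B.1).2 _)),
        (isClassFunction_blockCoeff B'.1.1).eq_of_isConj h8,
        (isClassFunction_centralChar (blRep B.1).2.isClassFunction).eq_of_isConj h8, mul_comm]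
      rfl
  rw [hκ, ← rank_mul_of_mul_eq_one E L hLE]
  congr 1
  ext i j
  rw [Matrix.of_apply, redM_eq_of_memLocalIdeal_sub hM (ideal_sum_mul_pInd_sub hM
    (isClassFunction_clInd (y j)) (ring_clInd hM _) (y i)⁻¹), Matrix.mul_apply]
  simp only [fun B : Bl M G => sum_blockCoeff_mul_pInd hM B.2 (hy i).1,
    fun B : Bl M G => om_clInd (blRep B).2.isClassFunction (y j)]
  rw [redM_sum fun B _ => hv (ring_mul hM (ring_blockCoeff hM B.2 _)
    (ring_centralChar hM (blRep B).2 _))]
  symm
  refine Finset.sum_bij_ne_zero (fun B _ _ => B.1) (fun _ _ _ => Finset.mem_univ _)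
    (fun _ _ _ _ _ _ h => Subtype.ext h) ?_ ?_
  · intro B _ hC
    rw [redM_mul (hv (ring_blockCoeff hM B.2 _)) (hv (ring_centralChar hM (blRep B).2 _))] at hC
    have h3 : ¬ MemLocalIdeal M (blockCoeff B.1 (y i)) := fun h =>
      left_ne_zero_of_mul hC (redM_eq_zero_of_lt (vM_lt_one_of_memLocalIdeal hM h))
    have h4 : ¬ MemLocalIdeal M (centralChar (blRep B : G → ℂ) (y j)) := fun h =>
      right_ne_zero_of_mul hC (redM_eq_zero_of_lt (vM_lt_one_of_memLocalIdeal hM h))
    exact ⟨⟨B, isDefectGroup_of_coeff_of_centralChar hM B.2 (blRep_mem hM B) h4 (hy j).2 h3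
      (le_centralizer_singleton_iff.1 (hy i).2.le)⟩, Finset.mem_univ _, hC, rfl⟩
  · intro B _ _
    rw [redM_mul (hv (ring_blockCoeff hM B.1.2 _)) (hv (ring_centralChar hM (blRep B.1).2 _))]
    rfl

end Robinson

end Cfsg.Lib.Block.Ht
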