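import Mathlib

/-!
Linear algebra for symmetric local algebras with five-dimensional centre: the first three layers
of a graded algebra with three generators whose second layer consists of commutators.
-/

set_option autoImplicit false

open Module Submodule

namespace Cfsg.Lib.Block.SymLoc

variable {k V W X : Type*} [Field k] [AddCommGroup V] [Module k V] [AddCommGroup W] [Module k W]
  [AddCommGroup X] [Module k X]

theorem exists_notMem3 [Infinite k] {A B C : Submodule k V} (hA : A ≠ ⊤) (hB : B ≠ ⊤)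
    (hC : C ≠ ⊤) : ∃ x, x ∉ A ∧ x ∉ B ∧ x ∉ C := by
  by_contra! h
  obtain ⟨i, hi⟩ := Subspace.exists_eq_top_of_iUnion_eq_univ (p := ![A, B, C])
    (Set.eq_univ_of_forall fun x => by
      by_cases h1 : x ∈ A
      · exact Set.mem_iUnion.2 ⟨0, h1⟩
      by_cases h2 : x ∈ B
      · exact Set.mem_iUnion.2 ⟨1, h2⟩
      · exact Set.mem_iUnion.2 ⟨2, h x h1 h2⟩)
  fin_cases i
  exacts [hA hi, hB hi, hC hi]

theorem pencil [IsAlgClosed k] [FiniteDimensional k V] [FiniteDimensional k W] [Nontrivial V]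
    (f g : V →ₗ[k] W) (h : finrank k W ≤ finrank k V) :
    (∃ v, v ≠ 0 ∧ f v = 0) ∨ ∃ (t : k) (v : V), v ≠ 0 ∧ g v = t • f v := by
  by_cases hf : Function.Injective f
  · have e := LinearMap.finrank_le_finrank_of_injective hf
    let φ := LinearEquiv.ofBijective f ⟨hf, (LinearMap.injective_iff_surjective_of_finrank_eq_finrank
      (by omega)).1 hf⟩
    obtain ⟨t, ht⟩ := Module.End.exists_eigenvalue (φ.symm.toLinearMap ∘ₗ g)
    obtain ⟨v, hv⟩ := ht.exists_hasEigenvector
    refine Or.inr ⟨t, v, hv.2, ?_⟩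
    have := congrArg φ hv.apply_eq_smul
    rw [map_smul] at this
    exact (φ.apply_symm_apply (g v)).symm.trans this
  · rw [← LinearMap.ker_eq_bot, ← Ne, Submodule.ne_bot_iff] at hf
    obtain ⟨v, h1, h2⟩ := hf
    exact Or.inl ⟨v, h2, h1⟩

theorem s2_aux [Infinite k] (f g : V →ₗ[k] W) {X₀ : Submodule k V} {x₀ : V} (hx : x₀ ∉ X₀)
    (hg : g x₀ = 0) (hf : f x₀ ≠ 0)
    (h : ∀ x ∉ X₀, ∃ s t : k, (s ≠ 0 ∨ t ≠ 0) ∧ s • f x + t • g x = 0) :
    g = 0 ∨ ∀ x, f x ∈ span k {f x₀} ∧ g x ∈ span k {f x₀} := by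
  have key : ∀ x ∉ X₀, g x ≠ 0 → f x ∈ span k {g x} := fun x hx' h0 => by
    obtain ⟨s, t, h1, h2⟩ := h x hx'
    have hs : s ≠ 0 := by
      rintro rfl
      rw [zero_smul, zero_add, smul_eq_zero] at h2
      exact h2.elim (h1.resolve_left (by simp)) h0
    refine mem_span_singleton.2 ⟨-(s⁻¹ * t), ?_⟩
    rw [← smul_right_inj hs, smul_smul, eq_neg_of_add_eq_zero_left h2, ← neg_smul]
    congr 1
    field_simp
  have c1 : ∀ x, g x ∈ span k {f x₀} := fun x => by
    by_cases h0 : g x = 0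
    · rw [h0]; exact zero_mem _
    have hb : {t : k | x + t • x₀ ∈ X₀}.Finite := Set.Subsingleton.finite fun a ha b hb => by
      by_contra hab
      have := X₀.sub_mem ha hb
      rw [add_sub_add_left_eq_sub, ← sub_smul] at this
      exact hx ((X₀.smul_mem_iff (sub_ne_zero.2 hab)).1 this)
    obtain ⟨a, ha⟩ := hb.exists_notMem
    obtain ⟨b, hb'⟩ := (hb.insert a).exists_notMem
    rw [Set.mem_insert_iff, not_or] at hb'
    have e : ∀ t : k, g (x + t • x₀) = g x := fun t => by simp [hg]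
    have h1 := key _ ha (by rwa [e])
    have h2 := key _ hb'.2 (by rwa [e])
    rw [e] at h1 h2
    have h3 := sub_mem h2 h1
    rw [← map_sub, add_sub_add_left_eq_sub, ← sub_smul, map_smul,
      Submodule.smul_mem_iff _ (sub_ne_zero.2 hb'.1)] at h3
    obtain ⟨c, hc⟩ := mem_span_singleton.1 h3
    have hc0 : c ≠ 0 := by rintro rfl; exact hf (by rw [← hc, zero_smul])
    exact mem_span_singleton.2 ⟨c⁻¹, by rw [← hc, smul_smul, inv_mul_cancel₀ hc0, one_smul]⟩
  by_contra! hn
  obtain ⟨x, h1⟩ := hn.2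
  obtain ⟨y, y1, y2, y3⟩ := exists_notMem3 (A := X₀) (B := LinearMap.ker g)
    (C := (span k {f x₀}).comap f) (fun e => hx (e ▸ mem_top)) (by simpa using hn.1)
    fun e => h1 (show x ∈ (span k {f x₀}).comap f from e ▸ mem_top) (c1 x)
  exact y3 (((span_singleton_le_iff_mem _ _).2 (c1 y)) (key y y1 y2))

/-- A pencil of singular maps from a plane has a common kernel or a common image. -/
theorem s2 [Infinite k] (f g : V →ₗ[k] W) {X₀ : Submodule k V} (hX : X₀ ≠ ⊤)
    (h : ∀ x ∉ X₀, ∃ s t : k, (s ≠ 0 ∨ t ≠ 0) ∧ s • f x + t • g x = 0) :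
    (∃ s t : k, (s ≠ 0 ∨ t ≠ 0) ∧ ∀ x, s • f x + t • g x = 0) ∨
      ∃ w, ∀ x, f x ∈ span k {w} ∧ g x ∈ span k {w} := by
  by_cases hf : f = 0
  · exact Or.inl ⟨1, 0, Or.inl one_ne_zero, by simp [hf]⟩
  obtain ⟨x₀, h1, h2, -⟩ := exists_notMem3 (B := LinearMap.ker f) hX (by simpa using hf) hX
  obtain ⟨s, t, h3, h4⟩ := h x₀ h1
  have ht : t ≠ 0 := by
    rintro rfl
    rw [zero_smul, add_zero, smul_eq_zero] at h4
    exact h4.elim (h3.resolve_right (by simp)) h2
  rcases s2_aux f (s • f + t • g) h1 h4 h2 fun x hx => (by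
    obtain ⟨a, b, h5, h6⟩ := h x hx
    refine ⟨a * t - b * s, b, ?_, ?_⟩
    · by_cases hb : b = 0
      · left; simpa [hb, ht] using h5
      · exact Or.inr hb
    · have := congrArg (t • ·) h6
      simp only [smul_add, smul_zero, smul_smul] at this
      simp only [LinearMap.add_apply, LinearMap.smul_apply, smul_add, smul_smul, sub_smul]
      rw [← this, mul_comm t, mul_comm t]; abel) with h5 | h5
  · exact Or.inl ⟨s, t, h3, fun x => LinearMap.congr_fun h5 x⟩
  · refine Or.inr ⟨_, fun x => ⟨(h5 x).1, ?_⟩⟩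
    have := sub_mem (h5 x).2 (smul_mem _ s (h5 x).1)
    simpa [Submodule.smul_mem_iff _ ht] using this

theorem finrank_span_one_le (w : W) : finrank k (span k {w}) ≤ 1 := by
  rcases eq_or_ne w 0 with rfl | h
  · rw [span_zero_singleton, finrank_bot]; omega
  · rw [finrank_span_singleton h]

theorem finrank_span_two_le (w w' : W) : finrank k (span k {w, w'}) ≤ 2 := by
  classical
  have := finrank_span_finset_le_card (R := k) ({w, w'} : Finset W)
  rw [Finset.coe_insert, Finset.coe_singleton] at this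
  exact this.trans Finset.card_le_two

/-- A basis adapted to a plane. -/
theorem exists_basis_of_plane [FiniteDimensional k V] (hV : finrank k V = 3) {Y : Submodule k V}
    (hY : 2 ≤ finrank k Y) : ∃ y₁ ∈ Y, ∃ y₂ ∈ Y, ∃ c : V,
      (∀ v, ∃ s t u : k, v = s • y₁ + t • y₂ + u • c) ∧
      ∀ s t : k, s • y₁ + t • y₂ = 0 → s = 0 ∧ t = 0 := by
  obtain ⟨f, hf⟩ := exists_linearIndependent_of_le_finrank hY
  have h1 := (hf.map' Y.subtype Y.ker_subtype)
  have h2 : finrank k (span k (Set.range (Y.subtype ∘ f))) = 2 := by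
    rw [finrank_span_eq_card h1, Fintype.card_fin]
  obtain ⟨c, hc⟩ : ∃ c, c ∉ span k (Set.range (Y.subtype ∘ f)) := by
    by_contra! h
    rw [show span k (Set.range (Y.subtype ∘ f)) = ⊤ from eq_top_iff.2 fun x _ => h x,
      finrank_top] at h2
    omega
  have h3 : span k (Set.range (Y.subtype ∘ f)) ⊔ span k {c} = ⊤ := by
    refine eq_top_of_finrank_eq (le_antisymm (finrank_le _) ?_)
    have := finrank_lt_finrank_of_lt (lt_of_le_of_ne
      (le_sup_left (a := span k (Set.range (Y.subtype ∘ f))) (b := span k {c})) fun e =>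
        hc (e ▸ mem_sup_right (mem_span_singleton_self c)))
    omega
  refine ⟨f 0, (f 0).2, f 1, (f 1).2, c, fun v => ?_, fun s t h => ?_⟩
  · obtain ⟨a, ha, b, hb, rfl⟩ := mem_sup.1 (h3 ▸ mem_top (x := v))
    obtain ⟨u, rfl⟩ := mem_span_singleton.1 hb
    obtain ⟨g, rfl⟩ := (mem_span_range_iff_exists_fun k).1 ha
    exact ⟨g 0, g 1, u, by simp⟩
  · have := Fintype.linearIndependent_iff.1 h1 ![s, t] (by simpa using h)
    exact ⟨this 0, this 1⟩

section Sing
variable [Infinite k] [FiniteDimensional k V] [FiniteDimensional k W] {m : V →ₗ[k] V →ₗ[k] W}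
  (hV : finrank k V = 3) (hW : finrank k W = 3)
  (gen : ∀ H : Submodule k W, (∀ x y, m x y ∈ H) → H = ⊤)
  (nl : ∀ z, (∀ y, m z y = 0) → z = 0) (nr : ∀ z, (∀ x, m x z = 0) → z = 0)
  (sl : ∀ x, ∃ v, v ≠ 0 ∧ m x v = 0) (sr : ∀ y, ∃ v, v ≠ 0 ∧ m v y = 0)

omit [Infinite k] in
include hV hW gen nl sr in
theorem sing0 {y₁ y₂ c : V} (hb : ∀ v, ∃ s t u : k, v = s • y₁ + t • y₂ + u • c) {w : W}
    (h : ∀ x, m x y₁ ∈ span k {w} ∧ m x y₂ ∈ span k {w}) : False := by
  have h1 : LinearMap.range (m.flip c) ⊔ span k {w} = ⊤ := gen _ fun x y => by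
    obtain ⟨s, t, u, rfl⟩ := hb y
    simp only [map_add, map_smul]
    exact add_mem (mem_sup_right (add_mem (smul_mem _ _ (h x).1) (smul_mem _ _ (h x).2)))
      (mem_sup_left (smul_mem _ _ ⟨x, rfl⟩))
  obtain ⟨e, e0, ec⟩ := sr c
  have h2 := LinearMap.finrank_range_add_finrank_ker (m.flip c)
  have h3 := finrank_sup_add_finrank_inf_eq (LinearMap.range (m.flip c)) (span k {w})
  have h4 := finrank_span_one_le (k := k) w
  have h5 : span k {e} ≤ LinearMap.ker (m.flip c) := (span_singleton_le_iff_mem _ _).2 ec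
  have h6 := finrank_mono h5
  rw [finrank_span_singleton e0] at h6
  rw [h1, finrank_top] at h3
  have h7 : LinearMap.range (m.flip c) ⊓ span k {w} = ⊥ := finrank_eq_zero.1 (by omega)
  have h8 : span k {e} = LinearMap.ker (m.flip c) :=
    eq_of_le_of_finrank_le h5 (by rw [finrank_span_singleton e0]; omega)
  have key : ∀ y, (∀ x, m x y ∈ span k {w}) → m e y = 0 := fun y hy => by
    obtain ⟨v, v0, hv⟩ := sr (c + y)
    rw [map_add] at hv
    have h9 : m v c = 0 := (mem_bot k).1 (h7 ▸ ⟨⟨v, rfl⟩, by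
      rw [eq_neg_of_add_eq_zero_left hv]; exact neg_mem (hy v)⟩)
    obtain ⟨a, rfl⟩ := mem_span_singleton.1 (h8 ▸ show v ∈ LinearMap.ker (m.flip c) from h9)
    rw [h9, zero_add, map_smul, LinearMap.smul_apply, smul_eq_zero] at hv
    exact hv.resolve_left fun e => v0 (by rw [e, zero_smul])
  refine e0 (nl e fun y => ?_)
  obtain ⟨s, t, u, rfl⟩ := hb y
  simp [key _ fun x => (h x).1, key _ fun x => (h x).2, ec]

include hV hW gen nl nr sl sr in
theorem sing1 {Y : Submodule k V} (hY : 2 ≤ finrank k Y) {H : Submodule k W} (hH : H ≠ ⊤)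
    (h : ∀ x, ∀ y ∈ Y, m x y ∈ H) : False := by
  obtain ⟨y₁, h1, y₂, h2, c, hb, hi⟩ := exists_basis_of_plane hV hY
  have hX : H.comap (m.flip c) ≠ ⊤ := fun e => hH (gen _ fun x y => by
    obtain ⟨s, t, u, rfl⟩ := hb y
    simp only [map_add, map_smul]
    exact add_mem (add_mem (smul_mem _ _ (h x _ h1)) (smul_mem _ _ (h x _ h2)))
      (smul_mem _ _ (show x ∈ H.comap (m.flip c) from e ▸ mem_top)))
  rcases s2 (m.flip y₁) (m.flip y₂) hX (fun x hx => by
    obtain ⟨v, v0, hv⟩ := sl x
    obtain ⟨s, t, u, rfl⟩ := hb v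
    simp only [map_add, map_smul] at hv
    have hu : u = 0 := by
      by_contra hu
      refine hx ((H.smul_mem_iff hu).1 ?_)
      rw [LinearMap.flip_apply, eq_neg_of_add_eq_zero_right hv]
      exact neg_mem (add_mem (smul_mem _ _ (h x _ h1)) (smul_mem _ _ (h x _ h2)))
    subst hu
    refine ⟨s, t, ?_, by simpa using hv⟩
    by_contra! h0
    simp [h0.1, h0.2] at v0) with ⟨s, t, h3, h4⟩ | ⟨w, hw⟩
  · have := hi s t (nr _ fun x => by simpa using h4 x)
    tauto
  · exact sing0 hV hW gen nl sr hb hw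

include hV hW gen nl nr sl sr in
theorem sing2 {x₁ : V} (hx : x₁ ≠ 0) {w : W} (h : ∀ y, m x₁ y ∈ span k {w}) : False := by
  have hY : 2 ≤ finrank k (LinearMap.ker (m x₁)) := by
    have h1 := LinearMap.finrank_range_add_finrank_ker (m x₁)
    have h2 := finrank_mono (show LinearMap.range (m x₁) ≤ span k {w} by
      rintro _ ⟨y, rfl⟩; exact h y)
    have := finrank_span_one_le (k := k) w
    omega
  obtain ⟨y₁, h1, y₂, h2, c, hb, hi⟩ := exists_basis_of_plane hV hY
  rw [LinearMap.mem_ker] at h1 h2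
  have hρ : m x₁ c ≠ 0 := fun e => hx (nl _ fun y => by
    obtain ⟨s, t, u, rfl⟩ := hb y
    simp [h1, h2, e])
  generalize hc : m x₁ c = ρ at hρ
  have hq : finrank k (W ⧸ span k {ρ}) = 2 := by
    have := finrank_quotient_add_finrank (span k {ρ})
    rw [finrank_span_singleton hρ] at this
    omega
  have two : ∀ w' : W ⧸ span k {ρ}, (span k {w'}).comap (span k {ρ}).mkQ ≠ ⊤ := fun w' e => by
    have h3 : span k {w'} = ⊤ := by
      rw [← map_comap_eq_of_surjective (mkQ_surjective _) (span k {w'}), e, Submodule.map_top,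
        range_mkQ]
    have := finrank_span_one_le (k := k) w'
    rw [h3, finrank_top] at this
    omega
  have : Nontrivial V := nontrivial_of_ne _ _ hx
  rcases s2 ((span k {ρ}).mkQ ∘ₗ m.flip y₁) ((span k {ρ}).mkQ ∘ₗ m.flip y₂) bot_ne_top
    (fun x _ => by
      by_contra! hn
      have hn' : ∀ s t : k, s • m x y₁ + t • m x y₂ ∈ span k {ρ} → s = 0 ∧ t = 0 := fun s t h3 => by
        by_contra h4
        refine hn s t (by tauto) ?_
        simpa [← Quotient.mk_smul, ← Quotient.mk_add] using h3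
      have h3 : span k {m x y₁, m x y₂} ⊔ span k {ρ} = ⊤ := by
        have h4 : finrank k (span k {m x y₁, m x y₂}) = 2 := by
          have : LinearIndependent k ![m x y₁, m x y₂] := LinearIndependent.pair_iff.2
            fun s t h4 => hn' s t (h4 ▸ zero_mem _)
          have h5 := finrank_span_eq_card this
          rwa [Matrix.range_cons_cons_empty, Fintype.card_fin] at h5
        have h5 : span k {m x y₁, m x y₂} ⊓ span k {ρ} = ⊥ := eq_bot_iff.2 fun v hv => by
          obtain ⟨s, t, rfl⟩ := mem_span_pair.1 hv.1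
          obtain ⟨rfl, rfl⟩ := hn' s t hv.2
          simp
        have h6 := finrank_sup_add_finrank_inf_eq (span k {m x y₁, m x y₂}) (span k {ρ})
        rw [h5, finrank_bot, finrank_span_singleton hρ] at h6
        exact eq_top_of_finrank_eq (by omega)
      obtain ⟨a, ha, b, hb', e⟩ := mem_sup.1 (h3 ▸ mem_top (x := m x c))
      obtain ⟨α, β, rfl⟩ := mem_span_pair.1 ha
      obtain ⟨γ, rfl⟩ := mem_span_singleton.1 hb'
      obtain ⟨v, v0, hv⟩ := sl (x + (1 - γ) • x₁)
      obtain ⟨s, t, u, rfl⟩ := hb v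
      simp only [map_add, map_smul, LinearMap.add_apply, LinearMap.smul_apply, h1, h2, hc,
        ← e] at hv
      have h4 : (s + u * α) • m x y₁ + (t + u * β) • m x y₂ = -(u • ρ) := by
        rw [eq_neg_iff_add_eq_zero, ← hv]; module
      obtain ⟨h5, h6⟩ := hn' _ _ (h4 ▸ neg_mem (smul_mem _ _ (mem_span_singleton_self ρ)))
      rw [h5, h6, zero_smul, zero_smul, add_zero, zero_eq_neg, smul_eq_zero] at h4
      obtain rfl := h4.resolve_right hρ
      rw [zero_mul, add_zero] at h5 h6
      simp [h5, h6] at v0) with ⟨s, t, h3, h4⟩ | ⟨w', hw⟩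
  · have y0 : s • y₁ + t • y₂ ≠ 0 := fun e => by have := hi s t e; tauto
    have hy : ∀ x, m x (s • y₁ + t • y₂) ∈ span k {ρ} := fun x => by
      simpa [← Quotient.mk_smul, ← Quotient.mk_add] using h4 x
    generalize s • y₁ + t • y₂ = y at y0 hy
    obtain ⟨Y', hY'⟩ := (span k {y}).exists_isCompl
    have h5 := finrank_add_eq_of_isCompl hY'
    rw [finrank_span_singleton y0] at h5
    obtain ⟨z₁, k1, z₂, k2, -, -, hi'⟩ := exists_basis_of_plane hV (Y := Y') (by omega)
    have h6 : span k {z₁, z₂} = Y' := by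
      refine eq_of_le_of_finrank_le (span_le.2 (by rintro _ (rfl | rfl) <;> assumption)) ?_
      have h7 := finrank_span_eq_card (LinearIndependent.pair_iff.2 hi')
      rw [Matrix.range_cons_cons_empty, Fintype.card_fin] at h7
      omega
    have hb' : ∀ v, ∃ a b c : k, v = a • z₁ + b • z₂ + c • y := fun v => by
      obtain ⟨a, ha, b, hb, rfl⟩ := mem_sup.1 (hY'.sup_eq_top ▸ mem_top (x := v))
      obtain ⟨γ, rfl⟩ := mem_span_singleton.1 ha
      obtain ⟨α, β, rfl⟩ := mem_span_pair.1 (h6 ▸ hb)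
      exact ⟨α, β, γ, add_comm _ _⟩
    rcases s2 ((span k {ρ}).mkQ ∘ₗ m.flip z₁) ((span k {ρ}).mkQ ∘ₗ m.flip z₂)
      (X₀ := LinearMap.ker (m.flip y)) (fun e => y0 (nr _ fun x =>
        show x ∈ LinearMap.ker (m.flip y) from e ▸ mem_top)) (fun x hx => by
        obtain ⟨v, v0, hv⟩ := sl x
        obtain ⟨a, b, c, rfl⟩ := hb' v
        simp only [map_add, map_smul] at hv
        refine ⟨a, b, ?_, ?_⟩
        · by_contra! h0
          simp only [h0.1, h0.2, zero_smul, zero_add] at hv v0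
          exact hx ((smul_eq_zero.1 hv).resolve_left fun e => v0 (by rw [e, zero_smul]))
        · have : a • m x z₁ + b • m x z₂ ∈ span k {ρ} := by
            rw [eq_neg_of_add_eq_zero_left hv]; exact neg_mem (smul_mem _ _ (hy x))
          simpa [← Quotient.mk_smul, ← Quotient.mk_add] using this) with ⟨a, b, h7, h8⟩ | ⟨w', hw⟩
    · refine sing1 hV hW gen nl nr sl sr (Y := span k {y, a • z₁ + b • z₂}) ?_ (H := span k {ρ})
        (fun e => ?_) fun x v hv => ?_
      · have h9 := finrank_span_eq_card (LinearIndependent.pair_iff.2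
          fun (α β : k) (e : α • y + β • (a • z₁ + b • z₂) = 0) => by
            have e1 : α • y ∈ Y' := by
              rw [eq_neg_of_add_eq_zero_left e]
              exact neg_mem (smul_mem _ _ (add_mem (smul_mem _ _ k1) (smul_mem _ _ k2)))
            have e2 : α • y = 0 := (mem_bot k).1 (hY'.inf_eq_bot ▸
              ⟨smul_mem _ _ (mem_span_singleton_self y), e1⟩)
            rw [e2, zero_add, smul_eq_zero] at e
            refine ⟨(smul_eq_zero.1 e2).resolve_right y0, e.resolve_right fun e' => ?_⟩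
            have := hi' a b e'
            tauto)
        rw [Matrix.range_cons_cons_empty, Fintype.card_fin] at h9
        omega
      · have := finrank_span_one_le (k := k) ρ
        rw [e, finrank_top] at this
        omega
      · obtain ⟨α, β, rfl⟩ := mem_span_pair.1 hv
        rw [map_add, map_smul, map_smul]
        refine add_mem (smul_mem _ _ (hy x)) (smul_mem _ _ ?_)
        simpa [← Quotient.mk_smul, ← Quotient.mk_add] using h8 x
    · refine two w' (gen _ fun x v => ?_)
      obtain ⟨a, b, c, rfl⟩ := hb' v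
      simp only [map_add, map_smul]
      refine add_mem (add_mem (smul_mem _ _ (hw x).1) (smul_mem _ _ (hw x).2)) (smul_mem _ _ ?_)
      rw [mem_comap, mkQ_apply, (Quotient.mk_eq_zero _).2 (hy x)]
      exact zero_mem _
  · refine sing1 hV hW gen nl nr sl sr (Y := span k {y₁, y₂}) ?_ (two w') fun x v hv => ?_
    · have h7 := finrank_span_eq_card (LinearIndependent.pair_iff.2 hi)
      rw [Matrix.range_cons_cons_empty, Fintype.card_fin] at h7
      omega
    · obtain ⟨α, β, rfl⟩ := mem_span_pair.1 hv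
      rw [map_add, map_smul, map_smul]
      exact add_mem (smul_mem _ _ (hw x).1) (smul_mem _ _ (hw x).2)

end Sing

end Cfsg.Lib.Block.SymLoc
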