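import Cfsg.Agent.Block.SLFiveA

/-!
A graded Frobenius algebra with three generators and at least four layers cannot have its second
and third layers spanned by commutators.
-/

set_option autoImplicit false

open Module Submodule

namespace Cfsg.Lib.Block.SymLoc

variable {k V W X : Type*} [Field k] [AddCommGroup V] [Module k V] [AddCommGroup W] [Module k W]
  [AddCommGroup X] [Module k X]

theorem exists_char [IsAlgClosed k] [FiniteDimensional k V] (hV : finrank k V = 3)
    {p : V →ₗ[k] V →ₗ[k] V} {e : V} (h1 : ∀ z, p e z = z) (h2 : ∀ z, p z e = z)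
    (h3 : ∀ x y z, p (p x y) z = p x (p y z)) :
    ∃ χ : V →ₗ[k] k, χ e = 1 ∧ ∀ y z, χ (p y z) = χ y * χ z := by
  have : Nontrivial V := nontrivial_of_finrank_pos (R := k) (by omega)
  obtain ⟨y, hy⟩ : ∃ y, y ∉ span k {e} := by
    by_contra! h
    have := finrank_span_one_le (k := k) e
    rw [show span k {e} = ⊤ from eq_top_iff.2 fun x _ => h x, finrank_top] at this
    omega
  obtain ⟨c, hc⟩ := Module.End.exists_eigenvalue (p y)
  obtain ⟨v, hv⟩ := hc.exists_hasEigenvector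
  have d0 : y - c • e ≠ 0 := fun h => hy (mem_span_singleton.2 ⟨c, (sub_eq_zero.1 h).symm⟩)
  have dv : p (y - c • e) v = 0 := by simp [hv.apply_eq_smul, h1]
  generalize y - c • e = d at d0 dv
  have he : e ∉ LinearMap.range (p.flip d) := fun ⟨w, hw⟩ =>
    hv.2 (by rw [← h1 v, ← hw, LinearMap.flip_apply, h3, dv, map_zero])
  have hd : span k {d} ≤ LinearMap.range (p.flip d) :=
    (span_singleton_le_iff_mem _ _).2 ⟨e, h1 d⟩
  by_cases h : finrank k (LinearMap.range (p.flip d)) ≤ 1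
  · have e1 := eq_of_le_of_finrank_le hd (by rwa [finrank_span_singleton d0])
    obtain ⟨φ, hφ⟩ : ∃ φ : V →ₗ[k] k, φ d = 1 := by
      obtain ⟨φ, h1, -⟩ := Submodule.exists_le_ker_of_notMem (p := (⊥ : Submodule k V)) d0
      exact ⟨(φ d)⁻¹ • φ, by simp [h1]⟩
    have e2 : ∀ w, p w d = φ (p w d) • d := fun w => by
      obtain ⟨a, ha⟩ := mem_span_singleton.1 (e1 ▸ show p w d ∈ LinearMap.range (p.flip d) from ⟨w, rfl⟩)
      rw [← ha, map_smul, hφ, smul_eq_mul, mul_one]
    refine ⟨φ ∘ₗ p.flip d, by simp [h1, hφ], fun y z => ?_⟩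
    simp only [LinearMap.comp_apply, LinearMap.flip_apply]
    rw [h3, e2 z, map_smul, map_smul, map_smul, hφ]
    simp [mul_comm]
  · obtain ⟨φ, hφ, h4⟩ := Submodule.exists_le_ker_of_notMem he
    have h5 : LinearMap.range (p.flip d) = LinearMap.ker φ := by
      refine eq_of_le_of_finrank_le h4 ?_
      have := finrank_lt (show LinearMap.ker φ ≠ ⊤ from fun e => hφ (by simp_all))
      omega
    refine ⟨(φ e)⁻¹ • φ, by simp [hφ], fun y z => ?_⟩
    obtain ⟨w, hw⟩ : z - ((φ e)⁻¹ * φ z) • e ∈ LinearMap.range (p.flip d) := by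
      rw [h5, LinearMap.mem_ker]; simp [mul_right_comm, hφ]
    have h6 : φ (p y (z - ((φ e)⁻¹ * φ z) • e)) = 0 := h4 ⟨p y w, by rw [← hw]; exact h3 _ _ _⟩
    simp only [map_sub, map_smul, h2, smul_eq_mul, sub_eq_zero] at h6
    simp only [LinearMap.smul_apply, smul_eq_mul, h6]
    ring

theorem linearIndependent_char {p : V →ₗ[k] V →ₗ[k] V} {e : V} (h1 : ∀ z, p e z = z)
    (h2 : ∀ z, p z e = z) {ι : Type*} {χ : ι → V →ₗ[k] k} (h3 : ∀ i, χ i e = 1)
    (h4 : ∀ i y z, χ i (p y z) = χ i y * χ i z) (h5 : Function.Injective χ) :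
    LinearIndependent k χ := by
  letI : MulOneClass V := { mul := fun y z => p y z, one := e, one_mul := h1, mul_one := h2 }
  exact LinearIndependent.of_comp (LinearMap.ltoFun k V k k) ((linearIndependent_monoidHom V k).comp
    (fun i => ⟨⟨χ i, h3 i⟩, h4 i⟩) fun i j e => h5 (LinearMap.ext fun x =>
      congrArg (fun f : V →* k => f x) e))

/-- The first three layers. -/
structure Tri (m : V →ₗ[k] V →ₗ[k] W) (l : V →ₗ[k] W →ₗ[k] X) (r : W →ₗ[k] V →ₗ[k] X) : Prop where
  hV : finrank k V = 3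
  hW : finrank k W ≤ 3
  assoc : ∀ x y z, r (m x y) z = l x (m y z)
  gen2 : ∀ u : W →ₗ[k] k, (∀ x y, u (m x y) = u (m y x)) → u = 0
  gen3 : ∀ n : X →ₗ[k] k, (∀ x ρ, n (l x ρ) = 0) → n = 0
  ndl : ∀ z, (∀ ρ, l z ρ = 0) → z = 0
  ndr : ∀ z, (∀ ρ, r ρ z = 0) → z = 0
  inj : ∀ x x' v, (∀ ξ, ∃ y, ξ = r (m y x) x') → l x (m x' v) = 0 → v = 0
  cyc : finrank k W = 3 → ∀ τ : X →ₗ[k] k, (∀ x ρ, τ (l x ρ) = τ (r ρ x)) → τ = 0

namespace Tri

variable {m : V →ₗ[k] V →ₗ[k] W} {l : V →ₗ[k] W →ₗ[k] X} {r : W →ₗ[k] V →ₗ[k] X} (h : Tri m l r)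
include h

theorem gen (H : Submodule k W) (hH : ∀ x y, m x y ∈ H) : H = ⊤ := by
  by_contra h1
  obtain ⟨u, h2, h3⟩ := H.exists_le_ker_of_lt_top (lt_top_iff_ne_top.2 h1)
  exact h2 (h.gen2 u fun x y => (h3 (hH x y)).trans (h3 (hH y x)).symm)

theorem nl (z : V) (hz : ∀ y, m z y = 0) : z = 0 := h.ndl z fun ρ =>
  show ρ ∈ LinearMap.ker (l z) from h.gen (LinearMap.ker (l z))
    (fun x y => by rw [LinearMap.mem_ker, ← h.assoc, hz, map_zero, LinearMap.zero_apply]) ▸ mem_top

theorem nr (z : V) (hz : ∀ y, m y z = 0) : z = 0 := h.ndr z fun ρ =>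
  show ρ ∈ LinearMap.ker (r.flip z) from h.gen (LinearMap.ker (r.flip z))
    (fun x y => by rw [LinearMap.mem_ker, LinearMap.flip_apply, h.assoc, hz, map_zero]) ▸ mem_top

theorem inj_left {y : V} (hy : Function.Surjective (m.flip y)) : Function.Injective (m y) :=
  (injective_iff_map_eq_zero _).2 fun z hz => h.ndr z fun ρ => by
    obtain ⟨x, rfl⟩ := hy ρ
    rw [LinearMap.flip_apply, h.assoc, hz, map_zero]

theorem inj_right {y : V} (hy : Function.Surjective (m y)) : Function.Injective (m.flip y) :=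
  (injective_iff_map_eq_zero _).2 fun z hz => h.ndl z fun ρ => by
    obtain ⟨x, rfl⟩ := hy ρ
    rw [← h.assoc, show m z y = 0 from hz, map_zero, LinearMap.zero_apply]

variable [IsAlgClosed k] [FiniteDimensional k V] [FiniteDimensional k W] [FiniteDimensional k X]

omit [FiniteDimensional k X] in
theorem finrank_W : finrank k W = 3 := by
  by_contra h0
  have hV := h.hV
  have hW := h.hW
  have : Nontrivial V := nontrivial_of_finrank_pos (R := k) (by omega)
  have h1 : ∀ x, LinearMap.range (m x) ≠ ⊤ := fun x e => by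
    have := LinearMap.finrank_le_finrank_of_injective (h.inj_right (LinearMap.range_eq_top.1 e))
    omega
  by_cases h2 : finrank k W = 2
  · let b := finBasisOfFinrankEq k W h2
    rcases s2 (m.compr₂ (b.coord 0)) (m.compr₂ (b.coord 1)) bot_ne_top (fun x _ => by
      obtain ⟨u, h3, h4⟩ := (LinearMap.range (m x)).exists_le_ker_of_lt_top (lt_top_iff_ne_top.2 (h1 x))
      refine ⟨u (b 0), u (b 1), ?_, LinearMap.ext fun y => ?_⟩
      · by_contra! h5
        exact h3 (b.ext fun i => by fin_cases i; exacts [h5.1, h5.2])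
      · have : u (m x y) = 0 := h4 ⟨y, rfl⟩
        rw [← b.sum_repr (m x y), Fin.sum_univ_two] at this
        simpa [mul_comm, -Basis.sum_repr] using this) with ⟨s, t, h3, h4⟩ | ⟨w, hw⟩
    · have h5 : ∀ x y, (s • b.coord 0 + t • b.coord 1) (m x y) = 0 := fun x y =>
        LinearMap.congr_fun (h4 x) y
      have h6 := h.gen2 _ fun x y => (h5 x y).trans (h5 y x).symm
      have h7 := LinearMap.congr_fun h6 (b 0)
      have h8 := LinearMap.congr_fun h6 (b 1)
      simp at h7 h8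
      tauto
    · obtain ⟨z, z1, z0⟩ := (Submodule.ne_bot_iff _).1 (LinearMap.ker_ne_bot_of_finrank_lt (f := w)
        (by rw [finrank_self]; omega))
      refine z0 (h.nr z fun y => b.ext_elem fun i => ?_)
      have key : ∀ φ ∈ span k {w}, φ z = 0 := fun φ hφ => by
        obtain ⟨a, rfl⟩ := mem_span_singleton.1 hφ
        simp [LinearMap.mem_ker.1 z1]
      rw [map_zero, Finsupp.zero_apply]
      fin_cases i
      exacts [key _ (hw y).1, key _ (hw y).2]
  · obtain ⟨x, hx⟩ := exists_ne (0 : V)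
    have := finrank_lt (h1 x)
    exact hx (h.nl x fun y => (mem_bot k).1
      (finrank_eq_zero.1 (show finrank k (LinearMap.range (m x)) = 0 by omega) ▸ ⟨y, rfl⟩))

omit [IsAlgClosed k] [FiniteDimensional k W] in
theorem hX : 2 ≤ finrank k X := by
  by_contra h0
  have hV := h.hV
  have : Nontrivial V := nontrivial_of_finrank_pos (R := k) (by omega)
  obtain ⟨y, x, x', h1⟩ : ∃ y x x', r (m y x) x' ≠ 0 := by
    by_contra! h1
    obtain ⟨z, hz⟩ := exists_ne (0 : V)
    exact hz (h.ndr z fun ρ => show ρ ∈ LinearMap.ker (r.flip z) from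
      h.gen (LinearMap.ker (r.flip z)) (fun x y => h1 x y z) ▸ mem_top)
  obtain ⟨v, v1, v0⟩ := (Submodule.ne_bot_iff _).1 (LinearMap.ker_ne_bot_of_finrank_lt
    (f := l x ∘ₗ m x') (by omega))
  refine v0 (h.inj x x' v (fun ξ => ?_) v1)
  have h2 : span k {r (m y x) x'} = ⊤ := eq_top_of_finrank_eq (le_antisymm (finrank_le _) (by
    rw [finrank_span_singleton h1]; omega))
  obtain ⟨c, hc⟩ := mem_span_singleton.1 (h2 ▸ mem_top (x := ξ))
  exact ⟨c • y, by simp [← hc]⟩

theorem exists_inj : ∃ x, Function.Injective (m x) := by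
  by_contra! h0
  have hV := h.hV
  have hW := h.finrank_W
  have : Nontrivial V := nontrivial_of_finrank_pos (R := k) (by omega)
  have sl : ∀ x, ∃ v, v ≠ 0 ∧ m x v = 0 := fun x => by
    simpa [injective_iff_map_eq_zero, and_comm] using h0 x
  have sr : ∀ y, ∃ v, v ≠ 0 ∧ m v y = 0 := fun y => by
    have : ¬ Function.Injective (m.flip y) := fun e => h0 y (h.inj_left
      ((LinearMap.injective_iff_surjective_of_finrank_eq_finrank (by omega)).1 e))
    simpa [injective_iff_map_eq_zero, and_comm] using this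
  obtain ⟨n, x, n0, x0, hn⟩ : ∃ (n : X →ₗ[k] k) (x : V), n ≠ 0 ∧ x ≠ 0 ∧ ∀ ρ, n (l x ρ) = 0 := by
    obtain ⟨f, hf⟩ := exists_linearIndependent_of_le_finrank
      (h.hX.trans_eq (Subspace.dual_finrank_eq (K := k) (V := X)).symm)
    rcases pencil (l.compr₂ (f 0)) (l.compr₂ (f 1)) (by rw [Subspace.dual_finrank_eq]; omega) with
      ⟨x, x0, hx⟩ | ⟨t, x, x0, hx⟩
    · exact ⟨f 0, x, hf.ne_zero 0, x0, LinearMap.congr_fun hx⟩
    · refine ⟨f 1 - t • f 0, x, fun e => ?_, x0, fun ρ => sub_eq_zero.2 (LinearMap.congr_fun hx ρ)⟩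
      have := Fintype.linearIndependent_iff.1 hf ![-t, 1] (by
        rw [Fin.sum_univ_two, ← e]; simp [neg_add_eq_sub]) 1
      simp at this
  by_cases h1 : finrank k (LinearMap.ker (r.compr₂ n)) ≤ 1
  · obtain ⟨w, hw⟩ := finrank_le_one_iff.1 h1
    refine sing2 hV hW h.gen h.nl h.nr sl sr x0 (w := w) fun y => ?_
    obtain ⟨c, hc⟩ := hw ⟨m x y, LinearMap.ext fun z => by simp [h.assoc, hn]⟩
    exact mem_span_singleton.2 ⟨c, congrArg Subtype.val hc⟩
  · refine sing1 hV hW h.gen h.nl h.nr sl sr (Y := LinearMap.ker (r.compr₂ n).flip) ?_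
      (H := LinearMap.ker (l.compr₂ n).flip) (fun e => n0 (h.gen3 n fun y ρ => ?_)) fun y z hz => ?_
    · have h2 := LinearMap.finrank_range_add_finrank_ker (r.compr₂ n)
      have := Module.Free.of_divisionRing k (LinearMap.range (r.compr₂ n))
      obtain ⟨w, hw⟩ := (finrank_le_one_iff (K := k) (V := LinearMap.range (r.compr₂ n))).1
        (by omega)
      have h3 := LinearMap.finrank_range_add_finrank_ker w.1
      have h4 := (finrank_le (LinearMap.range w.1)).trans_eq (finrank_self k)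
      refine le_trans (by omega) (finrank_mono (s := LinearMap.ker w.1) fun z hz =>
        LinearMap.ext fun ρ => ?_)
      obtain ⟨c, hc⟩ := hw ⟨_, ρ, rfl⟩
      have := LinearMap.congr_fun (congrArg Subtype.val hc) z
      simpa [LinearMap.mem_ker.1 hz] using this.symm
    · exact LinearMap.congr_fun (show ρ ∈ LinearMap.ker (l.compr₂ n).flip from e ▸ mem_top) y
    · exact LinearMap.ext fun x => by simpa [h.assoc] using LinearMap.congr_fun hz (m x y)

theorem false : False := by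
  have hV := h.hV
  have hW := h.finrank_W
  obtain ⟨e, h1⟩ := h.exists_inj
  have h2 := (LinearMap.injective_iff_surjective_of_finrank_eq_finrank (by omega)).1 h1
  have h3 := h.inj_right h2
  have h4 := (LinearMap.injective_iff_surjective_of_finrank_eq_finrank (by omega)).1 h3
  obtain ⟨L, hL⟩ : ∃ L : V ≃ₗ[k] W, ∀ v, L v = m e v := ⟨.ofBijective _ ⟨h1, h2⟩, fun _ => rfl⟩
  obtain ⟨σ, hσ⟩ : ∃ σ : V ≃ₗ[k] V, ∀ v, L (σ v) = m v e :=
    ⟨(LinearEquiv.ofBijective _ ⟨h3, h4⟩).trans L.symm, fun v => L.apply_symm_apply _⟩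
  obtain ⟨p, hp⟩ : ∃ p : V →ₗ[k] V →ₗ[k] V, ∀ y z, L (p (σ y) z) = m y z :=
    ⟨(m ∘ₗ σ.symm.toLinearMap).compr₂ L.symm, fun y z => by simp⟩
  have σe : σ e = e := L.injective (by rw [hσ, hL])
  have p1 : ∀ z, p e z = z := fun z => L.injective (by rw [← σe, hp, hL])
  have p2 : ∀ z, p z e = z := fun z => L.injective (by
    rw [← σ.apply_symm_apply z, hp, hσ])
  have l1 : ∀ y v, l y (L v) = l e (L (p (σ (σ y)) v)) := fun y v => by
    rw [hp, ← h.assoc, ← hL, hσ, h.assoc, hL]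
  have r1 : ∀ v z, r (L v) z = l e (L (p (σ v) z)) := fun v z => by rw [hp, ← h.assoc, hL]
  have s1 : ∀ {V' : Type _} [AddCommGroup V'] [Module k V'] (E : V' →ₗ[k] X),
      (∀ x ρ, l x ρ ∈ LinearMap.range E) → Function.Surjective E := fun E hE => by
    rw [← LinearMap.range_eq_top]
    by_contra h5
    obtain ⟨u, h6, h7⟩ := (LinearMap.range E).exists_le_ker_of_lt_top (lt_top_iff_ne_top.2 h5)
    exact h6 (h.gen3 u fun x ρ => h7 (hE x ρ))
  have s2 := s1 (l e ∘ₗ L.toLinearMap) fun x ρ => by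
    obtain ⟨v, rfl⟩ := L.surjective ρ
    exact ⟨_, (l1 x v).symm⟩
  have s3 := s1 (r.flip e ∘ₗ m.flip e) fun x ρ => by
    obtain ⟨v, rfl⟩ := h4 ρ
    obtain ⟨y, hy⟩ := h4 (m x v)
    exact ⟨y, by simp [show m y e = m x v from hy, h.assoc]⟩
  have s4 : Function.Injective (l e ∘ₗ L.toLinearMap) := (injective_iff_map_eq_zero _).2
    fun v hv => h.inj e e v (fun ξ => (s3 ξ).imp fun _ => Eq.symm) (hL v ▸ hv)
  obtain ⟨E, hE⟩ : ∃ E : V ≃ₗ[k] X, ∀ v, E v = l e (L v) :=
    ⟨.ofBijective _ ⟨s4, s2⟩, fun _ => rfl⟩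
  have a1 : ∀ y z w, p (σ (p (σ y) z)) w = p (σ (σ y)) (p (σ z) w) := fun y z w => E.injective (by
    rw [hE, hE, ← l1, ← r1, hp, hp, h.assoc])
  have a2 : ∀ y z, σ (p y z) = p (σ y) (σ z) := fun y z => by
    simpa [p2] using a1 (σ.symm y) z e
  have a3 : ∀ x y z, p (p x y) z = p x (p y z) := fun x y z => by
    simpa [a2] using a1 (σ.symm (σ.symm x)) (σ.symm y) z
  obtain ⟨χ, c1, c2⟩ := exists_char hV p1 p2 a3
  obtain ⟨c, c0, cs⟩ : ∃ c : ℕ → V →ₗ[k] k, c 0 = χ ∧ ∀ i v, c (i + 1) v = c i (σ v) :=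
    ⟨fun i => χ ∘ₗ σ.toLinearMap ^ i, rfl, fun i v => by simp [pow_succ]⟩
  have d1 : ∀ i, c i e = 1 := fun i => by
    induction i with
    | zero => rwa [c0]
    | succ i ih => rwa [cs, σe]
  have d2 : ∀ i y z, c i (p y z) = c i y * c i z := fun i => by
    induction i with
    | zero => rwa [c0]
    | succ i ih => intro y z; rw [cs, cs, cs, a2, ih]
  have d3 : ∀ i j, c (i + 1) = c (j + 1) → c i = c j := fun i j e => LinearMap.ext fun v => by
    rw [← σ.apply_symm_apply v, ← cs, ← cs, e]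
  have d4 : ∀ u : V →ₗ[k] k, (∀ y z, u (p (σ y) z) = u (p (σ z) y)) → u = 0 := fun u hu => by
    have := h.gen2 (u ∘ₗ L.symm.toLinearMap) fun y z => by simp [← hp, hu y z]
    ext v
    simpa using LinearMap.congr_fun this (L v)
  have n1 : c 1 ≠ c 0 := fun e1 => by
    have := d4 (c 0) fun y z => by rw [d2, d2, ← cs, ← cs, e1, mul_comm]
    simpa [this] using d1 0
  have n2 : c 2 ≠ c 0 := fun e1 => by
    have := d4 (c 0 + c 1) fun y z => by
      simp only [LinearMap.add_apply, d2, ← cs, e1]; ring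
    have h5 := Fintype.linearIndependent_iff.1 (linearIndependent_char p1 p2 (χ := ![c 0, c 1])
      (fun i => by fin_cases i <;> exact d1 _) (fun i => by fin_cases i <;> exact d2 _)
      (by simp [n1.symm])) ![1, 1] (by simpa using this) 0
    simp at h5
  have n3 : c 2 ≠ c 1 := fun e1 => n1 (d3 _ _ e1)
  have n4 : c 3 = c 0 := by
    by_contra n4
    have := (linearIndependent_char p1 p2 (χ := ![c 0, c 1, c 2, c 3])
      (fun i => by fin_cases i <;> exact d1 _) (fun i => by fin_cases i <;> exact d2 _) (by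
        have n5 : c 3 ≠ c 1 := fun e => n2 (d3 _ _ e)
        have n6 : c 3 ≠ c 2 := fun e => n3 (d3 _ _ e)
        exact List.nodup_ofFn.1 (by
          simp [n1.symm, n2.symm, n3.symm, Ne.symm n4, n5.symm, n6.symm]))).fintype_card_le_finrank
    rw [Subspace.dual_finrank_eq, hV] at this
    simp at this
  have n5 : c 4 = c 1 := LinearMap.ext fun v => by rw [cs 3, cs 0, n4]
  have h5 := h.cyc hW ((c 0 + c 1 + c 2) ∘ₗ E.symm.toLinearMap) fun x ρ => by
    obtain ⟨v, rfl⟩ := L.surjective ρ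
    rw [l1, r1, ← hE, ← hE]
    simp only [LinearMap.comp_apply, LinearEquiv.coe_coe, LinearEquiv.symm_apply_apply,
      LinearMap.add_apply, d2, ← cs, Nat.reduceAdd, n4, n5]
    ring
  have h6 : c 0 + c 1 + c 2 = 0 := by
    ext v
    simpa using LinearMap.congr_fun h5 (E v)
  have h7 := Fintype.linearIndependent_iff.1 (linearIndependent_char p1 p2 (χ := ![c 0, c 1, c 2])
    (fun i => by fin_cases i <;> exact d1 _) (fun i => by fin_cases i <;> exact d2 _)
    (List.nodup_ofFn.1 (by simp [n1.symm, n2.symm, n3.symm]))) ![1, 1, 1] (by simpa [Fin.sum_univ_three] using h6) 0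
  simp at h7

end Tri

end Cfsg.Lib.Block.SymLoc
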