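import Cfsg.Agent.Block.SLFiveB
import Cfsg.Agent.Block.SymLoc

/-!
Symmetric local algebras with five-dimensional centre: three generators.
-/

set_option autoImplicit false

open Module Submodule

namespace Cfsg.Lib.Block.SymLoc

variable {k A : Type*} [Field k] [Ring A] [Algebra k A] {l : A →ₗ[k] k}

theorem three_eq_zero {J T₁ T₂ : Submodule k A} {x y : A} (hx : x ∈ J) (hy : y ∈ J)
    (hJ : J ≤ span k {x, y} ⊔ T₁)
    (hJ2 : ∀ a ∈ J, ∀ b ∈ J, a * b ∈ span k {x * y - y * x} ⊔ T₂) (φ : A →ₗ[k] k)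
    (h1 : ∀ t ∈ T₁, φ ((x * y - y * x) * t) = 0) (h2 : ∀ t ∈ T₂, ∀ c ∈ J, φ (t * c) = 0)
    (h2' : ∀ t ∈ T₂, ∀ c ∈ J, φ (c * t) = 0) {a b c : A} (ha : a ∈ J) (hb : b ∈ J) (hc : c ∈ J) :
    φ (a * b * c) = 0 := by
  obtain ⟨w, hw⟩ : ∃ w, w = x * y - y * x := ⟨_, rfl⟩
  rw [← hw] at hJ2 h1
  have key : ∀ a ∈ J, ∀ b ∈ J, ∃ β : k, ∀ c ∈ J, φ (a * b * c) = β * φ (w * c) ∧
      φ (c * a * b) = β * φ (c * w) := fun a ha b hb => by
    obtain ⟨u, hu, t, ht, h3⟩ := mem_sup.1 (hJ2 a ha b hb)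
    obtain ⟨β, rfl⟩ := mem_span_singleton.1 hu
    refine ⟨β, fun c hc => ?_⟩
    rw [mul_assoc c, ← h3]
    simp [add_mul, mul_add, h2 t ht c hc, h2' t ht c hc]
  obtain ⟨a', ha'⟩ := key x hx x hx
  obtain ⟨b', hb'⟩ := key x hx y hy
  obtain ⟨c', hc'⟩ := key y hy x hx
  obtain ⟨d', hd'⟩ := key y hy y hy
  have h4 : ∀ z ∈ J, φ (w * z) = (b' - c') * φ (w * z) := fun z hz => by
    conv_lhs => rw [hw, sub_mul, map_sub, (hb' z hz).1, (hc' z hz).1]
    ring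
  have h3 : φ (w * x) = 0 ∧ φ (w * y) = 0 := by
    by_cases hbc : b' - c' = 1
    · exact scalar_lemma hbc ((ha' x hx).1.symm.trans (ha' x hx).2)
        ((ha' y hy).1.symm.trans (hb' x hx).2) ((hb' x hx).1.symm.trans (hc' x hx).2)
        ((hb' y hy).1.symm.trans (hd' x hx).2) ((hc' x hx).1.symm.trans (ha' y hy).2)
        ((hc' y hy).1.symm.trans (hb' y hy).2) ((hd' x hx).1.symm.trans (hc' y hy).2)
        ((hd' y hy).1.symm.trans (hd' y hy).2)
    · have h5 : ∀ z ∈ J, φ (w * z) = 0 := fun z hz => by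
        by_contra h5
        exact hbc (mul_right_cancel₀ h5 (by rw [← h4 z hz, one_mul]))
      exact ⟨h5 x hx, h5 y hy⟩
  obtain ⟨β, hβ⟩ := key a ha b hb
  obtain ⟨u, hu, t, ht, h5⟩ := mem_sup.1 (hJ hc)
  obtain ⟨s, s', rfl⟩ := mem_span_pair.1 hu
  rw [(hβ c hc).1, ← h5]
  simp [mul_add, h3.1, h3.2, h1 t ht]

namespace IsSL

variable (h : IsSL l)

/-- The annihilator of the `i`-th power of the radical. -/
def an (i : ℕ) : Submodule k A := (form l).orthogonal (h.rad ^ i)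

theorem mem_an {i : ℕ} {x : A} : x ∈ h.an i ↔ ∀ y ∈ h.rad ^ i, l (y * x) = 0 := Iff.rfl

theorem mul_mem_an {i j : ℕ} {x y : A} (hy : y ∈ h.rad ^ j) (hx : x ∈ h.an (i + j)) :
    y * x ∈ h.an i := fun w hw => by
  show l (w * (y * x)) = 0
  rw [← mul_assoc]
  exact hx _ (mul_mem_pow hw hy)

theorem mul_mem_an' {i j : ℕ} {x y : A} (hx : x ∈ h.an (i + j)) (hy : y ∈ h.rad ^ j) :
    x * y ∈ h.an i := fun w hw => by
  show l (w * (x * y)) = 0
  rw [← mul_assoc, h.comm, ← mul_assoc]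
  exact hx _ (add_comm j i ▸ mul_mem_pow hy hw)

theorem pow_le_pow {m n : ℕ} (hmn : m + 1 ≤ n) : h.rad ^ n ≤ h.rad ^ (m + 1) := by
  induction n, hmn using Nat.le_induction with
  | base => exact le_rfl
  | succ n hn ih =>
    obtain ⟨n, rfl⟩ : ∃ n', n = n' + 1 := ⟨n - 1, by omega⟩
    exact (h.pow_succ_le n).trans ih

theorem apply_eq_zero {n m : ℕ} (hn : h.rad ^ (n + 1) = ⊥) (hm : n + 1 ≤ m) {x : A}
    (hx : x ∈ h.rad ^ m) : l x = 0 := by
  have := h.pow_le_pow hm hx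
  rw [hn, mem_bot] at this
  rw [this, map_zero]

theorem pow_le_an {n i j : ℕ} (hn : h.rad ^ (n + 1) = ⊥) (hij : n + 1 ≤ i + j) :
    h.rad ^ j ≤ h.an i := fun _ hx _ hy => h.apply_eq_zero hn hij (mul_mem_pow hy hx)

theorem apply_eq_zero_of_mul {i j : ℕ}
    (H : ∀ x ∈ h.rad ^ i, ∀ y ∈ h.rad ^ j, l (x * y) = 0) {s : A} (hs : s ∈ h.rad ^ (i + j)) :
    l s = 0 := by
  rw [pow_add] at hs
  exact (mul_le.2 H : _ ≤ LinearMap.ker l) hs

theorem mem_one {x : A} (hx : x ∈ h.rad) : x ∈ h.rad ^ 1 := by rwa [pow_one]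

theorem sq_le : h.rad ^ 2 ≤ h.rad := (h.pow_succ_le 0).trans_eq (pow_one _)

theorem cm_le_of {P : Submodule k A} (H : ∀ a ∈ h.rad, ∀ b ∈ h.rad, a * b - b * a ∈ P) :
    cm k A ≤ P := by
  refine span_le.2 ?_
  rintro _ ⟨a, b, rfl⟩
  obtain ⟨c, hc⟩ := h.exists_sub_mem a
  obtain ⟨c', hc'⟩ := h.exists_sub_mem b
  rw [IsSL.commutator_eq a b c c']
  exact H _ hc _ hc'

variable [FiniteDimensional k A]

theorem exists_loewy (h3 : h.rad ^ 3 ≠ ⊥) : ∃ n, h.rad ^ (n + 3) ≠ ⊥ ∧ h.rad ^ (n + 4) = ⊥ := by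
  classical
  obtain ⟨N, hN⟩ := h.exists_pow_eq_bot
  have hex : ∃ n, h.rad ^ (n + 4) = ⊥ := ⟨N, le_bot_iff.1 (hN ▸ h.pow_le_pow (by omega))⟩
  refine ⟨Nat.find hex, ?_, Nat.find_spec hex⟩
  rcases Nat.eq_zero_or_pos (Nat.find hex) with h0 | h0
  · rwa [h0]
  · have := Nat.find_min hex (m := Nat.find hex - 1) (by omega)
    rwa [show Nat.find hex - 1 + 4 = Nat.find hex + 3 by omega] at this

theorem finrank_rad : finrank k h.rad + 1 = finrank k A := by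
  refine le_antisymm h.finrank_rad_lt ?_
  have h1 : (⊤ : Submodule k A) ≤ h.rad ⊔ span k {1} := fun x _ => by
    obtain ⟨c, hc⟩ := h.exists_sub_mem x
    rw [← sub_add_cancel x (c • 1)]
    exact add_mem_sup hc (smul_mem _ _ (mem_span_singleton_self _))
  have h2 := finrank_mono h1
  have h3 := finrank_add_le_finrank_add_finrank h.rad (span k {1})
  have h4 := finrank_span_one_le (k := k) (1 : A)
  rw [finrank_top] at h2
  omega

theorem finrank_an (i : ℕ) : finrank k (h.an i) + finrank k ↥(h.rad ^ i) = finrank k A := by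
  have h1 := LinearMap.BilinForm.finrank_orthogonal h.nondegenerate (h.rad ^ i)
  have := finrank_le (h.rad ^ i)
  unfold an
  omega

theorem an_le_sq {n : ℕ} (hne : h.rad ^ (n + 3) ≠ ⊥) (htop : h.rad ^ (n + 4) = ⊥)
    (h2 : h.rad ^ 2 ≤ cm k A ⊔ h.rad ^ 3) (hr : finrank k h.rad ≤ finrank k ↥(h.rad ^ 2) + 3)
    {v : A} (hv : v ∈ h.rad) (hv' : v ∈ h.an (n + 2)) : v ∈ h.rad ^ 2 := by
  by_contra hv2
  have h3 : h.rad ^ 2 < h.rad ⊓ h.an (n + 2) :=
    lt_of_le_of_ne (le_inf h.sq_le (h.pow_le_an htop (by omega))) fun H => hv2 (H ▸ ⟨hv, hv'⟩)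
  have h4 := finrank_lt_finrank_of_lt h3
  obtain ⟨x, hx, y, hy, hJ⟩ := exists_le_span_pair_sup (inf_le_left (b := h.an (n + 2)))
    (U := h.rad) (by omega)
  have h5 : cm k A ≤ span k {x * y - y * x} ⊔ h.an (n + 1) := h.cm_le_of fun a ha b hb => by
    obtain ⟨a0, ha0, j, hj, h1⟩ := mem_sup.1 (hJ ha)
    obtain ⟨b0, hb0, j', hj', h2⟩ := mem_sup.1 (hJ hb)
    obtain ⟨α, β, rfl⟩ := mem_span_pair.1 ha0
    obtain ⟨γ, δ, rfl⟩ := mem_span_pair.1 hb0
    have h3 := h.mem_one (add_mem (smul_mem _ α hx) (smul_mem _ β hy))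
    have h5 : a * b - b * a = (α * δ - β * γ) • (x * y - y * x) +
        ((α • x + β • y) * j' - j' * (α • x + β • y) + (j * b - b * j)) := by
      rw [← h1, ← h2]
      simp only [mul_add, add_mul, smul_mul_assoc, mul_smul_comm]
      module
    rw [h5]
    exact add_mem_sup (smul_mem _ _ (mem_span_singleton_self _))
      (add_mem (sub_mem (h.mul_mem_an h3 hj'.2) (h.mul_mem_an' hj'.2 h3))
        (sub_mem (h.mul_mem_an' hj.2 (h.mem_one hb)) (h.mul_mem_an (h.mem_one hb) hj.2)))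
  obtain ⟨s, hs, hs'⟩ := h.exists_apply_ne_zero hne
  refine hs' (h.apply_eq_zero_of_mul (i := n) (j := 3) (fun w hw z hz => ?_) hs)
  have h6 : h.rad ^ 3 ≤ LinearMap.ker (l ∘ₗ LinearMap.mulLeft k w) := by
    rw [pow_succ, sq]
    refine mul_le.2 fun s hs c hc => ?_
    refine (mul_le.2 (fun a ha b hb => ?_) :
      _ ≤ LinearMap.ker (l ∘ₗ LinearMap.mulLeft k w ∘ₗ LinearMap.mulRight k c)) hs
    refine three_eq_zero (T₂ := h.an (n + 1)) hx hy hJ (fun a ha b hb => ?_)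
      (l ∘ₗ LinearMap.mulLeft k w) (fun t ht => ?_) (fun t ht c hc => ?_) (fun t ht c hc => ?_)
      ha hb hc
    · exact (h2.trans (sup_le h5 (le_sup_of_le_right (h.pow_le_an htop (by omega)))))
        (mul_mem_pow (h.mem_one ha) (h.mem_one hb))
    · exact h.mul_mem_an (h.cm_le (sub_mem_cm x y)) ht.2 w hw
    · exact h.mul_mem_an' ht (h.mem_one hc) w hw
    · exact h.mul_mem_an (h.mem_one hc) ht w hw
  exact h6 hz

theorem finrank_eq_of_three (hne : h.rad ^ 3 ≠ ⊥) (htop : h.rad ^ 4 = ⊥)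
    (h2 : h.rad ^ 2 ≤ cm k A ⊔ h.rad ^ 3) (hr : finrank k h.rad = finrank k ↥(h.rad ^ 2) + 3) :
    finrank k A = 8 := by
  have h1 : h.an 2 = h.rad ^ 2 := by
    refine le_antisymm (fun v hv => h.an_le_sq (n := 0) hne htop h2 hr.le ?_ hv)
      (h.pow_le_an htop le_rfl)
    refine (h.isUnit_or v).resolve_right fun hu => ?_
    obtain ⟨s, hs, hs'⟩ := h.exists_apply_ne_zero hne
    obtain ⟨u, hu⟩ := hu.exists_left_inv
    have h3 := hv (s * u) (h.pow_mul_top_le 1 (mul_mem_mul (h.pow_succ_le 1 hs) mem_top))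
    exact hs' (by simpa [form, mul_assoc, hu] using h3)
  have h3 := h.finrank_an 2
  have h4 := h.finrank_rad
  rw [h1] at h3
  omega

end IsSL

end Cfsg.Lib.Block.SymLoc
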