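import Cfsg.Agent.Block.SLFiveC

/-!
Symmetric local algebras with five-dimensional centre: three generators and Loewy length at
least five is impossible.
-/

set_option autoImplicit false

open Module Submodule

namespace Cfsg.Lib.Block.SymLoc

variable {k A : Type*} [Field k] [Ring A] [Algebra k A] {l : A →ₗ[k] k}

/-- Multiplication restricted to subspaces. -/
def mulR (P Q R : Submodule k A) (H : ∀ x ∈ P, ∀ y ∈ Q, x * y ∈ R) : P →ₗ[k] Q →ₗ[k] R :=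
  LinearMap.mk₂ k (fun x y => ⟨x * y, H _ x.2 _ y.2⟩)
    (fun _ _ _ => Subtype.ext (add_mul _ _ _)) (fun _ _ _ => Subtype.ext (smul_mul_assoc _ _ _))
    (fun _ _ _ => Subtype.ext (mul_add _ _ _)) (fun _ _ _ => Subtype.ext (mul_smul_comm _ _ _))

theorem exists_compl_le [FiniteDimensional k A] {P Q : Submodule k A} (h : P ≤ Q) :
    ∃ U ≤ Q, U ⊓ P = ⊥ ∧ Q ≤ U ⊔ P ∧ finrank k U + finrank k P = finrank k Q := by
  obtain ⟨R, hR⟩ := P.exists_isCompl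
  have h1 : Q ⊓ R ⊓ P = ⊥ := by rw [inf_assoc, hR.symm.inf_eq_bot, inf_bot_eq]
  have h2 : Q ⊓ R ⊔ P = Q := by
    rw [inf_sup_assoc_of_le _ h, hR.symm.sup_eq_top, inf_top_eq]
  refine ⟨Q ⊓ R, inf_le_left, h1, h2.ge, ?_⟩
  have := finrank_sup_add_finrank_inf_eq (Q ⊓ R) P
  rw [h1, h2, finrank_bot] at this
  omega

theorem IsSL.false_of_three [IsAlgClosed k] [FiniteDimensional k A] (h : IsSL l) {n : ℕ}
    (hne : h.rad ^ (n + 4) ≠ ⊥) (htop : h.rad ^ (n + 5) = ⊥)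
    (h2 : h.rad ^ 2 ≤ cm k A ⊔ h.rad ^ 4) (hr : finrank k h.rad = finrank k ↥(h.rad ^ 2) + 3) :
    False := by
  obtain ⟨U, hU, hU0, hUJ, hU3⟩ := exists_compl_le h.sq_le
  have hU1 : ∀ x : U, (x : A) ∈ h.rad ^ 1 := fun x => h.mem_one (hU x.2)
  have hT : ∀ z : U, (z : A) ∈ h.an (n + 3) → z = 0 := fun z hz => by
    have h3 := h.an_le_sq (n := n + 1) hne htop
      (h2.trans (sup_le_sup_left (h.pow_succ_le 2) _)) hr.le (hU z.2) hz
    have : (z : A) ∈ U ⊓ h.rad ^ 2 := ⟨z.2, h3⟩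
    rw [hU0, mem_bot] at this
    exact Subtype.ext this
  let N2 : Submodule k ↥(h.rad ^ 2) := (h.an (n + 2)).comap (h.rad ^ 2).subtype
  let N3 : Submodule k ↥(h.rad ^ 3) := (h.an (n + 1)).comap (h.rad ^ 3).subtype
  have H11 : ∀ x ∈ U, ∀ y ∈ U, x * y ∈ h.rad ^ 2 := fun x hx y hy =>
    mul_mem_pow (hU1 ⟨x, hx⟩) (hU1 ⟨y, hy⟩)
  have H12 : ∀ x ∈ U, ∀ y ∈ h.rad ^ 2, x * y ∈ h.rad ^ 3 := fun x hx y hy =>
    mul_mem_pow (hU1 ⟨x, hx⟩) hy
  have H21 : ∀ x ∈ h.rad ^ 2, ∀ y ∈ U, x * y ∈ h.rad ^ 3 := fun x hx y hy =>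
    mul_mem_pow hx (hU1 ⟨y, hy⟩)
  let m : U →ₗ[k] U →ₗ[k] (↥(h.rad ^ 2) ⧸ N2) := (mulR U U _ H11).compr₂ N2.mkQ
  let r : (↥(h.rad ^ 2) ⧸ N2) →ₗ[k] U →ₗ[k] (↥(h.rad ^ 3) ⧸ N3) :=
    N2.liftQ ((mulR _ U _ H21).compr₂ N3.mkQ) fun s hs => LinearMap.ext fun x =>
      (Quotient.mk_eq_zero N3).2 (h.mul_mem_an' (i := n + 1) (j := 1) hs (hU1 x))
  let L : U →ₗ[k] (↥(h.rad ^ 2) ⧸ N2) →ₗ[k] (↥(h.rad ^ 3) ⧸ N3) :=
    (N2.liftQ ((mulR U _ _ H12).compr₂ N3.mkQ).flip fun s hs => LinearMap.ext fun x =>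
      (Quotient.mk_eq_zero N3).2 (h.mul_mem_an (i := n + 1) (j := 1) (hU1 x) hs)).flip
  have hm : ∀ x y, m x y = N2.mkQ ⟨x * y, H11 _ x.2 _ y.2⟩ := fun _ _ => rfl
  have hr' : ∀ s x, r (N2.mkQ s) x = N3.mkQ ⟨s * x, H21 _ s.2 _ x.2⟩ := fun _ _ => rfl
  have hL : ∀ x s, L x (N2.mkQ s) = N3.mkQ ⟨x * s, H12 _ x.2 _ s.2⟩ := fun _ _ => rfl
  have h32 : h.rad ^ 3 ≤ h.an (n + 2) := h.pow_le_an htop (by omega)
  have h41 : h.rad ^ 4 ≤ h.an (n + 1) := h.pow_le_an htop (by omega)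
  -- commutators
  let b : Basis (Fin 3) k U := Module.finBasisOfFinrankEq k U (by omega)
  let c : U → U → ↥(h.rad ^ 2) := fun x y =>
    ⟨x * y - y * x, sub_mem (H11 _ x.2 _ y.2) (H11 _ y.2 _ x.2)⟩
  let ψ : (Fin 3 → k) →ₗ[k] ↥(h.rad ^ 2) :=
    Fintype.linearCombination k ![c (b 0) (b 1), c (b 0) (b 2), c (b 1) (b 2)]
  have hψ : ∀ t, ψ t = t 0 • c (b 0) (b 1) + t 1 • c (b 0) (b 2) + t 2 • c (b 1) (b 2) :=
    fun t => by simp [ψ, Fintype.linearCombination_apply, Fin.sum_univ_three]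
  have hc : ∀ x y : U, ∃ t, ψ t = c x y := fun x y => by
    refine ⟨![b.repr x 0 * b.repr y 1 - b.repr x 1 * b.repr y 0,
      b.repr x 0 * b.repr y 2 - b.repr x 2 * b.repr y 0,
      b.repr x 1 * b.repr y 2 - b.repr x 2 * b.repr y 1], ?_⟩
    have hx := congrArg Subtype.val (b.sum_repr x)
    have hy := congrArg Subtype.val (b.sum_repr y)
    simp only [Fin.sum_univ_three, coe_add, coe_smul] at hx hy
    rw [hψ]
    apply Subtype.ext
    simp only [c, coe_add, coe_smul, Matrix.cons_val_zero, Matrix.cons_val_one,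
      Matrix.cons_val]
    generalize b.repr x 0 = x0, b.repr x 1 = x1, b.repr x 2 = x2, b.repr y 0 = y0,
      b.repr y 1 = y1, b.repr y 2 = y2 at hx hy ⊢
    rw [← hx, ← hy]
    simp only [mul_add, add_mul, smul_mul_assoc, mul_smul_comm]
    module
  let D : Submodule k A := span k {z | ∃ x ∈ U, ∃ s ∈ h.rad ^ 2, z = x * s - s * x}
  have hD : D ≤ h.rad ^ 3 := span_le.2 (by
    rintro _ ⟨x, hx, s, hs, rfl⟩
    exact sub_mem (H12 _ hx _ hs) (H21 _ hs _ hx))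
  have hdec : ∀ s ∈ h.rad ^ 2, ∃ t, s - ψ t ∈ D ⊔ h.rad ^ 4 := fun s hs => by
    have h3 : cm k A ≤ (LinearMap.range ψ).map (h.rad ^ 2).subtype ⊔ (D ⊔ h.rad ^ 4) :=
      h.cm_le_of fun x hx y hy => by
        obtain ⟨u, hu, j, hj, rfl⟩ := mem_sup.1 (hUJ hx)
        obtain ⟨u', hu', j', hj', rfl⟩ := mem_sup.1 (hUJ hy)
        have h4 : (u + j) * (u' + j') - (u' + j') * (u + j) = (u * u' - u' * u) +
            (((u * j' - j' * u) - (u' * j - j * u')) + (j * j' - j' * j)) := by noncomm_ring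
        rw [h4]
        refine add_mem_sup ⟨_, hc ⟨u, hu⟩ ⟨u', hu'⟩, rfl⟩ (add_mem_sup
          (sub_mem (subset_span ⟨u, hu, j', hj', rfl⟩) (subset_span ⟨u', hu', j, hj, rfl⟩))
          (sub_mem (mul_mem_pow hj hj') (mul_mem_pow hj' hj)))
    obtain ⟨_, ⟨_, ⟨t, rfl⟩, rfl⟩, z, hz, h4⟩ :=
      mem_sup.1 ((h2.trans (sup_le h3 (le_sup_of_le_right le_sup_right))) hs)
    exact ⟨t, by rw [← h4]; simpa using hz⟩
  have hsurj : Function.Surjective (N2.mkQ ∘ₗ ψ) := fun w => by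
    obtain ⟨s, rfl⟩ := N2.mkQ_surjective w
    obtain ⟨t, ht⟩ := hdec s s.2
    exact ⟨t, ((Submodule.Quotient.eq N2).2
      (h32 ((sup_le hD (h.pow_succ_le 2) : _ ≤ h.rad ^ 3) ht))).symm⟩
  refine Tri.false (m := m) (l := L) (r := r) ⟨by omega, ?_, fun x y z => ?_, fun u hu => ?_,
    fun ν hν => ?_, fun z hz => hT z fun w hw => ?_, fun z hz => hT z fun w hw => ?_,
    fun x x' v H1 H2 => hT v fun w hw => ?_, fun h3 τ hτ => ?_⟩
  · have := LinearMap.finrank_le_finrank_of_surjective hsurj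
    simpa using this
  · rw [hm, hm, hr', hL]
    congr 1
    exact Subtype.ext (mul_assoc _ _ _)
  · have h3 : ∀ x y, u (N2.mkQ (c x y)) = 0 := fun x y => by
      have := sub_eq_zero.2 (hu x y)
      rwa [hm, hm, ← map_sub, ← map_sub] at this
    ext w
    obtain ⟨t, ht⟩ := hsurj (N2.mkQ w)
    show u (N2.mkQ w) = 0
    rw [← ht, LinearMap.comp_apply, hψ]
    simp only [map_add, map_smul, h3, smul_zero, add_zero]
  · have h3 : h.rad ^ 3 ≤ (LinearMap.ker (ν ∘ₗ N3.mkQ)).map (h.rad ^ 3).subtype := by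
      refine le_trans (show h.rad ^ 3 = h.rad * h.rad ^ 2 from pow_succ' _ _).le
        (mul_le.2 fun x hx s hs => ?_)
      obtain ⟨u, hu, j, hj, rfl⟩ := mem_sup.1 (hUJ hx)
      rw [add_mul]
      refine add_mem ⟨⟨_, H12 _ hu _ hs⟩, hν ⟨u, hu⟩ (N2.mkQ ⟨s, hs⟩), rfl⟩
        ⟨⟨_, h.pow_succ_le 2 (mul_mem_pow hj hs)⟩, ?_, rfl⟩
      show ν (N3.mkQ _) = 0
      rw [mkQ_apply, (Quotient.mk_eq_zero N3).2 (h41 (mul_mem_pow hj hs)), map_zero]
    ext w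
    obtain ⟨w', hw', h4⟩ := h3 w.2
    rw [← show w' = w from Subtype.ext h4]
    exact hw'
  · show l (w * z) = 0
    rw [h.comm]
    have h3 : h.rad ^ (2 + (n + 1)) ≤ LinearMap.ker (l ∘ₗ LinearMap.mulLeft k (z : A)) := by
      rw [pow_add]
      refine mul_le.2 fun s hs y hy => ?_
      have h4 : (z : A) * s ∈ h.an (n + 1) :=
        (Quotient.mk_eq_zero N3).1 ((hL z ⟨s, hs⟩).symm.trans (hz _))
      show l (z * (s * y)) = 0
      rw [← mul_assoc, h.comm]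
      exact h4 y hy
    exact h3 (by rwa [show 2 + (n + 1) = n + 3 by omega])
  · have h3 : h.rad ^ ((n + 1) + 2) ≤ LinearMap.ker (l ∘ₗ LinearMap.mulRight k (z : A)) := by
      rw [pow_add]
      refine mul_le.2 fun y hy s hs => ?_
      have h4 : s * (z : A) ∈ h.an (n + 1) :=
        (Quotient.mk_eq_zero N3).1 ((hr' ⟨s, hs⟩ z).symm.trans (hz _))
      show l (y * s * z) = 0
      rw [mul_assoc]
      exact h4 y hy
    exact h3 hw
  · have h3 : h.rad ^ (n + 3) ≤ LinearMap.ker (l ∘ₗ LinearMap.mulRight k (v : A)) := by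
      rw [pow_add]
      refine mul_le.2 fun y hy s hs => ?_
      obtain ⟨u, hu⟩ := H1 (N3.mkQ ⟨s, hs⟩)
      rw [hm, hr'] at hu
      have h4 : s - u * x * x' ∈ h.an (n + 1) := (Submodule.Quotient.eq N3).1 hu
      have h5 : (x : A) * (x' * v) ∈ h.an (n + 1) := by
        rw [hm, hL] at H2
        exact (Quotient.mk_eq_zero N3).1 H2
      have h6 := h.mul_mem_an' h4 (hU1 v) y hy
      have h7 := h5 _ (mul_mem_pow hy (hU1 u))
      show l (y * s * v) = 0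
      have h8 : y * s * v = y * ((s - u * x * x') * v) + y * u * (x * (x' * v)) := by noncomm_ring
      rw [h8, map_add]
      exact (congrArg₂ (· + ·) h6 h7).trans (add_zero 0)
    exact h3 hw
  · have hinj : Function.Injective (N2.mkQ ∘ₗ ψ) :=
      (LinearMap.injective_iff_surjective_of_finrank_eq_finrank (by simpa using h3.symm)).2 hsurj
    have h4 : D ⊔ h.rad ^ 4 ≤ (LinearMap.ker (τ ∘ₗ N3.mkQ)).map (h.rad ^ 3).subtype := by
      refine sup_le (span_le.2 ?_) fun j hj => ⟨⟨j, h.pow_succ_le 2 hj⟩, ?_, rfl⟩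
      · rintro _ ⟨x, hx, s, hs, rfl⟩
        refine ⟨⟨_, sub_mem (H12 _ hx _ hs) (H21 _ hs _ hx)⟩, ?_, rfl⟩
        have := sub_eq_zero.2 (hτ ⟨x, hx⟩ (N2.mkQ ⟨s, hs⟩))
        rw [hL, hr', ← map_sub, ← map_sub] at this
        exact this
      · show τ (N3.mkQ _) = 0
        rw [mkQ_apply, (Quotient.mk_eq_zero N3).2 (h41 hj), map_zero]
    ext w
    obtain ⟨t, ht⟩ := hdec w (h.pow_succ_le 1 w.2)
    have h5 : (ψ t : A) ∈ h.rad ^ 3 := by
      have := sub_mem w.2 ((sup_le hD (h.pow_succ_le 2) : _ ≤ h.rad ^ 3) ht)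
      simpa using this
    have h6 : t = 0 := hinj (by
      rw [map_zero]
      exact (Quotient.mk_eq_zero N2).2 (h32 h5))
    rw [h6, map_zero, coe_zero, sub_zero] at ht
    obtain ⟨w', hw', h7⟩ := h4 ht
    rw [← show w' = w from Subtype.ext h7]
    exact hw'

end Cfsg.Lib.Block.SymLoc
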