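import Cfsg.Agent.Block.SLFiveC

/-!
Symmetric local algebras with five-dimensional centre: two generators, the easy cases.
-/

set_option autoImplicit false

open Module Submodule

namespace Cfsg.Lib.Block.SymLoc

variable {k A : Type*} [Field k] [Ring A] [Algebra k A] {l : A →ₗ[k] k}

/-- `a` and `b` generate the radical modulo its square. -/
structure Gen2 (h : IsSL l) (a b : A) : Prop where
  left : a ∈ h.rad
  right : b ∈ h.rad
  le : h.rad ≤ span k {a, b} ⊔ h.rad ^ 2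

theorem IsSL.up (h : IsSL l) {m n : ℕ} {x : A} (hx : x ∈ h.rad ^ m)
    (hmn : n + 1 ≤ m := by omega) : x ∈ h.rad ^ (n + 1) := h.pow_le_pow hmn hx

theorem pair_le {P : Submodule k A} {x y : A} (hx : x ∈ P) (hy : y ∈ P) : span k {x, y} ≤ P :=
  span_le.2 (Set.insert_subset hx (Set.singleton_subset_iff.2 hy))

theorem mem_pair_left (x y : A) : x ∈ span k {x, y} := subset_span (Set.mem_insert _ _)

theorem mem_pair_right (x y : A) : y ∈ span k {x, y} :=
  subset_span (Set.mem_insert_of_mem _ rfl)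

theorem IsSL.nakayama [FiniteDimensional k A] (h : IsSL l) {m : ℕ} {P : Submodule k A}
    (H : ∀ i, h.rad ^ (m + i) ≤ P ⊔ h.rad ^ (m + i + 1)) : h.rad ^ m ≤ P := by
  obtain ⟨N, hN⟩ := h.exists_pow_eq_bot
  have key : ∀ i, h.rad ^ m ≤ P ⊔ h.rad ^ (m + i) := fun i => by
    induction i with
    | zero => exact le_sup_right
    | succ i ih => exact ih.trans (sup_le le_sup_left (H i))
  have := key (N + 1)
  rwa [pow_add, hN, mul_bot, sup_bot_eq] at this

namespace Gen2

variable {h : IsSL l} {a b : A} (g : Gen2 h a b)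
include g

theorem a1 : a ∈ h.rad ^ 1 := h.mem_one g.left

theorem b1 : b ∈ h.rad ^ 1 := h.mem_one g.right

theorem symm : Gen2 h b a := ⟨g.right, g.left, by rw [Set.pair_comm]; exact g.le⟩

theorem ind {P : Submodule k A} (ha : a ∈ P) (hb : b ∈ P) (h2 : h.rad ^ 2 ≤ P) : h.rad ≤ P :=
  g.le.trans (sup_le (pair_le ha hb) h2)

theorem change {α β γ δ : k} (hd : α * δ - β * γ ≠ 0) :
    Gen2 h (α • a + β • b) (γ • a + δ • b) := by
  refine ⟨add_mem (smul_mem _ _ g.left) (smul_mem _ _ g.right),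
    add_mem (smul_mem _ _ g.left) (smul_mem _ _ g.right), g.ind ?_ ?_ le_sup_right⟩
  · refine mem_sup_left ((smul_mem_iff _ hd).1 (mem_span_pair.2 ⟨δ, -β, ?_⟩))
    module
  · refine mem_sup_left ((smul_mem_iff _ hd).1 (mem_span_pair.2 ⟨-γ, α, ?_⟩))
    module

theorem le_left {i : ℕ} {S : Set A} {P : Submodule k A} (hS : h.rad ^ i ≤ span k S ⊔ h.rad ^ (i + 1))
    (ha : ∀ s ∈ S, a * s ∈ P) (hb : ∀ s ∈ S, b * s ∈ P) (h2 : h.rad ^ (i + 2) ≤ P) :
    h.rad ^ (i + 1) ≤ P := by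
  rw [pow_succ']
  refine mul_le.2 fun x hx y hy => ?_
  refine g.ind (P := P.comap (LinearMap.mulRight k y)) ?_ ?_
    (fun j hj => h2 (h.up (mul_mem_pow hj hy))) hx
  · exact (hS.trans (sup_le (span_le.2 ha) fun j hj => h2 (h.up (mul_mem_pow g.a1 hj))) :
      _ ≤ P.comap (LinearMap.mulLeft k a)) hy
  · exact (hS.trans (sup_le (span_le.2 hb) fun j hj => h2 (h.up (mul_mem_pow g.b1 hj))) :
      _ ≤ P.comap (LinearMap.mulLeft k b)) hy

theorem sq_le {P : Submodule k A} (haa : a * a ∈ P) (hab : a * b ∈ P) (hba : b * a ∈ P)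
    (hbb : b * b ∈ P) (h3 : h.rad ^ 3 ≤ P) : h.rad ^ 2 ≤ P :=
  g.le_left (i := 1) (S := {a, b}) (by rw [pow_one]; exact g.le)
    (by rintro _ (rfl | rfl); exacts [haa, hab]) (by rintro _ (rfl | rfl); exacts [hba, hbb]) h3

theorem top_le {P : Submodule k A} (h1 : (1 : A) ∈ P) (ha : a ∈ P) (hb : b ∈ P)
    (h2 : h.rad ^ 2 ≤ P) (y : A) : y ∈ P := by
  obtain ⟨c, hc⟩ := h.exists_sub_mem y
  rw [← sub_add_cancel y (c • 1)]
  exact add_mem (g.ind ha hb h2 hc) (smul_mem _ _ h1)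

theorem comm_of_four (h4 : h.rad ^ 4 = ⊥) : a * b = b * a := by
  refine sub_eq_zero.1 (h.nondeg _ fun y => g.top_le
    (P := LinearMap.ker (l ∘ₗ LinearMap.mulLeft k (a * b - b * a))) ?_ ?_ ?_ (fun j hj => ?_) y)
  · show l ((a * b - b * a) * 1) = 0
    rw [mul_one, h.apply_cm (sub_mem_cm a b)]
  · show l ((a * b - b * a) * a) = 0
    rw [sub_mul, map_sub, h.comm (b * a), mul_assoc, sub_self]
  · show l ((a * b - b * a) * b) = 0
    rw [sub_mul, map_sub, h.comm (a * b), mul_assoc, sub_self]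
  · exact h.apply_eq_zero h4 (m := 2 + 2) le_rfl (mul_mem_pow (h.cm_le (sub_mem_cm a b)) hj)

theorem not_mem (hK : ¬ cm k A ≤ h.rad ^ 3) : a * b - b * a ∉ h.rad ^ 3 := fun H =>
  hK ((h.cm_le_span_sup g.left g.right g.le).trans
    (sup_le ((span_singleton_le_iff_mem _ _).2 H) le_rfl))

theorem cube_le (hK : ¬ cm k A ≤ h.rad ^ 3) (h3 : h.rad ^ 3 ≤ cm k A ⊔ h.rad ^ 4) {S : Set A}
    (hS : h.rad ^ 2 ≤ span k S ⊔ h.rad ^ 3) {Q : Submodule k A} (hQ : Q ≤ h.rad ^ 3)
    (ha : ∀ s ∈ S, a * s - s * a ∈ Q ⊔ h.rad ^ 4) (hb : ∀ s ∈ S, b * s - s * b ∈ Q ⊔ h.rad ^ 4) :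
    h.rad ^ 3 ≤ Q ⊔ h.rad ^ 4 := by
  have key : ∀ x ∈ h.rad ^ 1, (∀ s ∈ S, x * s - s * x ∈ Q ⊔ h.rad ^ 4) →
      ∀ s ∈ h.rad ^ 2, x * s - s * x ∈ Q ⊔ h.rad ^ 4 := fun x hx H s hs =>
    (hS.trans (sup_le (span_le.2 H) fun j hj =>
      mem_sup_right (sub_mem (mul_mem_pow hx hj) (mul_mem_pow hj hx))) :
      _ ≤ (Q ⊔ h.rad ^ 4).comap (LinearMap.mulLeft k x - LinearMap.mulRight k x)) hs
  have key2 : ∀ s ∈ h.rad ^ 2, ∀ x ∈ h.rad, x * s - s * x ∈ Q ⊔ h.rad ^ 4 := fun s hs x hx =>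
    g.ind (P := (Q ⊔ h.rad ^ 4).comap (LinearMap.mulRight k s - LinearMap.mulLeft k s))
      (key a g.a1 ha s hs) (key b g.b1 hb s hs)
      (fun j hj => mem_sup_right (sub_mem (mul_mem_pow hj hs) (mul_mem_pow hs hj))) hx
  have h4 : cm k A ≤ span k {a * b - b * a} ⊔ (Q ⊔ h.rad ^ 4) := h.cm_le_of fun x hx y hy => by
    refine g.ind (P := (span k {a * b - b * a} ⊔ (Q ⊔ h.rad ^ 4)).comap
      (LinearMap.mulRight k y - LinearMap.mulLeft k y)) ?_ ?_ (fun j hj => ?_) hx
    · refine g.ind (P := (span k {a * b - b * a} ⊔ (Q ⊔ h.rad ^ 4)).comap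
        (LinearMap.mulLeft k a - LinearMap.mulRight k a)) ?_
        (mem_sup_left (mem_span_singleton_self _))
        (fun j hj => mem_sup_right (key2 j hj a g.left)) hy
      simp
    · refine g.ind (P := (span k {a * b - b * a} ⊔ (Q ⊔ h.rad ^ 4)).comap
        (LinearMap.mulLeft k b - LinearMap.mulRight k b)) ?_ ?_
        (fun j hj => mem_sup_right (key2 j hj b g.right)) hy
      · have := neg_mem (mem_sup_left (T := Q ⊔ h.rad ^ 4)
          (mem_span_singleton_self (R := k) (a * b - b * a)))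
        rw [neg_sub] at this
        exact this
      · simp
    · have := neg_mem (mem_sup_right (S := span k {a * b - b * a}) (key2 j hj y hy))
      rw [neg_sub] at this
      exact this
  intro w hw
  obtain ⟨u, hu, z, hz, h5⟩ :=
    mem_sup.1 ((h3.trans (sup_le h4 (le_sup_of_le_right le_sup_right))) hw)
  obtain ⟨c, rfl⟩ := mem_span_singleton.1 hu
  rcases eq_or_ne c 0 with rfl | hc
  · rw [← h5]
    simpa using hz
  · refine absurd ?_ (g.not_mem hK)
    have h6 := sub_mem hw ((sup_le hQ (h.pow_succ_le 2) : _ ≤ h.rad ^ 3) hz)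
    rw [← h5, add_sub_cancel_right] at h6
    exact (smul_mem_iff _ hc).1 h6

theorem caseA (hK : ¬ cm k A ≤ h.rad ^ 3) (h3 : h.rad ^ 3 ≤ cm k A ⊔ h.rad ^ 4) {n : ℕ}
    (hne : h.rad ^ (n + 4) ≠ ⊥) (htop : h.rad ^ (n + 5) = ⊥) (hab : a * b ∈ h.rad ^ 3) : False := by
  have a1 := g.a1
  have b1 := g.b1
  have e1 := mem_sup_left (T := h.rad ^ 4) (mem_pair_left (k := k) (b * a * a) (b * b * a))
  have e2 := mem_sup_left (T := h.rad ^ 4) (mem_pair_right (k := k) (b * a * a) (b * b * a))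
  have h4 : h.rad ^ 3 ≤ span k {b * a * a, b * b * a} ⊔ h.rad ^ 4 := by
    refine g.cube_le hK h3 (S := {a * a, b * a, b * b}) (g.sq_le ?_ (mem_sup_right hab) ?_ ?_
      le_sup_right) (pair_le (mul_mem_pow (mul_mem_pow b1 a1) a1)
        (mul_mem_pow (mul_mem_pow b1 b1) a1)) ?_ ?_
    · exact mem_sup_left (subset_span (by simp))
    · exact mem_sup_left (subset_span (by simp))
    · exact mem_sup_left (subset_span (by simp))
    · rintro _ (rfl | rfl | rfl)
      · simp [mul_assoc]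
      · exact sub_mem (mem_sup_right (mul_assoc a b a ▸ mul_mem_pow hab a1)) e1
      · exact sub_mem (mem_sup_right (mul_assoc a b b ▸ mul_mem_pow hab b1)) e2
    · rintro _ (rfl | rfl | rfl)
      · exact sub_mem (mul_assoc b a a ▸ e1)
          (mem_sup_right ((mul_assoc a a b).symm ▸ mul_mem_pow a1 hab))
      · exact sub_mem (mul_assoc b b a ▸ e2)
          (mem_sup_right ((mul_assoc b a b).symm ▸ mul_mem_pow b1 hab))
      · simp [mul_assoc]
  have h5 : ∀ s ∈ h.rad ^ 3, a * s ∈ h.rad ^ 5 := fun s hs => by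
    refine (h4.trans (sup_le (pair_le ?_ ?_) fun j hj => mul_mem_pow a1 hj) :
      _ ≤ (h.rad ^ 5).comap (LinearMap.mulLeft k a)) hs
    · simpa [mul_assoc] using mul_mem_pow (mul_mem_pow hab a1) a1
    · simpa [mul_assoc] using mul_mem_pow (mul_mem_pow hab b1) a1
  have h6 : ∀ s ∈ h.rad ^ 3, s * b ∈ h.rad ^ 5 := fun s hs => by
    refine (h4.trans (sup_le (pair_le ?_ ?_) fun j hj => mul_mem_pow hj b1) :
      _ ≤ (h.rad ^ 5).comap (LinearMap.mulRight k b)) hs
    · simpa [mul_assoc] using mul_mem_pow (mul_mem_pow b1 a1) hab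
    · simpa [mul_assoc] using mul_mem_pow (mul_mem_pow b1 b1) hab
  obtain ⟨s, hs, hs'⟩ := h.exists_apply_ne_zero hne
  refine hs' (h.apply_eq_zero_of_mul (i := 1) (j := n + 3) (fun x hx y hy => ?_)
    (by rwa [show 1 + (n + 3) = n + 3 + 1 by omega]))
  rw [pow_one] at hx
  refine g.ind (P := LinearMap.ker (l ∘ₗ LinearMap.mulRight k y)) ?_ ?_
    (fun j hj => h.apply_eq_zero htop (by omega) (mul_mem_pow hj hy)) hx
  · rw [add_comm, pow_add] at hy
    refine (mul_le.2 fun s hs w hw => ?_ : _ ≤ LinearMap.ker (l ∘ₗ LinearMap.mulLeft k a)) hy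
    show l (a * (s * w)) = 0
    rw [← mul_assoc]
    exact h.apply_eq_zero htop (by omega) (mul_mem_pow (h5 s hs) hw)
  · show l (b * y) = 0
    rw [h.comm]
    rw [pow_add] at hy
    refine (mul_le.2 fun w hw s hs => ?_ : _ ≤ LinearMap.ker (l ∘ₗ LinearMap.mulRight k b)) hy
    show l (w * s * b) = 0
    rw [mul_assoc]
    exact h.apply_eq_zero htop (m := n + 5) le_rfl (mul_mem_pow hw (h6 s hs))

variable [FiniteDimensional k A]

theorem caseQ (hK : ¬ cm k A ≤ h.rad ^ 3) (h3 : h.rad ^ 3 ≤ cm k A ⊔ h.rad ^ 4)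
    (haa : a * a ∈ h.rad ^ 3) {q : k} (hq : b * a - q • (a * b) ∈ h.rad ^ 3) : h.rad ^ 4 = ⊥ := by
  have a1 := g.a1
  have b1 := g.b1
  have e1 := mem_sup_left (T := h.rad ^ 4) (mem_span_singleton_self (R := k) (a * b * b))
  have e2 : b * a * b ∈ span k {a * b * b} ⊔ h.rad ^ 4 := by
    have := add_mem (mem_sup_right (mul_mem_pow hq b1)) (smul_mem _ q e1)
    simpa [sub_mul] using this
  have e3 : b * b * a ∈ span k {a * b * b} ⊔ h.rad ^ 4 := by
    have := add_mem (mem_sup_right (mul_mem_pow b1 hq)) (smul_mem _ q e2)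
    simpa [mul_sub, mul_assoc] using this
  have e4 : a * b * a ∈ h.rad ^ 4 := by
    have := add_mem (mul_mem_pow a1 hq) (smul_mem _ q (h.up (mul_mem_pow haa b1)))
    simpa [mul_sub, mul_assoc] using this
  have h4 : h.rad ^ 3 ≤ span k {a * b * b} ⊔ h.rad ^ 4 := by
    refine g.cube_le hK h3 (S := {a * b, b * b}) (g.sq_le (mem_sup_right haa)
      (mem_sup_left (mem_pair_left _ _)) ?_ (mem_sup_left (mem_pair_right _ _)) le_sup_right)
      ((span_singleton_le_iff_mem _ _).2 (mul_mem_pow (mul_mem_pow a1 b1) b1)) ?_ ?_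
    · have := add_mem (mem_sup_right hq)
        (smul_mem _ q (mem_sup_left (mem_pair_left (k := k) (a * b) (b * b))))
      simpa using this
    · rintro _ (rfl | rfl)
      · exact mem_sup_right (sub_mem (mul_assoc a a b ▸ mul_mem_pow haa b1) e4)
      · exact sub_mem (mul_assoc a b b ▸ e1) e3
    · rintro _ (rfl | rfl)
      · exact sub_mem (mul_assoc b a b ▸ e2) e1
      · simp [mul_assoc]
  have e5 : a * (a * b * b) ∈ h.rad ^ 5 := by
    simpa [mul_assoc] using mul_mem_pow (mul_mem_pow haa b1) b1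
  refine h.eq_bot_of_le (g.le_left h4 ?_ ?_ le_rfl)
  · rintro _ rfl
    exact e5
  · rintro _ rfl
    have e6 : a * (b * b * b) ∈ h.rad ^ 5 :=
      (h4.trans (sup_le ((span_singleton_le_iff_mem _ _).2 e5) fun j hj => mul_mem_pow a1 hj) :
        _ ≤ (h.rad ^ 5).comap (LinearMap.mulLeft k a)) (mul_mem_pow (mul_mem_pow b1 b1) b1)
    have := add_mem (mul_mem_pow (mul_mem_pow hq b1) b1) (smul_mem _ q e6)
    simpa [sub_mul, mul_assoc] using this

theorem adjoin_eq : Algebra.adjoin k {a, b} = ⊤ := h.adjoin_eq_top (pair_le g.left g.right) g.le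

theorem comm_of_commute (hab : a * b = b * a) (x y : A) : x * y = y * x := by
  refine Algebra.commute_of_mem_adjoin_of_forall_mem_commute (R := k) (s := {a, b})
    (g.adjoin_eq ▸ Algebra.mem_top) fun z hz => Commute.symm ?_
  refine Algebra.commute_of_mem_adjoin_of_forall_mem_commute (R := k) (s := {a, b})
    (g.adjoin_eq ▸ Algebra.mem_top) fun w hw => ?_
  rcases hz with rfl | rfl <;> rcases hw with rfl | rfl
  exacts [rfl, hab, hab.symm, rfl]

theorem comm_of_rad (hab : a * b ∈ h.rad ^ 3) (hba : b * a ∈ h.rad ^ 3)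
    (hbb : b * b ∈ h.rad ^ 3) (x y : A) : x * y = y * x := by
  have a1 := g.a1
  have h2 : h.rad ^ 2 ≤ span k {a * a} ⊔ h.rad ^ 3 :=
    g.sq_le (mem_sup_left (mem_span_singleton_self _)) (mem_sup_right hab) (mem_sup_right hba)
      (mem_sup_right hbb) le_sup_right
  have h3 : h.rad ^ 2 ≤ h.rad.map (LinearMap.mulRight k a) := h.nakayama fun i => by
    rw [add_comm 2 i, pow_add]
    refine mul_le.2 fun y hy s hs => (h2.trans (sup_le ((span_singleton_le_iff_mem _ _).2 ?_)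
      fun j hj => mem_sup_right (h.up (mul_mem_pow hy hj))) : _ ≤ Submodule.comap
        (LinearMap.mulLeft k y) (h.rad.map (LinearMap.mulRight k a) ⊔ h.rad ^ (i + 2 + 1))) hs
    refine mem_sup_left ⟨y * a, ?_, mul_assoc _ _ _⟩
    have := h.up (n := 0) (mul_mem_pow hy a1)
    rwa [zero_add, pow_one] at this
  have h4 : h.rad ^ 3 ≤ (h.rad ^ 2).map (LinearMap.mulLeft k a) := h.nakayama fun i => by
    rw [show 3 + i = 2 + (i + 1) by omega, pow_add]
    refine mul_le.2 fun s hs y hy => (h2.trans (sup_le ((span_singleton_le_iff_mem _ _).2 ?_)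
      fun j hj => mem_sup_right (h.up (mul_mem_pow hj hy))) : _ ≤ Submodule.comap
        (LinearMap.mulRight k y)
        ((h.rad ^ 2).map (LinearMap.mulLeft k a) ⊔ h.rad ^ (2 + (i + 1) + 1))) hs
    exact mem_sup_left ⟨a * y, h.up (mul_mem_pow a1 hy), (mul_assoc _ _ _).symm⟩
  obtain ⟨f, hf, hf'⟩ := h4 hab
  have g' : Gen2 h a (b - f) := ⟨g.left, sub_mem g.right (h.sq_le hf),
    g.ind (mem_sup_left (mem_pair_left _ _)) (by
      have := add_mem_sup (mem_pair_right (k := k) a (b - f)) hf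
      simpa using this) le_sup_right⟩
  have h5 : a * (b - f) = 0 := by rw [mul_sub, ← hf', LinearMap.mulLeft_apply, sub_self]
  generalize b - f = c at g' h5
  refine g'.comm_of_commute (h5.trans (h.nondeg _ fun y => g'.top_le
    (P := LinearMap.ker (l ∘ₗ LinearMap.mulLeft k (c * a))) ?_ ?_ ?_ (fun j hj => ?_) y).symm) x y
  · show l (c * a * 1) = 0
    rw [mul_one, h.comm, h5, map_zero]
  · show l (c * a * a) = 0
    rw [h.comm, ← mul_assoc, h5, zero_mul, map_zero]
  · show l (c * a * c) = 0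
    rw [mul_assoc, h5, mul_zero, map_zero]
  · obtain ⟨j', -, rfl⟩ := h3 hj
    show l (c * a * (j' * a)) = 0
    rw [← mul_assoc, h.comm, ← mul_assoc, ← mul_assoc, h5, zero_mul, zero_mul, map_zero]

theorem caseI (hK : cm k A ≤ h.rad ^ 3)
    (h2 : finrank k ↥(h.rad ^ 2) ≤ finrank k ↥(h.rad ^ 3) + 1) (x y : A) : x * y = y * x := by
  have a1 := g.a1
  have b1 := g.b1
  obtain ⟨w, hw, hw'⟩ := exists_le_span_sup (h.pow_succ_le 1) h2
  have key : ∀ s ∈ h.rad ^ 2, ∃ c : k, s - c • w ∈ h.rad ^ 3 := fun s hs => by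
    obtain ⟨u, hu, t, ht, rfl⟩ := mem_sup.1 (hw' hs)
    obtain ⟨c, rfl⟩ := mem_span_singleton.1 hu
    exact ⟨c, by simpa using ht⟩
  obtain ⟨α, hα⟩ := key _ (mul_mem_pow a1 a1)
  obtain ⟨β, hβ⟩ := key _ (mul_mem_pow a1 b1)
  obtain ⟨γ, hγ⟩ := key _ (mul_mem_pow b1 b1)
  have hβ' : b * a - β • w ∈ h.rad ^ 3 := by
    have := sub_mem hβ (hK (sub_mem_cm a b))
    rwa [sub_sub_sub_cancel_left] at this
  by_cases hd : α * γ - β * β = 0
  · rcases eq_or_ne α 0 with rfl | h0
    · obtain rfl : β = 0 := by simpa using hd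
      exact g.symm.comm_of_rad (by simpa using hβ') (by simpa using hβ) (by simpa using hα) x y
    · have g' := g.change (α := 1) (β := 0) (γ := -β) (δ := α) (by simpa using h0)
      rw [one_smul, zero_smul, add_zero] at g'
      refine g'.comm_of_rad ?_ ?_ ?_ x y
      · convert add_mem (smul_mem _ (-β) hα) (smul_mem _ α hβ) using 1
        simp only [mul_add, mul_smul_comm]
        module
      · convert add_mem (smul_mem _ (-β) hα) (smul_mem _ α hβ') using 1
        simp only [add_mul, smul_mul_assoc]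
        module
      · convert add_mem (add_mem (smul_mem _ (β * β) hα) (smul_mem _ (-(α * β)) hβ))
          (add_mem (smul_mem _ (-(α * β)) hβ') (smul_mem _ (α * α) hγ)) using 1
        simp only [add_mul, mul_add, smul_mul_assoc, mul_smul_comm]
        match_scalars <;> first | ring1 | linear_combination α * hd
  · refine h.comm_of_pow_three (h.eq_bot_of_le ?_) x y
    have e1 : w * a ∈ h.rad ^ 4 := by
      refine (smul_mem_iff _ hd).1 ?_
      convert add_mem (sub_mem (smul_mem _ β (mul_mem_pow hβ' a1)) (smul_mem _ α (mul_mem_pow hγ a1)))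
        (h.up (sub_mem (smul_mem _ α (mul_mem_pow b1 hβ')) (smul_mem _ β (mul_mem_pow b1 hα))))
        using 1
      simp only [sub_mul, mul_sub, smul_mul_assoc, mul_smul_comm, mul_assoc]
      module
    have e2 : w * b ∈ h.rad ^ 4 := by
      refine (smul_mem_iff _ hd).1 ?_
      convert add_mem (sub_mem (smul_mem _ β (mul_mem_pow hβ b1)) (smul_mem _ γ (mul_mem_pow hα b1)))
        (h.up (sub_mem (smul_mem _ γ (mul_mem_pow a1 hβ)) (smul_mem _ β (mul_mem_pow a1 hγ))))
        using 1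
      simp only [sub_mul, mul_sub, smul_mul_assoc, mul_smul_comm, mul_assoc]
      module
    rw [pow_succ]
    refine mul_le.2 fun s hs z hz => (hw'.trans (sup_le ((span_singleton_le_iff_mem _ _).2 ?_)
      fun j hj => mul_mem_pow hj (h.mem_one hz)) :
        _ ≤ (h.rad ^ 4).comap (LinearMap.mulRight k z)) hs
    have := g.ind (P := (h.rad ^ 4).comap (LinearMap.mulLeft k w)) (mem_comap.2 e1)
      (mem_comap.2 e2) (fun j hj => mem_comap.2 (mul_mem_pow (m := 2) hw hj)) hz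
    exact mem_comap.2 (mem_comap.1 this)

end Gen2

end Cfsg.Lib.Block.SymLoc
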