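import Cfsg.Agent.Block.SLFiveD
import Cfsg.Agent.Block.SLFiveE

/-!
Symmetric local algebras with five-dimensional centre have dimension five or eight.
-/

set_option autoImplicit false

open Module Submodule

namespace Cfsg.Lib.Block.SymLoc

variable {k A : Type*} [Field k] [Ring A] [Algebra k A] {l : A →ₗ[k] k}

namespace Gen2

variable {h : IsSL l} {a b : A} (g : Gen2 h a b)
include g

theorem x_mem (i : ℕ) : (a * b) ^ i ∈ h.rad ^ (2 * i) := by
  rw [pow_mul]
  exact pow_mem_pow _ (mul_mem_pow g.a1 g.b1) i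

variable (haa : a * a ∈ h.rad ^ 3) (hbb : b * b ∈ h.rad ^ 3)
include haa hbb

theorem words (i : ℕ) :
    h.rad ^ (2 * i + 1) ≤ span k {a * (b * a) ^ i, b * (a * b) ^ i} ⊔ h.rad ^ (2 * i + 1 + 1) ∧
    h.rad ^ (2 * i + 2) ≤ span k {(a * b) ^ (i + 1), (b * a) ^ (i + 1)} ⊔ h.rad ^ (2 * i + 2 + 1) := by
  have step : ∀ i, h.rad ^ (2 * i + 1) ≤
      span k {a * (b * a) ^ i, b * (a * b) ^ i} ⊔ h.rad ^ (2 * i + 1 + 1) →
      h.rad ^ (2 * i + 2) ≤
        span k {(a * b) ^ (i + 1), (b * a) ^ (i + 1)} ⊔ h.rad ^ (2 * i + 2 + 1) := fun i H => by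
    refine g.le_left H ?_ ?_ le_sup_right
    · rintro _ (rfl | rfl)
      · rw [← mul_assoc]
        exact mem_sup_right (h.up (mul_mem_pow haa (g.symm.x_mem i)))
      · rw [← mul_assoc, ← pow_succ']
        exact mem_sup_left (mem_pair_left _ _)
    · rintro _ (rfl | rfl)
      · rw [← mul_assoc, ← pow_succ']
        exact mem_sup_left (mem_pair_right _ _)
      · rw [← mul_assoc]
        exact mem_sup_right (h.up (mul_mem_pow hbb (g.x_mem i)))
  induction i with
  | zero =>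
    have H : h.rad ^ (2 * 0 + 1) ≤
      span k {a * (b * a) ^ 0, b * (a * b) ^ 0} ⊔ h.rad ^ (2 * 0 + 1 + 1) := by simpa using g.le
    exact ⟨H, step 0 H⟩
  | succ i ih =>
    have H : h.rad ^ (2 * (i + 1) + 1) ≤ span k {a * (b * a) ^ (i + 1), b * (a * b) ^ (i + 1)} ⊔
        h.rad ^ (2 * (i + 1) + 1 + 1) := by
      refine g.le_left (i := 2 * i + 2) ih.2 ?_ ?_ le_sup_right
      · rintro _ (rfl | rfl)
        · have := mul_mem_pow (mul_mem_pow haa g.b1) (g.x_mem i)
          rw [mul_assoc a, mul_assoc a, ← pow_succ'] at this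
          exact mem_sup_right (h.up this)
        · exact mem_sup_left (mem_pair_left _ _)
      · rintro _ (rfl | rfl)
        · exact mem_sup_left (mem_pair_right _ _)
        · have := mul_mem_pow (mul_mem_pow hbb g.a1) (g.symm.x_mem i)
          rw [mul_assoc b, mul_assoc b, ← pow_succ'] at this
          exact mem_sup_right (h.up this)
    exact ⟨H, step _ H⟩

omit hbb in
theorem odd_zero {i : ℕ} (htop : h.rad ^ (2 * i + 3 + 1) = ⊥) : l (a * (b * a) ^ (i + 1)) = 0 := by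
  rw [pow_succ, ← mul_assoc, ← mul_assoc, h.comm, ← mul_assoc, ← mul_assoc]
  exact h.apply_eq_zero htop (by omega) (mul_mem_pow (mul_mem_pow haa (g.symm.x_mem i)) g.b1)

theorem odd_eq_bot {i : ℕ} (htop : h.rad ^ (2 * i + 3 + 1) = ⊥) : h.rad ^ (2 * i + 3) = ⊥ := by
  by_contra hne
  obtain ⟨s, hs, hs'⟩ := h.exists_apply_ne_zero hne
  exact hs' (((g.words haa hbb (i + 1)).1.trans (sup_le
    (pair_le (g.odd_zero haa htop) (g.symm.odd_zero hbb htop))
    fun j hj => h.apply_eq_zero htop (by omega) hj) : _ ≤ LinearMap.ker l) hs)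

omit g haa hbb in
theorem mu_symm (h : IsSL l) (a b : A) (i : ℕ) : l ((b * a) ^ (i + 1)) = l ((a * b) ^ (i + 1)) := by
  rw [pow_succ, ← mul_assoc, h.comm, ← mul_assoc, ← mul_pow_mul, mul_assoc, ← pow_succ]

theorem mu_ne {i : ℕ} (hne : h.rad ^ (2 * i + 1 + 1) ≠ ⊥) (htop : h.rad ^ (2 * i + 2 + 1) = ⊥) :
    l ((a * b) ^ (i + 1)) ≠ 0 := fun H => by
  obtain ⟨s, hs, hs'⟩ := h.exists_apply_ne_zero hne
  exact hs' (((g.words haa hbb i).2.trans (sup_le (pair_le H ((mu_symm h a b i).trans H))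
    fun j hj => h.apply_eq_zero htop (by omega) hj) : _ ≤ LinearMap.ker l) hs)

theorem ad_mem {P : Submodule k A} (h5 : h.rad ^ 5 ≤ P)
    (e0 : a * b * (a * b) - b * a * (b * a) ∈ P) (e1 : a * b - b * a ∈ P)
    (e2 : a * (a * b) - a * b * a ∈ P) (y : A) : a * y - y * a ∈ P := by
  have a1 := g.a1
  have b1 := g.b1
  have w2 : h.rad ^ 2 ≤ span k {a * b, b * a} ⊔ h.rad ^ 3 := by simpa using (g.words haa hbb 0).2
  have w3 : h.rad ^ 3 ≤ span k {a * (b * a), b * (a * b)} ⊔ h.rad ^ 4 := by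
    simpa using (g.words haa hbb 1).1
  have e3 : a * a * b - b * (a * a) ∈ P := by
    refine mem_comap.1 ((w3.trans (sup_le (pair_le (mem_comap.2 ?_) (mem_comap.2 (h5 ?_)))
      fun j hj => mem_comap.2 (h5 (sub_mem (mul_mem_pow hj b1) (h.up (mul_mem_pow b1 hj))))) :
      _ ≤ P.comap (LinearMap.mulRight k b - LinearMap.mulLeft k b)) haa)
    · simpa [mul_assoc] using e0
    · simpa [mul_assoc] using sub_mem (mul_mem_pow (mul_mem_pow b1 a1) hbb)
        (h.up (mul_mem_pow hbb (mul_mem_pow a1 b1)))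
  refine mem_comap.1 (g.top_le (P := P.comap (LinearMap.mulLeft k a - LinearMap.mulRight k a))
    (by simp) (by simp) (mem_comap.2 e1) (w2.trans (sup_le (pair_le (mem_comap.2 e2)
      (mem_comap.2 ?_)) (w3.trans (sup_le (pair_le (mem_comap.2 (h5 ?_)) (mem_comap.2 ?_))
      fun j hj => mem_comap.2 (h5 (sub_mem (h.up (mul_mem_pow a1 hj)) (mul_mem_pow hj a1))))))) y)
  · simpa [mul_assoc] using sub_mem e3 e2
  · simpa [mul_assoc] using sub_mem (mul_mem_pow haa (mul_mem_pow b1 a1))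
      (h.up (mul_mem_pow (mul_mem_pow a1 b1) haa))
  · simpa [mul_assoc] using e0

variable [FiniteDimensional k A]

theorem long_false {e : ℕ} (hne : h.rad ^ (2 * e + 6) ≠ ⊥) (htop : h.rad ^ (2 * e + 6 + 1) = ⊥)
    (h3 : h.rad ^ 3 ≤ cm k A ⊔ h.rad ^ 5) : False := by
  have a1 := g.a1
  have b1 := g.b1
  have hμ := g.mu_ne haa hbb (i := e + 2) hne htop
  have hμ' := mu_symm h a b (e + 2)
  have z : ∀ {m : ℕ} {x : A}, x ∈ h.rad ^ m → (hm : 2 * e + 6 + 1 ≤ m := by omega) → l x = 0 :=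
    fun hx hm => h.apply_eq_zero htop hm hx
  have X := g.x_mem
  have Y := g.symm.x_mem
  let ψ : A →ₗ[k] k := l ∘ₗ LinearMap.mulRight k ((a * b) ^ (e + 1) + (b * a) ^ (e + 1))
  have hψ : ∀ w, ψ w = l (w * (a * b) ^ (e + 1)) + l (w * (b * a) ^ (e + 1)) := fun w => by
    simp [ψ, mul_add]
  have p1 : a * b * (a * b) * (a * b) ^ (e + 1) = (a * b) ^ (e + 2 + 1) := by
    rw [← sq, ← pow_add]; congr 1; omega
  have p2 : b * a * (b * a) * (b * a) ^ (e + 1) = (b * a) ^ (e + 2 + 1) := by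
    rw [← sq, ← pow_add]; congr 1; omega
  have ψ1 : ψ (a * b * (a * b)) = l ((a * b) ^ (e + 2 + 1)) := by
    have := z (mul_mem_pow (mul_mem_pow (mul_mem_pow (mul_mem_pow a1 b1) a1) hbb)
      (mul_mem_pow a1 (Y e)))
    rw [hψ, p1, pow_succ' (b * a)]
    simpa [mul_assoc] using this
  have ψ2 : ψ (b * a * (b * a)) = l ((a * b) ^ (e + 2 + 1)) := by
    have := z (mul_mem_pow (mul_mem_pow (mul_mem_pow (mul_mem_pow b1 a1) b1) haa)
      (mul_mem_pow b1 (X e)))
    rw [hψ, p2, hμ', pow_succ' (a * b) e]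
    simpa [mul_assoc] using this
  let N : Submodule k A := h.rad ^ 4 ⊓ LinearMap.ker ψ
  have hN : h.rad ^ 5 ≤ N := fun j hj => ⟨h.pow_succ_le 3 hj, show ψ j = 0 by
    rw [hψ, z (mul_mem_pow hj (X _)), z (mul_mem_pow hj (Y _)), add_zero]⟩
  let P : Submodule k A := span k {a * b - b * a} ⊔
    (span k {a * (a * b) - a * b * a, b * (b * a) - b * a * b} ⊔ N)
  have hNP : N ≤ P := le_sup_of_le_right le_sup_right
  have e0 : a * b * (a * b) - b * a * (b * a) ∈ P := hNP
    ⟨sub_mem (mul_mem_pow (mul_mem_pow a1 b1) (mul_mem_pow a1 b1))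
      (mul_mem_pow (mul_mem_pow b1 a1) (mul_mem_pow b1 a1)),
      show ψ _ = 0 by rw [map_sub, ψ1, ψ2, sub_self]⟩
  have e1 : a * b - b * a ∈ P := mem_sup_left (mem_span_singleton_self _)
  have ha := g.ad_mem haa hbb (hN.trans hNP) e0 e1
    (mem_sup_right (mem_sup_left (mem_pair_left _ _)))
  have hb := g.symm.ad_mem hbb haa (hN.trans hNP) (by simpa using neg_mem e0)
    (by simpa using neg_mem e1) (mem_sup_right (mem_sup_left (mem_pair_right _ _)))
  have hK : cm k A ≤ P := span_le.2 (by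
    rintro _ ⟨x, y, rfl⟩
    show x * y - y * x ∈ P
    have hx : x ∈ Algebra.adjoin k {a, b} := g.adjoin_eq ▸ Algebra.mem_top
    induction hx using Algebra.adjoin_induction generalizing y with
    | mem x hx =>
      rcases hx with rfl | rfl
      exacts [ha y, hb y]
    | algebraMap r =>
      rw [Algebra.commutes, sub_self]
      exact zero_mem _
    | add x x' _ _ h1 h2 =>
      convert add_mem (h1 y) (h2 y) using 1
      noncomm_ring
    | mul x x' _ _ h1 h2 =>
      convert add_mem (h1 (x' * y)) (h2 (y * x)) using 1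
      noncomm_ring)
  have h4 : a * b * (a * b) ∈ h.rad ^ 4 := mul_mem_pow (mul_mem_pow a1 b1) (mul_mem_pow a1 b1)
  obtain ⟨u, hu, v, hv, h5⟩ := mem_sup.1 ((h3.trans (sup_le hK (hN.trans hNP))) (h.up h4))
  obtain ⟨α, rfl⟩ := mem_span_singleton.1 hu
  obtain ⟨u', hu', ν, hν, rfl⟩ := mem_sup.1 hv
  obtain ⟨β, γ, rfl⟩ := mem_span_pair.1 hu'
  have c1 : a * (a * b) - a * b * a ∈ h.rad ^ 3 :=
    sub_mem (h.up (mul_mem_pow a1 (mul_mem_pow a1 b1))) (mul_mem_pow (mul_mem_pow a1 b1) a1)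
  have c2 : b * (b * a) - b * a * b ∈ h.rad ^ 3 :=
    sub_mem (h.up (mul_mem_pow b1 (mul_mem_pow b1 a1))) (mul_mem_pow (mul_mem_pow b1 a1) b1)
  have hα : α = 0 := by
    have h6 := congrArg (fun w => l (w * (a * b) ^ (e + 2))) h5
    simp only [add_mul, map_add, smul_mul_assoc, map_smul, z (mul_mem_pow c1 (X (e + 2))),
      z (mul_mem_pow c2 (X (e + 2))), z (mul_mem_pow hν.1 (X (e + 2))),
      z (mul_mem_pow h4 (X (e + 2))), smul_zero, add_zero] at h6
    have h7 : l (b * a * (a * b) ^ (e + 2)) = 0 := by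
      have := z (mul_mem_pow (mul_mem_pow b1 haa) (mul_mem_pow b1 (X (e + 1))))
      rw [pow_succ' (a * b)]
      simpa [mul_assoc] using this
    rw [sub_mul, map_sub, h7, sub_zero, ← pow_succ'] at h6
    exact (smul_eq_zero.1 h6).resolve_right hμ
  subst hα
  have hβ : β = 0 := by
    have h6 := congrArg (fun w => l (w * (b * (a * b) ^ (e + 1)))) h5
    have B := mul_mem_pow b1 (X (e + 1))
    have h7 : l ((b * (b * a) - b * a * b) * (b * (a * b) ^ (e + 1))) = 0 := by
      have h8 := z (mul_mem_pow (mul_mem_pow hbb a1) B)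
      have h9 := z (mul_mem_pow (mul_mem_pow (mul_mem_pow b1 a1) hbb) (X (e + 1)))
      simp only [mul_assoc] at h8 h9
      simp [sub_mul, mul_assoc, h8, h9]
    have h8 : l ((a * (a * b) - a * b * a) * (b * (a * b) ^ (e + 1))) =
        -l ((a * b) ^ (e + 2 + 1)) := by
      have h9 := z (mul_mem_pow (mul_mem_pow haa b1) B)
      rw [← p1]
      simp only [mul_assoc] at h9
      simp [sub_mul, mul_assoc, h9]
    simp only [add_mul, map_add, smul_mul_assoc, map_smul, h7, h8, z (mul_mem_pow hν.1 B),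
      z (mul_mem_pow h4 B), smul_zero, add_zero, zero_smul, zero_add] at h6
    exact (smul_eq_zero.1 h6).resolve_right (neg_ne_zero.2 hμ)
  subst hβ
  have hγ : γ = 0 := by
    have h6 := congrArg (fun w => l (w * (a * (b * a) ^ (e + 1)))) h5
    have B := mul_mem_pow a1 (Y (e + 1))
    have h8 : l ((b * (b * a) - b * a * b) * (a * (b * a) ^ (e + 1))) =
        -l ((a * b) ^ (e + 2 + 1)) := by
      have h9 := z (mul_mem_pow (mul_mem_pow hbb a1) B)
      rw [← hμ', ← p2]
      simp only [mul_assoc] at h9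
      simp [sub_mul, mul_assoc, h9]
    simp only [add_mul, map_add, smul_mul_assoc, map_smul, h8, z (mul_mem_pow hν.1 B),
      z (mul_mem_pow h4 B), smul_zero, add_zero, zero_smul, zero_add] at h6
    exact (smul_eq_zero.1 h6).resolve_right (neg_ne_zero.2 hμ)
  subst hγ
  simp only [zero_smul, zero_add, add_zero] at h5
  exact hμ (ψ1.symm.trans (h5 ▸ hν.2))

theorem finrank_cube (hne : h.rad ^ 4 ≠ ⊥) (htop : h.rad ^ 5 = ⊥) :
    3 ≤ finrank k ↥(h.rad ^ 3) := by
  have a1 := g.a1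
  have b1 := g.b1
  have hμ := g.mu_ne haa hbb (i := 1) hne htop
  have hμ' := mu_symm h a b 1
  have h1 : h.rad ^ 4 < h.rad ^ 4 ⊔ span k {a * b * a} := lt_of_le_of_ne le_sup_left fun H => by
    have h2 : a * b * a ∈ h.rad ^ 4 := H ▸ mem_sup_right (mem_span_singleton_self _)
    have := h.apply_eq_zero htop (m := 4 + 1) le_rfl (mul_mem_pow h2 b1)
    exact hμ (by simpa [pow_succ, mul_assoc] using this)
  have h2 : h.rad ^ 4 ⊔ span k {a * b * a} < h.rad ^ 3 := by
    refine lt_of_le_of_ne (sup_le (h.pow_succ_le 2) ((span_singleton_le_iff_mem _ _).2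
      (mul_mem_pow (mul_mem_pow a1 b1) a1))) fun H => ?_
    have h3 : h.rad ^ 4 ⊔ span k {a * b * a} ≤ LinearMap.ker (l ∘ₗ LinearMap.mulRight k a) := by
      refine sup_le (fun j hj => h.apply_eq_zero htop (m := 4 + 1) le_rfl (mul_mem_pow hj a1))
        ((span_singleton_le_iff_mem _ _).2 ?_)
      simpa [mul_assoc] using h.apply_eq_zero htop (m := 1 + 1 + 3) le_rfl
        (mul_mem_pow (mul_mem_pow a1 b1) haa)
    have := h3 (H ▸ mul_mem_pow (mul_mem_pow b1 a1) b1)
    exact hμ (hμ'.symm.trans (by simpa [pow_succ, mul_assoc] using this))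
  have h3 := finrank_lt_finrank_of_lt h1
  have h4 := finrank_lt_finrank_of_lt h2
  have h5 := finrank_lt_finrank_of_lt (bot_lt_iff_ne_bot.2 hne)
  omega

theorem caseD {n : ℕ} (hne : h.rad ^ (n + 4) ≠ ⊥) (htop : h.rad ^ (n + 5) = ⊥)
    (h3 : h.rad ^ 3 ≤ cm k A ⊔ h.rad ^ (n + 4))
    (hr : finrank k h.rad = finrank k ↥(h.rad ^ 2) + 2)
    (hr2 : finrank k ↥(h.rad ^ 2) = finrank k ↥(h.rad ^ 3) + 2) : finrank k A = 8 := by
  obtain ⟨i, rfl | rfl⟩ := Nat.even_or_odd' n
  · cases i with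
    | zero =>
      have h4 := g.finrank_cube haa hbb hne htop
      have h5 := finrank_mono (h.pow_le_an (i := 2) (j := 3) htop le_rfl)
      have h6 := h.finrank_an 2
      have h7 := h.finrank_rad
      omega
    | succ e =>
      exact (g.long_false haa hbb (e := e) hne htop
        (h3.trans (sup_le_sup_left (h.pow_le_pow (by omega)) _))).elim
  · exact absurd (g.odd_eq_bot haa hbb (i := i + 1) htop) hne

omit haa hbb

theorem caseII [IsAlgClosed k] (hK : ¬ cm k A ≤ h.rad ^ 3) {n : ℕ} (hne : h.rad ^ (n + 4) ≠ ⊥)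
    (htop : h.rad ^ (n + 5) = ⊥) (h3 : h.rad ^ 3 ≤ cm k A ⊔ h.rad ^ (n + 4))
    (hr : finrank k h.rad = finrank k ↥(h.rad ^ 2) + 2)
    (hr2 : finrank k ↥(h.rad ^ 2) = finrank k ↥(h.rad ^ 3) + 2) : finrank k A = 8 := by
  have h3' : h.rad ^ 3 ≤ cm k A ⊔ h.rad ^ 4 :=
    h3.trans (sup_le_sup_left (h.pow_le_pow (by omega)) _)
  have hA : ∀ {a b : A}, Gen2 h a b → a * b ∉ h.rad ^ 3 := fun g H => g.caseA hK h3' hne htop H
  let N : Submodule k ↥(h.rad ^ 2) := (h.rad ^ 3).comap (h.rad ^ 2).subtype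
  have hN : finrank k (↥(h.rad ^ 2) ⧸ N) = 2 := by
    have h1 := N.finrank_quotient_add_finrank
    have h2 : finrank k N = finrank k ↥(h.rad ^ 3) :=
      (comapSubtypeEquivOfLe (h.pow_succ_le 1)).finrank_eq
    omega
  have hB : ∀ {a b : A}, Gen2 h a b → a * a ∈ h.rad ^ 3 → finrank k A = 8 := by
    intro a b g haa
    have a1 := g.a1
    have b1 := g.b1
    let ψ : (Fin 3 → k) →ₗ[k] ↥(h.rad ^ 2) := Fintype.linearCombination k
      ![⟨a * b, mul_mem_pow a1 b1⟩, ⟨b * a, mul_mem_pow b1 a1⟩, ⟨b * b, mul_mem_pow b1 b1⟩]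
    obtain ⟨t, ht, ht0⟩ := (Submodule.ne_bot_iff _).1 (LinearMap.ker_ne_bot_of_finrank_lt
      (f := N.mkQ ∘ₗ ψ) (by simp [hN]))
    have h4 : t 0 • (a * b) + t 1 • (b * a) + t 2 • (b * b) ∈ h.rad ^ 3 := by
      have : (ψ t : A) ∈ h.rad ^ 3 := (Quotient.mk_eq_zero N).1 ht
      simpa [ψ, Fintype.linearCombination_apply, Fin.sum_univ_three] using this
    rcases eq_or_ne (t 2) 0 with h2 | h2
    · rw [h2, zero_smul, add_zero] at h4
      rcases eq_or_ne (t 1) 0 with h1 | h1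
      · have h0 : t 0 ≠ 0 := fun h0 => ht0 (by ext i; fin_cases i <;> assumption)
        rw [h1, zero_smul, add_zero] at h4
        exact absurd ((smul_mem_iff _ h0).1 h4) (hA g)
      · refine absurd (le_bot_iff.1 ((h.pow_le_pow (by omega)).trans
          (g.caseQ hK h3' haa (q := -(t 0 / t 1)) ((smul_mem_iff _ h1).1 ?_)).le)) hne
        convert h4 using 1
        match_scalars <;> field_simp
    · have h5 : (t 0 • a + t 2 • b) * (t 1 • a + t 2 • b) ∈ h.rad ^ 3 := by
        convert add_mem (smul_mem _ (t 2) h4) (smul_mem _ (t 0 * t 1) haa) using 1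
        simp only [add_mul, mul_add, smul_mul_assoc, mul_smul_comm]
        module
      rcases eq_or_ne (t 0) (t 1) with h1 | h1
      · have g' := g.change (α := 1) (β := 0) (γ := t 1) (δ := t 2) (by simpa using h2)
        rw [one_smul, zero_smul, add_zero] at g'
        rw [h1] at h5
        exact g'.caseD haa h5 hne htop h3 hr hr2
      · refine absurd h5 (hA (g.change ?_))
        rw [mul_comm (t 2), ← sub_mul]
        exact mul_ne_zero (sub_ne_zero.2 h1) h2
  have hC : ∀ {a b : A}, Gen2 h a b → ∀ s t : k, (s ≠ 0 ∨ t ≠ 0) →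
      a * (s • a + t • b) ∈ h.rad ^ 3 → finrank k A = 8 := by
    intro a b g s t hst H
    rcases eq_or_ne t 0 with rfl | ht
    · rw [zero_smul, add_zero, mul_smul_comm] at H
      exact hB g ((smul_mem_iff _ (by simpa using hst)).1 H)
    · have g' := g.change (α := 1) (β := 0) (γ := s) (δ := t) (by simpa using ht)
      rw [one_smul, zero_smul, add_zero] at g'
      exact absurd H (hA g')
  have a1 := g.a1
  have b1 := g.b1
  let F : (k × k) →ₗ[k] ↥(h.rad ^ 2) := LinearMap.coprod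
    (LinearMap.toSpanSingleton k _ ⟨a * a, mul_mem_pow a1 a1⟩)
    (LinearMap.toSpanSingleton k _ ⟨a * b, mul_mem_pow a1 b1⟩)
  let F' : (k × k) →ₗ[k] ↥(h.rad ^ 2) := LinearMap.coprod
    (LinearMap.toSpanSingleton k _ ⟨b * a, mul_mem_pow b1 a1⟩)
    (LinearMap.toSpanSingleton k _ ⟨b * b, mul_mem_pow b1 b1⟩)
  have hv : ∀ v : k × k, v ≠ 0 → v.1 ≠ 0 ∨ v.2 ≠ 0 := fun v hv => by
    by_contra! H
    exact hv (Prod.ext H.1 H.2)
  rcases pencil (N.mkQ ∘ₗ F) (N.mkQ ∘ₗ F') (by simp [hN]) with ⟨v, h1, h2⟩ | ⟨t, v, h1, h2⟩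
  · refine hC g v.1 v.2 (hv v h1) ?_
    have : (F v : A) ∈ h.rad ^ 3 := (Quotient.mk_eq_zero N).1 h2
    simpa [F, mul_add] using this
  · have h4 : ((F' v - t • F v : ↥(h.rad ^ 2)) : A) ∈ h.rad ^ 3 := by
      refine (Submodule.Quotient.eq N).1 ?_
      exact h2
    refine hC (g.change (α := -t) (β := 1) (γ := 1) (δ := 0) (by simp)) v.2 (v.1 + t * v.2) ?_ ?_
    · rcases eq_or_ne v.2 0 with h5 | h5
      · exact Or.inr (by simpa [h5] using hv v h1)
      · exact Or.inl h5
    · convert h4 using 1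
      simp only [F, F', LinearMap.coprod_apply, LinearMap.toSpanSingleton_apply, Submodule.coe_sub,
        Submodule.coe_add, Submodule.coe_smul, add_mul, mul_add, smul_mul_assoc, mul_smul_comm]
      module

end Gen2

/-- A non-commutative symmetric local algebra with centre of dimension five has dimension
eight. -/
theorem IsSL.finrank_eq_eight [IsAlgClosed k] [FiniteDimensional k A] (h : IsSL l)
    (hZ : finrank k (Subalgebra.center k A) = 5) (hc : ¬ ∀ a b : A, a * b = b * a) :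
    finrank k A = 8 := by
  have h3 : h.rad ^ 3 ≠ ⊥ := fun h3 => hc (h.comm_of_pow_three h3)
  obtain ⟨n, hne, htop⟩ := h.exists_loewy h3
  obtain ⟨s, hs, hs'⟩ := h.exists_apply_ne_zero hne
  have h1 : cm k A < cm k A ⊔ h.rad ^ (n + 3) := lt_of_le_of_ne le_sup_left fun h1 =>
    hs' (h.apply_cm (h1 ▸ mem_sup_right hs))
  have h2 := finrank_lt_finrank_of_lt h1
  have h4 := h.finrank_center
  have h5 := h.finrank_rad
  have h6' : cm k A ⊔ h.rad ^ (n + 3) ≤ cm k A ⊔ h.rad ^ 3 :=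
    sup_le_sup_left (h.pow_le_pow (by omega)) _
  have h6 : cm k A ⊔ h.rad ^ 3 ≤ h.rad ^ 2 := sup_le h.cm_le (h.pow_succ_le 1)
  have h8 : finrank k ↥(h.rad ^ 2) + 2 ≤ finrank k h.rad := by
    by_contra H
    exact hc (h.comm_of_finrank_le (by omega))
  have h9 : finrank k h.rad ≤ finrank k ↥(h.rad ^ 2) + 2 → ¬ h.rad ^ 2 ≤ cm k A ⊔ h.rad ^ 3 :=
    fun H h7 => by
      obtain ⟨x, hx, y, hy, h8⟩ := exists_le_span_pair_sup h.sq_le H
      exact h3 (h.eq_bot_of_le (pow_three_le hx hy h8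
        (h7.trans (sup_le (h.cm_le_span_sup hx hy h8) le_sup_right))))
  by_cases h7 : h.rad ^ 2 ≤ cm k A ⊔ h.rad ^ (n + 3)
  · have h10 := finrank_mono (h6'.trans h6)
    have hr : finrank k h.rad = finrank k ↥(h.rad ^ 2) + 3 := by
      by_contra H
      exact h9 (by omega) (h7.trans h6')
    cases n with
    | zero => exact h.finrank_eq_of_three hne htop h7 hr
    | succ n =>
      exact (h.false_of_three hne htop
        (h7.trans (sup_le_sup_left (h.pow_le_pow (by omega)) _)) hr).elim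
  · have h10 := finrank_lt_finrank_of_lt (lt_of_le_not_ge (h6'.trans h6) h7)
    have h11 := finrank_lt_finrank_of_lt (lt_of_le_not_ge h6 (h9 (by omega)))
    have h12 : cm k A ⊔ h.rad ^ (n + 3) = cm k A ⊔ h.rad ^ 3 :=
      eq_of_le_of_finrank_le h6' (by omega)
    obtain ⟨a, ha, b, hb, hab⟩ := exists_le_span_pair_sup h.sq_le (by omega)
    have g : Gen2 h a b := ⟨ha, hb, hab⟩
    by_cases hK : cm k A ≤ h.rad ^ 3
    · rw [sup_eq_right.2 hK] at h12
      rw [h12] at h2
      exact absurd (g.caseI hK (by omega)) hc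
    · cases n with
      | zero =>
        refine (g.not_mem hK ?_).elim
        rw [g.comm_of_four htop, sub_self]
        exact zero_mem _
      | succ n =>
        refine g.caseII hK hne htop (le_sup_right.trans h12.ge) (by omega) ?_
        have h13 := finrank_lt_finrank_of_lt (lt_of_le_not_ge (le_sup_right (a := cm k A)
          (b := h.rad ^ 3)) fun H => hK (le_sup_left.trans H))
        have h14 := finrank_mono (sup_le (h.cm_le_span_sup ha hb hab) le_sup_right)
        have h15 := finrank_add_le_finrank_add_finrank (span k {a * b - b * a}) (h.rad ^ 3)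
        have h16 := finrank_span_one_le (k := k) (a * b - b * a)
        rw [h12] at h2
        omega

end Cfsg.Lib.Block.SymLoc
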