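import Cfsg.Agent.Block.StarLin
import Cfsg.Agent.Block.PairPrinc
import Cfsg.Agent.Block.PrincRank
import Cfsg.Agent.Block.PrincBurn
import Cfsg.Agent.Block.Contrib

/-!
The star construction for the principal block.
-/

set_option autoImplicit false

open Cfsg Cfsg.Lib.Char Cfsg.Lib.Block.Pair Cfsg.Lib.Block.Princ Subgroup
open scoped MonoidAlgebra ComplexConjugate

namespace Cfsg.Lib.Block

variable {G : Type*} [Group G] {p : ℕ} {M : Ideal AlgInt}

theorem card_le_blockRank_of_orth [Fintype G] {B : Set (IrrCharacter G)} {ι : Type*} [Fintype ι]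
    (f : ι → IrrCharacter G) (hf : ∀ i, f i ∈ B)
    (h0 : ∀ i, classInner (pRegularPart p (f i : G → ℂ)) (f i) ≠ 0)
    (h : ∀ i j, i ≠ j → classInner (pRegularPart p (f i : G → ℂ)) (f j) = 0) :
    Fintype.card ι ≤ blockRank p B := by
  have h1 : LinearIndependent ℂ fun i => pRegularPart p (f i : G → ℂ) := by
    refine Fintype.linearIndependent_iff.2 fun c hc j => ?_
    have h2 := congrArg (innerLin (f j : G → ℂ)) hc
    rw [map_sum, map_zero, Finset.sum_eq_single j (fun i _ hi => by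
      rw [map_smul, innerLin_apply, h i j hi, smul_zero]) (by simp), map_smul, innerLin_apply] at h2
    exact (smul_eq_zero.1 h2).resolve_right (h0 j)
  exact (LinearIndependent.of_comp (Submodule.subtype _) (v := fun i =>
    (⟨pRegularPart p (f i : G → ℂ), Submodule.subset_span ⟨f i, hf i, rfl⟩⟩ : Submodule.span ℂ
      ((fun χ : IrrCharacter G => pRegularPart p (χ : G → ℂ)) '' B))) h1).fintype_card_le_finrank

theorem central_eq_of_classInner_ne_zero [Fintype G] {φ χ : G → ℂ} (hχ : IsIrrCharacter G χ)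
    {z : G} (hz : z ∈ center G) {μ : ℂ} (hφ : ∀ g, φ (z * g) = μ * φ g)
    (h : classInner φ χ ≠ 0) : χ z / χ 1 = μ := by
  have h1 : ∀ {φ : G → ℂ} {μ : ℂ}, (∀ g, φ (z * g) = μ * φ g) → classInner φ χ ≠ 0 →
      μ * conj (χ z / χ 1) = 1 := fun {φ μ} hφ h => by
    refine mul_right_cancel₀ h ?_
    rw [one_mul, classInner, mul_left_comm, Finset.mul_sum, ← Equiv.sum_comp (Equiv.mulLeft z)
      fun g => φ g * conj (χ g)]
    congr 1
    refine Finset.sum_congr rfl fun g _ => ?_
    rw [Equiv.coe_mulLeft, hφ, irr_mul_center hχ hz g, map_mul]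
    ring
  have h2 := h1 hφ h
  have h3 := h1 (irr_mul_center hχ hz) (by rw [hχ.classInner_self]; exact one_ne_zero)
  linear_combination μ * h3 - χ z / χ 1 * h2

namespace Star

variable [Finite G] [hp : Fact p.Prime]

/-- The principal block idempotent of the centralizer of a Sylow subgroup. -/
noncomputable abbrev eP (M : Ideal AlgInt) (P : Sylow p G) : (kM M)[G] :=
  hat M _ (principalBlock M (centralizer ((P : Subgroup G) : Set G)))

variable (hM : IsPModular p M) {P : Sylow p G} {u v : G}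
  {l : ↥(P : Subgroup G) → ℂ} {θ : G → ℂ}
include hM

theorem ef_princ (hu : u ∈ (P : Subgroup G)) (hv : v ∈ (P : Subgroup G)) :
    EF p (P : Subgroup G) (eP M P) u v ↔ IsConj u v := by
  refine ⟨EF.isConj, fun h => ?_⟩
  obtain ⟨g, rfl⟩ := isConj_iff.1 h
  exact ⟨g, rfl, (isMax_principal hM P).fuses_principal hM (zpowers_le.2 hu)
    (by rw [map_conj_zpowers]; exact zpowers_le.2 hv)⟩

theorem dl_princ (hu : u ∈ (P : Subgroup G)) (w : (P : Subgroup G)) [Decidable (IsConj u w)] :
    dl p (P : Subgroup G) (eP M P) u w = if IsConj u w then 1 else 0 := by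
  split_ifs with h
  exacts [dl_of_ef ((ef_princ hM hu w.2).2 h), dl_of_not (mt (ef_princ hM hu w.2).1 h)]

theorem subBlk_princ (hu : u ∈ (P : Subgroup G)) :
    subBlk p M P (eP M P) u = principalBlock M (centralizer ({u} : Set G)) :=
  have h1 := isInducedBlock_subBlk hM isPBlock_principalBlock (isMax_principal hM P) hu
  (Ht.third_main hM _ _ ⟨_, h1⟩).1 h1

theorem sr_princ (hθ : InSpan (principalBlock M G) θ) (v : (P : Subgroup G))
    {y : centralizer ({(v : G)} : Set G)} (hy : ¬ p ∣ orderOf y) :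
    sr p M P (eP M P) v θ y = θ (v * y) := by
  rw [sr, subBlk_princ hM v.2, subRes_apply, Ht.reg_of_not_dvd _ hy, shiftLin_apply,
    ← blockPart_section_princ hM (orderOf_mem hM (isMax_principal hM P) v) hθ.isClassFunction hy,
    hθ]

theorem star_princ (hl : Stable p (P : Subgroup G) (eP M P) l)
    (hθ : InSpan (principalBlock M G) θ) {g x : G} (hx : IsPPart p g x) (v : (P : Subgroup G))
    (hv : IsConj x v) : star p M P (eP M P) l θ g = l v * θ g := by
  obtain ⟨c, hc⟩ := isConj_iff.1 hv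
  obtain ⟨y, h1, h2, -, h3⟩ := IsPPart_conj hp.out hx c
  rw [hc] at h1 h2
  have h4 := inSpan_star hM (isMax_principal hM P) isPBlock_principalBlock hl hθ.isClassFunction
  have h5 : ¬ p ∣ orderOf (⟨y, mem_centralizer_singleton_iff.2 h2.symm.eq⟩ :
    centralizer ({(v : G)} : Set G)) := by rwa [← orderOf_coe]
  rw [← h4.isClassFunction.apply_conj g c, ← hθ.isClassFunction.apply_conj g c, ← h1,
    ← sr_princ hM h4 v h5, ← sr_princ hM hθ v h5,
    sr_star hM (isMax_principal hM P) hl hθ.isClassFunction, Pi.smul_apply, smul_eq_mul]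

omit hM in
theorem exists_part (P : Sylow p G) (g : G) :
    ∃ (x : G) (v : (P : Subgroup G)), IsPPart p g x ∧ IsConj x v :=
  let ⟨x, hx⟩ := exists_isPPart hp.out g
  let ⟨c, hc⟩ := exists_conj_mem_sylow P (IsPPart_orderOf hx)
  ⟨x, ⟨_, hc⟩, hx, isConj_iff.2 ⟨c, rfl⟩⟩

theorem star_dl_one (hθ : InSpan (principalBlock M G) θ) :
    star p M P (eP M P) (dl p (P : Subgroup G) (eP M P) 1) θ = pRegularPart p θ := by
  classical
  have := charP_kM hM
  funext g
  obtain ⟨x, v, hx, hv⟩ := exists_part P g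
  rw [star_princ hM (stable_dl (isMax_principal hM P) 1) hθ hx v hv, dl_princ hM (one_mem _),
    Ht.reg_apply]
  have h1 : IsConj 1 (v : G) ↔ ¬ p ∣ orderOf g := by
    rw [← isPPart_one_iff]
    refine ⟨fun h => isConj_one_right.1 (h.trans hv.symm) ▸ hx, fun h => ?_⟩
    rwa [IsPPart_unique hp.out h hx]
  simp only [h1, ite_not, ite_mul, zero_mul, one_mul]

theorem star_center (hl : Stable p (P : Subgroup G) (eP M P) l) {z : (P : Subgroup G)}
    (hz : (z : G) ∈ center G) {w : ℂ} (hw : ∀ v, l (z * v) = w * l v) {χ : IrrCharacter G}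
    (hχ : χ ∈ principalBlock M G) (g : G) : star p M P (eP M P) l χ (z * g) =
      w * ((χ : G → ℂ) z / (χ : G → ℂ) 1) * star p M P (eP M P) l χ g := by
  obtain ⟨x, v, hx, hv⟩ := exists_part P g
  have hc : ∀ g : G, Commute (z : G) g := fun g => (mem_center_iff.1 hz g).symm
  have h1 : IsConj (z * x) (z * v : (P : Subgroup G)) := by
    obtain ⟨c, hc'⟩ := isConj_iff.1 hv
    exact isConj_iff.2 ⟨c, by rw [coe_mul, ← hc', ← mul_assoc c, ← (hc c).eq]; group⟩
  have h2 : IsPPart p (z * g) (z * x) := by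
    obtain ⟨y, h2, h3, -, h4⟩ := hx
    obtain ⟨c, hc'⟩ := isConj_iff.1 h1.symm
    exact ⟨y, by rw [mul_assoc, h2], (hc y).mul_left h3,
      hc' ▸ pElt_conj (orderOf_mem hM (isMax_principal hM P) _) c, h4⟩
  rw [star_princ hM hl (inSpan_irr hχ) h2 _ h1, star_princ hM hl (inSpan_irr hχ) hx _ hv, hw,
    irr_mul_center χ.2 hz]
  ring

theorem pow_defect_princ (P : Sylow p G) :
    p ^ blockDefect p (principalBlock M G) = Nat.card (P : Subgroup G) :=
  (card_defect hM isPBlock_principalBlock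
    (isMax_isDefectGroup hM isPBlock_principalBlock (isMax_principal hM P))).symm

theorem ctr_princ [Fintype G] (u : (P : Subgroup G)) {n : ℕ}
    (hn : (pPrimeCore p (centralizer ({(u : G)} : Set G))).index = p ^ n) {χ ψ : IrrCharacter G}
    (hχ : χ ∈ principalBlock M G) (hψ : ψ ∈ principalBlock M G) :
    (p : ℂ) ^ n * ctr p M P (eP M P) χ ψ u = (χ : G → ℂ) u * conj ((ψ : G → ℂ) u) := by
  classical
  have := charP_kM hM
  have hmax := isMax_principal hM P
  have hs := stable_dl hmax (u : G)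
  have h1 : ∀ χ ∈ principalBlock M G, star p M P (eP M P) (dl p (P : Subgroup G) (eP M P) u) χ =
      (χ : G → ℂ) u • star p M P (eP M P) (dl p (P : Subgroup G) (eP M P) u) (triv G) :=
    fun χ hχ => by
      funext g
      obtain ⟨x, v, hx, hv⟩ := exists_part P g
      rw [Pi.smul_apply, star_princ hM hs (inSpan_irr hχ) hx v hv,
        star_princ hM hs (inSpan_irr (triv_mem_principalBlock hM)) hx v hv, dl_princ hM u.2]
      split_ifs with h
      · simp [princ_apply_of_isPPart hM ⟨n, hn⟩ hχ hx (h.trans hv.symm)]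
      · simp
  have h2 : ∀ χ ∈ principalBlock M G, ∀ ψ ∈ principalBlock M G, ctr p M P (eP M P) χ ψ u =
      (χ : G → ℂ) u * conj ((ψ : G → ℂ) u) * classInner (triv G : G → ℂ)
        (star p M P (eP M P) (dl p (P : Subgroup G) (eP M P) u) (triv G)) := fun χ hχ ψ hψ => by
    rw [ctr, h1 χ hχ, classInner_smul_left, classInner_star_adj hM hmax isPBlock_principalBlock hs
      (triv G).2.isClassFunction ψ.2.isClassFunction]
    simp only [conj_dl]
    rw [h1 ψ hψ, classInner_smul_right, mul_assoc]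
  have h3 := sum_ctr_self hM hmax isPBlock_principalBlock u
  rw [subBlk_princ hM u.2, (Ht.blockRank_principal_eq_one_iff hM).2
    (Trans.hasNormalPComplement_of_normal _ (Solv.coprime_card_pPrimeCore p _)
      (IsPGroup.of_card hn)), Finset.sum_congr rfl fun χ hχ => h2 χ (mem_irrFin.1 hχ) χ
      (mem_irrFin.1 hχ), ← Finset.sum_mul, sum_princ_sq_of_index hM (orderOf_mem hM hmax u) ⟨n, hn⟩,
    hn, Nat.cast_pow, Nat.cast_one] at h3
  rw [h2 χ hχ ψ hψ, mul_left_comm, h3, mul_one]

theorem nilp_princ (hn : ∀ u v : (P : Subgroup G), IsConj (u : G) v → IsConj u v) :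
    blockRank p (principalBlock M G) = 1 ∧ ∑ χ ∈ irrFin (principalBlock M G),
      charDegree (χ : G → ℂ) ^ 2 = Nat.card (P : Subgroup G) := by
  have := Fintype.ofFinite G
  have hmax := isMax_principal hM P
  obtain ⟨Φ, hΦ⟩ := exists_equiv_star hM hmax isPBlock_principalBlock
    (fun u v h => hn u v h.isConj) (triv_mem_principalBlock hM)
    (Ht.blockHeight_one_principalBlock p)
  have h1 : ∀ l, ∀ g : G, ¬ p ∣ orderOf g → ((Φ l : IrrCharacter G) : G → ℂ) g =
      (l : ↥(P : Subgroup G) → ℂ) 1 := fun l g hg => by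
    rw [hΦ, star_apply_regular hM hmax isPBlock_principalBlock _ (triv G).2.isClassFunction hg,
      blockPart_irr_of_mem (triv_mem_principalBlock hM), triv_apply, mul_one]
  have h2 : ¬ p ∣ orderOf (1 : G) := by rw [orderOf_one]; exact hp.out.not_dvd_one
  refine ⟨(Ht.blockRank_principal_eq_one_iff hM).2 (Ht.hasNormalPComplement_of_regular_mem_blockKer
    hM isPBlock_principalBlock fun g hg χ hχ => ?_), Nat.cast_injective (R := ℂ) ?_⟩
  · obtain ⟨l, hl⟩ := Φ.surjective ⟨χ, hχ⟩
    rw [show χ = Φ l from congrArg Subtype.val hl.symm, h1 l g hg, h1 l 1 h2]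
  · rw [← sum_irr_degree_sq, Nat.cast_sum]
    refine (Finset.sum_bij (fun l _ => (Φ l : IrrCharacter G)) (fun l _ => mem_irrFin.2 (Φ l).2)
      (fun _ _ _ _ h => Φ.injective (Subtype.ext h)) (fun χ hχ => ?_) fun l _ => ?_).symm
    · obtain ⟨l, hl⟩ := Φ.surjective ⟨χ, mem_irrFin.1 hχ⟩
      exact ⟨l, Finset.mem_univ _, congrArg Subtype.val hl⟩
    · rw [Nat.cast_pow, irr_charDegree_cast, h1 l 1 h2]

end Star

end Cfsg.Lib.Block
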