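import Cfsg.Agent.Block.PrincSection
import Cfsg.Agent.Block.Ker
import Cfsg.Agent.Solv.ClassSize
import Mathlib.GroupTheory.SchurZassenhaus

/-!
# Principal blocks for two primes meeting trivially

If the principal `p`-block and the principal `q`-block have only the principal character in
common then the class size of every `p`-element is prime to `q`.
-/

set_option autoImplicit false

open scoped ComplexConjugate
open Cfsg Cfsg.Lib.Char Cfsg.Lib.Block

namespace Cfsg.Lib.Block.TwoPrinc

variable {G : Type*} [Group G] [Finite G]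

/-- The value of `∑_{χ ∈ B'} χ(1) χ` on the principal block idempotent of `C_G(x)` times `x`. -/
theorem sum_coeff_eq {p : ℕ} [Fact p.Prime] {M : Ideal AlgInt} (hM : IsPModular p M)
    (B' : Set (IrrCharacter G)) (h1' : Princ.triv G ∈ B')
    (h : ∀ χ : IrrCharacter G, χ ∈ principalBlock M G → χ ∈ B' → (χ : G → ℂ) = fun _ => 1)
    {x : G} (hx : ∃ k : ℕ, orderOf x = p ^ k) (C : Subgroup G)
    (hC : C = Subgroup.centralizer ({x} : Set G)) [Fintype C] :
    ∑ k : C, blockCoeff (principalBlock M C) k *
        ((Nat.card G : ℂ) * blockCoeff B' ((k : G) * x)⁻¹) = 1 := by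
  classical
  subst hC
  let C := Subgroup.centralizer ({x} : Set G)
  have hxC : x ∈ C := Subgroup.mem_centralizer_singleton_iff.2 rfl
  have hind : IsInducedBlock M C (principalBlock M C) (principalBlock M G) :=
    (Agent.S0936.result p M hM C _
      (Princ.inducedBlockDefined_centralizer hM hx Princ.isPBlock_principalBlock)).2 rfl
  have h0 : ∀ χ : IrrCharacter G, χ ∉ principalBlock M G →
      ∑ k : C, blockCoeff (principalBlock M C) k * (χ : G → ℂ) ((k : G) * x) = 0 := fun χ hχ =>
    sum_blockCoeff_mul_eq_zero_of_not_mem hM hind ⟨x, hxC⟩ (isPPart_self hM.1 hx) le_rfl hχ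
  have h1 : ∑ k : C, blockCoeff (principalBlock M C) k = 1 := by
    have := sum_blockCoeff_mul_mul (principalBlock M C) (Princ.triv C).2.isClassFunction 1
    rw [blockPart_irr_of_mem (Princ.triv_mem_principalBlock hM)] at this
    simpa using this
  have hθ : ∀ g : G, (Nat.card G : ℂ) * blockCoeff B' g⁻¹ =
      ∑ χ : IrrCharacter G, if χ ∈ B' then (χ : G → ℂ) 1 * (χ : G → ℂ) g else 0 := by
    intro g
    rw [blockCoeff_eq_inv, inv_inv, mul_inv_cancel_left₀ (by exact_mod_cast Nat.card_pos.ne')]
  simp_rw [hθ, Finset.mul_sum]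
  rw [Finset.sum_comm, Finset.sum_eq_single (Princ.triv G)]
  · simpa [h1'] using h1
  · intro χ _ hχ
    by_cases h' : χ ∈ B'
    · simp only [h', if_true]
      have hn : χ ∉ principalBlock M G := fun h'' => hχ (Princ.eq_triv_iff.2 (h χ h'' h'))
      have h2 := h0 χ hn
      calc _ = (χ : G → ℂ) 1 *
            ∑ k : C, blockCoeff (principalBlock M C) k * (χ : G → ℂ) ((k : G) * x) := by
            rw [Finset.mul_sum]
            exact Finset.sum_congr rfl fun k _ => by ring
        _ = 0 := by rw [h2, mul_zero]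
    · simp [h']
  · simp

/-- If the principal `p`-block and the principal `q`-block meet trivially, the class size of a
`p`-element is prime to `q`. -/
theorem not_dvd_index_centralizer {p q : ℕ} [Fact p.Prime] {M M' : Ideal AlgInt}
    (hM : IsPModular p M) (hM' : IsPModular q M')
    (h : ∀ χ : IrrCharacter G, χ ∈ principalBlock M G → χ ∈ principalBlock M' G →
      (χ : G → ℂ) = fun _ => 1)
    {x : G} (hx : ∃ k : ℕ, orderOf x = p ^ k) :
    ¬ q ∣ (Subgroup.centralizer ({x} : Set G)).index := by
  classical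
  obtain ⟨C, hC⟩ : ∃ C, C = Subgroup.centralizer ({x} : Set G) := ⟨_, rfl⟩
  have := Fintype.ofFinite C
  have key := sum_coeff_eq hM (principalBlock M' G) (Princ.triv_mem_principalBlock hM') h hx C hC
  rw [← hC]
  intro hq
  have hidx : (Nat.card G : ℂ) = C.index * Nat.card C := by
    exact_mod_cast (Subgroup.index_mul_card C).symm
  have h1 : (1 : ℂ) = (C.index : ℂ) * ∑ k : C,
      ((Nat.card C : ℂ) * blockCoeff (principalBlock M C) k) *
        blockCoeff (principalBlock M' G) ((k : G) * x)⁻¹ := by
    rw [← key, Finset.mul_sum]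
    refine Finset.sum_congr rfl fun k _ => ?_
    rw [hidx]; ring
  apply Loc.not_ideal_one hM'
  rw [h1]
  exact Loc.ideal_mul_right hM' ((Loc.ideal_natCast_iff hM' _).2 hq)
    (Loc.ring_sum hM' _ fun k _ => Loc.ring_mul hM'
      (Loc.ring_of_isIntegral hM' (isIntegral_card_mul_blockCoeff _ _))
      (memLocalRing_blockCoeff hM' Princ.isPBlock_principalBlock _))

/-- A Sylow `p`-subgroup all of whose elements have class size prime to every other prime is
normal. -/
theorem sylow_normal_of_index {p : ℕ} [hp : Fact p.Prime] (P : Sylow p G)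
    (h : ∀ x ∈ (P : Subgroup G), ∀ q : ℕ, q.Prime → q ≠ p →
      ¬ q ∣ (Subgroup.centralizer ({x} : Set G)).index) : (P : Subgroup G).Normal := by
  refine ⟨fun x hx g => ?_⟩
  set C := Subgroup.centralizer ({x} : Set G) with hC
  have hcop : Nat.Coprime (P : Subgroup G).index C.index := by
    refine Nat.Coprime.symm (Nat.coprime_of_dvd fun q hq hqC hqP => ?_)
    by_cases hqp : q = p
    · subst hqp
      exact P.not_dvd_index hqP
    · exact h x hx q hq hqp hqC
  obtain ⟨u, hu, c, hc, rfl⟩ := Solv.ClassSize.forall_mul_of_coprime_index hcop g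
  have hcx : c * x = x * c := Subgroup.mem_centralizer_singleton_iff.1 hc
  have : u * c * x * (u * c)⁻¹ = u * x * u⁻¹ := by
    rw [mul_assoc u c x, hcx]; group
  rw [this]
  exact (P : Subgroup G).mul_mem ((P : Subgroup G).mul_mem hu hx) ((P : Subgroup G).inv_mem hu)

/-- A normal Sylow `p`-subgroup centralized by all elements of prime power order for the other
primes is a direct factor. -/
theorem sup_pPrimeCore_eq_top {p : ℕ} [hp : Fact p.Prime] (P : Sylow p G)
    [hN : (P : Subgroup G).Normal]
    (h : ∀ q : ℕ, q.Prime → q ≠ p → ∀ y : G, (∃ k : ℕ, orderOf y = q ^ k) →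
      ¬ p ∣ (Subgroup.centralizer ({y} : Set G)).index) :
    (P : Subgroup G) ⊔ pPrimeCore p G = ⊤ := by
  have hcop : Nat.Coprime (Nat.card (P : Subgroup G)) (P : Subgroup G).index :=
    P.card_coprime_index
  obtain ⟨H, hH⟩ := Subgroup.exists_right_complement'_of_coprime hcop
  have hHc : Nat.card H = (P : Subgroup G).index := hH.symm.index_eq_card.symm
  have hHp : (Nat.card H).Coprime p := by
    rw [hHc]
    exact (hp.out.coprime_iff_not_dvd.2 P.not_dvd_index).symm
  -- elements of prime power order centralize `P`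
  have hcent : ∀ q : ℕ, q.Prime → q ≠ p → ∀ y : G, (∃ k : ℕ, orderOf y = q ^ k) →
      y ∈ Subgroup.centralizer ((P : Subgroup G) : Set G) := by
    intro q hq hqp y hy
    have hle : (P : Subgroup G) ≤ Subgroup.centralizer ({y} : Set G) := by
      obtain ⟨S, hS⟩ := Solv.ClassSize.exists_sylow_le_of_not_dvd_index (h q hq hqp y hy)
      have := Sylow.unique_of_normal P hN
      rwa [Subsingleton.elim P S]
    intro u hu
    exact Subgroup.mem_centralizer_singleton_iff.1 (hle hu)
  have hHle : H ≤ Subgroup.centralizer ((P : Subgroup G) : Set G) := by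
    set K := (Subgroup.centralizer ((P : Subgroup G) : Set G)).subgroupOf H with hK
    rw [← Subgroup.subgroupOf_eq_top, ← hK, ← Subgroup.index_eq_one]
    by_contra hne
    obtain ⟨q, hq, hqK⟩ := Nat.exists_prime_and_dvd hne
    have := Fact.mk hq
    have hqp : q ≠ p := by
      rintro rfl
      exact hq.coprime_iff_not_dvd.1 hHp.symm (hqK.trans K.index_dvd_card)
    obtain ⟨Q⟩ : Nonempty (Sylow q H) := inferInstance
    have hQK : (Q : Subgroup H) ≤ K := by
      intro y hy
      rw [hK, Subgroup.mem_subgroupOf]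
      refine hcent q hq hqp _ ?_
      obtain ⟨k, hk⟩ := IsPGroup.iff_orderOf.1 Q.isPGroup' ⟨y, hy⟩
      refine ⟨k, ?_⟩
      rw [← hk, Subgroup.orderOf_coe, ← Subgroup.orderOf_coe (⟨y, hy⟩ : (Q : Subgroup H))]
    exact Q.not_dvd_index (hqK.trans (Subgroup.index_dvd_of_le hQK))
  have hHN : H.Normal := by
    refine ⟨fun y hy g => ?_⟩
    obtain ⟨⟨u, c⟩, rfl⟩ := hH.2 g
    have h1 : (c : G) * y * (c : G)⁻¹ ∈ H := H.mul_mem (H.mul_mem c.2 hy) (H.inv_mem c.2)
    have h2 := hHle h1 u u.2
    have : (u : G) * c * y * ((u : G) * c)⁻¹ = (c : G) * y * (c : G)⁻¹ := by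
      calc (u : G) * c * y * ((u : G) * c)⁻¹ = (u * (c * y * (c : G)⁻¹)) * (u : G)⁻¹ := by group
        _ = _ := by rw [h2]; group
    simp only
    rw [this]
    exact h1
  rw [eq_top_iff, ← hH.sup_eq_top]
  exact sup_le_sup_left (Solv.le_pPrimeCore hHN hHp) _

end Cfsg.Lib.Block.TwoPrinc
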