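import Mathlib.Algebra.BigOperators.Ring.Finset
import Mathlib.Algebra.Order.BigOperators.Ring.Finset
import Mathlib.Data.Complex.Basic
import Mathlib.Tactic

/-!
Integer matrices attached to a principal 3-block with extraspecial Sylow subgroup of order 27.
-/

set_option autoImplicit false

open Finset

namespace Cfsg.Lib.Block.Xs

variable {I ι : Type*} [Fintype I] [DecidableEq I] [Fintype ι] [DecidableEq ι]

def mR (d : ι → I → ℤ) (a b : I) : ℤ := (if a = b then 9 else 0) - ∑ i, d i a * d i b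

def mq (T : I → I → ℤ) (d : ι → I → ℤ) (a b : I) : ℤ := 3 * (T a b + T b a) + mR d a b

structure Core (T : I → I → ℤ) (d : ι → I → ℤ) (Z : Finset I) (o : I) (l lb : ℕ) : Prop where
  row : ∀ a b, ∑ c, T a c * T b c = mR d a b
  col : ∀ a b, ∑ c, T c a * T c b = mR d a b
  sq : ∀ a, ∑ c, T a c * T c a = 3 * T a a
  pos : ∀ a, 0 < mq T d a a
  ne : ∀ a ∈ Z, ∀ b, mq T d a b ≠ 0
  dv : ∀ a ∉ Z, ∀ b ∉ Z, 9 ∣ mq T d a b
  orth : ∀ i j, ∑ a, d i a * d j a = if i = j then 9 else 0
  ht : ∀ i a, a ∈ Z ↔ ¬ 3 ∣ d i a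
  one : ∀ i, d i o = 1
  deg : ∃ n : I → ℤ, n o = 1 ∧ ∀ i, ∑ a, n a * d i a = 0
  tr : ∑ a, T a a = 3 * ((l : ℤ) - lb)
  card : Fintype.card I = l + 2 * lb + Fintype.card ι
  indep : (∀ a ∉ Z, ∀ b ∉ Z, a ≠ b → mq T d a b = 0) → Zᶜ.card ≤ l

omit [DecidableEq I] in
theorem even_sum_sub {f g : I → ℤ} (h : ∀ a, 2 ∣ f a - g a) : 2 ∣ ∑ a, f a - ∑ a, g a := by
  rw [← sum_sub_distrib]
  exact dvd_sum fun a _ => h a

namespace Core

variable {T : I → I → ℤ} {d : ι → I → ℤ} {Z : Finset I} {o : I} {l lb : ℕ}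
  (h : Core T d Z o l lb)
include h

theorem sum_sq (i : ι) : ∑ a, d i a * d i a = 9 := by rw [h.orth, if_pos rfl]

theorem o_mem (i : ι) : o ∈ Z := (h.ht i o).2 (by rw [h.one]; norm_num)

theorem sq_le (i : ι) {a : I} (ha : a ≠ o) : d i a * d i a ≤ 8 := by
  have h1 := sum_le_sum_of_subset_of_nonneg (f := fun a => d i a * d i a) (subset_univ {a, o})
    fun _ _ _ => mul_self_nonneg _
  rw [sum_pair ha, h.sum_sq, h.one] at h1
  omega

theorem d_eq_zero (i : ι) {a : I} (ha : a ∉ Z) : d i a = 0 := by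
  obtain ⟨c, hc⟩ := not_not.1 (mt (h.ht i a).2 ha)
  have := h.sq_le i (a := a) fun H => ha (H ▸ h.o_mem i)
  rw [hc] at this ⊢
  have : c = 0 := by nlinarith
  rw [this, mul_zero]

theorem d_cases (i : ι) {a : I} (ha : a ∈ Z) :
    d i a = 1 ∨ d i a = -1 ∨ d i a = 2 ∨ d i a = -2 := by
  have h1 := (h.ht i a).1 ha
  by_cases h2 : a = o
  · exact Or.inl (h2 ▸ h.one i)
  · have h3 := h.sq_le i h2
    have h4 : d i a < 3 := by nlinarith
    have h5 : -3 < d i a := by nlinarith
    omega

omit h in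
/-- The rows with an even entry in column `i`. -/
def ev (d : ι → I → ℤ) (Z : Finset I) (i : ι) : Finset I := Z.filter fun a => 2 ∣ d i a

omit h [Fintype I] [DecidableEq I] [Fintype ι] [DecidableEq ι] in
theorem mem_ev {i : ι} {a : I} : a ∈ ev d Z i ↔ a ∈ Z ∧ 2 ∣ d i a := mem_filter

theorem mul_self_eq (i : ι) (a : I) :
    d i a * d i a = (if a ∈ Z then 1 else 0) + 3 * if a ∈ ev d Z i then 1 else 0 := by
  by_cases ha : a ∈ Z
  · simp only [mem_ev, ha, true_and, if_true]
    rcases h.d_cases i ha with h1 | h1 | h1 | h1 <;> rw [h1] <;> norm_num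
  · simp [mem_ev, ha, h.d_eq_zero i ha]

theorem card_add (i : ι) : Z.card + 3 * (ev d Z i).card = 9 := by
  have h1 := h.sum_sq i
  simp only [h.mul_self_eq, sum_add_distrib, ← mul_sum, sum_boole, filter_mem_eq_inter,
    univ_inter] at h1
  exact_mod_cast h1

theorem card_ev_le (i : ι) : (ev d Z i).card ≤ 1 := by
  by_contra! H
  have h1 := h.card_add i
  have h2 : o ∉ ev d Z i := by rw [mem_ev, h.one]; norm_num
  have h3 : insert o (ev d Z i) = Z := eq_of_subset_of_card_le
    (insert_subset (h.o_mem i) (filter_subset _ _)) (by rw [card_insert_of_notMem h2]; omega)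
  obtain ⟨n, hn, hn'⟩ := h.deg
  have h4 := even_sum_sub (f := fun a => n a * d i a) (g := fun a => if a = o then 1 else 0)
    fun a => by
      by_cases ha : a = o
      · simp [ha, hn, h.one]
      · rw [if_neg ha, sub_zero]
        by_cases hz : a ∈ Z
        · exact ((mem_ev.1 ((mem_insert.1 (h3 ▸ hz)).resolve_left ha)).2).mul_left _
        · simp [h.d_eq_zero i hz]
  simp [hn'] at h4

theorem ev_inj {i j : ι} (hij : ev d Z i = ev d Z j) : i = j := by
  by_contra hne
  have h4 := even_sum_sub (f := fun a => d i a * d i a) (g := fun a => d i a * d j a) fun a => by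
    rw [← mul_sub]
    by_cases hz : a ∈ Z
    · have h1 : 2 ∣ d i a ↔ 2 ∣ d j a := by simpa [mem_ev, hz] using Finset.ext_iff.1 hij a
      exact Dvd.dvd.mul_left (by omega) _
    · simp [h.d_eq_zero i hz]
  rw [h.sum_sq, h.orth, if_neg hne] at h4
  omega

theorem card_cases (i : ι) : Z.card = 6 ∨ (Z.card = 9 ∧ Fintype.card ι = 1) := by
  have h1 := h.card_add i
  have h2 := h.card_ev_le i
  rcases (show Z.card = 6 ∨ Z.card = 9 by omega) with h3 | h3
  · exact Or.inl h3
  · refine Or.inr ⟨h3, Fintype.card_eq_one_iff.2 ⟨i, fun j => h.ev_inj ?_⟩⟩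
    have h4 := h.card_add j
    rw [card_eq_zero.1 (show (ev d Z j).card = 0 by omega),
      card_eq_zero.1 (show (ev d Z i).card = 0 by omega)]

theorem mR_of_not_mem (a : I) {b : I} (hb : b ∉ Z) : mR d a b = if a = b then 9 else 0 := by
  simp [mR, h.d_eq_zero _ hb]

theorem mR_self_le {a : I} (ha : a ∈ Z) : mR d a a + Fintype.card ι ≤ 9 := by
  have h1 := card_nsmul_le_sum univ (fun i => d i a * d i a) 1 fun i _ => by
    rcases h.d_cases i ha with h1 | h1 | h1 | h1 <;> rw [h1] <;> norm_num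
  simp only [card_univ, nsmul_eq_mul, mul_one] at h1
  simp only [mR, if_true]
  omega

theorem exists_mR (hZ : Z.card = 6) (i : ι) : ∃ a ∈ Z, mR d a a + Fintype.card ι = 6 := by
  have h0 : ∀ j, (ev d Z j).card = 1 := fun j => by have := h.card_add j; omega
  obtain ⟨a, ha⟩ := card_eq_one.1 (h0 i)
  have h1 : a ∈ ev d Z i := ha ▸ mem_singleton_self a
  refine ⟨a, (mem_ev.1 h1).1, ?_⟩
  have h2 : ∀ j, d j a * d j a = 1 + 3 * if j = i then 1 else 0 := fun j => by
    rw [h.mul_self_eq, if_pos (mem_ev.1 h1).1]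
    by_cases hj : j = i
    · rw [if_pos hj, if_pos (hj ▸ h1)]
    · rw [if_neg hj, if_neg fun H => hj (h.ev_inj ?_)]
      obtain ⟨b, hb⟩ := card_eq_one.1 (h0 j)
      rw [hb] at H
      rw [hb, ha, mem_singleton.1 H]
  simp only [mR, if_true, h2, sum_add_distrib, ← mul_sum, sum_ite_eq', mem_univ, sum_const,
    card_univ, nsmul_eq_mul]
  ring

theorem add_ne {a b : I} (ha : a ∈ Z) (hb : b ∉ Z) : T a b + T b a ≠ 0 := fun H => h.ne a ha b <| by
  rw [mq, H, h.mR_of_not_mem a hb, if_neg fun H' : a = b => hb (H' ▸ ha)]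
  rfl

theorem sum_add_sq (a : I) :
    ∑ c, (T a c + T c a) * (T a c + T c a) = 2 * mR d a a + 6 * T a a := by
  have h1 : ∀ c, (T a c + T c a) * (T a c + T c a) =
      T a c * T a c + T c a * T c a + 2 * (T a c * T c a) := fun c => by ring
  simp only [h1, sum_add_distrib, ← mul_sum, h.row, h.col, h.sq]
  ring

theorem diag_eq_zero (i : ι) {a : I} (ha : a ∉ Z) : T a a = 0 := by
  have h1 := h.pos a
  have h2 := h.dv a ha a ha
  have h3 := h.row a a
  have h4 := h.col a a
  have h5 : a ≠ o := fun H => ha (H ▸ h.o_mem i)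
  have h6 := sum_le_sum_of_subset_of_nonneg (f := fun c => T a c * T a c) (subset_univ {a, o})
    fun _ _ _ => mul_self_nonneg _
  have h7 := sum_le_sum_of_subset_of_nonneg (f := fun c => T c a * T c a) (subset_univ {a, o})
    fun _ _ _ => mul_self_nonneg _
  have h8 := h.add_ne (h.o_mem i) ha
  rw [sum_pair h5] at h6 h7
  rw [mq] at h1 h2
  rw [h.mR_of_not_mem a ha, if_pos rfl] at h1 h2 h3 h4
  rw [h3] at h6
  rw [h4] at h7
  obtain ⟨c, hc⟩ : 3 ∣ T a a := by omega
  by_contra H
  have h9 : 1 ≤ c := by omega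
  rw [hc] at h6 h7
  have h10 : T a o = 0 := by nlinarith
  have h11 : T o a = 0 := by nlinarith
  omega

theorem card_compl_le {a : I} (ha : a ∈ Z) : (Zᶜ.card : ℤ) ≤ 2 * mR d a a := by
  have h1 := card_nsmul_le_sum Zᶜ (fun c => T a c * T a c + T c a * T c a) 1 fun c hc => by
    have := h.add_ne ha (mem_compl.1 hc)
    by_contra! H
    have h2 : T a c = 0 := by nlinarith [mul_self_nonneg (T c a)]
    have h3 : T c a = 0 := by nlinarith [mul_self_nonneg (T a c)]
    omega
  have h2 := sum_le_sum_of_subset_of_nonneg (f := fun c => T a c * T a c + T c a * T c a)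
    (subset_univ Zᶜ) fun _ _ _ => add_nonneg (mul_self_nonneg _) (mul_self_nonneg _)
  rw [sum_add_distrib (s := univ), h.row, h.col] at h2
  rw [nsmul_eq_mul] at h1
  omega

theorem card_compl_add_le {a : I} (ha : a ∈ Z) :
    (Zᶜ.card : ℤ) + 4 * (T a a * T a a) ≤ 2 * mR d a a + 6 * T a a := by
  have h1 := card_nsmul_le_sum Zᶜ (fun c => (T a c + T c a) * (T a c + T c a)) 1 fun c hc =>
    Int.add_one_le_of_lt (mul_self_pos.2 (h.add_ne ha (mem_compl.1 hc)))
  have h2 := sum_le_sum_of_subset_of_nonneg (f := fun c => (T a c + T c a) * (T a c + T c a))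
    (subset_univ (insert a Zᶜ)) fun _ _ _ => mul_self_nonneg _
  rw [sum_insert (by simpa using ha), h.sum_add_sq] at h2
  rw [nsmul_eq_mul] at h1
  nlinarith

theorem main_six (i : ι) (hZ : Z.card = 6) (hl : lb + Fintype.card ι = 6) : l = lb := by
  have h1 := h.card
  have h2 := card_compl Z
  have h3 := card_le_univ Z
  have h4 : ∑ a ∈ Z, T a a = 3 * ((l : ℤ) - lb) := by
    rw [← h.tr]
    exact sum_subset (subset_univ _) fun a _ ha => h.diag_eq_zero i ha
  have h5 : ∀ a ∈ Z, -1 ≤ T a a := fun a ha => by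
    have := h.pos a
    have := h.mR_self_le ha
    have : 0 < Fintype.card ι := Fintype.card_pos_iff.2 ⟨i⟩
    rw [mq] at *
    omega
  have h6 := card_nsmul_le_sum Z (fun a => T a a) _ h5
  have h7 : ∀ a ∈ Z, 0 ≤ T a a := fun a ha => by
    by_contra! H
    have h8 := h.card_compl_add_le ha
    have h9 := h.mR_self_le ha
    rw [show T a a = -1 by have := h5 a ha; omega] at h8
    rw [hZ, h4] at h6
    simp only [nsmul_eq_mul] at h6
    omega
  have h8 := sum_nonneg h7
  obtain ⟨a, ha, ha'⟩ := h.exists_mR hZ i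
  have h9 := h.card_compl_le ha
  omega

theorem sum_sum_mR (i : ι) : ∑ a, ∑ b, d i a * d i b * mR d a b = 0 := by
  have h1 : ∀ a b, d i a * d i b * mR d a b = (if a = b then 9 * (d i a * d i b) else 0) -
      ∑ j, (d i a * d j a) * (d i b * d j b) := fun a b => by
    rw [mR, mul_sub, mul_sum]
    congr 1
    · split_ifs <;> ring
    · exact sum_congr rfl fun _ _ => by ring
  simp only [h1, sum_sub_distrib, sum_ite_eq, mem_univ, if_true, ← mul_sum, h.sum_sq]
  rw [sum_congr rfl fun a _ => sum_comm, sum_comm]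
  simp only [← mul_sum, ← sum_mul, h.orth]
  simp

omit h [DecidableEq I] in
theorem ker_of {T : I → I → ℤ} {x : I → ℤ} (h : ∑ a, ∑ b, x a * x b * ∑ c, T a c * T b c = 0)
    (c : I) : ∑ a, x a * T a c = 0 := by
  have h1 : ∑ c, (∑ a, x a * T a c) * (∑ a, x a * T a c) = 0 := by
    rw [← h]
    simp only [sum_mul_sum]
    simp only [mul_sum]
    rw [sum_comm]
    refine sum_congr rfl fun a _ => ?_
    rw [sum_comm]
    exact sum_congr rfl fun _ _ => sum_congr rfl fun _ _ => by ring
  exact mul_self_eq_zero.1 ((sum_eq_zero_iff_of_nonneg fun _ _ => mul_self_nonneg _).1 h1 c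
    (mem_univ _))

theorem ker_row (i : ι) (c : I) : ∑ a, d i a * T a c = 0 :=
  ker_of (by simp only [h.row, h.sum_sum_mR]) c

theorem ker_col (i : ι) (c : I) : ∑ a, d i a * T c a = 0 :=
  ker_of (T := fun a b => T b a) (by simp only [h.col, h.sum_sum_mR]) c

theorem even_of_nine (i : ι) (hZ : Z.card = 9) {x : I → ℤ} (hx : ∑ a, d i a * x a = 0) :
    2 ∣ ∑ a ∈ Z, x a * x a := by
  have h1 := h.card_add i
  have h2 : ev d Z i = ∅ := card_eq_zero.1 (by omega)
  have h3 := even_sum_sub (f := fun a => if a ∈ Z then x a * x a else 0)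
    (g := fun a => d i a * x a) fun a => by
      by_cases ha : a ∈ Z
      · have h4 : ¬ 2 ∣ d i a := fun H => by simpa [h2] using mem_ev.2 ⟨ha, H⟩
        rw [if_pos ha, ← sub_mul]
        by_cases h5 : 2 ∣ x a
        · exact h5.mul_left _
        · exact Dvd.dvd.mul_right (by omega) _
      · simp [ha, h.d_eq_zero i ha]
  simpa [hx] using h3

theorem not_nine (i : ι) (hZ : Z.card = 9) (hl : lb = 5) : False := by
  have h1 := h.card
  have h2 := card_compl Z
  have h3 := card_le_univ Z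
  have h4 : 0 < Fintype.card ι := Fintype.card_pos_iff.2 ⟨i⟩
  have h5 := h.indep fun a ha b hb hab => by
    have h6 := h.dv a ha b hb
    rw [mq, h.mR_of_not_mem a hb, if_neg hab] at h6 ⊢
    obtain ⟨t, ht⟩ : 3 ∣ T a b + T b a := by omega
    have h7 := h.sum_add_sq a
    rw [h.mR_of_not_mem a ha, if_pos rfl, h.diag_eq_zero i ha] at h7
    have h8 := h.even_of_nine i hZ (x := fun c => T a c + T c a) (by
      simp only [mul_add, sum_add_distrib, h.ker_row, h.ker_col, add_zero])
    have h9 := card_nsmul_le_sum Z (fun c => (T a c + T c a) * (T a c + T c a)) 1 fun c hc =>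
      Int.add_one_le_of_lt (mul_self_pos.2 (add_comm (T a c) _ ▸ h.add_ne hc ha))
    have h10 := sum_le_sum_of_subset_of_nonneg (f := fun c => (T a c + T c a) * (T a c + T c a))
      (subset_univ (insert b Z)) fun _ _ _ => mul_self_nonneg _
    rw [sum_insert hb, h7, ht] at h10
    rw [hZ, nsmul_eq_mul] at h9
    have h11 : 9 * (t * t) ≤ 8 := by
      have : 3 * t * (3 * t) = 9 * (t * t) := by ring
      push_cast at h9
      omega
    have h12 : t = 0 := by nlinarith
    rw [ht, h12]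
    rfl
  omega

theorem central (i : ι) (hl : l = lb) {c : I → ℂ} {w : ℂ} (hw : w ≠ 1) (hw3 : w * w * w = 1)
    (hc : ∀ a b, T a b ≠ 0 → c b = w * c a) (hZ : ∀ a ∈ Z, c a = 1) :
    Z.card = 6 ∧ lb + Fintype.card ι = 6 := by
  classical
  have hw0 : w ≠ 0 := by rintro rfl; simp at hw3
  have hw2 : w * w ≠ 1 := fun H => hw (by rwa [H, one_mul] at hw3)
  have hw1 : w * w ≠ w := fun H => hw (mul_left_cancel₀ hw0 (H.trans (mul_one w).symm))
  have h1 : ∀ a ∉ Z, c a = w ∨ c a = w * w := fun a ha => by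
    have h1 := h.add_ne (h.o_mem i) ha
    by_cases h2 : T o a = 0
    · have h3 := hc a o (by omega)
      rw [hZ o (h.o_mem i)] at h3
      right
      linear_combination (-c a) * hw3 - w * w * h3
    · exact Or.inl (by rw [hc o a h2, hZ o (h.o_mem i), mul_one])
  have h2 : ∀ a, c a = 1 → a ∈ Z := fun a ha => by
    by_contra H
    rcases h1 a H with h2 | h2
    exacts [hw (h2.symm.trans ha), hw2 (h2.symm.trans ha)]
  set A := univ.filter fun a => c a = w with hA
  set A' := univ.filter fun a => c a = w * w with hA'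
  have hAZ : ∀ a ∈ A, a ∉ Z := fun a ha H => hw ((mem_filter.1 ha).2.symm.trans (hZ a H))
  have hAZ' : ∀ a ∈ A', a ∉ Z := fun a ha H => hw2 ((mem_filter.1 ha).2.symm.trans (hZ a H))
  have h3 : ∀ b ∈ A, ∑ a ∈ Z, T a b * T a b = 9 := fun b hb => by
    have h3 := h.col b b
    rw [h.mR_of_not_mem b (hAZ b hb), if_pos rfl] at h3
    rw [← h3]
    refine sum_subset (subset_univ _) fun a _ ha => mul_self_eq_zero.2 (by_contra fun H => ha ?_)
    exact h2 a (mul_left_cancel₀ hw0 (by rw [← hc a b H, (mem_filter.1 hb).2, mul_one]))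
  have h4 : ∀ b ∈ A', ∑ a ∈ Z, T b a * T b a = 9 := fun b hb => by
    have h3 := h.row b b
    rw [h.mR_of_not_mem b (hAZ' b hb), if_pos rfl] at h3
    rw [← h3]
    refine sum_subset (subset_univ _) fun a _ ha => mul_self_eq_zero.2 (by_contra fun H => ha ?_)
    exact h2 a (by rw [hc b a H, (mem_filter.1 hb).2, ← mul_assoc, hw3])
  have h5 : ∑ a ∈ Z, mR d a a = 9 * Z.card - 9 * Fintype.card ι := by
    have h5 : ∀ j, ∑ a ∈ Z, d j a * d j a = 9 := fun j => by
      rw [← h.sum_sq j]
      exact sum_subset (subset_univ _) fun a _ ha => by rw [h.d_eq_zero j ha, mul_zero]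
    simp only [mR, if_true, sum_sub_distrib, sum_const, nsmul_eq_mul]
    rw [sum_comm]
    simp only [h5, sum_const, card_univ, nsmul_eq_mul]
    ring
  have h6 : ∑ a ∈ Z, mR d a a = 9 * A.card := by
    have h6 : ∀ a ∈ Z, mR d a a = ∑ b ∈ A, T a b * T a b := fun a ha => by
      rw [← h.row]
      refine (sum_subset (subset_univ _) fun b _ hb =>
        mul_self_eq_zero.2 (by_contra fun H => hb ?_)).symm
      exact mem_filter.2 ⟨mem_univ _, by rw [hc a b H, hZ a ha, mul_one]⟩
    rw [sum_congr rfl h6, sum_comm, sum_congr rfl h3, sum_const, nsmul_eq_mul, mul_comm]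
  have h7 : ∑ a ∈ Z, mR d a a = 9 * A'.card := by
    have h6 : ∀ a ∈ Z, mR d a a = ∑ b ∈ A', T b a * T b a := fun a ha => by
      rw [← h.col]
      refine (sum_subset (subset_univ _) fun b _ hb =>
        mul_self_eq_zero.2 (by_contra fun H => hb ?_)).symm
      have h7 := hc b a H
      rw [hZ a ha] at h7
      exact mem_filter.2 ⟨mem_univ _, by linear_combination (-c b) * hw3 - w * w * h7⟩
    rw [sum_congr rfl h6, sum_comm, sum_congr rfl h4, sum_const, nsmul_eq_mul, mul_comm]
  have h8 : Zᶜ = A ∪ A' := by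
    ext a
    rw [mem_compl, mem_union]
    exact ⟨fun ha => by simpa [hA, hA'] using h1 a ha, fun ha => ha.elim (hAZ a) (hAZ' a)⟩
  have h9 : Zᶜ.card = A.card + A'.card := by
    rw [h8, card_union_of_disjoint (disjoint_left.2 fun a ha ha' =>
      hw1 ((mem_filter.1 ha').2.symm.trans (mem_filter.1 ha).2))]
  have h10 := h.card
  have h11 := card_compl Z
  have h12 := card_le_univ Z
  rcases h.card_cases i with h13 | ⟨h13, h14⟩
  · omega
  · obtain ⟨b, hb⟩ : A.Nonempty := card_pos.1 (by omega)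
    have h15 := h.even_of_nine i h13 (h.ker_row i b)
    rw [h3 b hb] at h15
    omega

theorem final (i : ι) (hl : lb + Fintype.card ι = 6) :
    Z.card = 6 ∧ l + Fintype.card ι = 6 ∧ Fintype.card I + 2 * Fintype.card ι = 18 := by
  rcases h.card_cases i with h1 | ⟨h1, h2⟩
  · have h2 := h.main_six i h1 hl
    have h3 := h.card
    omega
  · exact (h.not_nine i h1 (by omega)).elim

end Core

end Cfsg.Lib.Block.Xs
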