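import Cfsg.Agent.Block.StarPrinc
import Cfsg.Agent.Block.XsLoc
import Cfsg.Agent.Block.XsComb
import Cfsg.Agent.Block.PrincOver
import Cfsg.Agent.Block.CycPrime

/-!
Principal 3-blocks with extraspecial Sylow subgroup of order 27 and isolated centre.
-/

set_option autoImplicit false

open Cfsg Cfsg.Lib.Char Cfsg.Lib.Block.Pair Cfsg.Lib.Block.Princ Cfsg.Lib.Block.Star Subgroup
open scoped MonoidAlgebra ComplexConjugate

namespace Cfsg.Lib.Block.Xs

variable {G : Type*} [Group G] [Finite G] {P : Sylow 3 G} {z : G} {M : Ideal AlgInt}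

local instance : Fact (Nat.Prime 3) := ⟨Nat.prime_three⟩

theorem Base.exists_theta (h : Base P z) : ∃ (θ : ↥(P : Subgroup G) → ℂ) (w : ℂ),
    IsCharacter _ θ ∧ w ≠ 1 ∧ w * w * w = 1 ∧ θ 1 = 3 ∧ (∀ v, θ (⟨z, h.hz⟩ * v) = w * θ v) ∧
      ∀ v : (P : Subgroup G), (v : G) ∉ zpowers z → θ v = 0 := by
  classical
  have := Fintype.ofFinite (P : Subgroup G)
  set z' : (P : Subgroup G) := ⟨z, h.hz⟩ with hz'
  have h0 : z' ≠ 1 := fun H => h.z_ne_one (congrArg Subtype.val H)
  obtain ⟨θ, hθ, h1⟩ := exists_irr_apply_ne h0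
  have hc : z' ∈ center _ := mem_center_iff.2 fun y =>
    Subtype.ext (mem_centralizer_singleton_iff.1 (h.le_cent y.2))
  have h2 := irr_mul_center hθ hc
  set w := θ z' / θ 1 with hw
  have h3 : w ≠ 1 := fun H => h1 (by rwa [hw, div_eq_one_iff_eq hθ.apply_one_ne_zero] at H)
  have hi : z'⁻¹ = z' * (z' * 1) := Subtype.ext (by simpa using h.inv_eq)
  have h4 : w * w * w = 1 := mul_right_cancel₀ hθ.apply_one_ne_zero (by
    rw [mul_assoc, mul_assoc, ← h2, ← h2, ← h2, ← hi, mul_inv_cancel, one_mul])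
  have h5 : ∀ v : (P : Subgroup G), (v : G) ∉ zpowers z → θ v = 0 := fun v hv => by
    obtain ⟨a, ha, ha'⟩ := h.conj_mul v.2 hv (mem_zpowers z)
    have h5 := hθ.isClassFunction.apply_conj v ⟨a, ha⟩
    rw [show (⟨a, ha⟩ : (P : Subgroup G)) * v * (⟨a, ha⟩ : (P : Subgroup G))⁻¹ = z' * v from
      Subtype.ext (ha'.trans (mem_centralizer_singleton_iff.1 (h.le_cent v.2))), h2] at h5
    by_contra H
    exact h3 (mul_right_cancel₀ H (h5.trans (one_mul _).symm))
  refine ⟨θ, w, hθ.isCharacter, h3, h4, ?_, h2, h5⟩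
  have h6 := hθ.classInner_self
  have h7 : z'⁻¹ ≠ z' := fun H => h.inv_ne (congrArg Subtype.val H)
  rw [classInner, ← Finset.sum_subset (Finset.subset_univ {1, z', z'⁻¹}) (fun v _ hv => by
    rw [h5 v fun H => hv ?_, zero_mul]
    rcases cases_three h.oz H with H | H | H
    · simp [show v = 1 from Subtype.ext H]
    · simp [show v = z' from Subtype.ext H]
    · simp [show v = z'⁻¹ from Subtype.ext H]), Finset.sum_insert (by simp [h0.symm, h0]),
    Finset.sum_pair h7.symm, h.card] at h6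
  simp only [← hθ.isCharacter.apply_inv, inv_inv, inv_one] at h6
  have h8 : θ z' = w * θ 1 := by rw [← h2, mul_one]
  rw [hi, h2, h2, h8] at h6
  obtain ⟨n, -, hn⟩ := hθ.exists_nat_degree_pos
  rw [hn] at h6 ⊢
  have h9 : n * n = 3 * 3 := Nat.cast_injective (R := ℂ) (by
    push_cast at h6 ⊢
    linear_combination 9 * h6 - 2 / 3 * (n : ℂ) * n * h4)
  rw [Nat.mul_self_inj.1 h9, Nat.cast_ofNat]

variable {ι : Type*} [Fintype ι] {u : ι → G}

theorem Reps.decomp (h : Base P z) (hu : Reps P z u) (hM : IsPModular 3 M)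
    {l : ↥(P : Subgroup G) → ℂ} (hl : Stable 3 (P : Subgroup G) (eP M P) l) :
    l = l 1 • dl 3 (P : Subgroup G) (eP M P) 1 + l ⟨z, h.hz⟩ • dl 3 (P : Subgroup G) (eP M P) z +
      l ⟨z, h.hz⟩⁻¹ • dl 3 (P : Subgroup G) (eP M P) z⁻¹ +
      ∑ i, l ⟨u i, hu.mem i⟩ • dl 3 (P : Subgroup G) (eP M P) (u i) := by
  classical
  funext v
  have h1 : ∀ w ∈ zpowers z, IsConj w v ↔ (v : G) = w := fun w hw =>
    ⟨h.iso' hw v.2, fun H => H ▸ IsConj.refl _⟩
  simp only [Pi.add_apply, Pi.smul_apply, Finset.sum_apply, smul_eq_mul, dl_princ hM (one_mem _),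
    dl_princ hM h.hz, dl_princ hM (inv_mem h.hz), dl_princ hM (hu.mem _), h1 _ (one_mem _),
    h1 _ (mem_zpowers z), h1 _ (inv_mem (mem_zpowers z))]
  by_cases hv : (v : G) ∈ zpowers z
  · rw [Finset.sum_eq_zero fun i _ => by
      rw [if_neg fun H => h.not_mem_of_isConj (hu.mem i) (hu.nc i) H hv, mul_zero]]
    rcases cases_three h.oz hv with H | H | H
    · obtain rfl : v = 1 := Subtype.ext H
      simp [h.z_ne_one.symm, h.z_ne_one]
    · obtain rfl : v = ⟨z, h.hz⟩ := Subtype.ext H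
      simp [h.z_ne_one, h.inv_ne.symm]
    · obtain rfl : v = ⟨z, h.hz⟩⁻¹ := Subtype.ext H
      simp [h.z_ne_one, h.inv_ne]
  · obtain ⟨i, hi⟩ := hu.cover v v.2 hv
    rw [if_neg fun H : (v : G) = 1 => hv (H ▸ one_mem _),
      if_neg fun H : (v : G) = z => hv (H ▸ mem_zpowers _),
      if_neg fun H : (v : G) = z⁻¹ => hv (H ▸ inv_mem (mem_zpowers _)), Finset.sum_eq_single i (fun j _ hj => by
        rw [if_neg fun H => hj (hu.inj j i (H.trans hi.symm)), mul_zero]) (by simp), if_pos hi,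
      hl ⟨u i, hu.mem i⟩ v ((ef_princ hM (hu.mem i) v.2).2 hi)]
    simp

theorem Reps.inner_star [Fintype G] (h : Base P z) (hu : Reps P z u) (hM : IsPModular 3 M)
    {l : ↥(P : Subgroup G) → ℂ} (hl : Stable 3 (P : Subgroup G) (eP M P) l) (a b : G → ℂ) :
    classInner (star 3 M P (eP M P) l a) b = l 1 * ctr 3 M P (eP M P) a b 1 +
      l ⟨z, h.hz⟩ * ctr 3 M P (eP M P) a b ⟨z, h.hz⟩ +
      l ⟨z, h.hz⟩⁻¹ * ctr 3 M P (eP M P) a b ⟨z, h.hz⟩⁻¹ +
      ∑ i, l ⟨u i, hu.mem i⟩ * ctr 3 M P (eP M P) a b ⟨u i, hu.mem i⟩ := by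
  conv_lhs => rw [hu.decomp h hM hl]
  simp only [map_add, map_smul, map_sum, LinearMap.add_apply, LinearMap.smul_apply,
    LinearMap.sum_apply, classInner_add_left, classInner_smul_left, classInner_sum_left]
  rfl

theorem Base.sum_ctr [Fintype G] (h : Base P z) (hM : IsPModular 3 M) :
    ∑ χ ∈ irrFin (principalBlock M G), ctr 3 M P (eP M P) χ χ 1 =
      blockRank 3 (principalBlock M G) ∧
    ∑ χ ∈ irrFin (principalBlock M G), ctr 3 M P (eP M P) χ χ ⟨z, h.hz⟩ =
      blockRank 3 (principalBlock M (centralizer ({z} : Set G))) ∧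
    ∑ χ ∈ irrFin (principalBlock M G), ctr 3 M P (eP M P) χ χ ⟨z, h.hz⟩⁻¹ =
      blockRank 3 (principalBlock M (centralizer ({z} : Set G))) := by
  have hmax := isMax_principal hM P
  have hB : IsPBlock M (principalBlock M G) := isPBlock_principalBlock
  simp only [sum_ctr_self hM hmax hB]
  refine ⟨by rw [← blockRank_subBlk_of_mem_center hM hB hmax (one_mem _) (one_mem _)]; rfl,
    by rw [subBlk_princ hM h.hz], ?_⟩
  rw [subBlk_princ hM (Subtype.property _), ← centralizer_zpowers_eq z, ← zpowers_inv,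
    centralizer_zpowers_eq]
  rfl

theorem Reps.card_eq (h : Base P z) (hu : Reps P z u) (hM : IsPModular 3 M) :
    Nat.card (principalBlock M G) = blockRank 3 (principalBlock M G) +
      2 * blockRank 3 (principalBlock M (centralizer ({z} : Set G))) + Fintype.card ι := by
  have := Fintype.ofFinite G
  have hmax := isMax_principal hM P
  have hB : IsPBlock M (principalBlock M G) := isPBlock_principalBlock
  have h2 := Finset.sum_congr (rfl : irrFin (principalBlock M G) = _) fun χ _ =>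
    hu.inner_star h hM stable_one χ χ
  rw [Finset.sum_congr (g := fun _ => 1) rfl fun χ hχ => by
    rw [star_one_of_inSpan hM hmax hB (inSpan_irr (mem_irrFin.1 hχ)), χ.2.classInner_self]] at h2
  simp only [Pi.one_apply, one_mul, Finset.sum_add_distrib, h.sum_ctr hM] at h2
  rw [Finset.sum_comm, Finset.sum_congr (g := fun _ : ι => 1) rfl fun i _ => by
    rw [sum_ctr_self hM hmax hB, subBlk_princ hM (hu.mem i),
      (Ht.blockRank_principal_eq_one_iff hM).2 (Trans.hasNormalPComplement_of_normal _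
        (Solv.coprime_card_pPrimeCore 3 _)
        (IsPGroup.of_card (n := 2) (h.index_eq (hu.mem i) (hu.nc i)))), Nat.cast_one]] at h2
  simp only [Finset.sum_const, card_irrFin, nsmul_eq_mul, mul_one, Finset.card_univ] at h2
  refine Nat.cast_injective (R := ℂ) ?_
  push_cast
  linear_combination h2

theorem Reps.exists_core [DecidableEq (IrrCharacter G)] [DecidableEq ι] (h : Base P z)
    (hu : Reps P z u) (hM : IsPModular 3 M) (hr : ∀ i, IsConj (u i) (u i)⁻¹) :
    ∃ T d, Core (I := irrFin (principalBlock M G)) T d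
      (Finset.univ.filter fun χ => blockHeight 3 (principalBlock M G) (χ.1 : G → ℂ) = 0)
      ⟨triv G, mem_irrFin.2 (triv_mem_principalBlock hM)⟩ (blockRank 3 (principalBlock M G))
      (blockRank 3 (principalBlock M (centralizer ({z} : Set G)))) (ι := ι) ∧
      (z ∈ center G → ∃ (c : irrFin (principalBlock M G) → ℂ) (w : ℂ), w ≠ 1 ∧ w * w * w = 1 ∧
        (∀ a b, T a b ≠ 0 → c b = w * c a) ∧ ((∀ i a, blockHeight 3 (principalBlock M G)
          (a.1 : G → ℂ) = 0 → d i a ≠ 0 → c a = 1))) := by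
  have := Fintype.ofFinite G
  have hmax := isMax_principal hM P
  set B := principalBlock M G with hB'
  have hB : IsPBlock M B := isPBlock_principalBlock
  have hm : ∀ a : irrFin B, a.1 ∈ B := fun a => mem_irrFin.1 a.2
  have hcf : ∀ a : irrFin B, IsClassFunction G (a.1 : G → ℂ) := fun a => a.1.2.isClassFunction
  obtain ⟨θ, w, hθ, hw, hw3, h1, hz, h0⟩ := h.exists_theta
  have hw2 : w * w + w + 1 = 0 :=
    mul_left_cancel₀ (sub_ne_zero.2 hw) (by linear_combination hw3)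
  have hs : Stable 3 (P : Subgroup G) (eP M P) θ := fun x y hxy => by
    by_cases hx : (x : G) ∈ zpowers z
    · rw [Subtype.ext (h.iso' hx y.2 hxy.isConj)]
    · rw [h0 x hx, h0 y (h.not_mem_of_isConj x.2 hx hxy.isConj)]
  have hs' := hs.conj
  have v1 : θ ⟨z, h.hz⟩ = 3 * w := by rw [← mul_one (⟨z, h.hz⟩ : (P : Subgroup G)), hz, h1, mul_comm]
  have v2 : θ ⟨z, h.hz⟩⁻¹ = 3 * (w * w) := by
    rw [show (⟨z, h.hz⟩ : (P : Subgroup G))⁻¹ = ⟨z, h.hz⟩ * ⟨z, h.hz⟩ from Subtype.ext h.inv_eq, hz,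
      v1]
    ring
  have v3 : ∀ i, θ ⟨u i, hu.mem i⟩ = 0 := fun i => h0 _ (hu.nc i)
  have v4 : conj (θ ⟨z, h.hz⟩) = 3 * (w * w) := by rw [← hθ.apply_inv, v2]
  have v5 : conj (θ ⟨z, h.hz⟩⁻¹) = 3 * w := by rw [← hθ.apply_inv, inv_inv, v1]
  have ho : ∀ i, orderOf (u i) = 3 := fun i =>
    h.orderOf_eq (hu.mem i) fun H => hu.nc i (H ▸ one_mem _)
  choose T hT using fun a b : irrFin B => (isGeneralizedCharacter_star hM hmax hs
    hθ.isGeneralizedCharacter a.1.2.isGeneralizedCharacter).exists_int_classInner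
    b.1.2.isGeneralizedCharacter
  choose d hd using fun (i : ι) (a : irrFin B) =>
    a.1.2.isGeneralizedCharacter.exists_int_of_isConj_pow (g := u i) fun m hm => by
      rw [← pow_mod_orderOf, ho] at *
      have h2 : m % 3 ≠ 0 := fun H => by
        simpa using hm.symm.eq_one_of_dvd (Nat.dvd_of_mod_eq_zero H)
      rcases (show m % 3 = 1 ∨ m % 3 = 2 by omega) with H | H <;> rw [H]
      · rw [pow_one]
      · rw [show u i ^ 2 = (u i)⁻¹ from eq_inv_of_mul_eq_one_left
          (by rw [← pow_succ, h.exp _ (hu.mem i)])]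
        exact hr i
  have hT' : ∀ a b : irrFin B, classInner (star 3 M P (eP M P) (fun v => conj (θ v)) a.1) b.1 =
      T b a := fun a b => by
    rw [← conj_classInner, ← classInner_star_adj hM hmax hB hs (hcf b) (hcf a), hT,
      map_intCast]
  have hcomp : ∀ {l m : ↥(P : Subgroup G) → ℂ}, Stable 3 (P : Subgroup G) (eP M P) l →
      Stable 3 (P : Subgroup G) (eP M P) m → ∀ a b : irrFin B,
      ∑ c : irrFin B, classInner (star 3 M P (eP M P) l a.1) c.1 *
        classInner (star 3 M P (eP M P) m c.1) b.1 =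
      classInner (star 3 M P (eP M P) (m * l) a.1) b.1 := fun {l m} hl hm' a b => by
    rw [← star_star hM hm' hl (hcf a)]
    conv_rhs => rw [(inSpan_star hM hmax hB hl (hcf a)).eq_sum, map_sum, classInner_sum_left,
      ← Finset.sum_coe_sort]
    simp only [map_smul, classInner_smul_left]
  have hI := fun {l} (hl : Stable 3 (P : Subgroup G) (eP M P) l) (a b : irrFin B) =>
    hu.inner_star h hM hl a.1 b.1
  have hu9 : ∀ i (a b : irrFin B), 9 * ctr 3 M P (eP M P) a.1 b.1 ⟨u i, hu.mem i⟩ =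
      (d i a * d i b : ℤ) := fun i a b => by
    have := ctr_princ hM ⟨u i, hu.mem i⟩ (n := 2) (h.index_eq (hu.mem i) (hu.nc i)) (hm a) (hm b)
    rw [hd, hd, map_intCast] at this
    push_cast at this ⊢
    linear_combination this
  have hR : ∀ a b : irrFin B, (mR d a b : ℂ) = 9 * (ctr 3 M P (eP M P) a.1 b.1 1 +
      ctr 3 M P (eP M P) a.1 b.1 ⟨z, h.hz⟩ + ctr 3 M P (eP M P) a.1 b.1 ⟨z, h.hz⟩⁻¹) :=
    fun a b => by
      have h2 := hI stable_one a b
      rw [star_one_of_inSpan hM hmax hB (inSpan_irr (hm a)), classInner_irr] at h2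
      simp only [Pi.one_apply, one_mul, ← Subtype.ext_iff] at h2
      rw [mR, Int.cast_sub, Int.cast_sum, ← Finset.sum_congr rfl fun i _ => hu9 i a b,
        ← Finset.mul_sum]
      split_ifs at h2 ⊢ <;> push_cast <;> linear_combination 9 * h2
  have hT1 : ∀ a b : irrFin B, (T a b : ℂ) = 3 * ctr 3 M P (eP M P) a.1 b.1 1 +
      3 * w * ctr 3 M P (eP M P) a.1 b.1 ⟨z, h.hz⟩ +
      3 * (w * w) * ctr 3 M P (eP M P) a.1 b.1 ⟨z, h.hz⟩⁻¹ := fun a b => by
    rw [← hT, hI hs]
    simp [h1, v1, v2, v3]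
  have hT2 : ∀ a b : irrFin B, (T b a : ℂ) = 3 * ctr 3 M P (eP M P) a.1 b.1 1 +
      3 * (w * w) * ctr 3 M P (eP M P) a.1 b.1 ⟨z, h.hz⟩ +
      3 * w * ctr 3 M P (eP M P) a.1 b.1 ⟨z, h.hz⟩⁻¹ := fun a b => by
    rw [← hT', hI hs']
    simp only [h1, v4, v5, v3, map_ofNat, map_zero, zero_mul, Finset.sum_const_zero, add_zero]
  have hq : ∀ a b : irrFin B, mq T d a b = ca 3 B a.1 b.1 := fun a b => by
    refine Int.cast_injective (α := ℂ) ?_
    have h2 : ((3 : ℕ) : ℂ) ^ blockDefect 3 B = 27 := by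
      exact_mod_cast congrArg (Nat.cast (R := ℂ)) ((pow_defect_princ hM P).trans h.card)
    rw [ca_cast Nat.prime_three _ (hm b), h2, ← star_dl_one hM (P := P) (inSpan_irr (hm a)), mq]
    push_cast
    rw [hR, hT1 a b, hT2 a b]
    change _ = 27 * ctr 3 M P (eP M P) a.1 b.1 1
    linear_combination 9 * (ctr 3 M P (eP M P) a.1 b.1 ⟨z, h.hz⟩ +
      ctr 3 M P (eP M P) a.1 b.1 ⟨z, h.hz⟩⁻¹) * hw2
  have horth : ∀ {x y : G}, (∃ k, orderOf x = 3 ^ k) → (∃ k, orderOf y = 3 ^ k) → ¬ IsConj x y →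
      ∑ a : irrFin B, (a.1 : G → ℂ) x * conj ((a.1 : G → ℂ) y) = 0 := fun hx hy hxy => by
    rw [← (isUnionOfBlocks_of_isPBlock hM hB).sum_mul_conj_eq_zero hM
      (isPPart_self Nat.prime_three hx) (isPPart_self Nat.prime_three hy) hxy,
      ← Finset.sum_coe_sort (irrFin B)]
  refine ⟨T, d, ⟨fun a b => ?_, fun a b => ?_, fun a => ?_, fun a => ?_, fun a ha b => ?_,
    fun a ha b hb => ?_, fun i j => ?_, fun i a => ?_, fun i => ?_, ?_, ?_, ?_, fun H => ?_⟩,
    fun hc => ⟨fun a => (a.1 : G → ℂ) z / (a.1 : G → ℂ) 1, w, hw, hw3, fun a b hab => ?_,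
      fun i a _ ha => ?_⟩⟩
  · refine Int.cast_injective (α := ℂ) ?_
    have h2 := hcomp hs hs' a b
    simp only [hT, hT', hI (hs'.mul hs), Pi.mul_apply, h1, v4, v5, v3, map_ofNat, mul_zero,
      zero_mul, Finset.sum_const_zero] at h2
    rw [hR, v1, v2] at *
    push_cast
    linear_combination h2 + 9 * (ctr 3 M P (eP M P) a.1 b.1 ⟨z, h.hz⟩ +
      ctr 3 M P (eP M P) a.1 b.1 ⟨z, h.hz⟩⁻¹) * hw3
  · refine Int.cast_injective (α := ℂ) ?_
    have h2 := hcomp hs' hs a b
    simp only [hT, hT', hI (hs.mul hs'), Pi.mul_apply, h1, v4, v5, v3, map_ofNat, mul_zero,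
      zero_mul, Finset.sum_const_zero] at h2
    rw [hR, v1, v2] at *
    push_cast
    linear_combination h2 + 9 * (ctr 3 M P (eP M P) a.1 b.1 ⟨z, h.hz⟩ +
      ctr 3 M P (eP M P) a.1 b.1 ⟨z, h.hz⟩⁻¹) * hw3
  · refine Int.cast_injective (α := ℂ) ?_
    have h2 := hcomp hs hs a a
    simp only [hT, hI (hs.mul hs), Pi.mul_apply, h1, v1, v2, v3, mul_zero,
      zero_mul, Finset.sum_const_zero] at h2
    push_cast
    rw [h2, hT2 a a]
    linear_combination 9 * w * ctr 3 M P (eP M P) a.1 a.1 ⟨z, h.hz⟩⁻¹ * hw3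
  · exact hq a a ▸ ca_self_pos hM hB (hm a)
  · exact hq a b ▸ ca_ne_zero hM hB (hm a) (hm b) (Finset.mem_filter.1 ha).2
  · rw [hq]
    simp only [Finset.mem_filter, Finset.mem_univ, true_and] at ha hb
    exact (pow_dvd_pow (3 : ℤ) (Nat.succ_le_succ (Nat.pos_of_ne_zero hb))).trans
      (pow_height_succ_dvd_ca hM hB (hm a) (hm b) ha)
  · refine Int.cast_injective (α := ℂ) ?_
    split_ifs with hij
    · have h2 := sum_princ_sq_of_index hM ⟨1, ho i⟩ ⟨2, h.index_eq (hu.mem i) (hu.nc i)⟩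
      rw [h.index_eq (hu.mem i) (hu.nc i), ← Finset.sum_coe_sort] at h2
      simpa [hd, hij.symm] using h2
    · simpa [hd] using horth ⟨1, ho i⟩ ⟨1, ho j⟩ fun H => hij (hu.inj i j H)
  · have h2 := CD.degree_modEq_of_const a.1 (zpowers (u i)) (n := d i a) fun g hg hg1 => by
      rcases cases_three (ho i) hg with rfl | rfl | rfl
      exacts [absurd rfl hg1, hd i a, (hcf a).eq_of_isConj (hr i) ▸ hd i a]
    rw [Nat.card_zpowers, ho] at h2
    rw [Finset.mem_filter, Ht.height_zero_principal_iff hM (hm a), ← Int.natCast_dvd_natCast,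
      h2.dvd_iff]
    simp
  · exact Int.cast_injective (α := ℂ) (by rw [← hd]; simp)
  · refine ⟨fun a => charDegree (a.1 : G → ℂ), Int.cast_injective (α := ℂ) (by
      simp [irr_charDegree_cast]), fun i => Int.cast_injective (α := ℂ) ?_⟩
    simpa [hd, irr_charDegree_cast] using horth ⟨0, orderOf_one⟩ ⟨1, ho i⟩ fun H =>
      hu.nc i (isConj_one_right.1 H ▸ one_mem _)
  · refine Int.cast_injective (α := ℂ) ?_
    obtain ⟨s1, s2, s3⟩ := h.sum_ctr hM
    rw [← Finset.sum_coe_sort] at s1 s2 s3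
    push_cast
    simp only [hT1, Finset.sum_add_distrib, ← Finset.mul_sum, s1, s2, s3]
    linear_combination 3 * (blockRank 3 (principalBlock M (centralizer ({z} : Set G))) : ℂ) * hw2
  · rw [Fintype.card_coe, card_irrFin, hu.card_eq h hM]
  · rw [← Fintype.card_coe]
    refine card_le_blockRank_of_orth (fun a => a.1.1) (fun a => hm _) (fun a H0 => ?_)
      fun a b hab => ?_
    · have h2 := ca_cast Nat.prime_three a.1.1 (hm a.1)
      rw [H0, mul_zero, Int.cast_eq_zero] at h2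
      exact (ca_self_pos hM hB (hm a.1)).ne' h2
    · have h2 := ca_cast Nat.prime_three a.1.1 (hm b.1)
      rw [← hq, H _ (Finset.mem_compl.1 a.2) _ (Finset.mem_compl.1 b.2)
        fun H => hab (Subtype.ext H), Int.cast_zero] at h2
      exact (mul_eq_zero.1 h2.symm).resolve_left (pow_ne_zero _ (by norm_num))
  · exact central_eq_of_classInner_ne_zero b.1.2 hc
      (star_center hM hs (z := ⟨z, h.hz⟩) hc hz (hm a)) (by rw [hT]; exact_mod_cast hab)
  · have h2 := (hcf a).eq_of_isConj (h.isConj_mul (hu.mem i) (hu.nc i) (mem_zpowers z))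
    rw [mem_center_iff.1 hc, irr_mul_center a.1.2 hc, hd] at h2
    exact mul_right_cancel₀ (Int.cast_ne_zero.2 ha) (h2.symm.trans (one_mul _).symm)

theorem Reps.main (h : Base P z) (hu : Reps P z u) (hM : IsPModular 3 M)
    (hr : ∀ i, IsConj (u i) (u i)⁻¹) (i : ι) :
    Nat.card {χ : IrrCharacter G // χ ∈ principalBlock M G ∧
      blockHeight 3 (principalBlock M G) (χ : G → ℂ) = 0} = 6 ∧
    blockRank 3 (principalBlock M G) + Fintype.card ι = 6 ∧
    Nat.card (principalBlock M G) + 2 * Fintype.card ι = 18 := by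
  classical
  have hc : (⟨z, mem_centralizer_singleton_iff.2 rfl⟩ : centralizer ({z} : Set G)) ∈ center _ :=
    cent_mem_center rfl
  obtain ⟨T, d, h1, h2⟩ := (hu.cent h).exists_core h.cent hM fun i =>
    h.isConj_cent (hu.mem i) (inv_mem (hu.mem i)) (hr i)
  obtain ⟨c, w, hw, hw3, h3, h4⟩ := h2 hc
  have hmax := isMax_principal hM (P.subtype h.le_cent)
  have h5 := (h1.central i (by
    rw [← blockRank_subBlk_of_mem_center hM isPBlock_principalBlock hmax h.cent.hz hc,
      subBlk_princ hM h.cent.hz]) hw hw3 h3 fun a ha => h4 i a (Finset.mem_filter.1 ha).2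
      fun H => (h1.ht i a).1 ha (H ▸ dvd_zero _)).2
  rw [← subBlk_princ hM h.cent.hz,
    blockRank_subBlk_of_mem_center hM isPBlock_principalBlock hmax h.cent.hz hc] at h5
  obtain ⟨T, d, h6, -⟩ := hu.exists_core h hM hr
  obtain ⟨h7, h8, h9⟩ := h6.final i h5
  rw [Fintype.card_coe, card_irrFin] at h9
  refine ⟨?_, h8, h9⟩
  rw [← h7, ← Fintype.card_subtype, ← Nat.card_eq_fintype_card]
  exact Nat.card_congr ⟨fun χ => ⟨⟨χ.1, mem_irrFin.2 χ.2.1⟩, χ.2.2⟩,
    fun χ => ⟨χ.1.1, mem_irrFin.1 χ.1.2, χ.2⟩, fun _ => rfl, fun _ => rfl⟩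

omit [Fintype ι] in
theorem Base.isConj_of_le (h : Base P z) (he : normalizer ((P : Subgroup G) : Set G) ≤
    (P : Subgroup G) ⊔ centralizer ((P : Subgroup G) : Set G)) {x y : G}
    (hx : x ∈ (P : Subgroup G)) (hy : y ∈ (P : Subgroup G)) (hc : IsConj x y) :
    ∃ a ∈ (P : Subgroup G), a * x * a⁻¹ = y := by
  by_cases hn : x ∈ zpowers z
  · exact ⟨1, one_mem _, by rw [h.iso' hn hy hc]; group⟩
  · obtain ⟨n, hn', rfl⟩ := h.control hx hy hc
    have h1 := (h.sup_le_lz hx (he hn')).2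
    obtain ⟨a, ha, ha'⟩ := h.conj_mul hx hn h1
    exact ⟨a, ha, by rw [ha', (Base.commute_zp (h.le_cent hx) h1).eq, inv_mul_cancel_right]⟩

theorem Reps.main_one (h : Base P z) (hu : Reps P z u) (hM : IsPModular 3 M)
    (hι : Fintype.card ι = 8) (he : normalizer ((P : Subgroup G) : Set G) ≤
      (P : Subgroup G) ⊔ centralizer ((P : Subgroup G) : Set G)) :
    Nat.card (principalBlock M G) = 11 ∧ Nat.card {χ : IrrCharacter G // χ ∈ principalBlock M G ∧
      blockHeight 3 (principalBlock M G) (χ : G → ℂ) = 0} = 9 ∧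
    blockRank 3 (principalBlock M G) = 1 := by
  classical
  obtain ⟨h1, h2⟩ := nilp_princ hM (P := P) fun x y hc =>
    let ⟨a, ha, ha'⟩ := h.isConj_of_le he x.2 y.2 hc
    isConj_iff.2 ⟨⟨a, ha⟩, Subtype.ext ha'⟩
  obtain ⟨h3, -⟩ := nilp_princ hM (P := P.subtype h.le_cent) fun x y hc =>
    let ⟨a, ha, ha'⟩ := h.isConj_of_le he x.2 y.2 ((centralizer ({z} : Set G)).subtype.map_isConj hc)
    isConj_iff.2 ⟨⟨⟨a, h.le_cent ha⟩, ha⟩, Subtype.ext (Subtype.ext ha')⟩
  have h4 := hu.card_eq h hM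
  rw [h1, h3, hι] at h4
  refine ⟨h4, ?_, h1⟩
  rw [h.card] at h2
  set B := irrFin (principalBlock M G) with hB
  have h5 : B.card = 11 := (card_irrFin _).trans h4
  have h6 : ∀ χ ∈ B, charDegree (χ : G → ℂ) ≤ 4 := fun χ hχ => by
    have h6 := Finset.card_nsmul_le_sum (B.erase χ) (fun χ => charDegree (χ : G → ℂ) ^ 2) 1
      fun χ _ => Nat.one_le_pow _ _ (irr_charDegree_pos χ)
    rw [← Finset.add_sum_erase _ _ hχ] at h2
    rw [Finset.card_erase_of_mem hχ, h5, smul_eq_mul] at h6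
    nlinarith
  have h7 : ∀ χ ∈ B, charDegree (χ : G → ℂ) ^ 2 = 1 + 3 * (if charDegree (χ : G → ℂ) = 2 then 1
      else 0) + 8 * (if 3 ∣ charDegree (χ : G → ℂ) then 1 else 0) +
      15 * if charDegree (χ : G → ℂ) = 4 then 1 else 0 := fun χ hχ => by
    have := h6 χ hχ
    have := irr_charDegree_pos χ
    interval_cases charDegree (χ : G → ℂ) <;> simp
  rw [Finset.sum_congr rfl h7] at h2
  simp only [Finset.sum_add_distrib, ← Finset.mul_sum, Finset.sum_const, h5,
    ← Finset.card_filter, smul_eq_mul] at h2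
  have h8 := Finset.card_filter_add_card_filter_not (s := B)
    fun χ : IrrCharacter G => 3 ∣ charDegree (χ : G → ℂ)
  have h9 : (B.filter fun χ : IrrCharacter G => 3 ∣ charDegree (χ : G → ℂ)).card = 2 := by
    generalize (B.filter fun χ : IrrCharacter G => 3 ∣ charDegree (χ : G → ℂ)).card = n at h2
    have : n ≤ 2 := by omega
    interval_cases n <;> omega
  rw [h9, h5] at h8
  refine (Nat.subtype_card (B.filter fun χ : IrrCharacter G => ¬ 3 ∣ charDegree (χ : G → ℂ))
    fun χ => ?_).trans (Nat.add_left_cancel (h8.trans (by rfl : 11 = 2 + 9)))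
  rw [Finset.mem_filter, hB, mem_irrFin]
  exact and_congr_right fun hχ => (Ht.height_zero_principal_iff hM hχ).symm

end Cfsg.Lib.Block.Xs
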